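import Mathlib
import Cfsg.Agent.H88.StNDefs

/-!
# S2549-REL (team piece for helper88, by helper83)

Relations between the entries of a unitriangular isometry of the minus type quadratic form.
-/

set_option autoImplicit false

namespace Cfsg.Agent.H83.OMinusRel

open Matrix Cfsg.Agent.H88.StN

variable {F : Type*} [Field F]

theorem pE_ne_pF (m : ℕ) (i j : Fin m) : pE m i ≠ pF m j := by
  intro h
  have := congrArg Fin.val h
  simp only [pE, pF] at this
  omega

theorem pE_ne_pZ (m : ℕ) (i : Fin m) (j : Fin 2) : pE m i ≠ pZ m j := by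
  intro h
  have := congrArg Fin.val h
  simp only [pE, pZ] at this
  omega

theorem pF_ne_pZ (m : ℕ) (i : Fin m) (j : Fin 2) : pF m i ≠ pZ m j := by
  intro h
  have := congrArg Fin.val h
  have hj := j.2
  simp only [pF, pZ] at this
  omega

theorem pE_inj (m : ℕ) {i j : Fin m} (h : pE m i = pE m j) : i = j := by
  have := congrArg Fin.val h
  simp only [pE] at this
  exact Fin.ext this

theorem pF_inj (m : ℕ) {i j : Fin m} (h : pF m i = pF m j) : i = j := by
  have := congrArg Fin.val h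
  simp only [pF] at this
  apply Fin.ext
  omega

theorem pZ_ne (m : ℕ) : pZ m 0 ≠ pZ m 1 := by
  intro h
  have := congrArg Fin.val h
  simp [pZ] at this

theorem QF_single_F (m : ℕ) (a b : F) (k : Fin m) :
    QF m a b (Pi.single (pF m k) 1) = 0 := by
  classical
  unfold QF
  have h1 : ∀ i : Fin m, (Pi.single (pF m k) (1 : F) : Fin (2 * m + 2) → F) (pE m i) = 0 :=
    fun i => Pi.single_eq_of_ne (pE_ne_pF m i k) _
  have h2 : ∀ j : Fin 2, (Pi.single (pF m k) (1 : F) : Fin (2 * m + 2) → F) (pZ m j) = 0 :=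
    fun j => Pi.single_eq_of_ne (pF_ne_pZ m k j).symm _
  rw [Finset.sum_eq_zero (fun i _ => by rw [h1 i, zero_mul]), h2 0, h2 1]
  ring

theorem QF_single_EF (m : ℕ) (a b : F) (k' k : Fin m) (h : k' ≠ k) :
    QF m a b (Pi.single (pE m k') 1 + Pi.single (pF m k) 1) = 0 := by
  classical
  unfold QF
  simp only [Pi.add_apply]
  have h1 : ∀ i : Fin m, (Pi.single (pF m k) (1 : F) : Fin (2 * m + 2) → F) (pE m i) = 0 :=
    fun i => Pi.single_eq_of_ne (pE_ne_pF m i k) _
  have h2 : ∀ j : Fin 2, (Pi.single (pF m k) (1 : F) : Fin (2 * m + 2) → F) (pZ m j) = 0 :=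
    fun j => Pi.single_eq_of_ne (pF_ne_pZ m k j).symm _
  have h3 : ∀ i : Fin m, (Pi.single (pE m k') (1 : F) : Fin (2 * m + 2) → F) (pF m i) = 0 :=
    fun i => Pi.single_eq_of_ne (pE_ne_pF m k' i).symm _
  have h4 : ∀ j : Fin 2, (Pi.single (pE m k') (1 : F) : Fin (2 * m + 2) → F) (pZ m j) = 0 :=
    fun j => Pi.single_eq_of_ne (pE_ne_pZ m k' j).symm _
  have hsum : ∑ i : Fin m,
      ((Pi.single (pE m k') (1 : F) : Fin (2 * m + 2) → F) (pE m i) +
        (Pi.single (pF m k) (1 : F) : Fin (2 * m + 2) → F) (pE m i)) *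
      ((Pi.single (pE m k') (1 : F) : Fin (2 * m + 2) → F) (pF m i) +
        (Pi.single (pF m k) (1 : F) : Fin (2 * m + 2) → F) (pF m i)) = 0 := by
    refine Finset.sum_eq_zero fun i _ => ?_
    rw [h1 i, h3 i, add_zero, zero_add]
    by_cases hi : i = k
    · have hne : pE m i ≠ pE m k' := fun h' => h (by rw [← hi]; exact (pE_inj m h').symm)
      rw [Pi.single_eq_of_ne hne, zero_mul]
    · have hne : pF m i ≠ pF m k := fun h' => hi (pF_inj m h')
      rw [Pi.single_eq_of_ne hne, mul_zero]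
  rw [hsum, h2 0, h2 1, h4 0, h4 1]
  ring

theorem QF_single_ZF (m : ℕ) (a b : F) (j : Fin 2) (k : Fin m) :
    QF m a b (Pi.single (pZ m j) 1 + Pi.single (pF m k) 1) =
      (Pi.single (pZ m j) (1 : F) : Fin (2 * m + 2) → F) (pZ m 0) ^ 2 +
        a * (Pi.single (pZ m j) (1 : F) : Fin (2 * m + 2) → F) (pZ m 0) *
          (Pi.single (pZ m j) (1 : F) : Fin (2 * m + 2) → F) (pZ m 1) +
        b * (Pi.single (pZ m j) (1 : F) : Fin (2 * m + 2) → F) (pZ m 1) ^ 2 := by
  classical
  unfold QF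
  simp only [Pi.add_apply]
  have h1 : ∀ i : Fin m, (Pi.single (pF m k) (1 : F) : Fin (2 * m + 2) → F) (pE m i) = 0 :=
    fun i => Pi.single_eq_of_ne (pE_ne_pF m i k) _
  have h2 : ∀ j' : Fin 2, (Pi.single (pF m k) (1 : F) : Fin (2 * m + 2) → F) (pZ m j') = 0 :=
    fun j' => Pi.single_eq_of_ne (pF_ne_pZ m k j').symm _
  have h3 : ∀ i : Fin m, (Pi.single (pZ m j) (1 : F) : Fin (2 * m + 2) → F) (pE m i) = 0 :=
    fun i => Pi.single_eq_of_ne (pE_ne_pZ m i j) _
  rw [Finset.sum_eq_zero (fun i _ => by rw [h1 i, h3 i, add_zero, zero_mul]), h2 0, h2 1]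
  ring

theorem ominus_rel (m : ℕ) (a b : F) (g : OGm m F a b) (hg : IsUniM g) : (∀ (k : Fin m) (hk : k.val + 1 < m), mat g (pF m ⟨k.val + 1, hk⟩) (pF m k) = - mat g (pE m k) (pE m ⟨k.val + 1, hk⟩)) ∧ (∀ k : Fin m, k.val + 1 = m → mat g (pZ m 0) (pF m k) = 0 → mat g (pZ m 1) (pF m k) = 0 → mat g (pE m k) (pZ m 0) = 0 ∧ mat g (pE m k) (pZ m 1) = 0 ∧ mat g (pE m k) (pF m k) = 0) := by
  classical
  obtain ⟨⟨hlow, hdiag⟩, hz⟩ := hg
  have hcol : ∀ c, mat g *ᵥ (Pi.single c 1) = fun r => mat g r c := by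
    intro c
    rw [Matrix.mulVec_single_one]
    rfl
  have hQ1 : ∀ c, QF m a b (fun r => mat g r c) = QF m a b (Pi.single c 1) := by
    intro c
    rw [← hcol]
    exact quad_mat g _
  have hQ2 : ∀ c d, QF m a b (fun r => mat g r c + mat g r d) =
      QF m a b (Pi.single c 1 + Pi.single d 1) := by
    intro c d
    have : mat g *ᵥ (Pi.single c 1 + Pi.single d 1) = fun r => mat g r c + mat g r d := by
      rw [Matrix.mulVec_add, hcol, hcol]
      rfl
    rw [← this]
    exact quad_mat g _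
  -- rows below the diagonal vanish
  have hFE : ∀ i j : Fin m, mat g (pF m i) (pE m j) = 0 := fun i j => hlow _ _ (by
    rw [Fin.lt_def]; simp only [pE, pF]; omega)
  have hZE : ∀ (j' : Fin 2) (j : Fin m), mat g (pZ m j') (pE m j) = 0 := fun j' j => hlow _ _ (by
    rw [Fin.lt_def]; simp only [pE, pZ]; omega)
  have hFZ : ∀ (i : Fin m) (j : Fin 2), mat g (pF m i) (pZ m j) = 0 := fun i j => hlow _ _ (by
    have := j.2
    rw [Fin.lt_def]; simp only [pF, pZ]; omega)
  have hFF : ∀ i j : Fin m, i.val < j.val → mat g (pF m i) (pF m j) = 0 := fun i j hij =>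
    hlow _ _ (by rw [Fin.lt_def]; simp only [pF]; omega)
  have hEE : ∀ i j : Fin m, j.val < i.val → mat g (pE m i) (pE m j) = 0 := fun i j hij =>
    hlow _ _ (by rw [Fin.lt_def]; simp only [pE]; omega)
  have hZZ : mat g (pZ m 1) (pZ m 0) = 0 := hlow _ _ (by
    rw [Fin.lt_def]; simp [pZ])
  constructor
  · intro k hk
    set k' : Fin m := ⟨k.val + 1, hk⟩ with hk'
    have hne : k' ≠ k := by
      intro h
      have := congrArg Fin.val h
      simp [hk'] at this
    have e1 := hQ2 (pE m k') (pF m k)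
    rw [QF_single_EF m a b k' k hne] at e1
    have e2 := hQ1 (pF m k)
    rw [QF_single_F] at e2
    unfold QF at e1 e2
    beta_reduce at e1 e2
    simp only [hFE, hZE, zero_add] at e1
    have hsplit : ∑ i : Fin m, (mat g (pE m i) (pE m k') + mat g (pE m i) (pF m k)) *
        mat g (pF m i) (pF m k) =
        ∑ i : Fin m, mat g (pE m i) (pE m k') * mat g (pF m i) (pF m k) +
        ∑ i : Fin m, mat g (pE m i) (pF m k) * mat g (pF m i) (pF m k) := by
      rw [← Finset.sum_add_distrib]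
      exact Finset.sum_congr rfl fun i _ => by ring
    rw [hsplit] at e1
    have e3 : ∑ i : Fin m, mat g (pE m i) (pE m k') * mat g (pF m i) (pF m k) = 0 := by
      have := e1
      rw [add_assoc, e2, add_zero] at this
      exact this
    have hsum : ∑ i : Fin m, mat g (pE m i) (pE m k') * mat g (pF m i) (pF m k) =
        mat g (pE m k) (pE m k') * mat g (pF m k) (pF m k) +
          mat g (pE m k') (pE m k') * mat g (pF m k') (pF m k) := by
      refine Finset.sum_eq_add k k' hne.symm ?_ (fun h0 => absurd (Finset.mem_univ _) h0)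
        (fun h0 => absurd (Finset.mem_univ _) h0)
      intro c _ hc
      have hc1 : c.val ≠ k.val := fun h0 => hc.1 (Fin.ext h0)
      have hc2 : c.val ≠ k.val + 1 := fun h0 => hc.2 (Fin.ext h0)
      rcases Nat.lt_or_ge c.val k.val with hlt | hge
      · rw [hFF c k hlt, mul_zero]
      · rw [hEE c k' (by show k.val + 1 < c.val; omega), zero_mul]
    rw [hsum, hdiag, hdiag, mul_one, one_mul] at e3
    exact eq_neg_of_add_eq_zero_right e3
  · intro k hk h0 h1
    have hFk : ∀ i : Fin m, i ≠ k → mat g (pF m i) (pF m k) = 0 := by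
      intro i hi
      apply hFF
      have : i.val ≠ k.val := fun h => hi (Fin.ext h)
      have := i.2
      omega
    -- Q (g f_k) = 0
    have e2 := hQ1 (pF m k)
    rw [QF_single_F] at e2
    unfold QF at e2
    beta_reduce at e2
    have hsumF : ∀ x : Fin m → F, ∑ i : Fin m, x i * mat g (pF m i) (pF m k) = x k := by
      intro x
      rw [Finset.sum_eq_single k (fun i _ hi => by rw [hFk i hi, mul_zero])
        (fun h => absurd (Finset.mem_univ _) h), hdiag, mul_one]
    rw [hsumF (fun i => mat g (pE m i) (pF m k)), h0, h1] at e2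
    have hEF : mat g (pE m k) (pF m k) = 0 := by
      have := e2
      ring_nf at this
      exact this
    have key : ∀ j : Fin 2, mat g (pZ m 0) (pZ m j) = (Pi.single (pZ m j) (1 : F) :
          Fin (2 * m + 2) → F) (pZ m 0) →
        mat g (pZ m 1) (pZ m j) = (Pi.single (pZ m j) (1 : F) :
          Fin (2 * m + 2) → F) (pZ m 1) → mat g (pE m k) (pZ m j) = 0 := by
      intro j hj0 hj1
      have e1 := hQ2 (pZ m j) (pF m k)
      rw [QF_single_ZF] at e1
      unfold QF at e1
      beta_reduce at e1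
      simp only [hFZ, zero_add, h0, h1, add_zero] at e1
      rw [hsumF (fun i => mat g (pE m i) (pZ m j) + mat g (pE m i) (pF m k)), hEF, add_zero,
        hj0, hj1] at e1
      exact add_eq_right.mp e1
    refine ⟨key 0 ?_ ?_, key 1 ?_ ?_, hEF⟩
    · rw [hdiag, Pi.single_eq_same]
    · rw [hZZ, Pi.single_eq_of_ne (pZ_ne m).symm]
    · rw [hz, Pi.single_eq_of_ne (pZ_ne m)]
    · rw [hdiag, Pi.single_eq_same]

end Cfsg.Agent.H83.OMinusRel

section Check
open Matrix Cfsg.Agent.H88.StN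
variable {F : Type*} [Field F]

example (m : ℕ) (a b : F) (g : OGm m F a b) (hg : IsUniM g) : (∀ (k : Fin m) (hk : k.val + 1 < m), mat g (pF m ⟨k.val + 1, hk⟩) (pF m k) = - mat g (pE m k) (pE m ⟨k.val + 1, hk⟩)) ∧ (∀ k : Fin m, k.val + 1 = m → mat g (pZ m 0) (pF m k) = 0 → mat g (pZ m 1) (pF m k) = 0 → mat g (pE m k) (pZ m 0) = 0 ∧ mat g (pE m k) (pZ m 1) = 0 ∧ mat g (pE m k) (pF m k) = 0) :=
  Cfsg.Agent.H83.OMinusRel.ominus_rel m a b g hg

end Check
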