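import Mathlib
import Cfsg.Prelude.Def_Characters
import Cfsg.Agent.H83.Gagola2

/-!
# helper83: Gagola characters, part 3 (centre and upper central series of a Sylow subgroup)
-/

set_option autoImplicit false
set_option linter.style.haveILetI false
set_option linter.unusedSectionVars false

namespace Cfsg.Agent.H83

section Sylow

variable {G : Type*} [Group G] {χ : IrrCharacter G} {N : Subgroup G}

/-- Key counting step: if `z ∈ P ∖ N` has all its `P`-commutators in a subgroup `Z` of `P`, then
`|N| ≤ |Z|`. -/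
theorem GagolaSetting.card_le_of_ucs_step [Finite G] (h : GagolaSetting χ N) [N.Normal] (p : ℕ)
    [Fact p.Prime] (hNp : IsPGroup p N) (P : Sylow p G) (Z : Subgroup (P : Subgroup G))
    (z : (P : Subgroup G)) (hz : (z : G) ∉ N)
    (hzZ : ∀ u : (P : Subgroup G), z * u * z⁻¹ * u⁻¹ ∈ Z) : Nat.card N ≤ Nat.card Z := by
  classical
  haveI := Fintype.ofFinite Z
  set CP := Subgroup.centralizer ({z} : Set (P : Subgroup G)) with hCP
  have hmem : ∀ u : (P : Subgroup G), u * z * u⁻¹ * z⁻¹ ∈ Z := by
    intro u
    have h1 := Z.inv_mem (hzZ u)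
    have h2 : (z * u * z⁻¹ * u⁻¹)⁻¹ = u * z * u⁻¹ * z⁻¹ := by group
    rwa [h2] at h1
  let f : ↥(P : Subgroup G) → Z := fun u => ⟨u * z * u⁻¹ * z⁻¹, hmem u⟩
  have hfib : ∀ w : Z, Nat.card {u : (P : Subgroup G) // f u = w} ≤ Nat.card CP := by
    intro w
    by_cases hne : Nonempty {u : (P : Subgroup G) // f u = w}
    · obtain ⟨c₀, hc₀⟩ := hne
      rw [← Cfsg.Agent.H4.card_conj_fiber z c₀]
      apply le_of_eq
      refine Nat.card_congr (Equiv.subtypeEquivRight fun u => ?_)
      rw [← hc₀]
      simp only [f, Subtype.mk.injEq]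
      exact mul_left_inj _
    · rw [not_nonempty_iff] at hne
      rw [Nat.card_of_isEmpty]
      exact Nat.zero_le _
  have h1 : Nat.card (P : Subgroup G) ≤ Nat.card Z * Nat.card CP := by
    rw [← Nat.card_congr (Equiv.sigmaFiberEquiv f), Nat.card_sigma]
    calc ∑ w : Z, Nat.card {u // f u = w} ≤ ∑ _w : Z, Nat.card CP :=
          Finset.sum_le_sum fun w _ => hfib w
      _ = Nat.card Z * Nat.card CP := by simp [Nat.card_eq_fintype_card]
  have h2 : Nat.card CP * Nat.card N ∣ Nat.card G := by
    have d1 : Nat.card CP ∣ Nat.card (Subgroup.centralizer ({(z : G)} : Set G)) := by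
      have hle : CP.map (P : Subgroup G).subtype ≤ Subgroup.centralizer ({(z : G)} : Set G) := by
        rintro _ ⟨c, hc, rfl⟩
        rw [SetLike.mem_coe, hCP, Subgroup.mem_centralizer_iff] at hc
        rw [Subgroup.mem_centralizer_iff]
        intro y hy
        rw [Set.mem_singleton_iff] at hy
        subst hy
        have := hc z rfl
        exact congrArg Subtype.val this
      have := Subgroup.card_dvd_of_le hle
      rwa [Subgroup.card_map_of_injective (Subgroup.subtype_injective _)] at this
    rw [h.card_centralizer_quotient hz] at d1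
    have d2 := d1.trans (Subgroup.card_subgroup_dvd_card _)
    rw [Subgroup.card_eq_card_quotient_mul_card_subgroup N]
    exact Nat.mul_dvd_mul_right d2 _
  have h3 : Nat.card CP * Nat.card N ≤ Nat.card (P : Subgroup G) := by
    obtain ⟨a, ha⟩ := (IsPGroup.iff_card).mp (P.isPGroup'.to_subgroup CP)
    obtain ⟨b, hb⟩ := (IsPGroup.iff_card).mp hNp
    rw [ha, hb, ← pow_add] at h2 ⊢
    rw [Sylow.card_eq_multiplicity P]
    have hG0 : Nat.card G ≠ 0 := Nat.card_pos.ne'
    have := (Nat.Prime.pow_dvd_iff_le_factorization Fact.out hG0).mp h2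
    exact Nat.pow_le_pow_right (Fact.out : p.Prime).pos this
  have hCPpos : 0 < Nat.card CP := Nat.card_pos
  have h4 : Nat.card CP * Nat.card N ≤ Nat.card CP * Nat.card Z := by
    calc Nat.card CP * Nat.card N ≤ Nat.card (P : Subgroup G) := h3
      _ ≤ Nat.card Z * Nat.card CP := h1
      _ = Nat.card CP * Nat.card Z := mul_comm _ _
  exact Nat.le_of_mul_le_mul_left h4 hCPpos

/-- The centre of a Sylow `p`-subgroup lies in `N`. -/
theorem GagolaSetting.center_le [Finite G] (h : GagolaSetting χ N) [N.Normal] (p : ℕ)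
    [Fact p.Prime] (hNp : IsPGroup p N) (P : Sylow p G) :
    (Subgroup.center (P : Subgroup G)).map (P : Subgroup G).subtype ≤ N := by
  rintro _ ⟨z, hz, rfl⟩
  by_contra hzN
  have hz' : z ∈ Subgroup.center (P : Subgroup G) := hz
  rw [Subgroup.mem_center_iff] at hz'
  have hle := h.card_le_of_ucs_step p hNp P ⊥ z hzN (fun u => by
    rw [Subgroup.mem_bot, ← hz' u]
    group)
  rw [Subgroup.card_bot] at hle
  have := (Subgroup.one_lt_card_iff_ne_bot N).mpr h.ne_bot
  omega

/-- `Z(P) = N` iff `P` is normal. -/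
theorem GagolaSetting.center_eq_iff [Finite G] (h : GagolaSetting χ N) [N.Normal] (p : ℕ)
    [Fact p.Prime] (hNp : IsPGroup p N) (P : Sylow p G) :
    (Subgroup.center (P : Subgroup G)).map (P : Subgroup G).subtype = N ↔
      (P : Subgroup G).Normal := by
  have hNP : N ≤ P := hNp.le_sylow_of_normal P
  obtain ⟨⟨x₀, hx₀N⟩, hx₀⟩ := Subgroup.ne_bot_iff_exists_ne_one.mp h.ne_bot
  have hx₀1 : x₀ ≠ 1 := fun hh => hx₀ (Subtype.ext hh)
  constructor
  · intro hZ
    have hcent : ∀ x ∈ N, x ≠ 1 → Subgroup.centralizer ({x} : Set G) = P := by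
      intro x hx hx1
      obtain ⟨Q, hQ⟩ := h.centralizer_sylow p hNp hx hx1
      have hPQ : (P : Subgroup G) ≤ Q := by
        rw [← hQ]
        intro u hu
        rw [Subgroup.mem_centralizer_iff]
        intro y hy
        rw [Set.mem_singleton_iff] at hy
        subst hy
        rw [← hZ] at hx
        obtain ⟨z, hz, rfl⟩ := hx
        have hz' : z ∈ Subgroup.center (P : Subgroup G) := hz
        rw [Subgroup.mem_center_iff] at hz'
        have := hz' ⟨u, hu⟩
        exact (congrArg Subtype.val this).symm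
      rw [hQ]
      exact P.is_maximal' Q.isPGroup' hPQ
    refine ⟨fun u hu g => ?_⟩
    have hconj : g * x₀ * g⁻¹ ∈ N := h.normal.conj_mem x₀ hx₀N g
    have hconj1 : g * x₀ * g⁻¹ ≠ 1 := by
      intro h1
      apply hx₀1
      have : x₀ = g⁻¹ * (g * x₀ * g⁻¹) * g := by group
      rw [this, h1]
      group
    rw [← hcent x₀ hx₀N hx₀1] at hu
    rw [← hcent _ hconj hconj1]
    rw [Subgroup.mem_centralizer_iff] at hu ⊢
    intro y hy
    rw [Set.mem_singleton_iff] at hy
    subst hy
    have h2 := hu x₀ rfl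
    calc g * x₀ * g⁻¹ * (g * u * g⁻¹) = g * (x₀ * u) * g⁻¹ := by group
      _ = g * (u * x₀) * g⁻¹ := by rw [h2]
      _ = g * u * g⁻¹ * (g * x₀ * g⁻¹) := by group
  · intro hPn
    haveI := hPn
    apply le_antisymm (h.center_le p hNp P)
    intro x hx
    refine ⟨⟨x, hNP hx⟩, ?_, rfl⟩
    rw [SetLike.mem_coe, Subgroup.mem_center_iff]
    intro u
    apply Subtype.ext
    by_cases hx1 : x = 1
    · subst hx1
      simp
    · obtain ⟨Q, hQ⟩ := h.centralizer_sylow p hNp hx hx1
      obtain ⟨g, hg⟩ := MulAction.exists_smul_eq G P Q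
      rw [Sylow.smul_eq_of_normal] at hg
      have hu : (u : G) ∈ Subgroup.centralizer ({x} : Set G) := by
        rw [hQ, ← hg]
        exact u.2
      rw [Subgroup.mem_centralizer_iff] at hu
      exact (hu x rfl).symm

/-- `N` is a term of the upper central series of a Sylow `p`-subgroup. -/
theorem GagolaSetting.exists_ucs [Finite G] (h : GagolaSetting χ N) [N.Normal] (p : ℕ)
    [Fact p.Prime] (hNp : IsPGroup p N) (P : Sylow p G) :
    ∃ i : ℕ, Subgroup.upperCentralSeries (P : Subgroup G) i = N.subgroupOf (P : Subgroup G) := by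
  by_contra hcon
  rw [not_exists] at hcon
  have hNP : N ≤ P := hNp.le_sylow_of_normal P
  have hcardN : Nat.card (N.subgroupOf (P : Subgroup G)) = Nat.card N :=
    Nat.card_congr (Subgroup.subgroupOfEquivOfLe hNP).toEquiv
  have key : ∀ i, Subgroup.upperCentralSeries (P : Subgroup G) i ≤ N.subgroupOf (P : Subgroup G) := by
    intro i
    induction i with
    | zero =>
      rw [Subgroup.upperCentralSeries_zero]
      exact bot_le
    | succ i ih =>
      intro z hz
      by_contra hzN
      have hz' : (z : G) ∉ N := fun hh => hzN (Subgroup.mem_subgroupOf.mpr hh)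
      rw [Subgroup.mem_upperCentralSeries_succ_iff] at hz
      have hle := h.card_le_of_ucs_step p hNp P (Subgroup.upperCentralSeries (P : Subgroup G) i) z
        hz' (fun u => by
          have := hz u
          rwa [commutatorElement_def] at this)
      have : Subgroup.upperCentralSeries (P : Subgroup G) i = N.subgroupOf (P : Subgroup G) :=
        Subgroup.eq_of_le_of_card_ge ih (by rw [hcardN]; exact hle)
      exact hcon i this
  haveI : Group.IsNilpotent (P : Subgroup G) := P.isPGroup'.isNilpotent
  obtain ⟨c, hc⟩ := Group.IsNilpotent.nilpotent (P : Subgroup G)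
  have h1 := key c
  rw [hc] at h1
  exact hcon c (hc.trans (top_le_iff.mp h1).symm)

end Sylow

end Cfsg.Agent.H83
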