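import Mathlib
import Cfsg.Prelude.Def_Characters
import Cfsg.Prelude.Def_Solvable
import Cfsg.Agent.H83.Gagola2
import Cfsg.Agent.H5.BaerSuzuki
import Cfsg.Agent.H72.Subn

/-!
# helper83: Gagola characters, part 4 (`N = O_p(G)` iff doubly transitive Frobenius group)
-/

set_option autoImplicit false
set_option linter.style.haveILetI false
set_option linter.unusedSectionVars false

namespace Cfsg.Agent.H83

open scoped Pointwise

section Frob

variable {G : Type*} [Group G] {χ : IrrCharacter G} {N : Subgroup G}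

theorem GagolaSetting.exists_ne_one (h : GagolaSetting χ N) : ∃ x ∈ N, x ≠ 1 := by
  by_contra hcon
  push Not at hcon
  apply h.ne_bot
  rw [Subgroup.eq_bot_iff_forall]
  exact hcon

/-- If `N = O_p(G)` then `C_G(N) ≤ N`. -/
theorem GagolaSetting.mem_of_centralizes [Finite G] (h : GagolaSetting χ N) (p : ℕ)
    [Fact p.Prime] (hNp : IsPGroup p N) (hcore : N = Cfsg.pCore p G) {c : G}
    (hc : ∀ n ∈ N, c * n = n * c) : c ∈ N := by
  haveI := h.normal
  obtain ⟨x, hx, hx1⟩ := h.exists_ne_one
  have hC : IsPGroup p (Subgroup.centralizer (N : Set G)) := by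
    apply (h.centralizer_isPGroup p hNp hx hx1).to_le
    apply Subgroup.centralizer_le
    intro y hy
    rw [Set.mem_singleton_iff] at hy
    rw [hy]
    exact hx
  have hle := Cfsg.Agent.H72.le_pCore (Subgroup.normal_centralizer (H := N)) hC
  rw [← hcore] at hle
  apply hle
  rw [Subgroup.mem_centralizer_iff]
  intro n hn
  exact (hc n hn).symm

/-- For `p` odd, an involution commuting with an element of `N` forces that element to be `1`. -/
theorem GagolaSetting.eq_one_of_commute_involution [Finite G] (h : GagolaSetting χ N) (p : ℕ)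
    [Fact p.Prime] (hNp : IsPGroup p N) (hp2 : p ≠ 2) {t : G} (ht : t * t = 1) (ht1 : t ≠ 1)
    {n : G} (hn : n ∈ N) (hc : t * n = n * t) : n = 1 := by
  by_contra hn1
  apply ht1
  have ho : orderOf t = 2 := orderOf_eq_prime (by rw [pow_two]; exact ht) ht1
  apply h.eq_one_of_commute p hNp hn hn1 hc
  rw [ho]
  exact (Nat.coprime_primes Nat.prime_two (Fact.out : p.Prime)).mpr (Ne.symm hp2)

/-- For `p` odd, every involution inverts `N`. -/
theorem GagolaSetting.involution_inverts [Finite G] (h : GagolaSetting χ N) (p : ℕ)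
    [Fact p.Prime] (hNp : IsPGroup p N) (hp2 : p ≠ 2) {t : G} (ht : t * t = 1) (ht1 : t ≠ 1)
    {n : G} (hn : n ∈ N) : t * n * t⁻¹ = n⁻¹ := by
  have htn : t * n * t⁻¹ ∈ N := h.normal.conj_mem n hn t
  have hm : n * (t * n * t⁻¹) ∈ N := N.mul_mem hn htn
  have hti : t⁻¹ = t := inv_eq_of_mul_eq_one_left ht
  have hcomm : t * (n * (t * n * t⁻¹)) = (n * (t * n * t⁻¹)) * t := by
    have e1 : t * (n * (t * n * t⁻¹)) = (t * n * t⁻¹) * (t * t) * n * t⁻¹ := by group
    rw [e1, ht, mul_one, h.comm _ htn n hn, hti]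
  have := h.eq_one_of_commute_involution p hNp hp2 ht ht1 hm hcomm
  exact eq_inv_of_mul_eq_one_right this

/-- For `p` odd and `N = O_p(G)`: `G = N · C_G(t)` for an involution `t`. -/
theorem GagolaSetting.exists_mul_commute_involution [Finite G] (h : GagolaSetting χ N) (p : ℕ)
    [Fact p.Prime] (hNp : IsPGroup p N) (hcore : N = Cfsg.pCore p G) (hp2 : p ≠ 2) {t : G}
    (ht : t * t = 1) (ht1 : t ≠ 1) (g : G) : ∃ n ∈ N, (n * g) * t = t * (n * g) := by
  have hti : t⁻¹ = t := inv_eq_of_mul_eq_one_left ht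
  set s := g * t * g⁻¹ with hs
  have hss : s * s = 1 := by
    have : s * s = g * (t * t) * g⁻¹ := by rw [hs]; group
    rw [this, ht]; group
  have hs1 : s ≠ 1 := by
    intro h1
    apply ht1
    have : t = g⁻¹ * s * g := by rw [hs]; group
    rw [this, h1]; group
  have hsi : s⁻¹ = s := inv_eq_of_mul_eq_one_left hss
  -- `c = t * s` centralizes `N`
  have hcN : t * s ∈ N := by
    apply h.mem_of_centralizes p hNp hcore
    intro m hm
    have e1 := h.involution_inverts p hNp hp2 hss hs1 hm
    have e2 := h.involution_inverts p hNp hp2 ht ht1 (N.inv_mem hm)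
    rw [inv_inv] at e2
    have : t * s * m = t * (s * m * s⁻¹) * t⁻¹ * (t * s) := by group
    rw [this, e1, e2]
  -- square root of `c` in `N`
  obtain ⟨k, hk⟩ := IsPGroup.iff_card.mp hNp
  have hodd : Odd (Nat.card N) := by
    rw [hk]
    apply Odd.pow
    exact (Fact.out : p.Prime).odd_of_ne_two hp2
  obtain ⟨j, hj⟩ := hodd
  have hpow : (t * s) ^ (Nat.card N) = 1 := by
    have h1 := pow_card_eq_one' (x := (⟨t * s, hcN⟩ : N))
    have h2 := congrArg Subtype.val h1
    rw [Subgroup.coe_pow] at h2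
    exact h2
  set n := (t * s) ^ (j + 1) with hn
  have hnN : n ∈ N := N.pow_mem hcN _
  have hn2 : n * n = t * s := by
    rw [hn, ← pow_add]
    have : j + 1 + (j + 1) = Nat.card N + 1 := by omega
    rw [this, pow_succ, hpow, one_mul]
  refine ⟨n, hnN, ?_⟩
  have e1 := h.involution_inverts p hNp hp2 ht ht1 hnN
  -- n * g * t = n * s * g ; t * n * g = n⁻¹ * t * g
  have e2 : n * g * t = n * s * g := by rw [hs]; group
  have e3 : t * (n * g) = (t * n * t⁻¹) * t * g := by group
  rw [e2, e3, e1]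
  have e4 : s = t * (n * n) := by
    rw [hn2, ← mul_assoc, ht, one_mul]
  have e5 : n * s = n⁻¹ * t := by
    have e6 : t * n = n⁻¹ * t := by
      have : t * n = (t * n * t⁻¹) * t := by group
      rw [this, e1]
    have e7 : t * n⁻¹ = n * t := by
      have := h.involution_inverts p hNp hp2 ht ht1 (N.inv_mem hnN)
      rw [inv_inv] at this
      have e8 : t * n⁻¹ = (t * n⁻¹ * t⁻¹) * t := by group
      rw [e8, this]
    calc n * s = n * (t * (n * n)) := by rw [← e4]
      _ = n * (t * n) * n := by group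
      _ = n * (n⁻¹ * t) * n := by rw [e6]
      _ = t * n := by group
      _ = n⁻¹ * t := e6
  rw [e5]

/-- A `p`-element centralizes some nonidentity element of a nontrivial normal `p`-subgroup. -/
theorem exists_fixed_of_pow_eq_one [Finite G] (p : ℕ) [Fact p.Prime] (N : Subgroup G)
    [N.Normal] (hNp : IsPGroup p N) (hN : N ≠ ⊥) {c : G} (hc : c ^ p = 1) :
    ∃ x ∈ N, x ≠ 1 ∧ c * x = x * c := by
  classical
  have hZ : IsPGroup p (Subgroup.zpowers c) := by
    intro y
    refine ⟨1, ?_⟩
    obtain ⟨y, k, rfl⟩ := y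
    apply Subtype.ext
    simp only [pow_one, Subgroup.coe_pow, Subgroup.coe_one]
    rw [← zpow_natCast, ← zpow_mul, mul_comm, zpow_mul, zpow_natCast, hc, one_zpow]
  letI : MulAction (Subgroup.zpowers c) N :=
    MulAction.compHom N ((MulAut.conjNormal (H := N)).comp (Subgroup.zpowers c).subtype)
  have hpN : p ∣ Nat.card N := by
    rcases hNp.card_eq_or_dvd with h1 | h1
    · exact absurd (Subgroup.eq_bot_of_card_eq N h1) hN
    · exact h1
  have hfix : (1 : N) ∈ MulAction.fixedPoints (Subgroup.zpowers c) N := by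
    intro z
    show (MulAut.conjNormal (H := N) (z : G)) (1 : N) = 1
    exact map_one _
  obtain ⟨b, hb, hb1⟩ := hZ.exists_fixed_point_of_prime_dvd_card_of_fixed_point N hpN hfix
  refine ⟨b, b.2, ?_, ?_⟩
  · intro h1
    apply hb1
    exact (Subtype.ext h1).symm
  · have := hb ⟨c, Subgroup.mem_zpowers c⟩
    have h2 : (MulAut.conjNormal (H := N) c) b = b := this
    have h3 := congrArg Subtype.val h2
    rw [MulAut.conjNormal_apply] at h3
    calc c * b = (c * b * c⁻¹) * c := by group
      _ = b * c := by rw [h3]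

/-- For `p` odd and `N = O_p(G)`: if `c ∉ N` commutes with the involution `t`, then
`C_N(c) = 1`. -/
theorem GagolaSetting.eq_one_of_commute_of_commute_involution [Finite G] (h : GagolaSetting χ N)
    [N.Normal] (p : ℕ) [Fact p.Prime] (hNp : IsPGroup p N) (hcore : N = Cfsg.pCore p G)
    (hp2 : p ≠ 2) {t : G} (ht : t * t = 1) (ht1 : t ≠ 1) {c : G} (hct : c * t = t * c)
    (hcN : c ∉ N) {x : G} (hx : x ∈ N) (hcx : c * x = x * c) : x = 1 := by
  classical
  set S : Subgroup G := Subgroup.centralizer ({t} : Set G) ⊓ Subgroup.centralizer ({c} : Set G)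
    with hS
  have hS_le : S ≤ Subgroup.centralizer ({c} : Set G) := inf_le_right
  have hmemq : ∀ s : S, ((s : G) : G ⧸ N) ∈
      Subgroup.centralizer ({(c : G ⧸ N)} : Set (G ⧸ N)) := by
    intro s
    have hs := (Subgroup.mem_inf.mp s.2).2
    rw [Subgroup.mem_centralizer_iff] at hs ⊢
    intro q hq
    rw [Set.mem_singleton_iff] at hq
    rw [hq, ← QuotientGroup.mk_mul, ← QuotientGroup.mk_mul, hs c rfl]
  let f : S → Subgroup.centralizer ({(c : G ⧸ N)} : Set (G ⧸ N)) := fun s => ⟨_, hmemq s⟩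
  have hf : Function.Surjective f := by
    rintro ⟨q, hq⟩
    obtain ⟨g, rfl⟩ := QuotientGroup.mk_surjective q
    obtain ⟨n, hnN, hn⟩ := h.exists_mul_commute_involution p hNp hcore hp2 ht ht1 g
    have hq' : (c : G ⧸ N) * (g : G ⧸ N) = (g : G ⧸ N) * (c : G ⧸ N) := by
      rw [Subgroup.mem_centralizer_iff] at hq
      exact hq _ rfl
    have hng : ((n * g : G) : G ⧸ N) = (g : G ⧸ N) := by
      rw [QuotientGroup.mk_mul, (QuotientGroup.eq_one_iff n).mpr hnN, one_mul]
    -- the commutator of `n * g` and `c` lies in `N` and commutes with `t`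
    have hdN : (n * g) * c * (n * g)⁻¹ * c⁻¹ ∈ N := by
      rw [← QuotientGroup.eq_one_iff]
      rw [QuotientGroup.mk_mul, QuotientGroup.mk_mul, QuotientGroup.mk_mul, QuotientGroup.mk_inv,
        QuotientGroup.mk_inv, hng, ← hq']
      group
    have hti : t⁻¹ = t := inv_eq_of_mul_eq_one_left ht
    have hdt : t * ((n * g) * c * (n * g)⁻¹ * c⁻¹) = ((n * g) * c * (n * g)⁻¹ * c⁻¹) * t := by
      have e1 : t * (n * g) = (n * g) * t := hn.symm
      have e2 : t * c = c * t := hct.symm
      have e3 : t * (n * g)⁻¹ = (n * g)⁻¹ * t := by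
        have : t * (n * g)⁻¹ = (n * g)⁻¹ * ((n * g) * t) * (n * g)⁻¹ := by group
        rw [this, hn]; group
      have e4 : t * c⁻¹ = c⁻¹ * t := by
        have : t * c⁻¹ = c⁻¹ * (c * t) * c⁻¹ := by group
        rw [this, hct]; group
      calc t * ((n * g) * c * (n * g)⁻¹ * c⁻¹) = (t * (n * g)) * c * (n * g)⁻¹ * c⁻¹ := by group
        _ = (n * g) * (t * c) * (n * g)⁻¹ * c⁻¹ := by rw [e1]; group
        _ = (n * g) * c * (t * (n * g)⁻¹) * c⁻¹ := by rw [e2]; group
        _ = (n * g) * c * (n * g)⁻¹ * (t * c⁻¹) := by rw [e3]; group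
        _ = ((n * g) * c * (n * g)⁻¹ * c⁻¹) * t := by rw [e4]; group
    have hd1 := h.eq_one_of_commute_involution p hNp hp2 ht ht1 hdN hdt
    have hcomm : (n * g) * c = c * (n * g) := by
      have : (n * g) * c = ((n * g) * c * (n * g)⁻¹ * c⁻¹) * (c * (n * g)) := by group
      rw [this, hd1, one_mul]
    have hmem : n * g ∈ S := by
      rw [hS, Subgroup.mem_inf, Subgroup.mem_centralizer_iff, Subgroup.mem_centralizer_iff]
      refine ⟨?_, ?_⟩
      · intro y hy
        rw [Set.mem_singleton_iff] at hy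
        rw [hy]
        exact hn.symm
      · intro y hy
        rw [Set.mem_singleton_iff] at hy
        rw [hy]
        exact hcomm.symm
    refine ⟨⟨n * g, hmem⟩, ?_⟩
    apply Subtype.ext
    exact hng
  have hcard1 := Nat.card_le_card_of_surjective f hf
  have hcard2 := h.card_centralizer_quotient hcN
  have hSeq : S = Subgroup.centralizer ({c} : Set G) :=
    Subgroup.eq_of_le_of_card_ge hS_le (by rw [hcard2]; exact hcard1)
  have hxS : x ∈ S := by
    rw [hSeq, Subgroup.mem_centralizer_iff]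
    intro y hy
    rw [Set.mem_singleton_iff] at hy
    rw [hy]
    exact hcx
  have hxt := (Subgroup.mem_inf.mp hxS).1
  rw [Subgroup.mem_centralizer_iff] at hxt
  exact h.eq_one_of_commute_involution p hNp hp2 ht ht1 hx (hxt t rfl)

/-- For `p` odd and `N = O_p(G)`, `N` is a Sylow `p`-subgroup. -/
theorem GagolaSetting.not_dvd_index_of_odd [Finite G] (h : GagolaSetting χ N)
    [N.Normal] (p : ℕ) [Fact p.Prime] (hNp : IsPGroup p N) (hcore : N = Cfsg.pCore p G)
    (hp2 : p ≠ 2) : ¬ p ∣ N.index := by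
  intro hdvd
  haveI : Fact (Nat.Prime 2) := ⟨Nat.prime_two⟩
  obtain ⟨x, hx, hx1⟩ := h.exists_ne_one
  -- an involution
  have h2 : 2 ∣ Nat.card G := by
    rw [← h.card_class hx hx1]
    apply Dvd.dvd.mul_right
    obtain ⟨k, hk⟩ := IsPGroup.iff_card.mp hNp
    have hodd : Odd (Nat.card N) := by
      rw [hk]
      apply Odd.pow
      exact (Fact.out : p.Prime).odd_of_ne_two hp2
    obtain ⟨j, hj⟩ := hodd
    rw [hj]
    exact ⟨j, by omega⟩
  obtain ⟨t, hto⟩ := exists_prime_orderOf_dvd_card' 2 h2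
  have ht : t * t = 1 := by
    have := pow_orderOf_eq_one t
    rw [hto, pow_two] at this
    exact this
  have ht1 : t ≠ 1 := by
    intro h1
    rw [h1, orderOf_one] at hto
    omega
  -- an element of order `p` in the quotient
  obtain ⟨q, hq⟩ := exists_prime_orderOf_dvd_card' (G := G ⧸ N) p hdvd
  obtain ⟨u, rfl⟩ := QuotientGroup.mk_surjective q
  obtain ⟨n, hnN, hn⟩ := h.exists_mul_commute_involution p hNp hcore hp2 ht ht1 u
  have hnu : ((n * u : G) : G ⧸ N) = (u : G ⧸ N) := by
    rw [QuotientGroup.mk_mul, (QuotientGroup.eq_one_iff n).mpr hnN, one_mul]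
  have hcN : n * u ∉ N := by
    intro hmem
    rw [← QuotientGroup.eq_one_iff, hnu] at hmem
    rw [hmem, orderOf_one] at hq
    exact (Fact.out : p.Prime).one_lt.ne hq
  have hcp : (n * u) ^ p = 1 := by
    apply h.eq_one_of_commute_involution p hNp hp2 ht ht1
    · rw [← QuotientGroup.eq_one_iff, QuotientGroup.mk_pow, hnu, ← hq]
      exact pow_orderOf_eq_one _
    · have : Commute t (n * u) := hn.symm
      exact (this.pow_right p).eq
  obtain ⟨y, hy, hy1, hcy⟩ := exists_fixed_of_pow_eq_one p N hNp h.ne_bot hcp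
  exact hy1 (h.eq_one_of_commute_of_commute_involution p hNp hcore hp2 ht ht1 hn hcN hy hcy)

/-- For `p = 2`, `N` has exponent `2`. -/
theorem GagolaSetting.sq_eq_one_of_two [Finite G] (h : GagolaSetting χ N)
    (hNp : IsPGroup 2 N) {n : G} (hn : n ∈ N) : n * n = 1 := by
  haveI : Fact (Nat.Prime 2) := ⟨Nat.prime_two⟩
  have h2 := h.prime_dvd_card 2 hNp
  obtain ⟨y, hy⟩ := exists_prime_orderOf_dvd_card' (G := N) 2 h2
  have hy1 : (y : G) ≠ 1 := by
    intro h1
    have : y = 1 := Subtype.ext h1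
    rw [this, orderOf_one] at hy
    omega
  have hyy : (y : G) * (y : G) = 1 := by
    have := pow_orderOf_eq_one y
    rw [hy, pow_two] at this
    exact congrArg Subtype.val this
  by_cases hn1 : n = 1
  · rw [hn1, one_mul]
  · obtain ⟨u, rfl⟩ := isConj_iff.mp (h.conjN _ y.2 hy1 n hn hn1)
    have : u * (y : G) * u⁻¹ * (u * (y : G) * u⁻¹) = u * ((y : G) * (y : G)) * u⁻¹ := by group
    rw [this, hyy]
    group

/-- For `p = 2`: if `a ∉ N` and `a² ∈ N` then `|C_N(a)|² > |N|`. -/
theorem GagolaSetting.card_lt_card_centralizer_sq [Finite G] (h : GagolaSetting χ N)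
    (hNp : IsPGroup 2 N) {a : G} (haN : a ∉ N) (ha2 : a * a ∈ N) :
    Nat.card N < Nat.card ((Subgroup.centralizer ({a} : Set G)).subgroupOf N) ^ 2 := by
  classical
  haveI := h.normal
  have hconj_mem : ∀ n : N, a⁻¹ * (n : G) * a ∈ N := by
    intro n
    have := h.normal.conj_mem n n.2 a⁻¹
    simpa using this
  let φ : N →* N :=
    { toFun := fun n => ⟨a⁻¹ * (n : G) * a * (n : G), N.mul_mem (hconj_mem n) n.2⟩
      map_one' := by
        apply Subtype.ext
        simp
      map_mul' := by
        intro n m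
        apply Subtype.ext
        show a⁻¹ * ((n : G) * (m : G)) * a * ((n : G) * (m : G)) =
          (a⁻¹ * (n : G) * a * (n : G)) * (a⁻¹ * (m : G) * a * (m : G))
        have e1 := h.comm _ (hconj_mem m) _ n.2
        calc a⁻¹ * ((n : G) * (m : G)) * a * ((n : G) * (m : G))
            = a⁻¹ * (n : G) * a * ((a⁻¹ * (m : G) * a) * (n : G)) * (m : G) := by group
          _ = a⁻¹ * (n : G) * a * ((n : G) * (a⁻¹ * (m : G) * a)) * (m : G) := by rw [e1]
          _ = (a⁻¹ * (n : G) * a * (n : G)) * (a⁻¹ * (m : G) * a * (m : G)) := by group }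
  have hφ : ∀ n : N, ((φ n : N) : G) = a⁻¹ * (n : G) * a * (n : G) := fun n => rfl
  set A : Subgroup N := (Subgroup.centralizer ({a} : Set G)).subgroupOf N with hA
  have hmemA : ∀ n : N, n ∈ A ↔ a * (n : G) = (n : G) * a := by
    intro n
    rw [hA, Subgroup.mem_subgroupOf, Subgroup.mem_centralizer_iff]
    constructor
    · intro hh
      exact hh a rfl
    · intro hh y hy
      rw [Set.mem_singleton_iff] at hy
      rw [hy]
      exact hh
  have hker : φ.ker = A := by
    ext n
    rw [MonoidHom.mem_ker, hmemA]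
    constructor
    · intro hh
      have h1 := congrArg Subtype.val hh
      rw [hφ] at h1
      have h2 : a⁻¹ * (n : G) * a * (n : G) = 1 := h1
      have h3 := h.sq_eq_one_of_two hNp n.2
      have h4 : a⁻¹ * (n : G) * a = (n : G) := by
        have : a⁻¹ * (n : G) * a = (a⁻¹ * (n : G) * a * (n : G)) * (n : G)⁻¹ := by group
        rw [this, h2, one_mul]
        exact inv_eq_of_mul_eq_one_left h3
      calc a * (n : G) = a * (a⁻¹ * (n : G) * a) := by rw [h4]
        _ = (n : G) * a := by group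
    · intro hh
      apply Subtype.ext
      rw [hφ]
      have h3 := h.sq_eq_one_of_two hNp n.2
      have : a⁻¹ * (n : G) * a * (n : G) = a⁻¹ * ((n : G) * a) * (n : G) := by group
      rw [this, ← hh]
      have : a⁻¹ * (a * (n : G)) * (n : G) = (n : G) * (n : G) := by group
      rw [this, h3]
      rfl
  have hrange_le : φ.range ≤ A := by
    rintro m ⟨n, rfl⟩
    rw [hmemA, hφ]
    have e1 := h.comm _ ha2 _ n.2
    have e2 := h.comm _ (hconj_mem n) _ n.2
    have e3 : a * (n : G) * a⁻¹ = a⁻¹ * (n : G) * a := by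
      have : a * (n : G) * a⁻¹ = a⁻¹ * (a * a * (n : G)) * a⁻¹ * a⁻¹ * a := by group
      rw [this, e1]; group
    calc a * (a⁻¹ * (n : G) * a * (n : G)) = (n : G) * (a * (n : G) * a⁻¹) * a := by group
      _ = (n : G) * (a⁻¹ * (n : G) * a) * a := by rw [e3]
      _ = a⁻¹ * (n : G) * a * (n : G) * a := by rw [← e2]
  have hrange_ne : φ.range ≠ A := by
    intro heq
    by_cases haa : a * a = 1
    · -- then `φ` is trivial and `A = ⊤`
      have htriv : ∀ n : N, φ n = 1 := by
        intro n
        apply Subtype.ext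
        rw [hφ]
        obtain ⟨u, hu⟩ := isConj_iff.mp (h.coset_conj haN n.2)
        have h1 : (a * (n : G)) * (a * (n : G)) = 1 := by
          rw [← hu]
          have : u * a * u⁻¹ * (u * a * u⁻¹) = u * (a * a) * u⁻¹ := by group
          rw [this, haa]; group
        have hai : a⁻¹ = a := inv_eq_of_mul_eq_one_left haa
        have : a⁻¹ * (n : G) * a * (n : G) = a⁻¹ * a⁻¹ * ((a * (n : G)) * (a * (n : G))) := by
          group
        rw [this, h1, hai, haa]
        simp
      obtain ⟨x, hx, hx1⟩ := h.exists_ne_one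
      have hxA : (⟨x, hx⟩ : N) ∈ A := by
        rw [← hker, MonoidHom.mem_ker]
        exact htriv _
      rw [← heq] at hxA
      obtain ⟨n, hn⟩ := hxA
      rw [htriv n] at hn
      exact hx1 (congrArg Subtype.val hn).symm
    · have hzA : (⟨a * a, ha2⟩ : N) ∈ A := by
        rw [hmemA]
        show a * (a * a) = a * a * a
        group
      rw [← heq] at hzA
      obtain ⟨n, hn⟩ := hzA
      have h1 := congrArg Subtype.val hn
      rw [hφ] at h1
      have h2 : a⁻¹ * (n : G) * a * (n : G) = a * a := h1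
      obtain ⟨u, hu⟩ := isConj_iff.mp (h.coset_conj haN n.2)
      have h3 : (a * (n : G)) * (a * (n : G)) = 1 := by
        have : (a * (n : G)) * (a * (n : G)) = (a * a) * (a⁻¹ * (n : G) * a * (n : G)) := by group
        rw [this, h2]
        exact h.sq_eq_one_of_two hNp ha2
      apply haa
      have h4 : a * a = u⁻¹ * ((u * a * u⁻¹) * (u * a * u⁻¹)) * u := by group
      rw [h4, hu, h3]
      group
  have hlt : Nat.card φ.range < Nat.card A := by
    by_contra hcon
    push Not at hcon
    exact hrange_ne (Subgroup.eq_of_le_of_card_ge hrange_le hcon)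
  have hcard : Nat.card φ.ker * Nat.card φ.range = Nat.card N := by
    rw [← Subgroup.index_ker]
    exact Subgroup.card_mul_index φ.ker
  rw [hker] at hcard
  have hApos : 0 < Nat.card A := Nat.card_pos
  calc Nat.card N = Nat.card A * Nat.card φ.range := hcard.symm
    _ < Nat.card A * Nat.card A := Nat.mul_lt_mul_of_pos_left hlt hApos
    _ = Nat.card A ^ 2 := (pow_two _).symm

/-- For `p = 2`: two elements outside `N` with squares in `N` have a common nontrivial
fixed point in `N`. -/
theorem GagolaSetting.exists_common_fixed [Finite G] (h : GagolaSetting χ N)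
    (hNp : IsPGroup 2 N) {a b : G} (haN : a ∉ N) (ha2 : a * a ∈ N) (hbN : b ∉ N)
    (hb2 : b * b ∈ N) : ∃ y ∈ N, y ≠ 1 ∧ a * y = y * a ∧ b * y = y * b := by
  classical
  set A : Subgroup N := (Subgroup.centralizer ({a} : Set G)).subgroupOf N with hA
  set B : Subgroup N := (Subgroup.centralizer ({b} : Set G)).subgroupOf N with hB
  have h1 := h.card_lt_card_centralizer_sq hNp haN ha2
  have h2 := h.card_lt_card_centralizer_sq hNp hbN hb2
  rw [← hA] at h1
  rw [← hB] at h2
  have hne : A ⊓ B ≠ ⊥ := by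
    intro hbot
    have h3 : (A ⊓ B).index ≤ A.index * B.index := Subgroup.index_inf_le
    rw [hbot, Subgroup.index_bot] at h3
    have e1 := Subgroup.card_mul_index A
    have e2 := Subgroup.card_mul_index B
    have hNpos : 0 < Nat.card N := Nat.card_pos
    have h4 : Nat.card N * (Nat.card A * Nat.card B) ≤ Nat.card N * Nat.card N := by
      calc Nat.card N * (Nat.card A * Nat.card B)
          ≤ (A.index * B.index) * (Nat.card A * Nat.card B) := Nat.mul_le_mul_right _ h3
        _ = (Nat.card A * A.index) * (Nat.card B * B.index) := by ring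
        _ = Nat.card N * Nat.card N := by rw [e1, e2]
    have h5 : Nat.card A * Nat.card B ≤ Nat.card N := Nat.le_of_mul_le_mul_left h4 hNpos
    have h6 : Nat.card N * Nat.card N < (Nat.card A * Nat.card B) ^ 2 := by
      rw [mul_pow]
      exact Nat.mul_lt_mul'' h1 h2
    have h7 : (Nat.card A * Nat.card B) ^ 2 ≤ Nat.card N ^ 2 := Nat.pow_le_pow_left h5 2
    rw [pow_two (Nat.card N)] at h7
    omega
  obtain ⟨⟨y, hy⟩, hy1⟩ := (Subgroup.ne_bot_iff_exists_ne_one).mp hne
  obtain ⟨hyA, hyB⟩ := Subgroup.mem_inf.mp hy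
  rw [hA, Subgroup.mem_subgroupOf, Subgroup.mem_centralizer_iff] at hyA
  rw [hB, Subgroup.mem_subgroupOf, Subgroup.mem_centralizer_iff] at hyB
  refine ⟨y, y.2, ?_, hyA a rfl, hyB b rfl⟩
  intro hh
  apply hy1
  apply Subtype.ext
  apply Subtype.ext
  exact hh

/-- For `p = 2` and `N = O_2(G)`: no element outside `N` has its square in `N`
(Baer–Suzuki). -/
theorem GagolaSetting.no_involution_mod [Finite G] (h : GagolaSetting χ N) [N.Normal]
    (hNp : IsPGroup 2 N) (hcore : N = Cfsg.pCore 2 G) {a : G} (haN : a ∉ N)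
    (ha2 : a * a ∈ N) : False := by
  haveI : Fact (Nat.Prime 2) := ⟨Nat.prime_two⟩
  set X : Subgroup (G ⧸ N) := Subgroup.zpowers (a : G ⧸ N) with hX
  have haa : (a : G ⧸ N) ^ 2 = 1 := by
    rw [pow_two, ← QuotientGroup.mk_mul]
    exact (QuotientGroup.eq_one_iff _).mpr ha2
  have hXp : IsPGroup 2 X := by
    intro y
    refine ⟨1, ?_⟩
    obtain ⟨y, k, rfl⟩ := y
    apply Subtype.ext
    simp only [pow_one, Subgroup.coe_pow, Subgroup.coe_one]
    rw [← zpow_natCast, ← zpow_mul, mul_comm, zpow_mul, zpow_natCast, haa, one_zpow]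
  have hBS : ∀ q : G ⧸ N, IsPGroup 2 ↥(X ⊔ X.map (MulAut.conj q).toMonoidHom) := by
    intro q
    obtain ⟨g, rfl⟩ := QuotientGroup.mk_surjective q
    have hbN : g * a * g⁻¹ ∉ N := by
      intro hmem
      apply haN
      have := h.normal.conj_mem _ hmem g⁻¹
      simpa [mul_assoc] using this
    have hb2 : (g * a * g⁻¹) * (g * a * g⁻¹) ∈ N := by
      have : (g * a * g⁻¹) * (g * a * g⁻¹) = g * (a * a) * g⁻¹ := by group
      rw [this]
      exact h.normal.conj_mem _ ha2 g
    obtain ⟨y, hy, hy1, hay, hby⟩ := h.exists_common_fixed hNp haN ha2 hbN hb2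
    have hP := h.centralizer_isPGroup 2 hNp hy hy1
    apply (hP.map (QuotientGroup.mk' N)).to_le
    apply sup_le
    · rw [hX, Subgroup.zpowers_le]
      refine ⟨a, ?_, rfl⟩
      rw [SetLike.mem_coe, Subgroup.mem_centralizer_iff]
      intro z hz
      rw [Set.mem_singleton_iff] at hz
      rw [hz]
      exact hay.symm
    · rw [hX, MonoidHom.map_zpowers, Subgroup.zpowers_le]
      refine ⟨g * a * g⁻¹, ?_, ?_⟩
      · rw [SetLike.mem_coe, Subgroup.mem_centralizer_iff]
        intro z hz
        rw [Set.mem_singleton_iff] at hz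
        rw [hz]
        exact hby.symm
      · simp [MulAut.conj_apply]
  obtain ⟨M, hMn, hMp, hXM⟩ := Cfsg.Agent.H5.baer_suzuki X hXp hBS
  have hcomap_p : IsPGroup 2 (M.comap (QuotientGroup.mk' N)) := by
    apply hMp.comap_of_ker_isPGroup
    rw [QuotientGroup.ker_mk']
    exact hNp
  have hle := Cfsg.Agent.H72.le_pCore (hMn.comap (QuotientGroup.mk' N)) hcomap_p
  rw [← hcore] at hle
  apply haN
  apply hle
  rw [Subgroup.mem_comap]
  apply hXM
  exact Subgroup.mem_zpowers _

/-- If `N = O_p(G)` then `N` is a Sylow `p`-subgroup. -/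
theorem GagolaSetting.not_dvd_index [Finite G] (h : GagolaSetting χ N)
    [N.Normal] (p : ℕ) [Fact p.Prime] (hNp : IsPGroup p N) (hcore : N = Cfsg.pCore p G) :
    ¬ p ∣ N.index := by
  by_cases hp2 : p = 2
  · subst hp2
    intro hdvd
    obtain ⟨q, hq⟩ := exists_prime_orderOf_dvd_card' (G := G ⧸ N) 2 hdvd
    obtain ⟨a, rfl⟩ := QuotientGroup.mk_surjective q
    have haN : a ∉ N := by
      intro hmem
      rw [← QuotientGroup.eq_one_iff] at hmem
      rw [hmem, orderOf_one] at hq
      omega
    have ha2 : a * a ∈ N := by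
      rw [← QuotientGroup.eq_one_iff, QuotientGroup.mk_mul, ← pow_two, ← hq]
      exact pow_orderOf_eq_one _
    exact h.no_involution_mod hNp hcore haN ha2
  · exact h.not_dvd_index_of_odd p hNp hcore hp2

/-- If `N` is a Sylow `p`-subgroup, then `G` is a doubly transitive Frobenius group with
kernel `N`. -/
theorem GagolaSetting.exists_frobenius_complement [Finite G] (h : GagolaSetting χ N)
    [N.Normal] (p : ℕ) [Fact p.Prime] (hNp : IsPGroup p N) (hnd : ¬ p ∣ N.index)
    (hG : 2 < Nat.card G) :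
    ∃ H : Subgroup G, Cfsg.IsFrobeniusComplement H ∧ Cfsg.frobeniusKernel H = (N : Set G) ∧
      Nat.card H + 1 = Nat.card N := by
  classical
  obtain ⟨k, hk⟩ := IsPGroup.iff_card.mp hNp
  have hcop : (Nat.card N).Coprime N.index := by
    rw [hk]
    exact Nat.Coprime.pow_left k ((Nat.Prime.coprime_iff_not_dvd Fact.out).mpr hnd)
  obtain ⟨H, hH⟩ := Subgroup.exists_right_complement'_of_coprime hcop
  have hdisj : ∀ y : G, y ∈ N → y ∈ H → y = 1 := by
    intro y hyN hyH
    exact (Subgroup.disjoint_def.mp hH.disjoint) hyN hyH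
  have hprod : ∀ g : G, ∃ n ∈ N, ∃ y ∈ H, g = n * y := by
    intro g
    obtain ⟨⟨n, y⟩, hny⟩ := hH.2 g
    exact ⟨n, n.2, y, y.2, hny.symm⟩
  -- centralizers of nonidentity elements of `N`
  have hcent : ∀ x ∈ N, x ≠ 1 → Subgroup.centralizer ({x} : Set G) = N := by
    intro x hx hx1
    have hle : N ≤ Subgroup.centralizer ({x} : Set G) := by
      intro n hn
      rw [Subgroup.mem_centralizer_iff]
      intro y hy
      rw [Set.mem_singleton_iff] at hy
      rw [hy]
      exact h.comm x hx n hn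
    have := (hNp.toSylow hnd).3 (h.centralizer_isPGroup p hNp hx hx1)
      (by rw [IsPGroup.toSylow_coe]; exact hle)
    rw [this, IsPGroup.toSylow_coe]
  have hcentN : ∀ x ∈ N, x ≠ 1 → ∀ y : G, y * x = x * y → y ∈ N := by
    intro x hx hx1 y hy
    rw [← hcent x hx hx1, Subgroup.mem_centralizer_iff]
    intro z hz
    rw [Set.mem_singleton_iff] at hz
    rw [hz]
    exact hy.symm
  obtain ⟨x, hx, hx1⟩ := h.exists_ne_one
  have hcardG : (Nat.card N - 1) * Nat.card N = Nat.card G := by
    have := h.card_class hx hx1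
    rw [hcent x hx hx1] at this
    exact this
  have hNH : Nat.card N * Nat.card H = Nat.card G := hH.card_mul_card
  have hNpos : 0 < Nat.card N := Nat.card_pos
  have hcardH : Nat.card H = Nat.card N - 1 := by
    have : Nat.card N * Nat.card H = Nat.card N * (Nat.card N - 1) := by
      rw [hNH, ← hcardG, mul_comm]
    exact Nat.eq_of_mul_eq_mul_left hNpos this
  have hcardH' : Nat.card H + 1 = Nat.card N := by omega
  refine ⟨H, ⟨?_, ?_, ?_⟩, ?_, hcardH'⟩
  · -- `H ≠ ⊥`
    intro hbot
    rw [hbot, Subgroup.card_bot] at hcardH hNH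
    have : Nat.card N = 2 := by omega
    rw [this] at hNH
    omega
  · -- `H ≠ ⊤`
    intro htop
    apply hx1
    apply hdisj x hx
    rw [htop]
    exact Subgroup.mem_top x
  · -- Frobenius property
    intro g hg
    rw [Subgroup.eq_bot_iff_forall]
    intro y hy
    obtain ⟨hyH, hyc⟩ := Subgroup.mem_inf.mp hy
    rw [Cfsg.Agent.H72.mem_conj_smul] at hyc
    obtain ⟨n, hn, k', hk', rfl⟩ := hprod g
    have hn1 : n ≠ 1 := by
      intro h1
      apply hg
      rw [h1, one_mul]
      exact hk'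
    have hy' : n⁻¹ * y * n ∈ H := by
      have h1 := H.mul_mem (H.mul_mem hk' hyc) (H.inv_mem hk')
      have h2 : k' * ((n * k')⁻¹ * y * (n * k')) * k'⁻¹ = n⁻¹ * y * n := by group
      rw [h2] at h1
      exact h1
    have hd : y⁻¹ * (n⁻¹ * y * n) = 1 := by
      apply hdisj
      · have h1 : y⁻¹ * n⁻¹ * y⁻¹⁻¹ ∈ N := h.normal.conj_mem _ (N.inv_mem hn) y⁻¹
        have h2 := N.mul_mem h1 hn
        have h3 : y⁻¹ * n⁻¹ * y⁻¹⁻¹ * n = y⁻¹ * (n⁻¹ * y * n) := by group
        rw [h3] at h2
        exact h2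
      · exact H.mul_mem (H.inv_mem hyH) hy'
    have hyn : y * n = n * y := by
      have h1 : n * y = n * y * (y⁻¹ * (n⁻¹ * y * n)) := by rw [hd, mul_one]
      rw [h1]
      group
    exact hdisj y (hcentN n hn hn1 y hyn) hyH
  · -- the Frobenius kernel is `N`
    ext z
    show (z = 1 ∨ ∀ g : G, z ∉ MulAut.conj g • H) ↔ z ∈ N
    constructor
    · rintro (rfl | hz)
      · exact N.one_mem
      · by_contra hzN
        obtain ⟨n, hn, k', hk', hzk⟩ := hprod z
        have hm : z⁻¹ * n⁻¹ * z ∈ N := by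
          have := h.normal.conj_mem _ (N.inv_mem hn) z⁻¹
          simpa using this
        have hk'' : k' = z * (z⁻¹ * n⁻¹ * z) := by
          have : z * (z⁻¹ * n⁻¹ * z) = n⁻¹ * z := by group
          rw [this, hzk]
          group
        obtain ⟨c, hc⟩ := isConj_iff.mp (h.coset_conj hzN hm)
        rw [← hk''] at hc
        apply hz c⁻¹
        rw [Cfsg.Agent.H72.mem_conj_smul, inv_inv, hc]
        exact hk'
    · intro hz
      by_cases hz1 : z = 1
      · exact Or.inl hz1
      · right
        intro g hzg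
        rw [Cfsg.Agent.H72.mem_conj_smul] at hzg
        apply hz1
        have h1 : g⁻¹ * z * g ∈ N := by
          have := h.normal.conj_mem _ hz g⁻¹
          simpa using this
        have h2 := hdisj _ h1 hzg
        have h3 : z = g * (g⁻¹ * z * g) * g⁻¹ := by group
        rw [h3, h2]
        group

/-- Conversely, a Frobenius complement of order `|N| - 1` with kernel `N` forces
`N = O_p(G)`. -/
theorem GagolaSetting.eq_pCore_of_frobenius [Finite G] (h : GagolaSetting χ N)
    (p : ℕ) [Fact p.Prime] (hNp : IsPGroup p N) {H : Subgroup G}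
    (hker : Cfsg.frobeniusKernel H = (N : Set G)) (hcard : Nat.card H + 1 = Nat.card N) :
    N = Cfsg.pCore p G := by
  apply le_antisymm (Cfsg.Agent.H72.le_pCore h.normal hNp)
  intro x hx
  by_contra hxN
  have hxk : x ∉ Cfsg.frobeniusKernel H := by
    rw [hker]
    exact hxN
  have hxk' : ¬ (x = 1 ∨ ∀ g : G, x ∉ MulAut.conj g • H) := hxk
  push Not at hxk'
  obtain ⟨hx1, g, hg⟩ := hxk'
  rw [Cfsg.Agent.H72.mem_conj_smul] at hg
  have hy : g⁻¹ * x * g ∈ Cfsg.pCore p G := by
    have := (Cfsg.Agent.H72.pCore_normal p G).conj_mem x hx g⁻¹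
    simpa using this
  obtain ⟨k, hk⟩ := (Cfsg.Agent.H72.pCore_isPGroup p G) ⟨_, hy⟩
  have hk' : (g⁻¹ * x * g) ^ (p ^ k) = 1 := by
    have := congrArg Subtype.val hk
    rw [Subgroup.coe_pow] at this
    exact this
  have hH : (g⁻¹ * x * g) ^ (Nat.card H) = 1 := by
    have h1 := pow_card_eq_one' (x := (⟨_, hg⟩ : H))
    have h2 := congrArg Subtype.val h1
    rw [Subgroup.coe_pow] at h2
    exact h2
  have hcop : (p ^ k).Coprime (Nat.card H) := by
    apply Nat.Coprime.pow_left
    rw [Nat.Prime.coprime_iff_not_dvd Fact.out]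
    intro hd
    have hpN := h.prime_dvd_card p hNp
    rw [← hcard] at hpN
    have := (Nat.dvd_add_right hd).mp hpN
    exact (Fact.out : p.Prime).one_lt.ne' (Nat.dvd_one.mp this)
  have ho1 := orderOf_dvd_of_pow_eq_one hk'
  have ho2 := orderOf_dvd_of_pow_eq_one hH
  have ho : orderOf (g⁻¹ * x * g) = 1 := Nat.eq_one_of_dvd_coprimes hcop ho1 ho2
  rw [orderOf_eq_one_iff] at ho
  apply hx1
  have h3 : x = g * (g⁻¹ * x * g) * g⁻¹ := by group
  rw [h3, ho]
  group

/-- Gagola: the support `N` of `χ` is `O_p(G)` iff `G` is a doubly transitive Frobenius group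
with kernel `N`. -/
theorem gagola_pCore_iff_frobenius [Finite G] (hG : 2 < Nat.card G) (χ : IrrCharacter G)
    (hχ : TwoClasses χ) (p : ℕ) [Fact p.Prime] (N : Subgroup G) [N.Normal]
    (hN : ∀ g : G, g ∈ N ↔ (χ : G → ℂ) g ≠ 0) (hNp : IsPGroup p N) :
    N = Cfsg.pCore p G ↔ ∃ H : Subgroup G, Cfsg.IsFrobeniusComplement H ∧
      Cfsg.frobeniusKernel H = (N : Set G) ∧ Nat.card H + 1 = Nat.card N := by
  have h := gagolaSetting_of hG χ hχ N hN
  constructor
  · intro hcore
    exact h.exists_frobenius_complement p hNp (h.not_dvd_index p hNp hcore) hG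
  · rintro ⟨H, _, hker, hcard⟩
    exact h.eq_pCore_of_frobenius p hNp hker hcard

end Frob

end Cfsg.Agent.H83
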