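import Mathlib
import Cfsg.Prelude.Def_Characters
import Cfsg.Prelude.Def_Blocks
import Cfsg.Agent.H4.Irr
import Cfsg.Agent.H4.Chars
import Cfsg.Agent.H4.Induction
import Cfsg.Agent.H78.FrobSchur3
import Cfsg.Agent.H82.Irr
import Cfsg.Agent.Lib.Clifford
import Cfsg.Agent.Lib.CliffordCorr
import Cfsg.Agent.H83.Basic
import Cfsg.Agent.H83.MinNormal

/-!
# Frobenius–Schur indicator of a character induced from the inertia group (helper83, S4912)

* `sum_comp_eq_zero_of_sum_char_mul` : twisted Schur orthogonality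
  (`∑ χ₁ χ₂ = 0 → ∑ ρ₁ n ∘ ρ₂ n = 0`);
-/

set_option autoImplicit false
set_option linter.style.haveILetI false
set_option linter.unusedSectionVars false

namespace Cfsg.Agent.H83

open Cfsg Cfsg.Agent.H4 Cfsg.Agent.Clifford
open scoped ComplexConjugate

universe u

section Twisted

/-- Twisted Schur orthogonality: if the product of the characters of two representations of `N`
on the same space sums to zero, then `∑ n, ρ₁ n ∘ ρ₂ n = 0`. -/
theorem sum_comp_eq_zero_of_sum_char_mul {N : Type*} [Group N] [Fintype N] {V : Type*}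
    [AddCommGroup V] [Module ℂ V] [FiniteDimensional ℂ V]
    (ρ₁ ρ₂ : Representation ℂ N V) (h : ∑ n : N, ρ₁.character n * ρ₂.character n = 0) :
    ∑ n : N, ρ₁ n ∘ₗ ρ₂ n = 0 := by
  classical
  haveI : Invertible (Nat.card N : ℂ) := invertibleOfNonzero (neZero_card_complex N).out
  set τ := Representation.linHom (Representation.dual ρ₂) ρ₁ with hτ
  have hchar : ∀ n : N, τ.character n = ρ₂.character n * ρ₁.character n := by
    intro n
    rw [hτ, Representation.char_linHom, Representation.char_dual, inv_inv]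
  have hfin : Module.finrank ℂ (Representation.invariants τ) = 0 := by
    have h1 := Representation.card_inv_mul_sum_char_eq_finrank τ
    simp only [hchar] at h1
    have h2 : ∑ n : N, ρ₂.character n * ρ₁.character n = 0 := by
      rw [← h]
      exact Finset.sum_congr rfl fun n _ => mul_comm _ _
    rw [h2, mul_zero] at h1
    exact_mod_cast h1.symm
  have hbot : Representation.invariants τ = ⊥ := Submodule.finrank_eq_zero.mp hfin
  have hF : ∀ f : Module.Dual ℂ V →ₗ[ℂ] V, ∑ n : N, τ n f = 0 := by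
    intro f
    have hmem : ∑ n : N, τ n f ∈ Representation.invariants τ := by
      intro m
      rw [map_sum]
      rw [← Equiv.sum_comp (Equiv.mulLeft m) (fun n => τ n f)]
      refine Finset.sum_congr rfl fun n _ => ?_
      simp [map_mul]
    rw [hbot] at hmem
    exact (Submodule.mem_bot ℂ).mp hmem
  let b := Module.finBasis ℂ V
  ext w
  simp only [LinearMap.sum_apply, LinearMap.comp_apply, LinearMap.zero_apply]
  have hw : ∀ n : N, ρ₁ n (ρ₂ n w) = ∑ i, ρ₁ n ((b.coord i (ρ₂ n w)) • b i) := by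
    intro n
    conv_lhs => rw [← b.sum_repr (ρ₂ n w)]
    rw [map_sum]
    rfl
  simp only [hw]
  rw [Finset.sum_comm]
  apply Finset.sum_eq_zero
  intro i _
  have h3 := hF ((LinearMap.applyₗ w : Module.Dual ℂ V →ₗ[ℂ] ℂ).smulRight (b i))
  have h4 := congrArg (fun F : Module.Dual ℂ V →ₗ[ℂ] V => F (b.coord i)) h3
  simp only [LinearMap.sum_apply, LinearMap.zero_apply] at h4
  rw [← h4]
  refine Finset.sum_congr rfl fun n _ => ?_
  simp [hτ, Representation.linHom_apply, Representation.dual_apply, Module.Dual.transpose_apply]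

end Twisted

section Induced

variable {G : Type u} [Group G] [Fintype G]

/-- The Frobenius–Schur indicator of an induced function. -/
theorem indicator_indFun (H : Subgroup G) [Fintype H] (θ : H → ℂ) :
    H78.indicator (indFun H θ) = (Nat.card H : ℂ)⁻¹ * ∑ g : G, extendByZero H θ (g * g) := by
  unfold H78.indicator
  simp only [indFun_apply]
  rw [← Finset.mul_sum, Finset.sum_comm]
  have h1 : ∀ x : G, ∑ g : G, extendByZero H θ (x⁻¹ * (g * g) * x) =
      ∑ g : G, extendByZero H θ (g * g) := by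
    intro x
    rw [← Equiv.sum_comp (MulAut.conj x⁻¹).toEquiv (fun g => extendByZero H θ (g * g))]
    refine Finset.sum_congr rfl fun g _ => ?_
    congr 1
    simp only [MulEquiv.toEquiv_eq_coe, MulEquiv.coe_toEquiv, MulAut.conj_apply, inv_inv]
    group
  simp only [h1, Finset.sum_const, Finset.card_univ, nsmul_eq_mul]
  rw [← Nat.card_eq_fintype_card]
  have hG0 : (Nat.card G : ℂ) ≠ 0 := by exact_mod_cast Nat.card_pos.ne'
  field_simp

variable (N : Subgroup G) [hN : N.Normal] [Fintype N]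

/-- Key vanishing: for `g ∉ I` (the inertia group of the real-valued `φ = ψ|N`),
`∑_{n ∈ N} ψ°((g n)²) = 0`. -/
theorem sum_extendByZero_sq_coset (φ : IrrCharacter N) (hφreal : ∀ n, (φ.1 n).im = 0)
    (I : Subgroup G) [Fintype I] (hI : I = inertia N φ.1) (hNI : N ≤ I)
    (ψ : IrrCharacter I) (hext : ∀ n : N, ψ.1 ⟨n, hNI n.2⟩ = φ.1 n) (g : G) (hg : g ∉ I) :
    ∑ n : N, extendByZero I ψ.1 ((g * n) * (g * n)) = 0 := by
  classical
  have hconjmem : ∀ n : N, g⁻¹ * (n : G) * g ∈ N := fun n => by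
    simpa using hN.conj_mem n n.2 g⁻¹
  by_cases hgg : g * g ∈ I
  · obtain ⟨d, ρ, hirr, hρ⟩ := ψ.2
    let ρ₂ : Representation ℂ N (Fin d → ℂ) := ρ.comp (Subgroup.inclusion hNI)
    let ρ₁ : Representation ℂ N (Fin d → ℂ) :=
      ρ₂.comp (MulAut.conjNormal g⁻¹ : MulAut N).toMonoidHom
    have hc₂ : ∀ n : N, ρ₂.character n = φ.1 n := by
      intro n
      show ρ.character (Subgroup.inclusion hNI n) = _
      rw [hρ]
      exact hext n
    have hc₁ : ∀ n : N, ρ₁.character n = conjChar N φ.1 g⁻¹ n := by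
      intro n
      show ρ₂.character ((MulAut.conjNormal g⁻¹ : MulAut N) n) = _
      rw [hc₂]
      rfl
    have hsum : ∑ n : N, ρ₁.character n * ρ₂.character n = 0 := by
      have h1 : classInner (conjChar N φ.1 g⁻¹) φ.1 = 0 := by
        rw [classInner_irr_irr (isIrrCharacter_conjChar N φ.2 g⁻¹) φ.2, if_neg]
        intro h
        apply hg
        have h' : g⁻¹ ∈ inertia N φ.1 := h
        rw [hI]
        simpa using (inertia N φ.1).inv_mem h'
      unfold classInner at h1
      have hN0 : (Nat.card N : ℂ)⁻¹ ≠ 0 := inv_ne_zero (by exact_mod_cast Nat.card_pos.ne')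
      have h2 := (mul_eq_zero.mp h1).resolve_left hN0
      rw [← h2]
      refine Finset.sum_congr rfl fun n _ => ?_
      rw [hc₁, hc₂, Complex.conj_eq_iff_im.mpr (hφreal n)]
    have hT : ∑ n : N, ρ₁ n * ρ₂ n = 0 := sum_comp_eq_zero_of_sum_char_mul ρ₁ ρ₂ hsum
    have hterm : ∀ n : N, extendByZero I ψ.1 ((g * n) * (g * n)) =
        LinearMap.trace ℂ _ (ρ ⟨g * g, hgg⟩ * (ρ₁ n * ρ₂ n)) := by
      intro n
      have hmem : (g * n) * (g * n) ∈ I := by
        have e : (g * n) * (g * n) = (g * g) * (g⁻¹ * n * g) * n := by group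
        rw [e]
        exact I.mul_mem (I.mul_mem hgg (hNI (hconjmem n))) (hNI n.2)
      rw [extendByZero_of_mem I ψ.1 hmem, ← hρ]
      show LinearMap.trace ℂ _ (ρ ⟨(g * n) * (g * n), hmem⟩) = _
      congr 1
      have e : (⟨(g * n) * (g * n), hmem⟩ : I) = ⟨g * g, hgg⟩ *
          (Subgroup.inclusion hNI ((MulAut.conjNormal g⁻¹ : MulAut N) n)) *
          (Subgroup.inclusion hNI n) := by
        apply Subtype.ext
        simp only [Subgroup.coe_mul, Subgroup.coe_inclusion, MulAut.conjNormal_apply, inv_inv]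
        group
      rw [e, map_mul, map_mul]
      rfl
    simp only [hterm]
    rw [← map_sum, ← Finset.mul_sum, hT, mul_zero, map_zero]
  · apply Finset.sum_eq_zero
    intro n _
    apply extendByZero_of_not_mem
    intro hmem
    apply hgg
    have e : g * g = (g * n) * (g * n) * (n : G)⁻¹ * (g⁻¹ * n * g)⁻¹ := by group
    rw [e]
    exact I.mul_mem (I.mul_mem hmem (I.inv_mem (hNI n.2))) (I.inv_mem (hNI (hconjmem n)))

theorem sum_extendByZero_sq_not_mem (φ : IrrCharacter N) (hφreal : ∀ n, (φ.1 n).im = 0)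
    (I : Subgroup G) [Fintype I] [DecidablePred (· ∈ I)] (hI : I = inertia N φ.1) (hNI : N ≤ I)
    (ψ : IrrCharacter I) (hext : ∀ n : N, ψ.1 ⟨n, hNI n.2⟩ = φ.1 n) :
    ∑ g : G, (if g ∈ I then 0 else extendByZero I ψ.1 (g * g)) = 0 := by
  classical
  set F : G → ℂ := fun g => if g ∈ I then 0 else extendByZero I ψ.1 (g * g) with hF
  have h1 : ∀ n : N, ∑ g : G, F (g * n) = ∑ g : G, F g := fun n =>
    Equiv.sum_comp (Equiv.mulRight (n : G)) F
  have h2 : ∑ n : N, ∑ g : G, F (g * n) = (Fintype.card N : ℂ) * ∑ g : G, F g := by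
    simp only [h1, Finset.sum_const, Finset.card_univ, nsmul_eq_mul]
  have h3 : ∑ n : N, ∑ g : G, F (g * n) = 0 := by
    rw [Finset.sum_comm]
    apply Finset.sum_eq_zero
    intro g _
    by_cases hg : g ∈ I
    · apply Finset.sum_eq_zero
      intro n _
      have hgn : g * n ∈ I := I.mul_mem hg (hNI n.2)
      simp [hF, hgn]
    · have hgn : ∀ n : N, g * n ∉ I := fun n h =>
        hg (by simpa using I.mul_mem h (I.inv_mem (hNI n.2)))
      simp only [hF, hgn, if_false]
      exact sum_extendByZero_sq_coset N φ hφreal I hI hNI ψ hext g hg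
  rw [h3] at h2
  have hc : (Fintype.card N : ℂ) ≠ 0 := by exact_mod_cast Fintype.card_ne_zero
  exact (mul_eq_zero.mp h2.symm).resolve_left hc

/-- If the real-valued `φ ∈ Irr(N)` extends to `ψ ∈ Irr(I)`, `I` the inertia group of `φ`, then
`ψ^G` and `ψ` have the same Frobenius–Schur indicator. -/
theorem indicator_indFun_of_inertia (φ : IrrCharacter N) (hφreal : ∀ n, (φ.1 n).im = 0)
    (I : Subgroup G) [Fintype I] (hI : I = inertia N φ.1) (hNI : N ≤ I)
    (ψ : IrrCharacter I) (hext : ∀ n : N, ψ.1 ⟨n, hNI n.2⟩ = φ.1 n) :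
    H78.indicator (indFun I ψ.1) = H78.indicator ψ.1 := by
  classical
  rw [indicator_indFun]
  unfold H78.indicator
  congr 1
  have h0 := sum_extendByZero_sq_not_mem N φ hφreal I hI hNI ψ hext
  have h1 : ∑ g : G, extendByZero I ψ.1 (g * g) =
      ∑ g : G, (if g ∈ I then extendByZero I ψ.1 (g * g) else 0) +
        ∑ g : G, (if g ∈ I then 0 else extendByZero I ψ.1 (g * g)) := by
    rw [← Finset.sum_add_distrib]
    refine Finset.sum_congr rfl fun g _ => ?_
    split_ifs <;> simp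
  rw [h1, h0, add_zero, ← Finset.sum_filter,
    Finset.sum_subtype (Finset.univ.filter (fun g : G => g ∈ I)) (p := fun g : G => g ∈ I)
      (by simp) (fun g => extendByZero I ψ.1 (g * g))]
  refine Finset.sum_congr rfl fun g _ => ?_
  exact extendByZero_coe I ψ.1 (g * g)

end Induced

section Main

variable {G : Type u} [Group G]

/-- If `φ ∈ Irr(N)` extends to `ψ ∈ Irr(I)`, `I` the inertia group, then `ψ^G` is irreducible
of degree `[G:I] φ(1)` and `[ψ^G|N, ψ^G|N] = [G:I]`. -/
theorem irr_indFun_of_extendible [Fintype G] (N : Subgroup G) [hN : N.Normal] [Fintype N]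
    (φ : IrrCharacter N) (I : Subgroup G) [Fintype I] (hI : I = inertia N φ.1) (hNI : N ≤ I)
    (ψ : IrrCharacter I) (hext : ∀ n : N, ψ.1 ⟨n, hNI n.2⟩ = φ.1 n) :
    IsIrrCharacter G (indFun I ψ.1) ∧ indFun I ψ.1 1 = (I.index : ℂ) * φ.1 1 ∧
      classInner (fun n : N => indFun I ψ.1 n) (fun n : N => indFun I ψ.1 n) = (I.index : ℂ) := by
  classical
  have hres : (fun n : N => ψ.1 ⟨n, hNI n.2⟩) = φ.1 := funext hext
  have h1 : classInner (fun n : N => ψ.1 ⟨n, hNI n.2⟩) φ.1 ≠ 0 := by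
    rw [hres, irr_inner_self φ]
    exact one_ne_zero
  obtain ⟨hirr, hmult⟩ := clifford_corr_irr φ.2 hNI hI ψ.2 h1
  rw [hres, irr_inner_self φ] at hmult
  have hind := indFun_res_of_le hNI ψ.1
  rw [hres] at hind
  have hidx : (Nat.card I : ℂ)⁻¹ * (Nat.card G : ℂ) = (I.index : ℂ) := by
    have h2 := Subgroup.card_mul_index I
    have hI0 : (Nat.card I : ℂ) ≠ 0 := by exact_mod_cast Nat.card_pos.ne'
    rw [← h2]
    push_cast
    field_simp
  refine ⟨hirr, ?_, ?_⟩
  · have h2 := congrFun hind 1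
    simp only [Pi.smul_apply, Finset.sum_apply, smul_eq_mul] at h2
    have h3 : ∀ x : G, conjChar N φ.1 x 1 = φ.1 1 := by
      intro x
      have e : (⟨x * ((1 : N) : G) * x⁻¹, hN.conj_mem ((1 : N) : G) (1 : N).2 x⟩ : N) = 1 :=
        Subtype.ext (by simp)
      show φ.1 ⟨x * ((1 : N) : G) * x⁻¹, hN.conj_mem ((1 : N) : G) (1 : N).2 x⟩ = φ.1 1
      rw [e]
    simp only [h3, Finset.sum_const, Finset.card_univ, nsmul_eq_mul] at h2
    rw [← hidx, Nat.card_eq_fintype_card (α := G), mul_assoc]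
    exact h2
  · conv_lhs => arg 2; rw [hind]
    rw [classInner_smul_right, classInner_sum_right]
    have h3 : ∀ x : G, classInner (fun n : N => indFun I ψ.1 n) (conjChar N φ.1 x) = 1 := by
      intro x
      rw [classInner_res_conjChar N (indFun_isClassFunction I ψ.1) φ.1 x, hmult]
    simp only [h3, Finset.sum_const, Finset.card_univ, nsmul_eq_mul, mul_one]
    rw [map_inv₀, Complex.conj_natCast, ← Nat.card_eq_fintype_card, hidx]

theorem linear_sq_eq_one_of_real [Finite G] (l : IrrCharacter G) (h1 : l.1 1 = 1)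
    (hreal : ∀ g, (l.1 g).im = 0) (g : G) : l.1 (g * g) = 1 := by
  rw [H82.irr_linear_mul l h1]
  have h2 := irr_linear_mul_conj l h1 g
  rwa [Complex.conj_eq_iff_im.mpr (hreal g)] at h2

/-- **S4912**. -/
theorem card_real_linear_le [Finite G] (N : Subgroup G) (hN : N.Normal)
    (hmin : ∀ M : Subgroup G, M.Normal → M ≤ N → M = ⊥ ∨ M = N) (hna : ¬ IsMulCommutative ↥N)
    (φ : IrrCharacter ↥N) (I : Subgroup G)
    (hI : ∀ g : G, g ∈ I ↔ ∀ n n' : ↥N, (n' : G) = g * (n : G) * g⁻¹ →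
      (φ : ↥N → ℂ) n' = (φ : ↥N → ℂ) n)
    (hNI : N ≤ I)
    (hext : ∃ ψ : IrrCharacter ↥I, (Nat.card ↥I : ℂ)⁻¹ * ∑ᶠ g : ↥I, (ψ : ↥I → ℂ) (g * g) = 1 ∧
      ∀ n : ↥N, (ψ : ↥I → ℂ) (Subgroup.inclusion hNI n) = (φ : ↥N → ℂ) n) :
    Nat.card {χ : IrrCharacter G // charDegree (χ : G → ℂ) = 1 ∧
        (Nat.card G : ℂ)⁻¹ * ∑ᶠ g : G, (χ : G → ℂ) (g * g) = 1} ≤
      I.index * Nat.card {χ : IrrCharacter G //
        charDegree (χ : G → ℂ) = charDegree (φ : ↥N → ℂ) * I.index ∧
          (Nat.card G : ℂ)⁻¹ * ∑ᶠ g : G, (χ : G → ℂ) (g * g) = 1} := by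
  classical
  haveI := hN
  have : Fintype G := Fintype.ofFinite G
  have : Fintype N := Fintype.ofFinite N
  have : Fintype I := Fintype.ofFinite I
  let _ := fintypeIrr G
  obtain ⟨ψ, hνψ, hψ⟩ := hext
  have hind : ∀ χ : G → ℂ, (Nat.card G : ℂ)⁻¹ * ∑ᶠ g : G, χ (g * g) = H78.indicator χ := by
    intro χ
    unfold H78.indicator
    rw [finsum_eq_sum_of_fintype]
  have hνψ' : H78.indicator ψ.1 = 1 := by
    unfold H78.indicator
    rw [← finsum_eq_sum_of_fintype]
    exact hνψ
  have hψreal : ∀ x : I, (ψ.1 x).im = 0 := by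
    intro x
    by_contra hx
    have h0 := H78.irr_indicator_eq_zero_of_not_real ψ x hx
    rw [hνψ'] at h0
    exact one_ne_zero h0
  have hφreal : ∀ n : N, (φ.1 n).im = 0 := fun n => by
    rw [← hψ n]
    exact hψreal _
  have hI' : I = inertia N φ.1 := eq_inertia_of_forall N I (fun g => by
    rw [hI]
    constructor
    · intro h n
      exact h n _ rfl
    · intro h n n' hn'
      have e : n' = ⟨g * n * g⁻¹, hN.conj_mem (n : G) n.2 g⟩ := Subtype.ext hn'
      rw [e]
      exact h n)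
  obtain ⟨hirr, hdeg, hnorm⟩ := irr_indFun_of_extendible N φ I hI' hNI ψ (fun n => hψ n)
  have hν₀ : H78.indicator (indFun I ψ.1) = 1 := by
    rw [indicator_indFun_of_inertia N φ hφreal I hI' hNI ψ (fun n => hψ n), hνψ']
  obtain ⟨χ₀, hχ₀⟩ : ∃ χ₀ : IrrCharacter G, χ₀.1 = indFun I ψ.1 := ⟨⟨indFun I ψ.1, hirr⟩, rfl⟩
  rw [← hχ₀] at hdeg hnorm hν₀
  have hNlin : ∀ l : IrrCharacter G, l.1 1 = 1 → ∀ n : N, l.1 n = 1 := fun l hl n =>
    linear_eq_one_of_mem_commutator l hl (le_commutator_of_minimal_nonabelian N hmin hna n.2)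
  have hone : ∀ l : IrrCharacter G, charDegree l.1 = 1 → l.1 1 = 1 := by
    intro l hl
    rw [H82.irr_one_eq_charDegree l, hl]
    simp
  have hlreal : ∀ l : IrrCharacter G, H78.indicator l.1 = 1 → ∀ g, (l.1 g).im = 0 := by
    intro l hl g
    by_contra hg
    have h0 := H78.irr_indicator_eq_zero_of_not_real l g hg
    rw [hl] at h0
    exact one_ne_zero h0
  have hνmul : ∀ l : IrrCharacter G, l.1 1 = 1 → H78.indicator l.1 = 1 →
      H78.indicator (fun g => l.1 g * χ₀.1 g) = 1 := by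
    intro l h1 hl
    rw [← hν₀]
    unfold H78.indicator
    congr 1
    refine Finset.sum_congr rfl fun g _ => ?_
    show l.1 (g * g) * χ₀.1 (g * g) = χ₀.1 (g * g)
    rw [linear_sq_eq_one_of_real l h1 (hlreal l hl) g, one_mul]
  let Φ : {χ : IrrCharacter G // charDegree (χ : G → ℂ) = 1 ∧
        (Nat.card G : ℂ)⁻¹ * ∑ᶠ g : G, (χ : G → ℂ) (g * g) = 1} →
      {χ : IrrCharacter G // charDegree (χ : G → ℂ) = charDegree (φ : ↥N → ℂ) * I.index ∧
          (Nat.card G : ℂ)⁻¹ * ∑ᶠ g : G, (χ : G → ℂ) (g * g) = 1} :=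
    fun l => ⟨⟨fun g => l.1.1 g * χ₀.1 g, isIrrCharacter_linear_mul l.1 χ₀ (hone l.1 l.2.1)⟩, by
      refine ⟨?_, ?_⟩
      · have h := H82.irr_one_eq_charDegree (⟨fun g => l.1.1 g * χ₀.1 g,
          isIrrCharacter_linear_mul l.1 χ₀ (hone l.1 l.2.1)⟩ : IrrCharacter G)
        have h' : (charDegree (fun g => l.1.1 g * χ₀.1 g) : ℂ) =
            ((charDegree φ.1 * I.index : ℕ) : ℂ) := by
          rw [← h]
          show l.1.1 1 * χ₀.1 1 = _
          rw [hone l.1 l.2.1, one_mul, hdeg, H82.irr_one_eq_charDegree φ]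
          push_cast
          ring
        exact_mod_cast h'
      · rw [hind]
        exact hνmul l.1 (hone l.1 l.2.1) (by rw [← hind]; exact l.2.2)⟩
  refine le_trans (le_of_eq (Nat.card_eq_fintype_card.trans Finset.card_univ.symm)) ?_
  refine le_trans (Finset.card_le_mul_card_image (f := Φ) Finset.univ I.index ?_)
    (Nat.mul_le_mul_left _ ((Finset.card_le_univ _).trans
      (le_of_eq Nat.card_eq_fintype_card.symm)))
  intro b hb
  obtain ⟨l₀, -, rfl⟩ := Finset.mem_image.mp hb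
  have h2 := card_le_of_mul_eq N χ₀ l₀.1 I.index hnorm (hone l₀.1 l₀.2.1) hNlin
    ((Finset.univ.filter (fun x => Φ x = Φ l₀)).map ⟨Subtype.val, Subtype.val_injective⟩) (by
      intro l hl
      obtain ⟨l', hl', rfl⟩ := Finset.mem_map.mp hl
      have hl'' : Φ l' = Φ l₀ := (Finset.mem_filter.mp hl').2
      exact ⟨hone l'.1 l'.2.1, congrArg (fun z => z.1.1) hl''⟩)
  rwa [Finset.card_map] at h2

end Main

end Cfsg.Agent.H83
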