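import Mathlib
import Cfsg.Prelude.Def_Characters
import Cfsg.Agent.H83.NormalSylow

/-!
# Real characters of `p'`-degree: the `p`-core over the odd residual (helper83)

Under the hypotheses of `nsyl_main`, every normal subgroup `U ⊇ K = pGen 2 G` of `G` with `U / K`
a `p`-group has a normal Sylow `p`-subgroup.
-/

set_option autoImplicit false
set_option linter.unusedSectionVars false
set_option linter.style.haveILetI false

namespace Cfsg.Agent.H83

open Cfsg Cfsg.Agent.H4 Cfsg.Agent.Clifford Cfsg.Agent.H82
open scoped ComplexConjugate

universe u

section MainU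

/-- The conclusion for `U`: its `p`-elements form a normal `p`-subgroup of `G`. -/
def NSylU (p : ℕ) (G : Type u) [Group G] (U : Subgroup G) : Prop :=
  ∃ P : Subgroup G, P.Normal ∧ IsPGroup p P ∧ P ≤ U ∧
    ∀ x ∈ U, (∃ k : ℕ, orderOf x = p ^ k) → x ∈ P

theorem nsylU_main (p : ℕ) [hp : Fact p.Prime] : ∀ (n : ℕ) (G : Type u) [Group G] [Finite G],
    Nat.card G ≤ n → Group.IsSolvable ↥(pGen p G) → RealHyp p G →
    ∀ U : Subgroup G, U.Normal → pGen 2 G ≤ U → (∀ x ∈ U, ∃ k : ℕ, x ^ p ^ k ∈ pGen 2 G) →
      NSylU p G U := by
  intro n
  induction n with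
  | zero =>
    intro G _ _ hcard
    exact absurd hcard (by have := Nat.card_pos (α := G); omega)
  | succ n ih =>
    intro G _ _ hcard hsolv hreal U hUn hKU hUK
    classical
    haveI : Fintype G := Fintype.ofFinite G
    haveI hKn : (pGen 2 G).Normal := pGen_normal 2
    haveI hLn : (pGen p G).Normal := pGen_normal p
    haveI := hUn
    haveI : Fact (Nat.Prime 2) := ⟨Nat.prime_two⟩
    -- the inductive hypothesis applied to a proper quotient
    have hquot : ∀ (N : Subgroup G) [N.Normal], N ≠ ⊥ →
        ∃ Pbar : Subgroup (G ⧸ N), Pbar.Normal ∧ IsPGroup p Pbar ∧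
          Pbar ≤ U.map (QuotientGroup.mk' N) ∧
          ∀ x ∈ U, (∃ k : ℕ, orderOf x = p ^ k) → QuotientGroup.mk' N x ∈ Pbar := by
      intro N hNn hN0
      have hcardQ : Nat.card (G ⧸ N) ≤ n := by
        have h1 : Nat.card G = Nat.card (G ⧸ N) * Nat.card N :=
          Subgroup.card_eq_card_quotient_mul_card_subgroup N
        have h2 : 1 < Nat.card N := (Subgroup.one_lt_card_iff_ne_bot N).mpr hN0
        have h3 : 0 < Nat.card (G ⧸ N) := Nat.card_pos
        nlinarith
      have hsolvQ : Group.IsSolvable ↥(pGen p (G ⧸ N)) := by
        have hle := pGen_quotient_le p N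
        haveI : Group.IsSolvable ↥((pGen p G).map (QuotientGroup.mk' N)) :=
          Group.isSolvable_of_surjective
            ((QuotientGroup.mk' N).subgroupMap_surjective (pGen p G))
        exact Group.isSolvable_of_isSolvable_injective (Subgroup.inclusion_injective hle)
      have hrealQ : RealHyp p (G ⧸ N) := by
        intro χ hχ
        rw [← charDegree_inflate N χ]
        apply hreal (inflate N χ)
        intro g
        rw [inflate_apply]; exact hχ _
      have hUbar_n : (U.map (QuotientGroup.mk' N)).Normal :=
        hUn.map _ (QuotientGroup.mk'_surjective N)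
      have hKUbar : pGen 2 (G ⧸ N) ≤ U.map (QuotientGroup.mk' N) :=
        (pGen_quotient_le 2 N).trans (Subgroup.map_mono hKU)
      have hUKbar : ∀ x ∈ U.map (QuotientGroup.mk' N), ∃ k : ℕ, x ^ p ^ k ∈ pGen 2 (G ⧸ N) := by
        rintro _ ⟨x, hx, rfl⟩
        obtain ⟨k, hk⟩ := hUK x hx
        exact ⟨k, by rw [← map_pow]; exact map_pGen_le 2 (QuotientGroup.mk' N) ⟨_, hk, rfl⟩⟩
      obtain ⟨Pbar, h1, h2, h3, h4⟩ := ih (G ⧸ N) hcardQ hsolvQ hrealQ _ hUbar_n hKUbar hUKbar
      exact ⟨Pbar, h1, h2, h3, fun x hx hxp => h4 _ ⟨x, hx, rfl⟩ (pElt_map p _ hxp)⟩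
    by_cases hOp : ∃ N₁ : Subgroup G, N₁.Normal ∧ N₁ ≠ ⊥ ∧ IsPGroup p N₁
    · -- a nontrivial normal `p`-subgroup
      obtain ⟨N₁, hN₁n, hN₁0, hN₁p⟩ := hOp
      haveI := hN₁n
      obtain ⟨Pbar, hPbn, hPbp, hPble, hPball⟩ := hquot N₁ hN₁0
      haveI : (Pbar.comap (QuotientGroup.mk' N₁)).Normal := hPbn.comap _
      refine ⟨Pbar.comap (QuotientGroup.mk' N₁) ⊓ U, Subgroup.normal_inf_normal _ _, ?_,
        inf_le_right, fun x hx hxp => ⟨hPball x hx hxp, hx⟩⟩
      intro x
      obtain ⟨k, hk⟩ := hPbp ⟨QuotientGroup.mk' N₁ (x : G), x.2.1⟩
      have h1 : (x : G) ^ p ^ k ∈ N₁ := by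
        have := congrArg Subtype.val hk
        rw [← QuotientGroup.eq_one_iff]
        simpa using this
      obtain ⟨j, hj⟩ := hN₁p ⟨_, h1⟩
      refine ⟨k + j, ?_⟩
      apply Subtype.ext
      have := congrArg Subtype.val hj
      simp only [Subgroup.coe_pow, Subgroup.coe_one] at this ⊢
      rw [pow_add, pow_mul]; exact this
    · -- no nontrivial normal `p`-subgroup
      push Not at hOp
      have hKp : ∀ x ∈ pGen 2 G, (∃ k : ℕ, orderOf x = p ^ k) → x = 1 := by
        obtain ⟨PK, hPKn, hPKp, hPKall⟩ := nsyl_main p (Nat.card G) G le_rfl hsolv hreal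
        have hbot : PK = ⊥ := by
          by_contra h
          exact hOp PK hPKn h hPKp
        intro x hx hxp
        have h2 := hPKall x hx hxp
        rwa [hbot, Subgroup.mem_bot] at h2
      have hKcop : ∀ x ∈ pGen 2 G, ¬ p ∣ orderOf x := by
        intro x hx hdvd
        have h1 : orderOf (x ^ (orderOf x / p)) = p :=
          orderOf_pow_orderOf_div (orderOf_pos x).ne' hdvd
        have h2 := hKp _ (Subgroup.pow_mem _ hx _) ⟨1, by rw [h1, pow_one]⟩
        rw [h2, orderOf_one] at h1
        exact hp.out.ne_one h1.symm
      by_cases hL : pGen p G = ⊥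
      · refine ⟨⊥, Subgroup.normal_bot, IsPGroup.of_bot, bot_le, ?_⟩
        intro x _ hxp
        have : x ∈ pGen p G := Subgroup.subset_closure hxp
        rwa [hL] at this
      · obtain ⟨N, hNn, hN0, hNL, hNmin⟩ := exists_min_normal_le (pGen p G) hL
        haveI := hNn
        have hsolN : Group.IsSolvable N :=
          Group.isSolvable_of_isSolvable_injective (Subgroup.inclusion_injective hNL)
        have hcomm := comm_of_min_normal_solvable N hN0 hNmin hsolN
        have hNp : ¬ p ∣ Nat.card N := by
          rcases isPGroup_or_of_min_normal p N hNmin hcomm with h | h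
          · exact absurd h (hOp N hNn hN0)
          · exact h
        obtain ⟨Pbar, hPbn, hPbp, hPble, hPball⟩ := hquot N hN0
        obtain ⟨M, hMdef⟩ : ∃ M : Subgroup G, M = Pbar.comap (QuotientGroup.mk' N) := ⟨_, rfl⟩
        haveI hMn : M.Normal := by rw [hMdef]; exact hPbn.comap _
        have hmemM : ∀ x : G, x ∈ M ↔ QuotientGroup.mk' N x ∈ Pbar := by
          intro x; rw [hMdef]; exact Subgroup.mem_comap
        have hNM : N ≤ M := by
          intro x hx
          rw [hmemM, QuotientGroup.mk'_apply, (QuotientGroup.eq_one_iff x).mpr hx]
          exact Pbar.one_mem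
        have hMall : ∀ x ∈ U, (∃ k : ℕ, orderOf x = p ^ k) → x ∈ M :=
          fun x hx hxp => (hmemM x).mpr (hPball x hx hxp)
        have hMUN : M ≤ U ⊔ N := by
          intro x hx
          have h2 : x ∈ (U.map (QuotientGroup.mk' N)).comap (QuotientGroup.mk' N) :=
            hPble ((hmemM x).mp hx)
          rwa [Subgroup.comap_map_eq, QuotientGroup.ker_mk'] at h2
        obtain ⟨P'⟩ : Nonempty (Sylow p M) := inferInstance
        obtain ⟨P, hPdef⟩ : ∃ P : Subgroup G, P = (P' : Subgroup M).map M.subtype := ⟨_, rfl⟩
        have hPM : P ≤ M := by rw [hPdef]; exact Subgroup.map_subtype_le _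
        have hPp : IsPGroup p P := by rw [hPdef]; exact P'.isPGroup'.map _
        have hMPN : M = P ⊔ N := by
          apply le_antisymm _ (sup_le hPM hNM)
          intro x hx
          let φ : ↥M →* ↥Pbar :=
            MonoidHom.codRestrict ((QuotientGroup.mk' N).comp M.subtype) Pbar
              (fun y => (hmemM y).mp y.2)
          have hφ : Function.Surjective φ := by
            rintro ⟨q, hq⟩
            obtain ⟨g, rfl⟩ := QuotientGroup.mk_surjective q
            exact ⟨⟨g, (hmemM g).mpr hq⟩, rfl⟩
          have hS := (P'.mapSurjective hφ).is_maximal' (Q := ⊤) (hPbp.to_subgroup ⊤) le_top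
          have h1 : φ ⟨x, hx⟩ ∈ (P' : Subgroup M).map φ := by
            rw [← Sylow.coe_mapSurjective hφ, ← hS]; exact Subgroup.mem_top _
          obtain ⟨y, hy, hyx⟩ := h1
          have h2 : QuotientGroup.mk' N (y : G) = QuotientGroup.mk' N x :=
            congrArg Subtype.val hyx
          have h3 : (y : G)⁻¹ * x ∈ N := by
            rw [← QuotientGroup.eq_one_iff, QuotientGroup.mk_mul, QuotientGroup.mk_inv]
            rw [QuotientGroup.mk'_apply, QuotientGroup.mk'_apply] at h2
            rw [h2]; simp
          have h4 : x = (y : G) * ((y : G)⁻¹ * x) := by group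
          rw [h4]
          exact Subgroup.mul_mem _ (Subgroup.mem_sup_left (by rw [hPdef]; exact ⟨y, hy, rfl⟩))
            (Subgroup.mem_sup_right h3)
        have hidx : ∃ a : ℕ, N.relIndex M = p ^ a := by
          have h1 : N.relIndex M = Nat.card (M.map (QuotientGroup.mk' N)) := by
            have := Subgroup.relIndex_ker M (QuotientGroup.mk' N)
            rwa [QuotientGroup.ker_mk'] at this
          rw [h1, hMdef,
            Subgroup.map_comap_eq_self_of_surjective (QuotientGroup.mk'_surjective N)]
          exact IsPGroup.iff_card.mp hPbp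
        by_cases hcent : ∀ m ∈ N, ∀ x ∈ M, x * m = m * x
        · -- `N` is central in `M`, so `P` is normal in `G`
          have hPall : ∀ y ∈ M, (∃ k : ℕ, orderOf y = p ^ k) → y ∈ P := by
            intro y hy ⟨k, hk⟩
            rw [hMPN, Subgroup.mem_sup_of_normal_right] at hy
            obtain ⟨a, ha, m, hm, rfl⟩ := hy
            have hcomm' : Commute a m := hcent m hm a (hPM ha)
            obtain ⟨j, hj⟩ := hPp ⟨a, ha⟩
            have haj : a ^ p ^ j = 1 := by simpa using congrArg Subtype.val hj
            have h1 : m ^ p ^ (k + j) = 1 := by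
              have h2 : (a * m) ^ p ^ (k + j) = 1 := by
                rw [pow_add, pow_mul, ← hk, pow_orderOf_eq_one, one_pow]
              rw [hcomm'.mul_pow] at h2
              have h3 : a ^ p ^ (k + j) = 1 := by
                rw [pow_add, mul_comm, pow_mul, haj, one_pow]
              rwa [h3, one_mul] at h2
            have hm1 : m = 1 := by
              have hd1 : orderOf m ∣ p ^ (k + j) := orderOf_dvd_of_pow_eq_one h1
              have hd2 : orderOf m ∣ Nat.card N := Subgroup.orderOf_dvd_natCard N hm
              have hcop : Nat.Coprime (p ^ (k + j)) (Nat.card N) :=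
                Nat.Coprime.pow_left _ ((Nat.Prime.coprime_iff_not_dvd hp.out).mpr hNp)
              exact orderOf_eq_one_iff.mp (Nat.eq_one_of_dvd_coprimes hcop hd1 hd2)
            rw [hm1, mul_one]; exact ha
          have hPn : P.Normal := by
            constructor
            intro x hx g
            apply hPall _ (hMn.conj_mem x (hPM hx) g)
            obtain ⟨k, hk⟩ := hPp ⟨x, hx⟩
            have hxk : x ^ p ^ k = 1 := by simpa using congrArg Subtype.val hk
            apply pElt_of_pow_eq_one p (k := k)
            rw [conj_pow, hxk]; simp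
          haveI := hPn
          exact ⟨P ⊓ U, Subgroup.normal_inf_normal _ _, hPp.to_le inf_le_left, inf_le_right,
            fun x hx hxp => ⟨hPall x (hMall x hx hxp) hxp, hx⟩⟩
        · exfalso
          have hCn : (N ⊓ Subgroup.centralizer (M : Set G)).Normal :=
            Subgroup.normal_inf_normal _ _
          have hCbot : N ⊓ Subgroup.centralizer (M : Set G) = ⊥ := by
            rcases hNmin _ hCn inf_le_left with h | h
            · exact h
            · exfalso
              apply hcent
              intro m hm x hx
              have : m ∈ N ⊓ Subgroup.centralizer (M : Set G) := by rw [h]; exact hm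
              exact Subgroup.mem_centralizer_iff.mp this.2 x hx
          have hfix : ∀ m ∈ N, (∀ x ∈ P, x * m = m * x) → m = 1 := by
            intro m hm hx
            have : m ∈ N ⊓ Subgroup.centralizer (M : Set G) := by
              refine ⟨hm, ?_⟩
              show m ∈ Subgroup.centralizer (M : Set G)
              rw [Subgroup.mem_centralizer_iff]
              intro y hy
              rw [SetLike.mem_coe, hMPN, Subgroup.mem_sup_of_normal_right] at hy
              obtain ⟨a, ha, m', hm', rfl⟩ := hy
              calc a * m' * m = a * (m' * m) := by group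
                _ = a * (m * m') := by rw [hcomm m' hm' m hm]
                _ = (a * m) * m' := by group
                _ = (m * a) * m' := by rw [hx a ha]
                _ = m * (a * m') := by group
            rw [hCbot, Subgroup.mem_bot] at this
            exact this
          have hAll : ∀ χ : IrrCharacter G, (∀ g : G, (χ.1 g).im = 0) →
              ∀ x ∈ N, χ.1 x = χ.1 1 := by
            intro χ hχ
            by_contra hnot
            exact hreal χ hχ (dvd_degree_of_fixed_point_free p N M P hPM hPp hidx hNp
              hfix χ hnot)
          rcases Nat.even_or_odd (Nat.card N) with heven | hodd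
          · -- a complement: the normalizer of `P`
            have hsup : Subgroup.normalizer (P : Set G) ⊔ N = ⊤ := by
              have h1 := Sylow.normalizer_sup_eq_top P'
              rw [← hPdef, hMPN] at h1
              have h3 : P ≤ Subgroup.normalizer (P : Set G) := Subgroup.le_normalizer
              rw [← sup_assoc, sup_eq_left.mpr h3] at h1
              exact h1
            have hPN : P ⊓ N = ⊥ := by
              apply disjoint_iff.mp
              apply Subgroup.disjoint_of_coprime_natCard
              obtain ⟨k, hk⟩ := IsPGroup.iff_card.mp hPp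
              rw [hk]
              exact Nat.Coprime.pow_left _ ((Nat.Prime.coprime_iff_not_dvd hp.out).mpr hNp)
            have hdisj : N ⊓ Subgroup.normalizer (P : Set G) = ⊥ := by
              rw [eq_bot_iff]
              rintro m ⟨hm, hmH⟩
              rw [Subgroup.mem_bot]
              apply hfix m hm
              intro x hx
              have h1 : m * x * m⁻¹ ∈ P := (Subgroup.mem_normalizer_iff.mp hmH x).mp hx
              have h2 : m * x * m⁻¹ * x⁻¹ ∈ P ⊓ N := by
                refine ⟨Subgroup.mul_mem _ h1 (Subgroup.inv_mem _ hx), ?_⟩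
                have : m * x * m⁻¹ * x⁻¹ = m * (x * m⁻¹ * x⁻¹) := by group
                rw [this]
                exact N.mul_mem hm (hNn.conj_mem _ (N.inv_mem hm) x)
              rw [hPN, Subgroup.mem_bot] at h2
              calc x * m = (m * x * m⁻¹ * x⁻¹) * (x * m) := by rw [h2, one_mul]
                _ = m * x := by group
            have hidxH : (Subgroup.normalizer (P : Set G)).index = Nat.card N := by
              have hc : Subgroup.IsComplement' N (Subgroup.normalizer (P : Set G)) := by
                apply Subgroup.isComplement'_of_disjoint_and_mul_eq_univ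
                · exact disjoint_iff.mpr hdisj
                · rw [← Subgroup.normal_mul, sup_comm, hsup]; rfl
              exact hc.index_eq_card
            obtain ⟨χ, hχr, hχn⟩ := exists_real_not_ker_of_complement N _ hdisj hidxH heven
            exact hχn (hAll χ hχr)
          · -- odd order: the `2`-elements centralize `N`
            have h1 := two_elements_centralize N hodd hAll
            have hPcN : ∀ y ∈ P, ∀ m ∈ N, y * m = m * y := by
              rcases hNmin (N ⊓ U) (Subgroup.normal_inf_normal _ _) inf_le_left with hNU | hNU
              · -- `U` centralizes `N`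
                have hUc : ∀ u ∈ U, ∀ m ∈ N, u * m = m * u := by
                  intro u hu m hm
                  have hc : u * m * u⁻¹ * m⁻¹ ∈ N ⊓ U := by
                    refine ⟨N.mul_mem (hNn.conj_mem m hm u) (N.inv_mem hm), ?_⟩
                    have : u * m * u⁻¹ * m⁻¹ = u * (m * u⁻¹ * m⁻¹) := by group
                    rw [this]
                    exact U.mul_mem hu (hUn.conj_mem _ (U.inv_mem hu) m)
                  rw [hNU, Subgroup.mem_bot] at hc
                  calc u * m = (u * m * u⁻¹ * m⁻¹) * (m * u) := by group
                    _ = m * u := by rw [hc, one_mul]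
                intro y hy m hm
                have hy' := hMUN (hPM hy)
                rw [Subgroup.mem_sup_of_normal_right] at hy'
                obtain ⟨u, hu, m', hm', rfl⟩ := hy'
                calc u * m' * m = u * (m' * m) := by group
                  _ = u * (m * m') := by rw [hcomm m' hm' m hm]
                  _ = (u * m) * m' := by group
                  _ = (m * u) * m' := by rw [hUc u hu m hm]
                  _ = m * (u * m') := by group
              · -- `N ≤ U`, so `N ≤ K`
                have hNU' : N ≤ U := by rw [← hNU]; exact inf_le_right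
                have hNK : N ≤ pGen 2 G := by
                  intro m hm
                  obtain ⟨k, hk⟩ := hUK m (hNU' hm)
                  have hc : (p ^ k).Coprime (orderOf m) := by
                    apply Nat.Coprime.pow_left
                    rw [Nat.Prime.coprime_iff_not_dvd hp.out]
                    intro hd
                    exact hNp (dvd_trans hd (Subgroup.orderOf_dvd_natCard N hm))
                  obtain ⟨j, hj⟩ := exists_pow_eq_self_of_coprime hc
                  rw [← hj]; exact Subgroup.pow_mem _ hk j
                intro y hy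
                have hyK : pGen 2 G ≤ Subgroup.centralizer ({y} : Set G) := by
                  conv_lhs => unfold pGen
                  rw [Subgroup.closure_le]
                  rintro t ⟨a, ha⟩
                  rw [SetLike.mem_coe, Subgroup.mem_centralizer_iff]
                  intro y' hy'
                  rw [Set.mem_singleton_iff] at hy'
                  subst hy'
                  have htK : t ∈ pGen 2 G := Subgroup.subset_closure ⟨a, ha⟩
                  obtain ⟨c, hc⟩ : ∃ c : G, c = y' * t * y'⁻¹ * t⁻¹ := ⟨_, rfl⟩
                  have hcM : c ∈ M := by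
                    have : c = y' * (t * y'⁻¹ * t⁻¹) := by rw [hc]; group
                    rw [this]
                    exact M.mul_mem (hPM hy) (hMn.conj_mem _ (M.inv_mem (hPM hy)) t)
                  have hcK : c ∈ pGen 2 G := by
                    rw [hc]
                    exact (pGen 2 G).mul_mem (hKn.conj_mem t htK y') ((pGen 2 G).inv_mem htK)
                  have hcN : c ∈ N := by
                    obtain ⟨k, hk⟩ := hPbp ⟨QuotientGroup.mk' N c, (hmemM c).mp hcM⟩
                    have h2 : c ^ p ^ k ∈ N := by
                      have := congrArg Subtype.val hk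
                      rw [← QuotientGroup.eq_one_iff]
                      simpa using this
                    have hcop : (p ^ k).Coprime (orderOf c) := by
                      apply Nat.Coprime.pow_left
                      rw [Nat.Prime.coprime_iff_not_dvd hp.out]
                      exact hKcop c hcK
                    obtain ⟨j, hj⟩ := exists_pow_eq_self_of_coprime hcop
                    rw [← hj]; exact N.pow_mem h2 j
                  have hct : Commute c t := Subgroup.mem_centralizer_iff.mp (h1 htK) c hcN
                  have hyt : c * t = y' * t * y'⁻¹ := by rw [hc]; group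
                  have h3 : (c * t) ^ 2 ^ a = 1 := by
                    rw [hyt, conj_pow, ← ha, pow_orderOf_eq_one]; group
                  rw [hct.mul_pow] at h3
                  have h4 : t ^ 2 ^ a = 1 := by rw [← ha, pow_orderOf_eq_one]
                  rw [h4, mul_one] at h3
                  have hc1 : c = 1 := by
                    have hd1 : orderOf c ∣ 2 ^ a := orderOf_dvd_of_pow_eq_one h3
                    have hd2 : orderOf c ∣ Nat.card N := Subgroup.orderOf_dvd_natCard N hcN
                    have hcop : Nat.Coprime (2 ^ a) (Nat.card N) :=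
                      Nat.Coprime.pow_left _ (Nat.coprime_two_left.mpr hodd)
                    exact orderOf_eq_one_iff.mp (Nat.eq_one_of_dvd_coprimes hcop hd1 hd2)
                  calc y' * t = (y' * t * y'⁻¹ * t⁻¹) * (t * y') := by group
                    _ = t * y' := by rw [← hc, hc1, one_mul]
                intro m hm
                exact Subgroup.mem_centralizer_iff.mp (hyK (hNK hm)) y rfl
            apply hN0
            rw [eq_bot_iff]
            intro m hm
            rw [Subgroup.mem_bot]
            exact hfix m hm (fun x hx => hPcN x hx m hm)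

/-- If the subgroup generated by the `p`-elements of `G` is solvable and every real-valued
irreducible character of `G` has degree prime to `p`, then every normal subgroup `U` containing
the subgroup `K` generated by the `2`-elements with `U / K` a `p`-group has a normal Sylow
`p`-subgroup. -/
theorem normal_sylow_U_of_real_pprime {G : Type u} [Group G] [Finite G] (p : ℕ) [Fact p.Prime]
    (hsolv : Group.IsSolvable ↥(Subgroup.closure {g : G | ∃ k : ℕ, orderOf g = p ^ k}))
    (hreal : ∀ χ : IrrCharacter G, (∀ g : G, ((χ : G → ℂ) g).im = 0) →
      ¬ p ∣ charDegree (χ : G → ℂ))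
    (U : Subgroup G) (hU : U.Normal)
    (hKU : Subgroup.closure {g : G | ∃ k : ℕ, orderOf g = 2 ^ k} ≤ U)
    (hUp : ∃ a : ℕ, (Subgroup.closure {g : G | ∃ k : ℕ, orderOf g = 2 ^ k}).relIndex U = p ^ a)
    (Q : Sylow p ↥U) : (Q : Subgroup ↥U).Normal := by
  haveI hKn : (pGen 2 G).Normal := pGen_normal 2
  have hUK : ∀ x ∈ U, ∃ k : ℕ, x ^ p ^ k ∈ pGen 2 G := by
    intro x hx
    obtain ⟨a, ha⟩ := hUp
    refine ⟨a, ?_⟩
    have h1 := Subgroup.pow_index_mem ((pGen 2 G).subgroupOf U) (⟨x, hx⟩ : U)
    have h2 : ((pGen 2 G).subgroupOf U).index = p ^ a := ha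
    rw [h2, Subgroup.mem_subgroupOf] at h1
    simpa using h1
  obtain ⟨P, hPn, hPp, hPU, hPall⟩ :=
    nsylU_main p (Nat.card G) G le_rfl hsolv hreal U hU hKU hUK
  have hQle : (Q : Subgroup ↥U) ≤ P.subgroupOf U := by
    intro x hx
    rw [Subgroup.mem_subgroupOf]
    apply hPall _ x.2
    obtain ⟨k, hk⟩ := Q.isPGroup' ⟨x, hx⟩
    apply pElt_of_pow_eq_one p (k := k)
    simpa using congrArg (fun z : (Q : Subgroup ↥U) => ((z : ↥U) : G)) hk
  have hPK : IsPGroup p (P.subgroupOf U) := hPp.comap_subtype
  have := Q.is_maximal' hPK hQle
  rw [← this]
  exact Subgroup.normal_subgroupOf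

end MainU

end Cfsg.Agent.H83
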