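import Mathlib
import Cfsg.Prelude.Def_Characters
import Cfsg.Agent.H4.Irr
import Cfsg.Agent.H4.RealClasses
import Cfsg.Agent.H4.BrauerPerm
import Cfsg.Agent.H83.Gagola2
import Cfsg.Agent.H83.OddIndex

/-!
# Orbits on real characters and real classes of a normal subgroup of odd index (helper83)

* `card_quot_mul_card` : Burnside's lemma for a `Quot` by an orbit relation;
* `realIrrAction`, `realElAction` : the conjugation actions of `G` on the real-valued irreducible
  characters / the real elements of a normal subgroup `K`;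
* `irrConj_smul_eq_iff` : for `K` of odd index, `conj (g • θ) = θ ↔ θ real ∧ g • θ = θ`;
* `sum_card_fixed_real_eq` : the fixed-point sums of the two actions agree (Brauer's permutation
  lemma);
* `card_orbits_real_irr_eq_card_orbits_real_el` : S4866.
-/

set_option autoImplicit false
set_option linter.style.haveILetI false
set_option linter.unusedSectionVars false

namespace Cfsg.Agent.H83

open Cfsg Cfsg.Agent.H4
open scoped ComplexConjugate

universe u

section Burnside

theorem natCard_subtype_eq_sum {α : Type*} [Fintype α] (P : α → Prop) [DecidablePred P] :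
    Nat.card {a // P a} = ∑ a, if P a then 1 else 0 := by
  rw [Nat.card_eq_fintype_card, Fintype.card_subtype, Finset.card_filter]

/-- Burnside's lemma for a quotient by a relation describing the orbits. -/
theorem card_quot_mul_card {G X : Type*} [Group G] [Fintype G] [MulAction G X] [Finite X]
    (r : X → X → Prop) (hr : ∀ x y, r x y ↔ ∃ g : G, g • x = y) :
    Nat.card (Quot r) * Nat.card G = ∑ g : G, Nat.card {x : X // g • x = x} := by
  have e : Quot r ≃ MulAction.orbitRel.Quotient G X := Quot.congrRight (fun a b => by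
    rw [hr]
    show _ ↔ a ∈ MulAction.orbit G b
    rw [MulAction.mem_orbit_iff]
    constructor
    · rintro ⟨g, rfl⟩; exact ⟨g⁻¹, inv_smul_smul g a⟩
    · rintro ⟨g, rfl⟩; exact ⟨g⁻¹, inv_smul_smul g b⟩)
  rw [Nat.card_congr e, ← Nat.card_prod,
    ← Nat.card_congr (MulAction.sigmaFixedByEquivOrbitsProdGroup G X), Nat.card_sigma]
  rfl

theorem mem_of_sq_mem_of_pow_odd_mem {G : Type*} [Group G] (T : Subgroup G) {g : G} {m : ℕ}
    (hm : Odd m) (h2 : g * g ∈ T) (hm' : g ^ m ∈ T) : g ∈ T := by
  obtain ⟨j, rfl⟩ := hm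
  have h3 : (g * g) ^ (j + 1) ∈ T := T.pow_mem h2 _
  have : g = (g * g) ^ (j + 1) * (g ^ (2 * j + 1))⁻¹ := by
    rw [eq_mul_inv_iff_mul_eq, ← pow_two, ← pow_mul, ← pow_succ']
    congr 1
  rw [this]
  exact T.mul_mem h3 (T.inv_mem hm')

end Burnside

section Actions

variable {G : Type u} [Group G] (K : Subgroup G) [hK : K.Normal]

/-- The conjugation action of `G` on the real-valued irreducible characters of `K ⊴ G`. -/
@[instance_reducible]
noncomputable def realIrrAction :
    MulAction G {θ : IrrCharacter K // ∀ k : K, ((θ : K → ℂ) k).im = 0} :=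
  letI := conjIrrAction K
  { smul := fun g θ => ⟨g • θ.1, fun _ => θ.2 _⟩
    one_smul := fun θ => Subtype.ext (one_smul G θ.1)
    mul_smul := fun g h θ => Subtype.ext (mul_smul g h θ.1) }

/-- The conjugation action of `G` on the real elements of `K ⊴ G`. -/
@[instance_reducible]
def realElAction : MulAction G {x : K // IsConj x x⁻¹} where
  smul g x := ⟨(MulAut.conjNormal g : MulAut K) x.1, by
    obtain ⟨c, hc⟩ := isConj_iff.mp x.2
    rw [isConj_iff]
    refine ⟨(MulAut.conjNormal g : MulAut K) c, ?_⟩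
    rw [← map_inv, ← map_mul, ← map_mul, hc, map_inv]⟩
  one_smul x := by
    apply Subtype.ext
    show (MulAut.conjNormal (1 : G) : MulAut K) x.1 = x.1
    simp
  mul_smul g h x := by
    apply Subtype.ext
    show (MulAut.conjNormal (g * h) : MulAut K) x.1 =
      (MulAut.conjNormal g : MulAut K) ((MulAut.conjNormal h : MulAut K) x.1)
    rw [map_mul]
    rfl

theorem smul_eq_of_mem (k : G) (hk : k ∈ K) (θ : IrrCharacter K) :
    (letI := conjIrrAction K; k • θ) = θ := by
  apply Subtype.ext
  funext n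
  rw [conjIrrAction_apply]
  have : (MulAut.conjNormal k⁻¹ : MulAut K) n = (⟨k, hk⟩ : K)⁻¹ * n * ((⟨k, hk⟩ : K)⁻¹)⁻¹ :=
    Subtype.ext (by simp)
  rw [this]
  exact irr_isClassFunction θ n _

theorem irrConj_smul_eq_iff [Finite G] (hodd : Odd K.index) (g : G) (θ : IrrCharacter K) :
    (letI := conjIrrAction K; irrConj (g • θ) = θ) ↔
      (∀ k : K, ((θ : K → ℂ) k).im = 0) ∧ (letI := conjIrrAction K; g • θ) = θ := by
  letI := conjIrrAction K
  constructor
  · intro h
    have h1 : g • irrConj θ = θ := h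
    have h2 : g • θ = irrConj θ := by
      have := congrArg irrConj h
      rwa [irrConj_irrConj] at this
    have h3 : (g * g) • θ = θ := by rw [mul_smul, h2, h1]
    have h4 : g ∈ MulAction.stabilizer G θ := by
      apply mem_of_sq_mem_of_pow_odd_mem _ hodd h3
      exact MulAction.mem_stabilizer_iff.mpr (smul_eq_of_mem K _ (Subgroup.pow_index_mem K g) θ)
    have h5 : g • θ = θ := h4
    refine ⟨(irrConj_eq_self_iff θ).mp ?_, h5⟩
    rw [← h2, h5]
  · rintro ⟨hreal, hfix⟩
    rw [hfix]
    exact (irrConj_eq_self_iff θ).mpr hreal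

end Actions

section Count

variable {G : Type u} [Group G] (K : Subgroup G) [hK : K.Normal]

/-- Brauer's permutation lemma for the twisted action `θ ↦ conj (g • θ)`, combined with the
odd-index reduction to real characters fixed by `g`. -/
theorem card_fixed_real_irr [Fintype G] [Fintype K] (hodd : Odd K.index) (g : G) :
    Nat.card K * Nat.card {θ : {θ : IrrCharacter K // ∀ k : K, ((θ : K → ℂ) k).im = 0} //
        (letI := realIrrAction K; g • θ) = θ} =
      ∑ h : K, Nat.card {c : K // (c : G) * (g⁻¹ * (h : G)⁻¹ * g) * (c : G)⁻¹ = h} := by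
  classical
  letI := conjIrrAction K
  letI := realIrrAction K
  have e : {θ : {θ : IrrCharacter K // ∀ k : K, ((θ : K → ℂ) k).im = 0} // g • θ = θ} ≃
      {θ : IrrCharacter K // irrConj (g • θ) = θ} :=
    { toFun := fun θ => ⟨θ.1.1,
        ((irrConj_smul_eq_iff K hodd g θ.1.1).mpr ⟨θ.1.2, congrArg Subtype.val θ.2⟩)⟩
      invFun := fun θ => ⟨⟨θ.1, ((irrConj_smul_eq_iff K hodd g θ.1).mp θ.2).1⟩,
        Subtype.ext ((irrConj_smul_eq_iff K hodd g θ.1).mp θ.2).2⟩
      left_inv := fun θ => rfl
      right_inv := fun θ => rfl }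
  rw [Nat.card_congr e]
  let β : K → K := fun k => ((MulAut.conjNormal g⁻¹ : MulAut K) k)⁻¹
  have hB := brauer_permutation β (fun θ => irrConj (g • θ)) (by
    intro χ k
    show conj (χ.1 ((MulAut.conjNormal g⁻¹ : MulAut K) k)) =
      χ.1 (((MulAut.conjNormal g⁻¹ : MulAut K) k)⁻¹)
    rw [irr_inv])
  have hB' : Nat.card K * Nat.card {θ : IrrCharacter K // irrConj (g • θ) = θ} =
      ∑ h : K, Nat.card {c : K // c * β h * c⁻¹ = h} := by
    exact_mod_cast hB
  rw [hB']
  refine Finset.sum_congr rfl fun h _ => ?_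
  apply Nat.card_congr
  apply Equiv.subtypeEquivRight
  intro c
  rw [Subtype.ext_iff]
  simp [β, mul_assoc]

theorem sum_triple [Fintype G] [Fintype K] :
    ∑ g : G, ∑ h : K, Nat.card {c : K // (c : G) * (g⁻¹ * (h : G)⁻¹ * g) * (c : G)⁻¹ = h} =
      Nat.card K * ∑ h : K, Nat.card {g : G // g * (h : G)⁻¹ * g⁻¹ = h} := by
  classical
  have hn : Nat.card K = (Finset.univ : Finset K).card := by
    rw [Nat.card_eq_fintype_card, Finset.card_univ]
  generalize Nat.card K = n at hn
  simp only [natCard_subtype_eq_sum]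
  rw [Finset.sum_comm, Finset.mul_sum]
  refine Finset.sum_congr rfl fun h _ => ?_
  rw [Finset.sum_comm, hn, ← smul_eq_mul, ← Finset.sum_const]
  refine Finset.sum_congr rfl fun c _ => ?_
  rw [← Equiv.sum_comp ((Equiv.inv G).trans (Equiv.mulLeft (c : G)))
    (fun g' => if g' * (h : G)⁻¹ * g'⁻¹ = h then 1 else 0)]
  refine Finset.sum_congr rfl fun g _ => ?_
  have : ((c : G) * (g⁻¹ * (h : G)⁻¹ * g) * (c : G)⁻¹ = h) ↔
      ((c : G) * g⁻¹) * (h : G)⁻¹ * ((c : G) * g⁻¹)⁻¹ = h := by
    rw [mul_inv_rev, inv_inv]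
    simp only [mul_assoc]
  simp [this]

theorem isConj_inv_of_conj_eq [Finite G] (hodd : Odd K.index) (h : K) (g : G)
    (hg : g * (h : G)⁻¹ * g⁻¹ = h) : IsConj h h⁻¹ := by
  obtain ⟨j, hj⟩ := hodd
  have h1 : g * (h : G) * g⁻¹ = (h : G)⁻¹ := by
    have := congrArg (·⁻¹) hg
    simpa [mul_assoc] using this
  have hcomm : Commute (g * g) (h : G) := by
    have e : g * g * (h : G) * (g * g)⁻¹ = h := by
      calc g * g * (h : G) * (g * g)⁻¹ = g * (g * h * g⁻¹) * g⁻¹ := by group
        _ = h := by rw [h1, hg]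
    exact eq_mul_of_mul_inv_eq e
  have hm : g ^ K.index ∈ K := Subgroup.pow_index_mem K g
  have hconj : g ^ K.index * (h : G)⁻¹ * (g ^ K.index)⁻¹ = h := by
    have e1 : g ^ K.index = (g * g) ^ j * g := by
      rw [hj, pow_succ, pow_mul, pow_two]
    have hc2 : Commute ((g * g) ^ j) (h : G) := hcomm.pow_left j
    rw [e1, mul_inv_rev]
    calc (g * g) ^ j * g * (h : G)⁻¹ * (g⁻¹ * ((g * g) ^ j)⁻¹)
        = (g * g) ^ j * (g * (h : G)⁻¹ * g⁻¹) * ((g * g) ^ j)⁻¹ := by group
      _ = (g * g) ^ j * h * ((g * g) ^ j)⁻¹ := by rw [hg]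
      _ = h := by rw [hc2.eq, mul_inv_cancel_right]
  rw [isConj_comm, isConj_iff]
  exact ⟨⟨g ^ K.index, hm⟩, Subtype.ext (by simpa using hconj)⟩

theorem sum_real_el [Fintype G] [Fintype K] (hodd : Odd K.index) :
    ∑ h : K, Nat.card {g : G // g * (h : G)⁻¹ * g⁻¹ = h} =
      ∑ g : G, Nat.card {x : {x : K // IsConj x x⁻¹} // (letI := realElAction K; g • x) = x} := by
  classical
  letI := realElAction K
  simp only [natCard_subtype_eq_sum]
  conv_rhs => rw [Finset.sum_comm]
  have h1 : ∀ h : K, (∑ g : G, if g * (h : G)⁻¹ * g⁻¹ = h then 1 else 0) =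
      if IsConj h h⁻¹ then (∑ g : G, if g * (h : G) * g⁻¹ = h then 1 else 0) else 0 := by
    intro h
    split_ifs with hc
    · obtain ⟨k₀, hk₀⟩ := isConj_iff.mp hc
      rw [← Equiv.sum_comp (Equiv.mulRight (k₀ : G))
        (fun g' => if g' * (h : G) * g'⁻¹ = h then 1 else 0)]
      refine Finset.sum_congr rfl fun g _ => ?_
      have hk₀' : (k₀ : G) * h * (k₀ : G)⁻¹ = (h : G)⁻¹ := by
        have := congrArg Subtype.val hk₀
        simpa using this
      have : (g * (k₀ : G)) * (h : G) * (g * (k₀ : G))⁻¹ = g * (h : G)⁻¹ * g⁻¹ := by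
        rw [← hk₀']
        group
      show (if g * (h : G)⁻¹ * g⁻¹ = h then 1 else 0) =
        if (g * (k₀ : G)) * (h : G) * (g * (k₀ : G))⁻¹ = h then 1 else 0
      rw [this]
    · apply Finset.sum_eq_zero
      intro g _
      rw [if_neg]
      intro hg
      exact hc (isConj_inv_of_conj_eq K hodd h g hg)
  simp only [h1]
  rw [← Finset.sum_filter, Finset.sum_subtype (Finset.univ.filter (fun h : K => IsConj h h⁻¹))
    (p := fun h : K => IsConj h h⁻¹) (by simp)
    (fun h : K => ∑ g : G, if g * (h : G) * g⁻¹ = h then 1 else 0)]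
  refine Finset.sum_congr rfl fun x _ => Finset.sum_congr rfl fun g _ => ?_
  have : (g • x = x) ↔ g * (x.1 : G) * g⁻¹ = x.1 := by
    rw [Subtype.ext_iff, Subtype.ext_iff]
    rfl
  exact (if_congr this rfl rfl).symm

/-- The fixed-point sums of `G` on real irreducible characters and on real elements of `K`
agree when `K` has odd index. -/
theorem sum_card_fixed_real_eq [Fintype G] [Fintype K] (hodd : Odd K.index) :
    ∑ g : G, Nat.card {θ : {θ : IrrCharacter K // ∀ k : K, ((θ : K → ℂ) k).im = 0} //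
        (letI := realIrrAction K; g • θ) = θ} =
      ∑ g : G, Nat.card {x : {x : K // IsConj x x⁻¹} // (letI := realElAction K; g • x) = x} := by
  have hK0 : 0 < Nat.card K := Nat.card_pos
  apply Nat.eq_of_mul_eq_mul_left hK0
  rw [Finset.mul_sum]
  simp only [card_fixed_real_irr K hodd]
  rw [sum_triple, sum_real_el K hodd]

end Count

section Main

variable {G : Type u} [Group G] (K : Subgroup G) [hK : K.Normal]

/-- **S4866**: for `K ⊴ G` of odd index, `G` has as many orbits on the real-valued irreducible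
characters of `K` as on the real elements of `K`. -/
theorem card_orbits_real_irr_eq_card_orbits_real_el [Finite G] (hodd : Odd K.index) :
    Nat.card (Quot (fun θ η : {θ : IrrCharacter K // (∀ k : K, ((θ : K → ℂ) k).im = 0)} =>
        ∃ g : G, ∀ k k' : K, (k' : G) = g * (k : G) * g⁻¹ → (η.1 : K → ℂ) k' = (θ.1 : K → ℂ) k)) =
      Nat.card (Quot (fun x y : {x : K // IsConj x x⁻¹} => ∃ g : G, (y.1 : G) = g * x.1 * g⁻¹)) := by
  classical
  have : Fintype G := Fintype.ofFinite G
  have : Fintype K := Fintype.ofFinite K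
  have : Finite (IrrCharacter K) := finite_irr K
  have hG : 0 < Nat.card G := Nat.card_pos
  apply Nat.eq_of_mul_eq_mul_right hG
  rw [@card_quot_mul_card G _ _ _ (realIrrAction K) _ _ (fun θ η => ?_),
    @card_quot_mul_card G _ _ _ (realElAction K) _ _ (fun x y => ?_)]
  · exact sum_card_fixed_real_eq K hodd
  · constructor
    · rintro ⟨g, hg⟩
      refine ⟨g, Subtype.ext (Subtype.ext ?_)⟩
      exact hg.symm
    · rintro ⟨g, hg⟩
      refine ⟨g, ?_⟩
      have := congrArg (fun z : {x : K // IsConj x x⁻¹} => ((z.1 : K) : G)) hg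
      exact this.symm
  · letI := conjIrrAction K
    constructor
    · rintro ⟨g, hg⟩
      refine ⟨g, Subtype.ext (Subtype.ext (funext fun n => ?_))⟩
      show (θ.1 : K → ℂ) ((MulAut.conjNormal g⁻¹ : MulAut K) n) = (η.1 : K → ℂ) n
      refine (hg _ n ?_).symm
      rw [MulAut.conjNormal_apply]
      group
    · rintro ⟨g, hg⟩
      refine ⟨g, fun k k' hk' => ?_⟩
      rw [← hg]
      show (θ.1 : K → ℂ) ((MulAut.conjNormal g⁻¹ : MulAut K) k') = (θ.1 : K → ℂ) k
      have e : (MulAut.conjNormal g⁻¹ : MulAut K) k' = k := by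
        apply Subtype.ext
        rw [MulAut.conjNormal_apply, hk']
        group
      rw [e]

end Main

end Cfsg.Agent.H83
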