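import Mathlib
import Cfsg.Prelude.Def_Blocks
import Cfsg.Agent.Lib.ItoConv
import Cfsg.Agent.H69.ClassSize
import Cfsg.Agent.H83.RealNormalizer
import Cfsg.Agent.S4445
import Cfsg.Agent.S0133

/-!
# Groups with a normal `p`-complement and exactly one irreducible character of degree divisible
by `p` (helper83)

`G` has a normal `p`-complement `N`, is not nilpotent, and has exactly one irreducible character
`χ₀` with `p ∣ χ₀(1)`.  Then `G` has exactly one conjugacy class of size divisible by `p`.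

* `sup_sylow_eq_top`, `inf_sylow_eq_bot`, `card_sylow_eq_index` : `G = N P`, `N ∩ P = 1`,
  `|P| = [G : N]`;
* `exists_pdvd_class` : if some irreducible character has degree divisible by `p`, some conjugacy
  class has size divisible by `p`;
* `quot_comm_of_unique` : `G/N` is abelian;
* `card_irr_le` : `k(G) ≤ 1 + m [G:N]`, `m` the number of `P`-invariant irreducible characters
  of `N`;
* `card_pprime_classes_ge` : at least `m' |P|` classes of `G` have size prime to `p`, `m'` the
  number of `P`-invariant classes of `N`;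
* `one_class_of_one_degree` : the theorem.
-/

set_option autoImplicit false
set_option linter.style.haveILetI false
set_option linter.unusedSectionVars false

namespace Cfsg.Agent.H83

open Cfsg Cfsg.Agent.H4 Cfsg.Agent.Clifford
open scoped ComplexConjugate

universe u

section Basic

variable {G : Type u} [Group G] [Finite G] (p : ℕ) [hp : Fact p.Prime]
  (N : Subgroup G) [hNn : N.Normal]

theorem sup_sylow_eq_top (hidx : ∃ k : ℕ, N.index = p ^ k) (P : Sylow p G) :
    N ⊔ (P : Subgroup G) = ⊤ := by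
  apply Subgroup.index_eq_one.mp
  obtain ⟨m, hm⟩ := hidx
  have h1 : (N ⊔ (P : Subgroup G)).index ∣ p ^ m := hm ▸ Subgroup.index_dvd_of_le le_sup_left
  have h2 : (N ⊔ (P : Subgroup G)).index ∣ (P : Subgroup G).index :=
    Subgroup.index_dvd_of_le le_sup_right
  have h3 : ¬ p ∣ (P : Subgroup G).index := P.not_dvd_index
  obtain ⟨j, -, hj⟩ := (Nat.dvd_prime_pow hp.out).mp h1
  rcases Nat.eq_zero_or_pos j with h0 | h0
  · rw [hj, h0, pow_zero]
  · exfalso
    apply h3
    exact dvd_trans (hj ▸ dvd_pow_self p h0.ne') h2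

theorem inf_sylow_eq_bot (hcop : (Nat.card N).Coprime p) (P : Sylow p G) :
    N ⊓ (P : Subgroup G) = ⊥ := by
  apply disjoint_iff.mp
  apply Subgroup.disjoint_of_coprime_natCard
  obtain ⟨k, hk⟩ := IsPGroup.iff_card.mp P.isPGroup'
  rw [hk]
  exact Nat.Coprime.pow_right _ hcop

theorem exists_mul_of_sup (hidx : ∃ k : ℕ, N.index = p ^ k) (P : Sylow p G) (g : G) :
    ∃ n ∈ N, ∃ s ∈ (P : Subgroup G), g = n * s := by
  have hg : g ∈ N ⊔ (P : Subgroup G) := by rw [sup_sylow_eq_top p N hidx P]; trivial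
  have h1 : g ∈ ((N ⊔ (P : Subgroup G) : Subgroup G) : Set G) := hg
  rw [Subgroup.normal_mul] at h1
  obtain ⟨n, hn, s, hs, rfl⟩ := Set.mem_mul.mp h1
  exact ⟨n, hn, s, hs, rfl⟩

theorem card_sylow_eq_index (hcop : (Nat.card N).Coprime p) (hidx : ∃ k : ℕ, N.index = p ^ k)
    (P : Sylow p G) : Nat.card (P : Subgroup G) = N.index := by
  obtain ⟨k, hk⟩ := hidx
  obtain ⟨j, hj⟩ := IsPGroup.iff_card.mp P.isPGroup'
  have h1 : Nat.card N * N.index = Nat.card G := Subgroup.card_mul_index N
  have h2 : Nat.card (P : Subgroup G) * (P : Subgroup G).index = Nat.card G :=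
    Subgroup.card_mul_index _
  have h3 : ¬ p ∣ (P : Subgroup G).index := P.not_dvd_index
  rw [hk] at h1 ⊢
  rw [hj] at h2 ⊢
  have hc1 : Nat.Coprime (p ^ j) (Nat.card N) := Nat.Coprime.pow_left _ hcop.symm
  have hc2 : Nat.Coprime (p ^ k) (P : Subgroup G).index :=
    Nat.Coprime.pow_left _ ((Nat.Prime.coprime_iff_not_dvd hp.out).mpr h3)
  have d1 : p ^ j ∣ p ^ k := by
    have : p ^ j ∣ Nat.card N * p ^ k := by rw [h1, ← h2]; exact dvd_mul_right _ _
    exact hc1.dvd_of_dvd_mul_left this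
  have d2 : p ^ k ∣ p ^ j := by
    have : p ^ k ∣ p ^ j * (P : Subgroup G).index := by rw [h2, ← h1]; exact dvd_mul_left _ _
    exact hc2.dvd_of_dvd_mul_right this
  exact Nat.dvd_antisymm d1 d2

/-- If the quotient `G/N` is abelian, the Sylow `p`-subgroups are abelian. -/
theorem sylow_comm_of_quot_comm (hcop : (Nat.card N).Coprime p)
    (hQ : ∀ a b : G ⧸ N, a * b = b * a) (P : Sylow p G) :
    ∀ a ∈ (P : Subgroup G), ∀ b ∈ (P : Subgroup G), a * b = b * a := by
  intro a ha b hb
  have h1 : a * b * a⁻¹ * b⁻¹ ∈ N := by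
    rw [← QuotientGroup.eq_one_iff]
    have h := hQ (a : G ⧸ N) (b : G ⧸ N)
    rw [QuotientGroup.mk_mul, QuotientGroup.mk_mul, QuotientGroup.mk_mul, QuotientGroup.mk_inv,
      QuotientGroup.mk_inv, h]
    group
  have h2 : a * b * a⁻¹ * b⁻¹ ∈ (P : Subgroup G) :=
    Subgroup.mul_mem _ (Subgroup.mul_mem _ (Subgroup.mul_mem _ ha hb) (Subgroup.inv_mem _ ha))
      (Subgroup.inv_mem _ hb)
  have h3 : a * b * a⁻¹ * b⁻¹ ∈ N ⊓ (P : Subgroup G) := ⟨h1, h2⟩
  rw [inf_sylow_eq_bot p N hcop P, Subgroup.mem_bot] at h3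
  calc a * b = a * b * a⁻¹ * b⁻¹ * (b * a) := by group
    _ = b * a := by rw [h3, one_mul]

end Basic

section ClassExists

variable {G : Type u} [Group G] [Finite G] (p : ℕ) [hp : Fact p.Prime]

/-- If some irreducible character has degree divisible by `p`, then some conjugacy class has
size divisible by `p`. -/
theorem exists_pdvd_class (χ₀ : IrrCharacter G) (hχ₀ : p ∣ charDegree χ₀.1) :
    ∃ C : ConjClasses G, p ∣ Nat.card C.carrier := by
  classical
  by_contra hcon
  push Not at hcon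
  obtain ⟨P⟩ : Nonempty (Sylow p G) := inferInstance
  have hZ : Subgroup.centralizer ((P : Subgroup G) : Set G) = ⊤ := by
    by_contra hne
    obtain ⟨g₀, hg₀⟩ := Cfsg.Agent.H62.exists_not_conj_mem _ hne
    have hI : ¬ p ∣ (Subgroup.centralizer ({g₀} : Set G)).index := by
      rw [← Cfsg.Agent.H69.card_carrier_eq_index]
      exact hcon _
    obtain ⟨x, hx⟩ := exists_conj_sylow_le p P _ hI
    apply hg₀ x⁻¹
    rw [Subgroup.mem_centralizer_iff]
    intro s hs
    have h1 := hx s hs
    rw [Subgroup.mem_centralizer_iff] at h1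
    have h2 := h1 g₀ (Set.mem_singleton g₀)
    -- h2 : g₀ * (x⁻¹ * s * x) = x⁻¹ * s * x * g₀
    calc s * (x⁻¹⁻¹ * g₀ * x⁻¹) = x * (x⁻¹ * s * x * g₀) * x⁻¹ := by group
      _ = x * (g₀ * (x⁻¹ * s * x)) * x⁻¹ := by rw [h2]
      _ = x⁻¹⁻¹ * g₀ * x⁻¹ * s := by group
  have hcomm : ∀ a ∈ (P : Subgroup G), ∀ b : G, b * a = a * b := by
    intro a ha b
    have hb : b ∈ Subgroup.centralizer ((P : Subgroup G) : Set G) := by rw [hZ]; trivial
    exact (Subgroup.mem_centralizer_iff.mp hb a ha).symm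
  haveI hPn : (P : Subgroup G).Normal := by
    constructor
    intro a ha g
    have : g * a * g⁻¹ = a := by rw [hcomm a ha g]; group
    rw [this]; exact ha
  have hab : ∀ a ∈ (P : Subgroup G), ∀ b ∈ (P : Subgroup G), a * b = b * a :=
    fun a ha b _ => (hcomm a ha b).symm
  exact Cfsg.Agent.ItoConv.pPrimeDeg_of_normal_abelian (P : Subgroup G) hab P.not_dvd_index χ₀ hχ₀

end ClassExists

section Abelian

variable {G : Type u} [Group G] [Finite G] (p : ℕ) [hp : Fact p.Prime]
  (N : Subgroup G) [hNn : N.Normal]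

/-- If the unique irreducible character of degree divisible by `p` is not trivial on `N`, then
`G/N` is abelian. -/
theorem quot_comm_of_not_ker (hidx : ∃ k : ℕ, N.index = p ^ k) (χ₀ : IrrCharacter G)
    (huniq : ∀ χ : IrrCharacter G, p ∣ charDegree χ.1 → χ = χ₀)
    (hnk : ¬ ∀ n ∈ N, χ₀.1 n = χ₀.1 1) : ∀ a b : G ⧸ N, a * b = b * a := by
  have hPP : Cfsg.Agent.ItoConv.PPrimeDeg p (G ⧸ N) := by
    intro ψ hd
    have h1 := huniq (Cfsg.Agent.H82.inflate N ψ)
      (by rw [Cfsg.Agent.H82.charDegree_inflate]; exact hd)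
    apply hnk
    intro n hn
    rw [← h1, Cfsg.Agent.H82.inflate_apply, Cfsg.Agent.H82.inflate_apply, QuotientGroup.mk_one,
      (QuotientGroup.eq_one_iff n).mpr hn]
  have hpg : IsPGroup p (G ⧸ N) := by
    obtain ⟨k, hk⟩ := hidx
    exact IsPGroup.of_card (n := k) (by rw [← Subgroup.index_eq_card]; exact hk)
  exact Cfsg.Agent.ItoConv.comm_of_pPrimeDeg_of_isPGroup hpg hPP

/-- The unique irreducible character of degree divisible by `p` cannot be trivial on `N`. -/
theorem false_of_ker (hcop : (Nat.card N).Coprime p) (hidx : ∃ k : ℕ, N.index = p ^ k)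
    (hnil : ¬ Group.IsNilpotent G) (χ₀ : IrrCharacter G) (hχ₀ : p ∣ charDegree χ₀.1)
    (huniq : ∀ χ : IrrCharacter G, p ∣ charDegree χ.1 → χ = χ₀)
    (hker : ∀ n ∈ N, χ₀.1 n = χ₀.1 1) : False := by
  classical
  haveI := Fintype.ofFinite G
  haveI : Fintype N := Fintype.ofFinite N
  obtain ⟨P⟩ : Nonempty (Sylow p G) := inferInstance
  -- every irreducible character of `N` is invariant
  have hinv : ∀ θ : IrrCharacter N, Clifford.inertia N θ.1 = ⊤ := by
    intro θ
    obtain ⟨χ, hχ, hne⟩ := Cfsg.Agent.ItoConv.exists_irr_over N θ.2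
    obtain ⟨f, hf⟩ := Cfsg.Agent.ItoConv.degree_over N θ ⟨χ, hχ⟩ hne
    have hNT : N ≤ Clifford.inertia N θ.1 :=
      le_inertia N (isClassFunction_of_isCharacter (isCharacter_of_isIrrCharacter θ.2))
    obtain ⟨m, hm⟩ := hidx
    have hd : (Clifford.inertia N θ.1).index ∣ p ^ m := hm ▸ Subgroup.index_dvd_of_le hNT
    obtain ⟨j, -, hj⟩ := (Nat.dvd_prime_pow hp.out).mp hd
    rcases Nat.eq_zero_or_pos j with h0 | h0
    · rw [h0, pow_zero] at hj
      exact Subgroup.index_eq_one.mp hj
    · have hpd : p ∣ charDegree (⟨χ, hχ⟩ : IrrCharacter G).1 := by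
        rw [hf, hj]
        exact Dvd.dvd.mul_right (Dvd.dvd.mul_right (dvd_pow_self p h0.ne') _) _
      have hχ0 : (⟨χ, hχ⟩ : IrrCharacter G) = χ₀ := huniq _ hpd
      have hχeq : χ = χ₀.1 := congrArg Subtype.val hχ0
      have hconst : (fun n : N => χ n) = (χ₀.1 1) • (1 : N → ℂ) := by
        funext n
        rw [hχeq]
        simp only [Pi.smul_apply, Pi.one_apply, smul_eq_mul, mul_one]
        exact hker n n.2
      rw [hconst, classInner_smul_left] at hne
      have h1 : classInner (1 : N → ℂ) θ.1 ≠ 0 := fun h => hne (by rw [h, mul_zero])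
      have hθ1 : (1 : N → ℂ) = θ.1 :=
        eq_of_classInner_ne_zero (Cfsg.Agent.H82.isIrrCharacter_one N) θ.2 h1
      rw [eq_top_iff]
      intro g _
      rw [Clifford.mem_inertia, ← hθ1]
      rfl
  have hcl := Cfsg.Agent.ItoConv.isConj_conj_of_invariant N hinv
  have hcent := Cfsg.Agent.ItoConv.centralizes_of_classes N (P : Subgroup G) P.isPGroup' hcop hcl
  -- `P` is normal
  haveI hPn : (P : Subgroup G).Normal := by
    constructor
    intro a ha g
    obtain ⟨n, hn, s, hs, rfl⟩ := exists_mul_of_sup p N hidx P g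
    have hsa : s * a * s⁻¹ ∈ (P : Subgroup G) :=
      Subgroup.mul_mem _ (Subgroup.mul_mem _ hs ha) (Subgroup.inv_mem _ hs)
    have h1 : (s * a * s⁻¹) * n = n * (s * a * s⁻¹) := hcent _ hsa n hn
    have h2 : n * s * a * (n * s)⁻¹ = s * a * s⁻¹ := by
      calc n * s * a * (n * s)⁻¹ = n * (s * a * s⁻¹) * n⁻¹ := by group
        _ = (s * a * s⁻¹) * n * n⁻¹ := by rw [h1]
        _ = s * a * s⁻¹ := by group
    rw [h2]
    exact hsa
  haveI : Fintype (P : Subgroup G) := Fintype.ofFinite _
  obtain ⟨ψ₀, hψ₀⟩ := Cfsg.Agent.H82.exists_deflate N χ₀ hker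
  have hsurj : Function.Surjective ((QuotientGroup.mk' N).comp (P : Subgroup G).subtype) := by
    intro q
    obtain ⟨g, rfl⟩ := QuotientGroup.mk_surjective q
    obtain ⟨n, hn, s, hs, rfl⟩ := exists_mul_of_sup p N hidx P g
    refine ⟨⟨s, hs⟩, ?_⟩
    show (QuotientGroup.mk s : G ⧸ N) = QuotientGroup.mk (n * s)
    rw [QuotientGroup.mk_mul, (QuotientGroup.eq_one_iff n).mpr hn, one_mul]
  have hμirr : IsIrrCharacter (P : Subgroup G) (fun s : (P : Subgroup G) => χ₀.1 s) := by
    have h := isIrrCharacter_comp_surjective _ hsurj ψ₀.2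
    have e : (fun s : (P : Subgroup G) => χ₀.1 s) =
        fun k => ψ₀.1 (((QuotientGroup.mk' N).comp (P : Subgroup G).subtype) k) := by
      funext s
      rw [← hψ₀]
      rfl
    rw [e]; exact h
  obtain ⟨μ₀, hμ₀⟩ : ∃ μ₀ : IrrCharacter (P : Subgroup G),
      μ₀.1 = fun s : (P : Subgroup G) => χ₀.1 s := ⟨⟨_, hμirr⟩, rfl⟩
  have hμ1 : μ₀.1 1 = χ₀.1 1 := by rw [hμ₀]; rfl
  have hμdeg : charDegree μ₀.1 = charDegree χ₀.1 := by
    change ⌊(μ₀.1 1).re⌋₊ = ⌊(χ₀.1 1).re⌋₊
    rw [hμ1]
  -- constituents of the induced character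
  have hcons : ∀ ψ : IrrCharacter G,
      classInner (indFun (P : Subgroup G) μ₀.1) ψ.1 ≠ 0 → ψ = χ₀ := by
    intro ψ hψ
    rw [frobenius_reciprocity (P : Subgroup G) μ₀.1 ψ.1 (irr_isClassFunction ψ)] at hψ
    have h1 : classInner (fun s : (P : Subgroup G) => ψ.1 s) μ₀.1 ≠ 0 := by
      rw [← classInner_conj_symm]
      exact fun h => hψ ((map_eq_zero (starRingEnd ℂ)).mp h)
    obtain ⟨f, hf⟩ := Cfsg.Agent.ItoConv.degree_over (P : Subgroup G) μ₀ ψ h1
    apply huniq
    rw [hf, hμdeg]
    exact Dvd.dvd.mul_left hχ₀ _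
  have hA : IsClassFunction G (indFun (P : Subgroup G) μ₀.1) := indFun_isClassFunction _ _
  have hdec := classFunction_eq_finsum hA
  have hinner : classInner (indFun (P : Subgroup G) μ₀.1) χ₀.1 = 1 := by
    rw [frobenius_reciprocity (P : Subgroup G) μ₀.1 χ₀.1 (irr_isClassFunction χ₀), ← hμ₀]
    exact irr_inner_self μ₀
  have hAeq : indFun (P : Subgroup G) μ₀.1 = χ₀.1 := by
    letI := fintypeIrr G
    refine hdec.trans ?_
    rw [finsum_irr_eq_sum, Finset.sum_eq_single χ₀]
    · rw [hinner, one_smul]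
    · intro ψ _ hne
      have : classInner (indFun (P : Subgroup G) μ₀.1) ψ.1 = 0 := by
        by_contra h
        exact hne (hcons ψ h)
      rw [this, zero_smul]
    · intro h; exact absurd (Finset.mem_univ χ₀) h
  have h1 := congrFun hAeq 1
  rw [indFun_one_eq, hμ1] at h1
  have h3 : ((P : Subgroup G).index : ℂ) = 1 := by
    have hne := Cfsg.Agent.H82.irr_one_ne_zero χ₀
    exact mul_right_cancel₀ hne (by rw [h1, one_mul])
  have h4 : (P : Subgroup G).index = 1 := by exact_mod_cast h3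
  have h5 : (P : Subgroup G) = ⊤ := Subgroup.index_eq_one.mp h4
  apply hnil
  have hG : IsPGroup p G := by
    intro g
    obtain ⟨k, hk⟩ := P.isPGroup' ⟨g, by rw [h5]; trivial⟩
    exact ⟨k, congrArg Subtype.val hk⟩
  exact hG.isNilpotent

/-- Under the hypotheses, `G/N` is abelian. -/
theorem quot_comm_of_unique (hcop : (Nat.card N).Coprime p) (hidx : ∃ k : ℕ, N.index = p ^ k)
    (hnil : ¬ Group.IsNilpotent G) (χ₀ : IrrCharacter G) (hχ₀ : p ∣ charDegree χ₀.1)
    (huniq : ∀ χ : IrrCharacter G, p ∣ charDegree χ.1 → χ = χ₀) :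
    ∀ a b : G ⧸ N, a * b = b * a := by
  by_cases hker : ∀ n ∈ N, χ₀.1 n = χ₀.1 1
  · exact (false_of_ker p N hcop hidx hnil χ₀ hχ₀ huniq hker).elim
  · exact quot_comm_of_not_ker p N hidx χ₀ huniq hker

end Abelian

section Upper

variable {G : Type u} [Group G] [Fintype G] (p : ℕ) [hp : Fact p.Prime]
  (N : Subgroup G) [hNn : N.Normal] [Fintype N]

/-- At most `[G : N]` irreducible characters of `G` lie over a given irreducible character of
`N`. -/
theorem card_over_le (θ : IrrCharacter N) :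
    Nat.card {χ : IrrCharacter G // classInner (fun n : N => χ.1 n) θ.1 ≠ 0} ≤ N.index := by
  classical
  letI := fintypeIrr G
  have hA : IsCharacter G (indFun N θ.1) :=
    isCharacter_indFun N θ.1 (isCharacter_of_isIrrCharacter θ.2)
  have hnat : ∀ χ : IrrCharacter G, ∃ m : ℕ, classInner (indFun N θ.1) χ.1 = m := fun χ =>
    classInner_isCharacter_nat hA (isCharacter_of_isIrrCharacter χ.2)
  choose m hm using hnat
  have hdec := classFunction_eq_finsum (isClassFunction_of_isCharacter hA)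
  have h1 := congrFun hdec 1
  rw [finsum_irr_apply, finsum_irr_eq_sum] at h1
  have h2 : N.index * charDegree θ.1 = ∑ χ : IrrCharacter G, m χ * charDegree χ.1 := by
    have : ((N.index * charDegree θ.1 : ℕ) : ℂ) =
        ((∑ χ : IrrCharacter G, m χ * charDegree χ.1 : ℕ) : ℂ) := by
      push_cast
      rw [← H82.irr_one_eq_charDegree θ, ← indFun_one_eq, h1]
      refine Finset.sum_congr rfl fun χ _ => ?_
      rw [hm χ, H82.irr_one_eq_charDegree χ]
    exact_mod_cast this
  have hcard : Nat.card {χ : IrrCharacter G // classInner (fun n : N => χ.1 n) θ.1 ≠ 0} =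
      (Finset.univ.filter
        (fun χ : IrrCharacter G => classInner (fun n : N => χ.1 n) θ.1 ≠ 0)).card := by
    rw [Nat.card_eq_fintype_card, Fintype.card_subtype]
  rw [hcard]
  have hdegpos : 0 < charDegree θ.1 := H82.charDegree_pos θ
  have h3 : (Finset.univ.filter
      (fun χ : IrrCharacter G => classInner (fun n : N => χ.1 n) θ.1 ≠ 0)).card * charDegree θ.1
      ≤ N.index * charDegree θ.1 := by
    rw [h2]
    calc (Finset.univ.filter
          (fun χ : IrrCharacter G => classInner (fun n : N => χ.1 n) θ.1 ≠ 0)).card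
            * charDegree θ.1
        = ∑ _χ ∈ Finset.univ.filter
            (fun χ : IrrCharacter G => classInner (fun n : N => χ.1 n) θ.1 ≠ 0),
            charDegree θ.1 := by rw [Finset.sum_const, smul_eq_mul]
      _ ≤ ∑ χ ∈ Finset.univ.filter
            (fun χ : IrrCharacter G => classInner (fun n : N => χ.1 n) θ.1 ≠ 0),
            m χ * charDegree χ.1 := by
          refine Finset.sum_le_sum fun χ hχ => ?_
          have hχ' : classInner (fun n : N => χ.1 n) θ.1 ≠ 0 := (Finset.mem_filter.mp hχ).2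
          obtain ⟨f, hf⟩ := Cfsg.Agent.ItoConv.degree_over N θ χ hχ'
          have hmpos : 1 ≤ m χ := by
            rw [Nat.one_le_iff_ne_zero]
            intro h0
            have h4 := hm χ
            rw [h0, Nat.cast_zero,
              frobenius_reciprocity N θ.1 χ.1 (irr_isClassFunction χ)] at h4
            apply hχ'
            rw [← classInner_conj_symm, h4, map_zero]
          have hdeg : charDegree θ.1 ≤ charDegree χ.1 := by
            have hpos := H82.charDegree_pos χ
            rw [hf] at hpos ⊢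
            have hi : 0 < (Clifford.inertia N θ.1).index * f :=
              Nat.pos_of_ne_zero (fun h => by rw [h, zero_mul] at hpos; exact lt_irrefl _ hpos)
            exact Nat.le_mul_of_pos_left _ hi
          calc charDegree θ.1 ≤ charDegree χ.1 := hdeg
            _ = 1 * charDegree χ.1 := (one_mul _).symm
            _ ≤ m χ * charDegree χ.1 := Nat.mul_le_mul_right _ hmpos
      _ ≤ ∑ χ : IrrCharacter G, m χ * charDegree χ.1 :=
          Finset.sum_le_sum_of_subset (Finset.filter_subset _ _)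
  exact Nat.le_of_mul_le_mul_right h3 hdegpos

/-- The number of irreducible characters is at most `1 + m [G : N]`, where `m` is the number of
`P`-invariant irreducible characters of `N`. -/
theorem card_irr_le (hidx : ∃ k : ℕ, N.index = p ^ k) (P : Sylow p G) (χ₀ : IrrCharacter G)
    (huniq : ∀ χ : IrrCharacter G, p ∣ charDegree χ.1 → χ = χ₀) :
    Nat.card (IrrCharacter G) ≤ 1 + Nat.card {θ : IrrCharacter N //
      ∀ s ∈ (P : Subgroup G), ∀ g g' : N, (g' : G) = s * g * s⁻¹ → θ.1 g' = θ.1 g} * N.index := by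
  classical
  haveI : Finite (IrrCharacter G) := finite_irr G
  haveI : Finite (IrrCharacter N) := finite_irr N
  have hex : ∀ χ : {χ : IrrCharacter G // χ ≠ χ₀}, ∃ θ : {θ : IrrCharacter N //
      ∀ s ∈ (P : Subgroup G), ∀ g g' : N, (g' : G) = s * g * s⁻¹ → θ.1 g' = θ.1 g},
      classInner (fun n : N => χ.1.1 n) θ.1.1 ≠ 0 := by
    rintro ⟨χ, hχ⟩
    obtain ⟨θ, hθ⟩ := exists_constituent_res N χ
    obtain ⟨f, hf⟩ := Cfsg.Agent.ItoConv.degree_over N θ χ hθ
    have hNT : N ≤ Clifford.inertia N θ.1 :=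
      le_inertia N (isClassFunction_of_isCharacter (isCharacter_of_isIrrCharacter θ.2))
    have htop : Clifford.inertia N θ.1 = ⊤ := by
      obtain ⟨m, hm⟩ := hidx
      have hd : (Clifford.inertia N θ.1).index ∣ p ^ m := hm ▸ Subgroup.index_dvd_of_le hNT
      obtain ⟨j, -, hj⟩ := (Nat.dvd_prime_pow hp.out).mp hd
      rcases Nat.eq_zero_or_pos j with h0 | h0
      · rw [h0, pow_zero] at hj
        exact Subgroup.index_eq_one.mp hj
      · exfalso
        apply hχ
        apply huniq
        rw [hf, hj]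
        exact Dvd.dvd.mul_right (Dvd.dvd.mul_right (dvd_pow_self p h0.ne') _) _
    refine ⟨⟨θ, ?_⟩, hθ⟩
    intro s _ g g' hg'
    have hs : s ∈ Clifford.inertia N θ.1 := by rw [htop]; trivial
    have h1 := (Clifford.mem_inertia_iff N).mp hs g
    rw [← h1]
    exact congrArg θ.1 (Subtype.ext hg')
  choose Φ hΦ using hex
  haveI : Fintype {χ : IrrCharacter G // χ ≠ χ₀} := Fintype.ofFinite _
  haveI : Fintype {θ : IrrCharacter N //
      ∀ s ∈ (P : Subgroup G), ∀ g g' : N, (g' : G) = s * g * s⁻¹ → θ.1 g' = θ.1 g} :=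
    Fintype.ofFinite _
  have hfib : ∀ θ ∈ (Finset.univ : Finset {χ : IrrCharacter G // χ ≠ χ₀}).image Φ,
      ((Finset.univ : Finset {χ : IrrCharacter G // χ ≠ χ₀}).filter
        (fun χ => Φ χ = θ)).card ≤ N.index := by
    intro θ _
    refine le_trans ?_ (card_over_le N θ.1)
    rw [← Nat.card_eq_finsetCard]
    refine Nat.card_le_card_of_injective (fun x => ⟨x.1.1, ?_⟩) ?_
    · have hx := (Finset.mem_filter.mp x.2).2
      have h1 := hΦ x.1
      rw [hx] at h1
      exact h1
    · intro x y hxy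
      have h1 : x.1.1 = y.1.1 := congrArg (fun z : {χ : IrrCharacter G //
        classInner (fun n : N => χ.1 n) θ.1.1 ≠ 0} => z.1) hxy
      exact Subtype.ext (Subtype.ext h1)
  have hcard1 := Finset.card_le_mul_card_image
    (Finset.univ : Finset {χ : IrrCharacter G // χ ≠ χ₀}) N.index hfib
  have hcard2 : ((Finset.univ : Finset {χ : IrrCharacter G // χ ≠ χ₀}).image Φ).card ≤
      Nat.card {θ : IrrCharacter N //
        ∀ s ∈ (P : Subgroup G), ∀ g g' : N, (g' : G) = s * g * s⁻¹ → θ.1 g' = θ.1 g} := by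
    rw [Nat.card_eq_fintype_card]
    exact Finset.card_le_univ _
  have hcard3 : Nat.card (IrrCharacter G) ≤ Nat.card {χ : IrrCharacter G // χ ≠ χ₀} + 1 := by
    rw [← Finite.card_option]
    refine Nat.card_le_card_of_injective
      (fun χ => if h : χ = χ₀ then none else some ⟨χ, h⟩) ?_
    intro a b hab
    by_cases ha : a = χ₀
    · by_cases hb : b = χ₀
      · rw [ha, hb]
      · simp [ha, hb] at hab
    · by_cases hb : b = χ₀
      · simp [ha, hb] at hab
      · simp only [ha, hb, dite_false, Option.some.injEq, Subtype.mk.injEq] at hab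
        exact hab
  have hcard4 : Nat.card {χ : IrrCharacter G // χ ≠ χ₀} =
      (Finset.univ : Finset {χ : IrrCharacter G // χ ≠ χ₀}).card := by
    rw [Nat.card_eq_fintype_card, Finset.card_univ]
  calc Nat.card (IrrCharacter G) ≤ Nat.card {χ : IrrCharacter G // χ ≠ χ₀} + 1 := hcard3
    _ ≤ N.index * ((Finset.univ : Finset {χ : IrrCharacter G // χ ≠ χ₀}).image Φ).card + 1 := by
        rw [hcard4]; exact Nat.add_le_add_right hcard1 1
    _ ≤ N.index * Nat.card {θ : IrrCharacter N //
        ∀ s ∈ (P : Subgroup G), ∀ g g' : N, (g' : G) = s * g * s⁻¹ → θ.1 g' = θ.1 g} + 1 :=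
        Nat.add_le_add_right (Nat.mul_le_mul_left _ hcard2) 1
    _ = 1 + Nat.card {θ : IrrCharacter N //
        ∀ s ∈ (P : Subgroup G), ∀ g g' : N, (g' : G) = s * g * s⁻¹ → θ.1 g' = θ.1 g} * N.index := by
        ring

end Upper

section Lower

variable {G : Type u} [Group G] [Finite G] (p : ℕ) [hp : Fact p.Prime]
  (N : Subgroup G) [hNn : N.Normal]

/-- A `P`-invariant class of the normal `p'`-subgroup `N` contains a `P`-fixed element. -/
theorem exists_fixed_of_inv_class (hcop : (Nat.card N).Coprime p) (P : Subgroup G)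
    (hP : IsPGroup p P) (K : ConjClasses N)
    (hK : ∀ s ∈ P, ∀ g g' : N, (g' : G) = s * g * s⁻¹ →
      ConjClasses.mk g = K → ConjClasses.mk g' = K) :
    ∃ c : N, ConjClasses.mk c = K ∧ ∀ s ∈ P, s * (c : G) * s⁻¹ = (c : G) := by
  classical
  obtain ⟨n₀, rfl⟩ := ConjClasses.exists_rep K
  set X : Set N := MulAction.orbit (ConjAct N) n₀ with hX
  have hmemX : ∀ y : N, y ∈ X ↔ ConjClasses.mk y = ConjClasses.mk n₀ := fun y => by
    rw [ConjClasses.mk_eq_mk_iff_isConj]; exact ConjAct.mem_orbit_conjAct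
  have hsm : ∀ (x : P) (y : X),
      (⟨(x : G) * (y.1 : G) * (x : G)⁻¹, hNn.conj_mem _ y.1.2 _⟩ : N) ∈ X := by
    intro x y
    rw [hmemX]
    exact hK x x.2 y.1 _ rfl ((hmemX y.1).mp y.2)
  letI : MulAction P X :=
    { smul := fun x y => ⟨⟨(x : G) * (y.1 : G) * (x : G)⁻¹, hNn.conj_mem _ y.1.2 _⟩, hsm x y⟩
      one_smul := fun y => by
        apply Subtype.ext
        apply Subtype.ext
        show ((1 : P) : G) * (y.1 : G) * ((1 : P) : G)⁻¹ = (y.1 : G)
        simp
      mul_smul := fun x x' y => by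
        apply Subtype.ext
        apply Subtype.ext
        show ((x * x' : P) : G) * (y.1 : G) * ((x * x' : P) : G)⁻¹ =
          (x : G) * ((x' : G) * (y.1 : G) * (x' : G)⁻¹) * (x : G)⁻¹
        simp [mul_assoc] }
  have hcard : Nat.card X ∣ Nat.card N := by
    have h1 : Nat.card X = (MulAction.stabilizer (ConjAct N) n₀).index := by
      rw [MulAction.index_stabilizer, Nat.card_coe_set_eq]
    rw [h1]
    have h2 := Subgroup.index_dvd_card (MulAction.stabilizer (ConjAct N) n₀)
    rwa [Nat.card_congr (ConjAct.toConjAct (G := N)).symm.toEquiv] at h2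
  have hnd : ¬ p ∣ Nat.card X := by
    intro hdvd
    have h1 : p ∣ Nat.card N := dvd_trans hdvd hcard
    have h2 := Nat.Coprime.eq_one_of_dvd hcop.symm h1
    exact hp.out.one_lt.ne' h2
  haveI : Finite X := Set.Finite.to_subtype (Set.toFinite X)
  obtain ⟨y, hy⟩ := hP.nonempty_fixed_point_of_prime_not_dvd_card X hnd
  rw [MulAction.mem_fixedPoints] at hy
  refine ⟨y.1, (hmemX y.1).mp y.2, ?_⟩
  intro s hs
  have h1 := congrArg (fun z : X => ((z.1 : N) : G)) (hy ⟨s, hs⟩)
  exact h1

/-- At least `m |P|` classes of `G` have size prime to `p`, where `m` is the number of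
`P`-invariant classes of `N`. -/
theorem card_pprime_classes_ge (hcop : (Nat.card N).Coprime p)
    (hidx : ∃ k : ℕ, N.index = p ^ k) (hQ : ∀ a b : G ⧸ N, a * b = b * a) (P : Sylow p G) :
    Nat.card {K : ConjClasses N // ∀ s ∈ (P : Subgroup G), ∀ g g' : N,
        (g' : G) = s * g * s⁻¹ → ConjClasses.mk g = K → ConjClasses.mk g' = K} *
      Nat.card (P : Subgroup G) ≤
      Nat.card {C : ConjClasses G // ¬ p ∣ Nat.card C.carrier} := by
  classical
  have hPab := sylow_comm_of_quot_comm p N hcop hQ P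
  have hfix : ∀ K : {K : ConjClasses N // ∀ s ∈ (P : Subgroup G), ∀ g g' : N,
      (g' : G) = s * g * s⁻¹ → ConjClasses.mk g = K → ConjClasses.mk g' = K},
      ∃ c : N, ConjClasses.mk c = K.1 ∧ ∀ s ∈ (P : Subgroup G), s * (c : G) * s⁻¹ = (c : G) :=
    fun K => exists_fixed_of_inv_class p N hcop (P : Subgroup G) P.isPGroup' K.1 K.2
  choose c hc1 hc2 using hfix
  have hcomm : ∀ K, ∀ t ∈ (P : Subgroup G), t * (c K : G) = (c K : G) * t := by
    intro K t ht
    have h1 := hc2 K t ht
    calc t * (c K : G) = t * (c K : G) * t⁻¹ * t := by group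
      _ = (c K : G) * t := by rw [h1]
  rw [← Nat.card_prod]
  refine Nat.card_le_card_of_injective
    (fun x => ⟨ConjClasses.mk ((c x.1 : G) * (x.2 : G)), ?_⟩) ?_
  · rw [Cfsg.Agent.H69.card_carrier_eq_index]
    intro hdvd
    apply P.not_dvd_index
    refine dvd_trans hdvd (Subgroup.index_dvd_of_le ?_)
    intro t ht
    rw [Subgroup.mem_centralizer_iff]
    intro y hy
    rw [Set.mem_singleton_iff] at hy
    subst hy
    have h1 := hcomm x.1 t ht
    have h2 : t * (x.2 : G) = (x.2 : G) * t := hPab t ht _ x.2.2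
    calc (c x.1 : G) * (x.2 : G) * t = (c x.1 : G) * ((x.2 : G) * t) := by group
      _ = (c x.1 : G) * (t * (x.2 : G)) := by rw [h2]
      _ = ((c x.1 : G) * t) * (x.2 : G) := by group
      _ = (t * (c x.1 : G)) * (x.2 : G) := by rw [h1]
      _ = t * ((c x.1 : G) * (x.2 : G)) := by group
  · rintro ⟨K, s⟩ ⟨K', s'⟩ hxy
    have h0 : ConjClasses.mk ((c K : G) * (s : G)) = ConjClasses.mk ((c K' : G) * (s' : G)) :=
      congrArg Subtype.val hxy
    obtain ⟨g, hg⟩ := isConj_iff.mp (ConjClasses.mk_eq_mk_iff_isConj.mp h0)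
    -- the `p`-parts agree
    have hs : (s : G) = (s' : G) := by
      have h1 : (QuotientGroup.mk (g * ((c K : G) * (s : G)) * g⁻¹) : G ⧸ N) =
          QuotientGroup.mk ((c K' : G) * (s' : G)) := by rw [hg]
      rw [QuotientGroup.mk_mul, QuotientGroup.mk_mul, QuotientGroup.mk_mul, QuotientGroup.mk_mul,
        QuotientGroup.mk_inv, (QuotientGroup.eq_one_iff (c K : G)).mpr (c K).2,
        (QuotientGroup.eq_one_iff (c K' : G)).mpr (c K').2, one_mul, one_mul,
        hQ (QuotientGroup.mk g) (QuotientGroup.mk (s : G)), mul_inv_cancel_right] at h1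
      have h2 : (s : G)⁻¹ * (s' : G) ∈ N := QuotientGroup.eq.mp h1
      have h3 : (s : G)⁻¹ * (s' : G) ∈ N ⊓ (P : Subgroup G) :=
        ⟨h2, Subgroup.mul_mem _ (Subgroup.inv_mem _ s.2) s'.2⟩
      rw [inf_sylow_eq_bot p N hcop P, Subgroup.mem_bot] at h3
      exact inv_mul_eq_one.mp h3
    -- the `p'`-parts are conjugate by `g`
    have hsq : ∀ t : (P : Subgroup G), (t : G) ^ Nat.card (P : Subgroup G) = 1 := by
      intro t
      have h1 : t ^ Nat.card (P : Subgroup G) = 1 := pow_card_eq_one'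
      have h2 : ((t ^ Nat.card (P : Subgroup G) : (P : Subgroup G)) : G) =
          ((1 : (P : Subgroup G)) : G) := congrArg Subtype.val h1
      rwa [Subgroup.coe_pow, Subgroup.coe_one] at h2
    have hpow : ∀ (K₀ : {K : ConjClasses N // ∀ s ∈ (P : Subgroup G), ∀ g g' : N,
        (g' : G) = s * g * s⁻¹ → ConjClasses.mk g = K → ConjClasses.mk g' = K})
        (t : (P : Subgroup G)),
        ((c K₀ : G) * (t : G)) ^ Nat.card (P : Subgroup G) =
          (c K₀ : G) ^ Nat.card (P : Subgroup G) := by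
      intro K₀ t
      have hct : Commute (c K₀ : G) (t : G) := (hcomm K₀ t t.2).symm
      rw [hct.mul_pow, hsq t, mul_one]
    have hgq : g * (c K : G) ^ Nat.card (P : Subgroup G) * g⁻¹ =
        (c K' : G) ^ Nat.card (P : Subgroup G) := by
      rw [← hpow K s, ← hpow K' s', ← conj_pow, hg]
    have hcopq : (Nat.card N).Coprime (Nat.card (P : Subgroup G)) := by
      obtain ⟨j, hj⟩ := IsPGroup.iff_card.mp P.isPGroup'
      rw [hj]
      exact Nat.Coprime.pow_right _ hcop
    have hgc : g * (c K : G) * g⁻¹ = (c K' : G) := by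
      have h1 : (powCoprime hcopq) ⟨g * (c K : G) * g⁻¹, hNn.conj_mem _ (c K).2 g⟩ =
          (powCoprime hcopq) (c K') := by
        apply Subtype.ext
        show (g * (c K : G) * g⁻¹) ^ Nat.card (P : Subgroup G) =
          (c K' : G) ^ Nat.card (P : Subgroup G)
        rw [conj_pow, hgq]
      exact congrArg Subtype.val ((powCoprime hcopq).injective h1)
    obtain ⟨n, hn, t, ht, rfl⟩ := exists_mul_of_sup p N hidx P g
    have hnc : n * (c K : G) * n⁻¹ = (c K' : G) := by
      rw [← hgc]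
      have h1 := hc2 K t ht
      calc n * (c K : G) * n⁻¹ = n * (t * (c K : G) * t⁻¹) * n⁻¹ := by rw [h1]
        _ = n * t * (c K : G) * (n * t)⁻¹ := by group
    have hconj : IsConj (c K) (c K') := by
      rw [isConj_iff]
      exact ⟨⟨n, hn⟩, Subtype.ext hnc⟩
    have hKK : K = K' := by
      apply Subtype.ext
      rw [← hc1 K, ← hc1 K']
      exact ConjClasses.mk_eq_mk_iff_isConj.mpr hconj
    exact Prod.ext hKK (Subtype.ext hs)

end Lower

section Main

variable {G : Type u} [Group G] [Finite G]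

/-- **One character, one class.**  A non-nilpotent group with a normal `p`-complement and exactly
one irreducible character of degree divisible by `p` has exactly one conjugacy class of size
divisible by `p`. -/
theorem one_class_of_one_degree (p : ℕ) [hp : Fact p.Prime] (hnil : ¬ Group.IsNilpotent G)
    (N : Subgroup G) [hNn : N.Normal] (hN : (Nat.card N).Coprime p)
    (hidx : ∃ k : ℕ, N.index = p ^ k)
    (hone : Nat.card {χ : IrrCharacter G // p ∣ charDegree χ.1} = 1) :
    Nat.card {C : ConjClasses G // p ∣ Nat.card C.carrier} = 1 := by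
  classical
  haveI := Fintype.ofFinite G
  haveI : Fintype N := Fintype.ofFinite N
  haveI : Finite (IrrCharacter G) := finite_irr G
  obtain ⟨P⟩ : Nonempty (Sylow p G) := inferInstance
  obtain ⟨hsub, ⟨⟨χ₀, hχ₀⟩⟩⟩ := (Nat.card_eq_one_iff_unique).mp hone
  have huniq : ∀ χ : IrrCharacter G, p ∣ charDegree χ.1 → χ = χ₀ := by
    intro χ hχ
    have h1 := hsub.elim (⟨χ, hχ⟩ : {χ : IrrCharacter G // p ∣ charDegree χ.1}) ⟨χ₀, hχ₀⟩
    exact congrArg Subtype.val h1
  have hQ := quot_comm_of_unique p N hN hidx hnil χ₀ hχ₀ huniq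
  have hup := card_irr_le p N hidx P χ₀ huniq
  have hlow := card_pprime_classes_ge p N hN hidx hQ P
  have hPcard := card_sylow_eq_index p N hN hidx P
  have hnorm : ∀ s ∈ (P : Subgroup G), ∀ g ∈ N, s * g * s⁻¹ ∈ N :=
    fun s _ g hg => hNn.conj_mem g hg s
  have hcopq : (Nat.card N).Coprime (Nat.card (P : Subgroup G)) := by
    obtain ⟨j, hj⟩ := IsPGroup.iff_card.mp P.isPGroup'
    rw [hj]
    exact Nat.Coprime.pow_right _ hN
  have hsolv : Group.IsSolvable (P : Subgroup G) := by
    haveI := P.isPGroup'.isNilpotent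
    infer_instance
  have hcount := Cfsg.Agent.S4445.result N (P : Subgroup G) hnorm hcopq hsolv
  have hk : Nat.card (IrrCharacter G) = Nat.card (ConjClasses G) := Cfsg.Agent.S0133.result
  have hsplit : Nat.card {C : ConjClasses G // p ∣ Nat.card C.carrier} +
      Nat.card {C : ConjClasses G // ¬ p ∣ Nat.card C.carrier} = Nat.card (ConjClasses G) := by
    rw [← Nat.card_sum]
    exact Nat.card_congr (Equiv.sumCompl (fun C : ConjClasses G => p ∣ Nat.card C.carrier))
  obtain ⟨C₀, hC₀⟩ := exists_pdvd_class p χ₀ hχ₀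
  have hge : 1 ≤ Nat.card {C : ConjClasses G // p ∣ Nat.card C.carrier} := by
    haveI : Nonempty {C : ConjClasses G // p ∣ Nat.card C.carrier} := ⟨⟨C₀, hC₀⟩⟩
    exact Nat.card_pos
  rw [hcount] at hup
  rw [hPcard] at hlow
  rw [hk, ← hsplit] at hup
  linarith

end Main

end Cfsg.Agent.H83
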