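import Mathlib
import Cfsg.Agent.H83.PCDefs

/-!
# S3366 team project (helper83): PC-CARD and PC-SYL
-/

set_option autoImplicit false

namespace Cfsg.Agent.H83.PC

universe v

set_option maxRecDepth 100000 in
theorem card_SL23 : Nat.card SL23 = 24 := by
  rw [Nat.card_eq_fintype_card]
  decide

theorem card_Heis : Nat.card Heis = 27 := by
  rw [Nat.card_eq_fintype_card]
  decide

/-- PC-CARD. -/
theorem card : StCard := by
  show Nat.card (Heis ⋊[heisAct] SL23) = 648
  rw [Nat.card_congr SemidirectProduct.equivProd, Nat.card_prod, card_Heis, card_SL23]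

/-- A power of 3 with `3^n * k = 648`, `3 ∤ k` is 81. -/
theorem pow_eq_81_of_648 (n k : ℕ) (h : 3 ^ n * k = 648) (hk : ¬ 3 ∣ k) : 3 ^ n = 81 := by
  have hn : n ≤ 5 := by
    by_contra hcon
    push Not at hcon
    have h1 : 3 ^ 6 ∣ 3 ^ n := pow_dvd_pow 3 hcon
    have h2 : 3 ^ 6 ∣ 648 := h ▸ Dvd.dvd.mul_right h1 k
    norm_num at h2
  interval_cases n <;> omega

/-- A power of 3 with `3^n * k = 25920`, `3 ∤ k` is 81. -/
theorem pow_eq_81_of_25920 (n k : ℕ) (h : 3 ^ n * k = 25920) (hk : ¬ 3 ∣ k) : 3 ^ n = 81 := by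
  have hn : n ≤ 5 := by
    by_contra hcon
    push Not at hcon
    have h1 : 3 ^ 6 ∣ 3 ^ n := pow_dvd_pow 3 hcon
    have h2 : 3 ^ 6 ∣ 25920 := h ▸ Dvd.dvd.mul_right h1 k
    norm_num at h2
  interval_cases n <;> omega

theorem sylow_card_81 {G : Type v} [Group G] [Finite G] (P : Sylow 3 G) (N : ℕ)
    (hN : Nat.card G = N) (hpow : ∀ n k : ℕ, 3 ^ n * k = N → ¬ 3 ∣ k → 3 ^ n = 81) :
    Nat.card (P : Subgroup G) = 81 := by
  have : Fact (Nat.Prime 3) := ⟨by norm_num⟩
  obtain ⟨n, hn⟩ := (IsPGroup.iff_card.mp P.isPGroup')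
  have h1 := Subgroup.card_mul_index (P : Subgroup G)
  rw [hn, hN] at h1
  rw [hn]
  exact hpow n _ h1 P.not_dvd_index

/-- PC-SYL. -/
theorem syl : StSyl.{v} := by
  intro G _ _ c hc hC hG
  have : Fact (Nat.Prime 3) := ⟨by norm_num⟩
  have hcC : c ∈ Subgroup.centralizer ({c} : Set G) := by
    rw [Subgroup.mem_centralizer_iff]
    intro h hh
    rw [Set.mem_singleton_iff] at hh
    rw [hh]
  have h3 : IsPGroup 3 (Subgroup.zpowers
      (⟨c, hcC⟩ : ↥(Subgroup.centralizer ({c} : Set G)))) := by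
    apply IsPGroup.of_card (n := 1)
    rw [Nat.card_zpowers, pow_one, ← hc]
    exact Subgroup.orderOf_mk c hcC
  obtain ⟨P, hP⟩ := h3.exists_le_sylow
  have hPcard : Nat.card (P : Subgroup ↥(Subgroup.centralizer ({c} : Set G))) = 81 :=
    sylow_card_81 P 648 hC pow_eq_81_of_648
  have hcP : (⟨c, hcC⟩ : ↥(Subgroup.centralizer ({c} : Set G))) ∈
      (P : Subgroup ↥(Subgroup.centralizer ({c} : Set G))) :=
    hP (Subgroup.mem_zpowers _)
  have hQ3 : IsPGroup 3 ((P : Subgroup ↥(Subgroup.centralizer ({c} : Set G))).map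
      (Subgroup.centralizer ({c} : Set G)).subtype) :=
    P.isPGroup'.map _
  have hQcard : Nat.card ((P : Subgroup ↥(Subgroup.centralizer ({c} : Set G))).map
      (Subgroup.centralizer ({c} : Set G)).subtype) = 81 := by
    rw [Subgroup.card_map_of_injective (Subgroup.subtype_injective _)]
    exact hPcard
  obtain ⟨S, hS⟩ := hQ3.exists_le_sylow
  have hScard : Nat.card (S : Subgroup G) = 81 := sylow_card_81 S 25920 hG pow_eq_81_of_25920
  have hSeq : (P : Subgroup ↥(Subgroup.centralizer ({c} : Set G))).map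
      (Subgroup.centralizer ({c} : Set G)).subtype = (S : Subgroup G) :=
    Subgroup.eq_of_le_of_card_ge hS (by rw [hScard, hQcard])
  refine ⟨S, ?_, ?_⟩
  · rw [← hSeq]
    exact ⟨⟨c, hcC⟩, hcP, rfl⟩
  · rw [Subgroup.mem_centralizer_iff]
    intro s hs
    have hs' : s ∈ (P : Subgroup ↥(Subgroup.centralizer ({c} : Set G))).map
        (Subgroup.centralizer ({c} : Set G)).subtype := by
      rw [hSeq]; exact hs
    obtain ⟨w, -, rfl⟩ := hs'
    have := w.2
    rw [Subgroup.mem_centralizer_iff] at this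
    exact (this c rfl).symm

end Cfsg.Agent.H83.PC
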