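import Mathlib
import Cfsg.Agent.H83.PCDefs
import Cfsg.Agent.H79.PCZC

/-!
# PC-INV (S3366 team project, helper83): an involution over `-1` inverting `R / Z(R)`
-/

set_option autoImplicit false

namespace Cfsg.Agent.H83.PC

universe u

section

variable {X : Type u} [Group X]

/-- an element with `c ^ 3 = 1` and `c = c⁻¹` is trivial -/
theorem inv_eq_one_of_cube {c : X} (h3 : c ^ 3 = 1) (h : c = c⁻¹) : c = 1 := by
  have h2 : c * c = 1 := by
    nth_rewrite 2 [h]
    exact mul_inv_cancel c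
  calc c = c ^ 3 * (c * c)⁻¹ := by group
    _ = 1 := by rw [h3, h2, inv_one, mul_one]

/-- in a non-abelian group of order 27 commutators are central and the centre is non-trivial -/
theorem inv_comm_central [Finite X] (R : Subgroup X) (hcard : Nat.card R = 27)
    (hab : ∃ a ∈ R, ∃ b ∈ R, a * b ≠ b * a) :
    (∀ r ∈ R, ∀ s ∈ R, IsZ R (r⁻¹ * s⁻¹ * r * s)) ∧ (∃ z, IsZ R z ∧ z ≠ 1) := by
  obtain ⟨a, ha, b, hb, hab⟩ := hab
  have hprime : Fact (Nat.Prime 3) := ⟨Nat.prime_three⟩
  have hp : IsPGroup 3 R := IsPGroup.of_card (n := 3) (by rw [hcard]; norm_num)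
  have hnt : Nontrivial R := by
    apply (Finite.one_lt_card_iff_nontrivial).mp
    rw [hcard]; norm_num
  have hcnt : Nontrivial (Subgroup.center R) := hp.center_nontrivial
  have hcen : Nat.card (Subgroup.center R) = 3 := by
    have hdvd : Nat.card (Subgroup.center R) ∣ 3 ^ 3 := by
      have := Subgroup.card_subgroup_dvd_card (Subgroup.center R)
      rw [hcard] at this
      exact this
    have hne_top : Subgroup.center R ≠ ⊤ := by
      intro htop
      apply hab
      have h1 : (⟨a, ha⟩ : R) ∈ Subgroup.center R := htop ▸ Subgroup.mem_top _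
      have h2 := Subgroup.mem_center_iff.mp h1 ⟨b, hb⟩
      exact (congrArg Subtype.val h2).symm
    obtain ⟨m, hm, hm'⟩ := (Nat.dvd_prime_pow Nat.prime_three).mp hdvd
    interval_cases m
    · exfalso
      have h1 : 1 < Nat.card (Subgroup.center R) := Finite.one_lt_card_iff_nontrivial.mpr hcnt
      rw [hm'] at h1
      norm_num at h1
    · simpa using hm'
    · exfalso
      have hidx : (Subgroup.center R).index = 3 := by
        have h1 := (Subgroup.center R).index_mul_card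
        rw [hm', hcard] at h1
        omega
      have : IsCyclic (R ⧸ Subgroup.center R) := isCyclic_of_prime_card (p := 3) hidx
      apply hab
      have h2 := commutative_of_cyclic_center_quotient (QuotientGroup.mk' (Subgroup.center R))
        (by rw [QuotientGroup.ker_mk']) (⟨a, ha⟩ : R) ⟨b, hb⟩
      exact congrArg Subtype.val h2
    · exfalso
      apply hne_top
      exact Subgroup.eq_top_of_card_eq _ (by rw [hm', hcard]; norm_num)
  have hq : Nat.card (R ⧸ Subgroup.center R) = 3 ^ 2 := by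
    have h1 := (Subgroup.center R).index_mul_card
    rw [hcen, hcard, Subgroup.index_eq_card] at h1
    omega
  have hqc : ∀ x y : R ⧸ Subgroup.center R, x * y = y * x :=
    IsPGroup.commutative_of_card_eq_prime_sq hq
  refine ⟨?_, ?_⟩
  · intro r hr s hs
    have h1 : (⟨r, hr⟩ : R)⁻¹ * (⟨s, hs⟩ : R)⁻¹ * ⟨r, hr⟩ * ⟨s, hs⟩ ∈ Subgroup.center R := by
      rw [← QuotientGroup.eq_one_iff]
      have key : ∀ x y : R ⧸ Subgroup.center R, x⁻¹ * y⁻¹ * x * y = 1 := by
        intro x y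
        rw [hqc x⁻¹ y⁻¹]
        group
      rw [QuotientGroup.mk_mul, QuotientGroup.mk_mul, QuotientGroup.mk_mul,
        QuotientGroup.mk_inv, QuotientGroup.mk_inv]
      exact key _ _
    refine ⟨R.mul_mem (R.mul_mem (R.mul_mem (R.inv_mem hr) (R.inv_mem hs)) hr) hs, ?_⟩
    intro q hq'
    have h2 := Subgroup.mem_center_iff.mp h1 ⟨q, hq'⟩
    exact (congrArg Subtype.val h2).symm
  · obtain ⟨z, hz⟩ := exists_ne (1 : Subgroup.center R)
    refine ⟨z.1.1, ⟨z.1.2, fun s hs => ?_⟩, ?_⟩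
    · have h2 := Subgroup.mem_center_iff.mp z.2 ⟨s, hs⟩
      exact (congrArg Subtype.val h2).symm
    · intro h
      apply hz
      apply Subtype.ext
      apply Subtype.ext
      exact h

end

/-- the element `-1` of `SL(2,3)` -/
def invNeg : SL23 := ⟨!![-1, 0; 0, -1], by simp [Matrix.det_fin_two]⟩

theorem invNeg_val : invNeg.1 = -1 := by
  ext i j
  fin_cases i <;> fin_cases j <;> simp [invNeg]

theorem invNeg_sq : invNeg * invNeg = 1 := by
  apply Subtype.ext
  show (!![-1, 0; 0, -1] : Matrix (Fin 2) (Fin 2) (ZMod 3)) * !![-1, 0; 0, -1] = 1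
  rw [Matrix.mul_fin_two, Matrix.one_fin_two]
  simp

theorem invNeg_comm (g : SL23) : g * invNeg = invNeg * g := by
  apply Subtype.ext
  show g.1 * invNeg.1 = invNeg.1 * g.1
  rw [invNeg_val]
  simp

theorem invNeg_ne_one : invNeg ≠ 1 := by
  intro h
  have h1 := congrArg (fun g : SL23 => g.1 0 0) h
  simp [invNeg] at h1
  revert h1
  decide

section

variable {X : Type u} [Group X]

/-- the main step of PC-INV -/
theorem inv_main [Finite X] (R : Subgroup X) (f : X →* SL23) (hyp : Hyp R f)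
    (hZC : ∀ x z : X, IsZ R z → x * z = z * x) (t : X) (ht : t * t = 1) (hft : f t = invNeg) :
    ∀ r ∈ R, IsZ R (t * r * t⁻¹ * r) := by
  obtain ⟨hRn, hcard, hexp, hab, hsurj, hker, h3, h2, hE⟩ := hyp
  obtain ⟨hcomm, z0, hz0, hz0ne⟩ := inv_comm_central R hcard hab
  have hti : t⁻¹ = t := inv_eq_of_mul_eq_one_right ht
  obtain ⟨φ, hφ⟩ : ∃ φ : X ≃* X, ∀ a, φ a = t * a * t⁻¹ := ⟨MulAut.conj t, fun a => rfl⟩
  have hφφ : ∀ a, φ (φ a) = a := by
    intro a
    rw [hφ, hφ, hti]
    calc t * (t * a * t) * t = (t * t) * a * (t * t) := by group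
      _ = a := by rw [ht, one_mul, mul_one]
  have hφR : ∀ r ∈ R, φ r ∈ R := by
    intro r hr
    rw [hφ]
    exact hRn.conj_mem r hr t
  have hfix : ∀ z, IsZ R z → φ z = z := by
    intro z hz
    rw [hφ, hZC t z hz]
    group
  have hkey : ∀ c, IsZ R c → φ c = c⁻¹ → c = 1 := by
    intro c hc h
    apply inv_eq_one_of_cube (hexp c hc.1)
    rw [← h, hfix c hc]
  -- `r` commutes with its `t`-conjugate
  have hA : ∀ r ∈ R, r * φ r = φ r * r := by
    intro r hr
    have hc := hcomm (φ r) (hφR r hr) r hr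
    have h1 : φ ((φ r)⁻¹ * r⁻¹ * φ r * r) = ((φ r)⁻¹ * r⁻¹ * φ r * r)⁻¹ := by
      rw [map_mul, map_mul, map_mul, map_inv, map_inv, hφφ]
      group
    have h2' := hkey _ hc h1
    calc r * φ r = r * φ r * ((φ r)⁻¹ * r⁻¹ * φ r * r) := by rw [h2', mul_one]
      _ = φ r * r := by group
  intro r hr
  have hgoal : t * r * t⁻¹ * r = φ r * r := by rw [hφ]
  rw [hgoal]
  by_contra hu
  have huR : φ r * r ∈ R := R.mul_mem (hφR r hr) hr
  have hφu : φ (φ r * r) = φ r * r := by
    rw [map_mul, hφφ, hA r hr]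
  -- an element `w` inverted by `t` and not central
  have hB : ∃ s ∈ R, ¬ IsZ R (s⁻¹ * φ s) := by
    by_contra hall0
    have hall : ∀ s ∈ R, IsZ R (s⁻¹ * φ s) := by
      intro s hs
      by_contra h
      exact hall0 ⟨s, hs, h⟩
    have hcen : ∀ s ∈ R, φ s = s := by
      intro s hs
      have h1 : φ (s⁻¹ * φ s) = (s⁻¹ * φ s)⁻¹ := by
        rw [map_mul, map_inv, hφφ]
        group
      have h2' := hkey _ (hall s hs) h1
      calc φ s = s * (s⁻¹ * φ s) := by group
        _ = s := by rw [h2', mul_one]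
    have hcen' : ∀ s ∈ R, t * s = s * t := by
      intro s hs
      have h1 := hcen s hs
      rw [hφ] at h1
      calc t * s = t * s * t⁻¹ * t := by group
        _ = s * t := by rw [h1]
    have hcentral : ∀ x : X, x * t * x⁻¹ = t := by
      intro x
      obtain ⟨ρ, hρdef⟩ : ∃ ρ, ρ = t⁻¹ * (x * t * x⁻¹) := ⟨_, rfl⟩
      have hρR : ρ ∈ R := by
        rw [hρdef, ← hker, MonoidHom.mem_ker, map_mul, map_inv, map_mul, map_mul, map_inv, hft,
          invNeg_comm (f x)]
        group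
      have hρ3 := hexp _ hρR
      have hρt := hcen' _ hρR
      have e2 : t * ρ = x * t * x⁻¹ := by rw [hρdef]; group
      have hsq : ρ * ρ = 1 := by
        have e1 : (x * t * x⁻¹) * (x * t * x⁻¹) = 1 := by
          calc (x * t * x⁻¹) * (x * t * x⁻¹) = x * (t * t) * x⁻¹ := by group
            _ = 1 := by rw [ht]; group
        calc ρ * ρ = (t * t) * (ρ * ρ) := by rw [ht, one_mul]
          _ = t * (t * ρ) * ρ := by group
          _ = t * (ρ * t) * ρ := by rw [hρt]
          _ = (t * ρ) * (t * ρ) := by group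
          _ = 1 := by rw [e2, e1]
      have hρ1 : ρ = 1 := by
        apply inv_eq_one_of_cube hρ3
        exact eq_inv_of_mul_eq_one_left hsq
      rw [← e2, hρ1, mul_one]
    have hN : (Subgroup.zpowers t).Normal := by
      constructor
      intro n hn g
      obtain ⟨k, rfl⟩ := Subgroup.mem_zpowers_iff.mp hn
      have e : g * t ^ k * g⁻¹ = (g * t * g⁻¹) ^ k := by
        rw [conj_zpow]
      rw [e, hcentral g]
      exact Subgroup.zpow_mem_zpowers t k
    have hP : IsPGroup 2 (Subgroup.zpowers t) := by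
      intro g
      refine ⟨1, ?_⟩
      obtain ⟨k, hk⟩ := Subgroup.mem_zpowers_iff.mp g.2
      apply Subtype.ext
      rw [Subgroup.coe_pow, ← hk, pow_one, pow_two, ← (Commute.refl t).mul_zpow k, ht, one_zpow]
      rfl
    have hbot := h2 _ hN hP
    have ht1 : t = 1 := by
      have hmem : t ∈ Subgroup.zpowers t := Subgroup.mem_zpowers t
      rw [hbot, Subgroup.mem_bot] at hmem
      exact hmem
    apply invNeg_ne_one
    rw [← hft, ht1, map_one]
  obtain ⟨s, hs, hw⟩ := hB
  have hwR : s⁻¹ * φ s ∈ R := R.mul_mem (R.inv_mem hs) (hφR s hs)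
  have hφw : φ (s⁻¹ * φ s) = (s⁻¹ * φ s)⁻¹ := by
    rw [map_mul, map_inv, hφφ]
    group
  obtain ⟨u, hudef⟩ : ∃ u, u = φ r * r := ⟨_, rfl⟩
  obtain ⟨w, hwdef⟩ : ∃ w, w = s⁻¹ * φ s := ⟨_, rfl⟩
  rw [← hudef] at hu huR hφu
  rw [← hwdef] at hw hwR hφw
  -- `u` and `w` commute
  have hC : u * w = w * u := by
    have hκ := hcomm u huR w hwR
    have hκ' : u⁻¹ * w⁻¹ * u * w = w * u⁻¹ * w⁻¹ * u := by
      have h1 := hκ.2 w hwR
      calc u⁻¹ * w⁻¹ * u * w = (u⁻¹ * w⁻¹ * u * w) * w * w⁻¹ := by group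
        _ = w * (u⁻¹ * w⁻¹ * u * w) * w⁻¹ := by rw [h1]
        _ = w * u⁻¹ * w⁻¹ * u := by group
    have h1 : φ (u⁻¹ * w⁻¹ * u * w) = (u⁻¹ * w⁻¹ * u * w)⁻¹ := by
      rw [map_mul, map_mul, map_mul, map_inv, map_inv, hφu, hφw]
      rw [hκ']
      group
    have h2' := hkey _ hκ h1
    calc u * w = w * u * (u⁻¹ * w⁻¹ * u * w) := by group
      _ = w * u := by rw [h2', mul_one]
  -- the centralizer of `u` in `R`
  have htu : t * u = u * t := by
    have h1 := hφu
    rw [hφ] at h1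
    calc t * u = t * u * t⁻¹ * t := by group
      _ = u * t := by rw [h1]
  obtain ⟨Z, hZdef⟩ : ∃ Z : Subgroup X, Z = R ⊓ Subgroup.centralizer (R : Set X) := ⟨_, rfl⟩
  have hZmem : ∀ z, z ∈ Z ↔ IsZ R z := by
    intro z
    rw [hZdef, Subgroup.mem_inf, Subgroup.mem_centralizer_iff]
    constructor
    · rintro ⟨h1, h2'⟩
      exact ⟨h1, fun q hq => (h2' q hq).symm⟩
    · rintro ⟨h1, h2'⟩
      exact ⟨h1, fun q hq => (h2' q hq).symm⟩
  obtain ⟨C, hCdef⟩ : ∃ C : Subgroup X, C = R ⊓ Subgroup.centralizer ({u} : Set X) := ⟨_, rfl⟩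
  have hCmem : ∀ q, q ∈ C ↔ q ∈ R ∧ u * q = q * u := by
    intro q
    rw [hCdef, Subgroup.mem_inf, Subgroup.mem_centralizer_iff]
    constructor
    · rintro ⟨h1, h2'⟩
      exact ⟨h1, h2' u rfl⟩
    · rintro ⟨h1, h2'⟩
      refine ⟨h1, fun q' hq' => ?_⟩
      rw [Set.mem_singleton_iff] at hq'
      rw [hq']
      exact h2'
  have hZC' : Z ≤ C := by
    intro z hz
    have hz' := (hZmem z).mp hz
    exact (hCmem z).mpr ⟨hz'.1, (hz'.2 u huR).symm⟩
  have huC : u ∈ C := (hCmem u).mpr ⟨huR, rfl⟩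
  have hDC : Z ⊔ Subgroup.zpowers u ≤ C := sup_le hZC' ((Subgroup.zpowers_le).mpr huC)
  have hCR : C ≤ R := by rw [hCdef]; exact inf_le_left
  have hCcard : Nat.card C ≠ 27 := by
    intro h
    have hCeq : C = R := Subgroup.eq_of_le_of_card_ge hCR (by rw [h, hcard])
    apply hu
    refine ⟨huR, fun q hq => ?_⟩
    have hq' : q ∈ C := by rw [hCeq]; exact hq
    exact ((hCmem q).mp hq').2
  have hCdvd : Nat.card C ∣ 3 ^ 3 := by
    have h1 := Subgroup.card_dvd_of_le hCR
    rw [hcard] at h1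
    exact h1
  have hDdvd : Nat.card (Z ⊔ Subgroup.zpowers u : Subgroup X) ∣ Nat.card C :=
    Subgroup.card_dvd_of_le hDC
  have hZD : Z ≤ Z ⊔ Subgroup.zpowers u := le_sup_left
  have hZdvd : Nat.card Z ∣ Nat.card (Z ⊔ Subgroup.zpowers u : Subgroup X) :=
    Subgroup.card_dvd_of_le hZD
  have hZne1 : Nat.card Z ≠ 1 := by
    intro h
    have hbot : Z = ⊥ := Subgroup.eq_bot_of_card_eq Z h
    have h1 : z0 ∈ Z := (hZmem z0).mpr hz0
    rw [hbot, Subgroup.mem_bot] at h1
    exact hz0ne h1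
  have hZneD : Nat.card Z ≠ Nat.card (Z ⊔ Subgroup.zpowers u : Subgroup X) := by
    intro h
    have heq : Z = Z ⊔ Subgroup.zpowers u := Subgroup.eq_of_le_of_card_ge hZD (by rw [h])
    apply hu
    apply (hZmem u).mp
    rw [heq]
    exact (le_sup_right : Subgroup.zpowers u ≤ Z ⊔ Subgroup.zpowers u) (Subgroup.mem_zpowers u)
  have hDeq : Z ⊔ Subgroup.zpowers u = C := by
    apply Subgroup.eq_of_le_of_card_ge hDC
    obtain ⟨m, hm, hCm⟩ := (Nat.dvd_prime_pow Nat.prime_three).mp hCdvd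
    rw [hCm] at hDdvd
    obtain ⟨i, hi, hDi⟩ := (Nat.dvd_prime_pow Nat.prime_three).mp hDdvd
    rw [hDi] at hZdvd
    obtain ⟨j, hj, hZj⟩ := (Nat.dvd_prime_pow Nat.prime_three).mp hZdvd
    have hm3 : m ≠ 3 := by
      intro h
      apply hCcard
      rw [hCm, h]
      norm_num
    have hj0 : j ≠ 0 := by
      intro h
      apply hZne1
      rw [hZj, h, pow_zero]
    have hji : j ≠ i := by
      intro h
      apply hZneD
      rw [hZj, hDi, h]
    have him : i = m := by omega
    rw [hCm, hDi, him]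
  have hwC : w ∈ C := (hCmem w).mpr ⟨hwR, hC⟩
  have hwD : w ∈ Z ⊔ Subgroup.zpowers u := by rw [hDeq]; exact hwC
  have hDt : Z ⊔ Subgroup.zpowers u ≤ Subgroup.centralizer ({t} : Set X) := by
    apply sup_le
    · intro z hz
      rw [Subgroup.mem_centralizer_iff]
      intro q hq
      rw [Set.mem_singleton_iff] at hq
      rw [hq]
      exact hZC t z ((hZmem z).mp hz)
    · rw [Subgroup.zpowers_le, Subgroup.mem_centralizer_iff]
      intro q hq
      rw [Set.mem_singleton_iff] at hq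
      rw [hq]
      exact htu
  have htw : t * w = w * t := by
    have h1 := hDt hwD
    rw [Subgroup.mem_centralizer_iff] at h1
    exact h1 t rfl
  have hφw' : φ w = w := by
    rw [hφ, htw]
    group
  have hw1 : w = 1 := by
    apply inv_eq_one_of_cube (hexp w hwR)
    rw [← hφw, hφw']
  apply hw
  rw [hw1]
  exact ⟨R.one_mem, fun q _ => by rw [one_mul, mul_one]⟩

end

/-- PC-INV -/
theorem inv : StInv.{u} := by
  intro X _ _ R f hyp
  have hZC := Cfsg.Agent.H79.PC.zc X R f hyp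
  have hyp' := hyp
  obtain ⟨hRn, hcard, hexp, hab, hsurj, hker, h3, h2, hE⟩ := hyp'
  obtain ⟨x, hx⟩ := hsurj invNeg
  have hx2 : x ^ 2 ∈ R := by
    rw [← hker, MonoidHom.mem_ker, map_pow, hx, pow_two, invNeg_sq]
  have hx6 : x ^ 3 * x ^ 3 = 1 := by
    have h := hexp _ hx2
    rw [← pow_mul] at h
    rw [← pow_add]
    exact h
  have hft : f (x ^ 3) = invNeg := by
    rw [map_pow, hx, pow_succ, pow_two, invNeg_sq, one_mul]
  refine ⟨x ^ 3, hx6, ?_, inv_main R f hyp hZC (x ^ 3) hx6 hft⟩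
  rw [hft, invNeg_val]

example : StInv.{u} := inv

end Cfsg.Agent.H83.PC
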