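import Mathlib
import Cfsg.Prelude.Def_Solvable
import Cfsg.Prelude.Def_CaseTheorems
import Cfsg.Prelude.Def_Transfer
import Cfsg.Prelude.Def_Classical
import Cfsg.Agent.H83.PCDefs

/-!
# S3366 team project (helper83): top-level assembly
-/

set_option autoImplicit false

namespace Cfsg.Agent.H83.PC

universe u1 u2

/-- The frozen statement of S3366 from the pieces. -/
theorem main_of_pieces (hInv : StInv.{u1}) (hY : StY.{u1}) (hCompl : StCompl.{u1})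
    (hCoord : StCoord.{u1}) (hIso : StIso.{u1}) (hCard : StCard) (hStab : StStab) (hCent : StCent)
    (hSyl : StSyl.{u2}) (hOrd : StOrd.{u2}) (hTrans : StTrans.{u2})
    {X : Type u1} [Group X] [Finite X]
    (hR : Cfsg.IsExtraspecial 3 (Cfsg.pCore 3 X)) (hRcard : Nat.card (Cfsg.pCore 3 X) = 27)
    (hRexp : ∀ r ∈ Cfsg.pCore 3 X, r ^ 3 = 1)
    (e : X ⧸ Cfsg.pCore 3 X ≃* Matrix.SpecialLinearGroup (Fin 2) (ZMod 3))
    (hO2 : Cfsg.pCore 2 X = ⊥)
    (hE : ∃ E : Subgroup X, IsMulCommutative E ∧ (∀ a ∈ E, a ^ 3 = 1) ∧ Nat.card E = 27)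
    (F : Type u2) [Field F] [Fintype F] (hF : Fintype.card F = 3) :
    ∃ (c : Cfsg.PSp 2 F) (S : Sylow 3 (Cfsg.PSp 2 F)), orderOf c = 3 ∧
      c ∈ (S : Subgroup (Cfsg.PSp 2 F)) ∧
      c ∈ Subgroup.centralizer ((S : Subgroup (Cfsg.PSp 2 F)) : Set (Cfsg.PSp 2 F)) ∧
      Nonempty (X ≃* Subgroup.centralizer ({c} : Set (Cfsg.PSp 2 F))) := by
  let f : X →* SL23 := e.toMonoidHom.comp (QuotientGroup.mk' (Cfsg.pCore 3 X))
  have hHyp : Hyp (Cfsg.pCore 3 X) f := by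
    refine ⟨inferInstance, hRcard, hRexp, ?_, ?_, ?_, ?_, ?_, ?_⟩
    · by_contra hab
      push Not at hab
      have hc : Subgroup.center ↥(Cfsg.pCore 3 X) = ⊤ := by
        rw [eq_top_iff]
        intro x _
        rw [Subgroup.mem_center_iff]
        intro g
        apply Subtype.ext
        exact hab g.1 g.2 x.1 x.2
      have h3 := hR.2
      rw [hc, Subgroup.card_top, hRcard] at h3
      omega
    · exact e.surjective.comp (QuotientGroup.mk'_surjective _)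
    · ext x
      rw [MonoidHom.mem_ker]
      show e (QuotientGroup.mk x) = 1 ↔ _
      rw [MulEquiv.map_eq_one_iff, QuotientGroup.eq_one_iff]
    · intro P hPn hP3
      exact le_sSup ⟨hPn, hP3⟩
    · intro P hPn hP2
      have : P ≤ Cfsg.pCore 2 X := le_sSup ⟨hPn, hP2⟩
      rw [hO2] at this
      exact le_bot_iff.mp this
    · obtain ⟨E, hEc, hE3, hEcard⟩ := hE
      refine ⟨E, fun a ha b hb => ?_, hE3, hEcard⟩
      have := hEc.is_comm.comm ⟨a, ha⟩ ⟨b, hb⟩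
      exact congrArg Subtype.val this
  obtain ⟨t, ht⟩ := hInv X (Cfsg.pCore 3 X) f hHyp
  obtain ⟨y, hy1, hy2, hy3⟩ := hY X (Cfsg.pCore 3 X) f hHyp t ht
  obtain ⟨N, hD⟩ := hCompl X (Cfsg.pCore 3 X) f hHyp t y ht hy1 hy2 hy3
  obtain ⟨α, hα1, hα2, hα3⟩ := hCoord X (Cfsg.pCore 3 X) N t hD
  obtain ⟨ψ⟩ := hIso X (Cfsg.pCore 3 X) N t hD α hα1 hα2 hα3
  obtain ⟨φ1⟩ := hStab
  obtain ⟨ho, ⟨φ2⟩⟩ := hCent
  obtain ⟨Θ⟩ := hTrans F hF
  have hoc : orderOf (Θ c0) = 3 := by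
    rw [MulEquiv.orderOf_eq]; exact ho
  have hmap : (Subgroup.centralizer ({c0} : Set (Cfsg.PSp 2 (ZMod 3)))).map Θ.toMonoidHom =
      Subgroup.centralizer ({Θ c0} : Set (Cfsg.PSp 2 F)) := by
    ext x
    simp only [Subgroup.mem_map, Subgroup.mem_centralizer_iff, Set.mem_singleton_iff, forall_eq]
    constructor
    · rintro ⟨w, hw, rfl⟩
      show Θ c0 * Θ w = Θ w * Θ c0
      rw [← map_mul, ← map_mul, hw]
    · intro hx
      refine ⟨Θ.symm x, ?_, Θ.apply_symm_apply x⟩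
      apply Θ.injective
      rw [map_mul, map_mul, Θ.apply_symm_apply]
      exact hx
  let φ3 : ↥(Subgroup.centralizer ({c0} : Set (Cfsg.PSp 2 (ZMod 3)))) ≃*
      ↥(Subgroup.centralizer ({Θ c0} : Set (Cfsg.PSp 2 F))) :=
    (Θ.subgroupMap _).trans (MulEquiv.subgroupCongr hmap)
  have hcard : Nat.card ↥(Subgroup.centralizer ({Θ c0} : Set (Cfsg.PSp 2 F))) = 648 := by
    rw [← hCard]
    exact Nat.card_congr ((φ1.trans φ2).trans φ3).symm.toEquiv
  obtain ⟨S, hS1, hS2⟩ := hSyl (Cfsg.PSp 2 F) (Θ c0) hoc hcard (hOrd F hF)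
  exact ⟨Θ c0, S, hoc, hS1, hS2, ⟨((ψ.trans φ1).trans φ2).trans φ3⟩⟩

end Cfsg.Agent.H83.PC
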