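import Mathlib
import Cfsg.Prelude.Def_Characters
import Cfsg.Agent.H83.RealNormalizer
import Cfsg.Agent.H83.RealOddB
import Cfsg.Agent.H4.RelD

/-!
# The real McKay bijection of Isaacs–Navarro (helper83, S4865)

If the subgroup generated by the `p`-elements of `G` is solvable and every real-valued irreducible
character of `G` has degree prime to `p`, then there is a bijection from the real-valued
irreducible characters of `G` onto the real-valued irreducible characters of `p'`-degree of the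
normalizer of a Sylow `p`-subgroup, preserving degrees modulo `p` up to sign.
-/

set_option autoImplicit false
set_option linter.unusedSectionVars false
set_option linter.style.haveILetI false

namespace Cfsg.Agent.H83

open Cfsg Cfsg.Agent.H4 Cfsg.Agent.Clifford Cfsg.Agent.H82
open scoped ComplexConjugate

universe u

section OddIdx2

variable {G : Type u} [Group G] [Fintype G] (N : Subgroup G) [hN : N.Normal] [Fintype N]

/-- A real irreducible character lying over a real irreducible character of a normal subgroup of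
odd index contains it with multiplicity one. -/
theorem classInner_real_over_eq_one (hodd : Odd N.index) (θ : IrrCharacter N)
    (hθ : ∀ n, (θ.1 n).im = 0) (χ : IrrCharacter G) (hχ : ∀ g, (χ.1 g).im = 0)
    (h : classInner (fun n : N => χ.1 n) θ.1 ≠ 0) :
    classInner (fun n : N => χ.1 n) θ.1 = 1 := by
  classical
  have hsum := sum_indicator_mul N hodd θ
  have hsingle : ∑ᶠ χ' : IrrCharacter G,
      H78.indicator χ'.1 * classInner (fun n : N => χ'.1 n) θ.1 =
        H78.indicator χ.1 * classInner (fun n : N => χ.1 n) θ.1 := by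
    apply finsum_eq_single
    intro χ' hne
    by_contra h0
    apply hne
    have hν : H78.indicator χ'.1 ≠ 0 := left_ne_zero_of_mul h0
    have hr : ∀ g, (χ'.1 g).im = 0 := by
      intro g
      by_contra hg
      exact hν (H78.irr_indicator_eq_zero_of_not_real χ' g hg)
    exact eq_of_real_of_res_ne_zero N hodd θ χ' χ hr hχ (right_ne_zero_of_mul h0) h
  rw [hsingle] at hsum
  obtain ⟨M, hM⟩ := classInner_isCharacter_nat
    (isCharacter_restrict N (isCharacter_of_isIrrCharacter χ.2)) (isCharacter_of_isIrrCharacter θ.2)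
  rw [hM] at hsum ⊢
  have hM0 : (0 : ℝ) ≤ M := Nat.cast_nonneg M
  rcases H78.irr_indicator_sq_of_real χ hχ with h1 | h1 <;>
    rcases H78.irr_indicator_sq_of_real θ hθ with h2 | h2 <;> rw [h1, h2] at hsum
  · simpa using hsum
  · exfalso
    have h3 := congrArg Complex.re hsum
    simp at h3
    linarith
  · exfalso
    have h3 := congrArg Complex.re hsum
    simp at h3
    linarith
  · have h3 : (M : ℂ) = 1 := by
      have := congrArg Neg.neg hsum
      simpa using this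
    exact h3

/-- The degree of the real irreducible character over a real irreducible character of a normal
subgroup of odd index. -/
theorem charDegree_real_over (hodd : Odd N.index) (θ : IrrCharacter N)
    (hθ : ∀ n, (θ.1 n).im = 0) (χ : IrrCharacter G) (hχ : ∀ g, (χ.1 g).im = 0)
    (h : classInner (fun n : N => χ.1 n) θ.1 ≠ 0) :
    charDegree χ.1 = (Clifford.inertia N θ.1).index * charDegree θ.1 := by
  classical
  haveI : Fintype (Clifford.inertia N θ.1) := Fintype.ofFinite _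
  have hNT : N ≤ Clifford.inertia N θ.1 :=
    le_inertia N (isClassFunction_of_isCharacter (isCharacter_of_isIrrCharacter θ.2))
  obtain ⟨ψ, hψ, hind, hc⟩ := clifford_corr_surj θ.2 hNT rfl χ.2 h
  have hc' : classInner (fun n : N => ψ ⟨n, hNT n.2⟩) θ.1 ≠ 0 := by rw [hc]; exact h
  have hres := res_eq_smul_of_le_inertia θ.2 hNT le_rfl hψ hc'
  have h1 : χ.1 1 = ((Clifford.inertia N θ.1).index : ℂ) * ψ 1 := by rw [← hind, indFun_one_eq]
  have h2 : ψ 1 = θ.1 1 := by
    have h3 := congrFun hres 1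
    simp only [Pi.smul_apply, smul_eq_mul] at h3
    rw [hc, classInner_real_over_eq_one N hodd θ hθ χ hχ h, one_mul] at h3
    rw [← h3]
    rfl
  have h3 : ((charDegree χ.1 : ℕ) : ℂ) =
      (((Clifford.inertia N θ.1).index * charDegree θ.1 : ℕ) : ℂ) := by
    rw [← Cfsg.Agent.H82.irr_one_eq_charDegree χ]
    push_cast
    rw [← Cfsg.Agent.H82.irr_one_eq_charDegree θ, h1, h2]
  exact_mod_cast h3

end OddIdx2

section IndexCongr

variable {G : Type u} [Group G] [Finite G]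

/-- For a subgroup `I` containing the Sylow `p`-subgroup `P`, the index of `I ∩ N_G(P)` in
`N_G(P)` is congruent to the index of `I` in `G` modulo `p`. -/
theorem index_modEq_of_sylow_le (p : ℕ) [Fact p.Prime] (P : Sylow p G) (I : Subgroup G)
    (hPI : (P : Subgroup G) ≤ I) :
    (I.subgroupOf (Subgroup.normalizer ((P : Subgroup G) : Set G))).index ≡ I.index [MOD p] := by
  obtain ⟨H, hH⟩ : ∃ H : Subgroup G, H = Subgroup.normalizer ((P : Subgroup G) : Set G) :=
    ⟨_, rfl⟩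
  rw [← hH]
  have h1 : Nat.card (Sylow p G) ≡ 1 [MOD p] := card_sylow_modEq_one p G
  have h2 : Nat.card (Sylow p I) ≡ 1 [MOD p] := card_sylow_modEq_one p I
  have hH' : H = Subgroup.normalizer (P : Set G) := hH
  rw [Sylow.card_eq_index_normalizer P, ← hH'] at h1
  have h2' : (H.subgroupOf I).index ≡ 1 [MOD p] := by
    have e : Subgroup.normalizer ((P.subtype hPI : Sylow p I) : Set I) = H.subgroupOf I := by
      rw [hH]
      exact (Subgroup.subgroupOf_normalizer_eq hPI).symm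
    rw [Sylow.card_eq_index_normalizer (P.subtype hPI), e] at h2
    exact h2
  have e1 : (H.subgroupOf I).index * I.index = (H ⊓ I).index := by
    have := Subgroup.relIndex_mul_index (inf_le_right : H ⊓ I ≤ I)
    rw [Subgroup.inf_relIndex_right] at this
    exact this
  have e2 : (I.subgroupOf H).index * H.index = (H ⊓ I).index := by
    have := Subgroup.relIndex_mul_index (inf_le_left : H ⊓ I ≤ H)
    rw [Subgroup.inf_relIndex_left] at this
    exact this
  calc (I.subgroupOf H).index = (I.subgroupOf H).index * 1 := (mul_one _).symm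
    _ ≡ (I.subgroupOf H).index * H.index [MOD p] := Nat.ModEq.mul_left _ h1.symm
    _ = (H.subgroupOf I).index * I.index := by rw [e2, e1]
    _ ≡ 1 * I.index [MOD p] := Nat.ModEq.mul_right _ h2'
    _ = I.index := one_mul _

end IndexCongr

section Aux

variable {G : Type u} [Group G] [Finite G]

/-- A normal `p`-subgroup lies in every subgroup of index prime to `p`. -/
theorem normal_pgroup_le_of_index (p : ℕ) [Fact p.Prime] (Q I : Subgroup G) [hQn : Q.Normal]
    (hQ : IsPGroup p Q) (hI : ¬ p ∣ I.index) : Q ≤ I := by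
  have hne := hQ.nonempty_fixed_point_of_prime_not_dvd_card (G ⧸ I)
    (by rwa [← Subgroup.index_eq_card])
  obtain ⟨q, hq⟩ := hne
  obtain ⟨g, rfl⟩ := QuotientGroup.mk_surjective q
  intro s hs
  have hs' : g * s * g⁻¹ ∈ Q := hQn.conj_mem s hs g
  have h1 : (⟨g * s * g⁻¹, hs'⟩ : Q) • (QuotientGroup.mk g : G ⧸ I) = QuotientGroup.mk g :=
    hq ⟨g * s * g⁻¹, hs'⟩
  have h2 : (QuotientGroup.mk (g * s * g⁻¹ * g) : G ⧸ I) = QuotientGroup.mk g := h1
  have h3 := QuotientGroup.eq.mp h2.symm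
  have h4 : g⁻¹ * (g * s * g⁻¹ * g) = s := by group
  rwa [h4] at h3

/-- In a finite group, an element conjugating a subgroup into itself normalizes it. -/
theorem mem_normalizer_of_conj_mem (P : Subgroup G) (x : G)
    (h : ∀ s ∈ P, x * s * x⁻¹ ∈ P) : x ∈ Subgroup.normalizer (P : Set G) := by
  rw [Subgroup.mem_normalizer_iff]
  intro y
  refine ⟨fun hy => h y hy, fun hy => ?_⟩
  let φ : P → P := fun s => ⟨x * s * x⁻¹, h s s.2⟩
  have hφ : Function.Injective φ := by
    intro a b hab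
    have h1 : x * (a : G) * x⁻¹ = x * (b : G) * x⁻¹ := congrArg Subtype.val hab
    apply Subtype.ext
    simpa using h1
  obtain ⟨s, hs⟩ := (Finite.injective_iff_surjective.mp hφ) ⟨x * y * x⁻¹, hy⟩
  have h1 : x * (s : G) * x⁻¹ = x * y * x⁻¹ := congrArg Subtype.val hs
  have h2 : (s : G) = y := by simpa using h1
  rw [← h2]
  exact s.2

end Aux

section Main

variable {G : Type u} [Group G] [Fintype G]

set_option maxHeartbeats 1600000 in
/-- The real McKay bijection, for a normal subgroup `K` of odd index all of whose Sylow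
`p`-subgroups are normal. -/
theorem real_mckay_aux (p : ℕ) [hp : Fact p.Prime] (K : Subgroup G) [hK : K.Normal]
    (hodd : Odd K.index) (hKsyl : ∀ Q : Sylow p ↥K, (Q : Subgroup ↥K).Normal)
    (hreal : ∀ χ : IrrCharacter G, (∀ g : G, (χ.1 g).im = 0) → ¬ p ∣ charDegree χ.1)
    (P : Sylow p G) :
    ∃ f : {χ : IrrCharacter G // ∀ g : G, (χ.1 g).im = 0} →
        {ξ : IrrCharacter ↥(Subgroup.normalizer ((P : Subgroup G) : Set G)) //
          (∀ n, (ξ.1 n).im = 0) ∧ ¬ p ∣ charDegree ξ.1},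
      Function.Bijective f ∧ ∀ χ,
        ((charDegree (f χ).1.1 : ZMod p) = (charDegree χ.1.1 : ZMod p) ∨
          (charDegree (f χ).1.1 : ZMod p) = -(charDegree χ.1.1 : ZMod p)) := by
  classical
  obtain ⟨H, hHdef⟩ : ∃ H : Subgroup G, H = Subgroup.normalizer ((P : Subgroup G) : Set G) :=
    ⟨_, rfl⟩
  rw [← hHdef]
  haveI : Fintype K := Fintype.ofFinite K
  haveI : Fintype H := Fintype.ofFinite H
  obtain ⟨N', hN'def⟩ : ∃ N' : Subgroup ↥H, N' = K.subgroupOf H := ⟨_, rfl⟩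
  haveI hN'n : N'.Normal := by rw [hN'def]; exact Subgroup.normal_subgroupOf
  haveI : Fintype N' := Fintype.ofFinite N'
  have hN'mem : ∀ x : ↥H, x ∈ N' ↔ (x : G) ∈ K := by
    intro x; rw [hN'def]; exact Subgroup.mem_subgroupOf
  have hmemN' : ∀ n : ↥N', ((n : ↥H) : G) ∈ K := fun n => (hN'mem n).mp n.2
  have hodd' : Odd N'.index := by
    have h1 : N'.index ∣ K.index := by
      rw [hN'def]; exact Subgroup.relIndex_dvd_index_of_normal K H
    exact Odd.of_dvd_nat hodd h1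
  have hPH : (P : Subgroup G) ≤ H := by rw [hHdef]; exact Subgroup.le_normalizer
  have hHP : ∀ h ∈ H, ∀ s ∈ (P : Subgroup G), h * s * h⁻¹ ∈ (P : Subgroup G) := by
    intro h hh s hs
    rw [hHdef] at hh
    exact (Subgroup.mem_normalizer_iff.mp hh s).mp hs
  -- the actions of `P`
  have hnorm : ∀ s ∈ (P : Subgroup G), ∀ g ∈ K, s * g * s⁻¹ ∈ K :=
    fun s _ g hg => hK.conj_mem g hg s
  letI actK : MulDistribMulAction ↥(P : Subgroup G) ↥K := conjAct K (P : Subgroup G) hnorm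
  have hnormH : ∀ s ∈ (P : Subgroup G), ∀ g ∈ H, s * g * s⁻¹ ∈ H :=
    fun s hs g hg => H.mul_mem (H.mul_mem (hPH hs) hg) (H.inv_mem (hPH hs))
  letI actH : MulDistribMulAction ↥(P : Subgroup G) ↥H := conjAct H (P : Subgroup G) hnormH
  have hN's : Stable ↥(P : Subgroup G) N' := by
    intro s x hx
    rw [hN'mem] at hx ⊢
    show (s : G) * (x : G) * (s : G)⁻¹ ∈ K
    exact hK.conj_mem _ hx _
  letI actN : MulDistribMulAction ↥(P : Subgroup G) ↥N' := subAct N' hN's
  have hsmulK : ∀ (s : ↥(P : Subgroup G)) (k : ↥K),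
      ((s • k : ↥K) : G) = (s : G) * (k : G) * (s : G)⁻¹ := fun _ _ => rfl
  have hsmulN : ∀ (s : ↥(P : Subgroup G)) (n : ↥N'),
      (((s • n : ↥N') : ↥H) : G) = (s : G) * ((n : ↥H) : G) * (s : G)⁻¹ := fun _ _ => rfl
  let ι : ↥N' →* ↥K :=
    { toFun := fun n => ⟨((n : ↥H) : G), hmemN' n⟩
      map_one' := rfl
      map_mul' := fun _ _ => rfl }
  have hιcoe : ∀ n : ↥N', ((ι n : ↥K) : G) = ((n : ↥H) : G) := fun _ => rfl
  have hι : Function.Injective ι := by
    intro a b hab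
    apply Subtype.ext; apply Subtype.ext
    exact congrArg (fun k : ↥K => (k : G)) hab
  have hie : ∀ (s : ↥(P : Subgroup G)) (y : ↥N'), ι (s • y) = s • ι y := by
    intro s y
    apply Subtype.ext
    rw [hιcoe, hsmulN, hsmulK, hιcoe]
  -- the normal Sylow subgroup of `K`
  obtain ⟨M, hMdef⟩ : ∃ M : Subgroup ↥K, M = ((P : Subgroup G) ⊓ K).subgroupOf K := ⟨_, rfl⟩
  have hmemM : ∀ k : ↥K, k ∈ M ↔ (k : G) ∈ (P : Subgroup G) := by
    intro k
    rw [hMdef, Subgroup.mem_subgroupOf, Subgroup.mem_inf]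
    exact ⟨fun h => h.1, fun h => ⟨h, k.2⟩⟩
  have hMp : IsPGroup p M := by
    intro m
    obtain ⟨k, hk⟩ := P.isPGroup' ⟨((m : ↥K) : G), (hmemM _).mp m.2⟩
    refine ⟨k, ?_⟩
    apply Subtype.ext; apply Subtype.ext
    have := congrArg Subtype.val hk
    simpa using this
  have hidxM : ¬ p ∣ M.index := by
    intro hdvd
    have h1 : M.index = (P : Subgroup G).relIndex K := by
      rw [hMdef]
      exact Subgroup.inf_relIndex_right _ _
    rw [h1] at hdvd
    exact P.not_dvd_index (dvd_trans hdvd (relIndex_dvd_index_of_normal_right (P : Subgroup G) K))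
  haveI hMn : M.Normal := by
    have h1 := hKsyl (hMp.toSylow hidxM)
    exact h1
  have hMs : Stable ↥(P : Subgroup G) M := by
    intro s x hx
    rw [hmemM] at hx ⊢
    rw [hsmulK]
    exact (P : Subgroup G).mul_mem ((P : Subgroup G).mul_mem s.2 hx) ((P : Subgroup G).inv_mem s.2)
  have hMi : ∀ m ∈ M, ∃ y, ι y = m := by
    intro m hm
    have hmP : (m : G) ∈ (P : Subgroup G) := (hmemM m).mp hm
    exact ⟨⟨⟨(m : G), hPH hmP⟩, (hN'mem _).mpr m.2⟩, Subtype.ext rfl⟩
  have hCfix : ∀ x : ↥K, (∃ y, ι y = x) ↔ ∀ s : ↥(P : Subgroup G), (s • x) * x⁻¹ ∈ M := by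
    intro x
    constructor
    · rintro ⟨y, rfl⟩ s
      rw [hmemM]
      show ((s • ι y : ↥K) : G) * ((ι y : ↥K) : G)⁻¹ ∈ (P : Subgroup G)
      rw [hsmulK, hιcoe]
      have h1 := hHP ((y : ↥H) : G) (y : ↥H).2 (s : G)⁻¹ ((P : Subgroup G).inv_mem s.2)
      have h2 : (s : G) * ((y : ↥H) : G) * (s : G)⁻¹ * ((y : ↥H) : G)⁻¹ =
          (s : G) * (((y : ↥H) : G) * (s : G)⁻¹ * ((y : ↥H) : G)⁻¹) := by group
      rw [h2]
      exact (P : Subgroup G).mul_mem s.2 h1
    · intro h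
      have hxH : (x : G) ∈ H := by
        rw [hHdef]
        apply mem_normalizer_of_conj_mem
        intro s hs
        have h1 := h ⟨s⁻¹, (P : Subgroup G).inv_mem hs⟩
        rw [hmemM] at h1
        have h2 : (((⟨s⁻¹, (P : Subgroup G).inv_mem hs⟩ : ↥(P : Subgroup G)) • x * x⁻¹ : ↥K) : G)
            = s⁻¹ * (x : G) * s⁻¹⁻¹ * (x : G)⁻¹ := rfl
        rw [h2] at h1
        have h3 : (x : G) * s * (x : G)⁻¹ = s * (s⁻¹ * (x : G) * s⁻¹⁻¹ * (x : G)⁻¹) := by group
        rw [h3]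
        exact (P : Subgroup G).mul_mem hs h1
      exact ⟨⟨⟨(x : G), hxH⟩, (hN'mem _).mpr x.2⟩, Subtype.ext rfl⟩
  letI : Fintype M := Fintype.ofFinite _
  letI : Fintype (M.comap ι) := Fintype.ofFinite _
  obtain ⟨R1, R3, R4⟩ := rel_glauberman ι M hp.out P.isPGroup' hMp hidxM hι hie hMs hMi hCfix
  -- conjugation by the normalizer preserves invariance
  have hF1 : ∀ (θ : ↥K → ℂ) (h : G), h ∈ H →
      (∀ (s : ↥(P : Subgroup G)) (k : ↥K), θ (s • k) = θ k) →
      ∀ (s : ↥(P : Subgroup G)) (k : ↥K), conjChar K θ h (s • k) = conjChar K θ h k := by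
    intro θ h hh hinv s k
    have hsP : h * (s : G) * h⁻¹ ∈ (P : Subgroup G) := hHP h hh s s.2
    have h1 := hinv ⟨h * (s : G) * h⁻¹, hsP⟩ ⟨h * (k : G) * h⁻¹, hK.conj_mem _ k.2 h⟩
    rw [conjChar_apply, conjChar_apply, ← h1]
    refine congrArg θ (Subtype.ext ?_)
    show h * ((s : G) * (k : G) * (s : G)⁻¹) * h⁻¹ =
      (h * (s : G) * h⁻¹) * (h * (k : G) * h⁻¹) * (h * (s : G) * h⁻¹)⁻¹
    group
  have hF1' : ∀ (β : ↥N' → ℂ) (h : ↥H),
      (∀ (s : ↥(P : Subgroup G)) (n : ↥N'), β (s • n) = β n) →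
      ∀ (s : ↥(P : Subgroup G)) (n : ↥N'), conjChar N' β h (s • n) = conjChar N' β h n := by
    intro β h hinv s n
    have hsP : (h : G) * (s : G) * (h : G)⁻¹ ∈ (P : Subgroup G) := hHP h h.2 s s.2
    have h1 := hinv ⟨(h : G) * (s : G) * (h : G)⁻¹, hsP⟩
      ⟨h * (n : ↥H) * h⁻¹, hN'n.conj_mem _ n.2 h⟩
    rw [conjChar_apply, conjChar_apply, ← h1]
    refine congrArg β (Subtype.ext (Subtype.ext ?_))
    show (h : G) * ((s : G) * ((n : ↥H) : G) * (s : G)⁻¹) * (h : G)⁻¹ =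
      ((h : G) * (s : G) * (h : G)⁻¹) * ((h : G) * ((n : ↥H) : G) * (h : G)⁻¹) *
        ((h : G) * (s : G) * (h : G)⁻¹)⁻¹
    group
  -- the correspondence is equivariant
  have hF2 : ∀ (θ : ↥K → ℂ) (β : ↥N' → ℂ) (h : ↥H),
      classInner (fun c : ↥N' => conjChar K θ (h : G) (ι c)) (conjChar N' β h) =
        classInner (fun c : ↥N' => θ (ι c)) β := by
    intro θ β h
    have e : (fun c : ↥N' => conjChar K θ (h : G) (ι c)) =
        conjChar N' (fun c : ↥N' => θ (ι c)) h := by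
      funext c
      rw [conjChar_apply, conjChar_apply]
      congr 1
    rw [e]
    exact classInner_conjChar N' _ _ h
  -- complex conjugation
  have hconjβ : ∀ (θ : IrrCharacter ↥K) (_ : ∀ k, (θ.1 k).im = 0) (β : IrrCharacter ↥N') (m : ℕ),
      classInner (fun c : ↥N' => θ.1 (ι c)) β.1 = m →
      classInner (fun c : ↥N' => θ.1 (ι c)) (irrConj β).1 = m := by
    intro θ hθ β m hm
    have : classInner (fun c : ↥N' => θ.1 (ι c)) (irrConj β).1 =
        conj (classInner (fun c : ↥N' => θ.1 (ι c)) β.1) := by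
      unfold classInner
      rw [map_mul, map_inv₀, Complex.conj_natCast, map_sum]
      congr 1
      refine Finset.sum_congr rfl fun c _ => ?_
      rw [map_mul, Complex.conj_conj]
      show θ.1 _ * conj (conj (β.1 c)) = conj (θ.1 _) * β.1 c
      rw [Complex.conj_conj, Complex.conj_eq_iff_im.mpr (hθ _)]
    rw [this, hm, Complex.conj_natCast]
  have hconjθ : ∀ (θ : IrrCharacter ↥K) (β : IrrCharacter ↥N') (_ : ∀ c, (β.1 c).im = 0) (m : ℕ),
      classInner (fun c : ↥N' => θ.1 (ι c)) β.1 = m →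
      classInner (fun c : ↥N' => (irrConj θ).1 (ι c)) β.1 = m := by
    intro θ β hβ m hm
    have : classInner (fun c : ↥N' => (irrConj θ).1 (ι c)) β.1 =
        conj (classInner (fun c : ↥N' => θ.1 (ι c)) β.1) := by
      unfold classInner
      rw [map_mul, map_inv₀, Complex.conj_natCast, map_sum]
      congr 1
      refine Finset.sum_congr rfl fun c _ => ?_
      rw [map_mul, Complex.conj_conj]
      show conj (θ.1 _) * conj (β.1 c) = conj (θ.1 _) * β.1 c
      rw [Complex.conj_eq_iff_im.mpr (hβ c)]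
    rw [this, hm, Complex.conj_natCast]
  -- inertia groups of corresponding characters
  have hinert : ∀ (θ : IrrCharacter ↥K) (β : IrrCharacter ↥N') (m : ℕ),
      (∀ (s : ↥(P : Subgroup G)) (k : ↥K), θ.1 (s • k) = θ.1 k) →
      (∀ (s : ↥(P : Subgroup G)) (n : ↥N'), β.1 (s • n) = β.1 n) →
      classInner (fun c : ↥N' => θ.1 (ι c)) β.1 = m → ¬ p ∣ m →
      Clifford.inertia N' β.1 = (Clifford.inertia K θ.1).subgroupOf H := by
    intro θ β m hθi hβi hm hpm
    ext h
    rw [Subgroup.mem_subgroupOf, Clifford.mem_inertia, Clifford.mem_inertia]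
    constructor
    · intro hβh
      let θ₁ : IrrCharacter ↥K := ⟨conjChar K θ.1 (h : G), isIrrCharacter_conjChar K θ.2 _⟩
      have hθ₁i : ∀ (s : ↥(P : Subgroup G)) (k : ↥K), θ₁.1 (s • k) = θ₁.1 k :=
        hF1 θ.1 (h : G) h.2 hθi
      have hθ₁β : classInner (fun c : ↥N' => θ₁.1 (ι c)) β.1 = m := by
        rw [← hm, ← hF2 θ.1 β.1 h, hβh]
      have h1 := R3 θ₁ θ hθ₁i hθi β hβi m m hθ₁β hpm hm hpm
      exact congrArg Subtype.val h1
    · intro hθh
      let β₁ : IrrCharacter ↥N' := ⟨conjChar N' β.1 h, isIrrCharacter_conjChar N' β.2 _⟩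
      have hβ₁i : ∀ (s : ↥(P : Subgroup G)) (n : ↥N'), β₁.1 (s • n) = β₁.1 n :=
        hF1' β.1 h hβi
      have hβ₁ : classInner (fun c : ↥N' => θ.1 (ι c)) β₁.1 = m := by
        rw [← hm, ← hF2 θ.1 β.1 h, hθh]
      obtain ⟨β₀, -, m₀, -, -, -, huniq⟩ := R1 θ hθi
      have e1 := huniq β₁ hβ₁i m hβ₁ hpm
      have e2 := huniq β hβi m hm hpm
      exact congrArg Subtype.val (e1.trans e2.symm)
  -- degrees
  have hdeg : ∀ (χ : IrrCharacter G) (ξ : IrrCharacter ↥H) (θ : IrrCharacter ↥K)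
      (β : IrrCharacter ↥N') (m : ℕ), (∀ g, (χ.1 g).im = 0) → (∀ h, (ξ.1 h).im = 0) →
      (∀ (s : ↥(P : Subgroup G)) (k : ↥K), θ.1 (s • k) = θ.1 k) →
      (∀ (s : ↥(P : Subgroup G)) (n : ↥N'), β.1 (s • n) = β.1 n) →
      classInner (fun n : ↥K => χ.1 n) θ.1 ≠ 0 → classInner (fun n : ↥N' => ξ.1 n) β.1 ≠ 0 →
      classInner (fun c : ↥N' => θ.1 (ι c)) β.1 = m → ¬ p ∣ m →
      ((charDegree ξ.1 : ZMod p) = (charDegree χ.1 : ZMod p) ∨
        (charDegree ξ.1 : ZMod p) = -(charDegree χ.1 : ZMod p)) := by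
    intro χ ξ θ β m hχ hξ hθi hβi hχθ hξβ hm hpm
    have hθr := real_of_real_over K hodd χ hχ θ hχθ
    have hβr := real_of_real_over N' hodd' ξ hξ β hξβ
    have d1 := charDegree_real_over K hodd θ hθr χ hχ hχθ
    have d2 := charDegree_real_over N' hodd' β hβr ξ hξ hξβ
    rw [hinert θ β m hθi hβi hm hpm] at d2
    have hPI : (P : Subgroup G) ≤ Clifford.inertia K θ.1 := by
      intro s hs
      rw [Clifford.mem_inertia]
      funext k
      exact hθi ⟨s, hs⟩ k
    have hidx := index_modEq_of_sylow_le p P (Clifford.inertia K θ.1) hPI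
    rw [← hHdef] at hidx
    obtain ⟨β₀, hβ₀i, m₀, hm₀, hpm₀, hmod, huniq⟩ := R1 θ hθi
    have hββ₀ : β = β₀ := huniq β hβi m hm hpm
    subst hββ₀
    have hmm : m = m₀ := by
      have h1 := hm.symm.trans hm₀
      exact_mod_cast h1
    subst hmm
    have hd := deg_congr ι hp.out P.isPGroup' hie (isCharacter_of_isIrrCharacter θ.2) hθi β hβi m hm
      (by
        intro ξ' hξ' hne m' hm'
        by_contra hpm'
        exact hne (huniq ξ' hξ' m' hm' hpm'))
    rw [Cfsg.Agent.H82.irr_one_eq_charDegree, Cfsg.Agent.H82.irr_one_eq_charDegree] at hd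
    have hd' : (p : ℤ) ∣ ((charDegree θ.1 : ℤ) - (m : ℤ) * (charDegree β.1 : ℤ)) := by
      apply PDiv.dvd_int hp.out.pos
      push_cast
      exact hd
    have hz := (ZMod.intCast_zmod_eq_zero_iff_dvd _ p).mpr hd'
    push_cast at hz
    have hz' : (charDegree θ.1 : ZMod p) = (m : ZMod p) * (charDegree β.1 : ZMod p) :=
      sub_eq_zero.mp hz
    have hidx' : (((Clifford.inertia K θ.1).subgroupOf H).index : ZMod p) =
        ((Clifford.inertia K θ.1).index : ZMod p) :=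
      (ZMod.natCast_eq_natCast_iff _ _ p).mpr hidx
    have hZ : (m : ZMod p) = 1 ∨ (m : ZMod p) = -1 := by
      rcases hmod with h | h
      · left
        have := (ZMod.intCast_eq_intCast_iff _ _ p).mpr h
        simpa using this
      · right
        have := (ZMod.intCast_eq_intCast_iff _ _ p).mpr h
        simpa using this
    rw [d1, d2]
    push_cast
    rw [hidx', hz']
    rcases hZ with h | h
    · left
      rw [h, one_mul]
    · right
      rw [h]
      ring
  -- the relation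
  let Rel : {χ : IrrCharacter G // ∀ g : G, (χ.1 g).im = 0} →
      {ξ : IrrCharacter ↥H // (∀ n, (ξ.1 n).im = 0) ∧ ¬ p ∣ charDegree ξ.1} → Prop :=
    fun χ ξ => ∃ (θ : IrrCharacter ↥K) (β : IrrCharacter ↥N') (m : ℕ),
      (∀ (s : ↥(P : Subgroup G)) (k : ↥K), θ.1 (s • k) = θ.1 k) ∧
      (∀ (s : ↥(P : Subgroup G)) (n : ↥N'), β.1 (s • n) = β.1 n) ∧
      classInner (fun n : ↥K => χ.1.1 n) θ.1 ≠ 0 ∧
      classInner (fun n : ↥N' => ξ.1.1 n) β.1 ≠ 0 ∧
      classInner (fun c : ↥N' => θ.1 (ι c)) β.1 = m ∧ ¬ p ∣ m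
  have htot : ∀ χ, ∃ ξ, Rel χ ξ := by
    rintro ⟨χ, hχ⟩
    obtain ⟨θ₀, hθ₀⟩ := exists_constituent_res K χ
    have hθ₀r := real_of_real_over K hodd χ hχ θ₀ hθ₀
    obtain ⟨f, hf⟩ := Cfsg.Agent.ItoConv.degree_over K θ₀ χ hθ₀
    have hIidx : ¬ p ∣ (Clifford.inertia K θ₀.1).index := by
      intro h
      apply hreal χ hχ
      rw [hf, mul_assoc]
      exact Dvd.dvd.mul_right h _
    obtain ⟨g, hg⟩ := exists_conj_sylow_le p P (Clifford.inertia K θ₀.1) hIidx
    let θ : IrrCharacter ↥K := ⟨conjChar K θ₀.1 g⁻¹, isIrrCharacter_conjChar K θ₀.2 g⁻¹⟩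
    have hθinv : ∀ (s : ↥(P : Subgroup G)) (k : ↥K), θ.1 (s • k) = θ.1 k := by
      intro s k
      have h1 := (Clifford.mem_inertia_iff K).mp (hg s s.2)
        ⟨g⁻¹ * (k : G) * g⁻¹⁻¹, hK.conj_mem _ k.2 g⁻¹⟩
      show conjChar K θ₀.1 g⁻¹ (s • k) = conjChar K θ₀.1 g⁻¹ k
      rw [conjChar_apply, conjChar_apply, ← h1]
      refine congrArg θ₀.1 (Subtype.ext ?_)
      show g⁻¹ * ((s : G) * (k : G) * (s : G)⁻¹) * g⁻¹⁻¹ =
        (g⁻¹ * (s : G) * g) * (g⁻¹ * (k : G) * g⁻¹⁻¹) * (g⁻¹ * (s : G) * g)⁻¹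
      group
    have hθr : ∀ k, (θ.1 k).im = 0 := fun k => hθ₀r _
    have hθχ : classInner (fun n : ↥K => χ.1 n) θ.1 ≠ 0 := by
      show classInner (fun n : ↥K => χ.1 n) (conjChar K θ₀.1 g⁻¹) ≠ 0
      rw [classInner_res_conjChar K (irr_isClassFunction χ)]
      exact hθ₀
    obtain ⟨β, hβi, m, hm, hpm, -, huniq⟩ := R1 θ hθinv
    have hβ : irrConj β = β := huniq (irrConj β)
      (fun s n => by
        show conj (β.1 (s • n)) = conj (β.1 n)
        rw [hβi]) m (hconjβ θ hθr β m hm) hpm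
    have hβr : ∀ c, (β.1 c).im = 0 := by
      intro c
      have := congrArg (fun ψ : IrrCharacter ↥N' => ψ.1 c) hβ
      exact Complex.conj_eq_iff_im.mp this
    obtain ⟨ξ, hξr, hξβ⟩ := exists_real_over N' hodd' β hβr
    have hd := hdeg χ ξ θ β m hχ hξr hθinv hβi hθχ hξβ hm hpm
    have hξp : ¬ p ∣ charDegree ξ.1 := by
      intro hdvd
      apply hreal χ hχ
      have h0 : (charDegree ξ.1 : ZMod p) = 0 := (ZMod.natCast_eq_zero_iff _ _).mpr hdvd
      rw [h0] at hd
      have h1 : (charDegree χ.1 : ZMod p) = 0 := by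
        rcases hd with h | h
        · exact h.symm
        · exact neg_eq_zero.mp h.symm
      exact (ZMod.natCast_eq_zero_iff _ _).mp h1
    exact ⟨⟨ξ, hξr, hξp⟩, θ, β, m, hθinv, hβi, hθχ, hξβ, hm, hpm⟩
  have hsurj : ∀ ξ, ∃ χ, Rel χ ξ := by
    rintro ⟨ξ, hξ, hξp⟩
    obtain ⟨β, hβ⟩ := exists_constituent_res N' ξ
    have hβr := real_of_real_over N' hodd' ξ hξ β hβ
    obtain ⟨f, hf⟩ := Cfsg.Agent.ItoConv.degree_over N' β ξ hβ
    have hIidx : ¬ p ∣ (Clifford.inertia N' β.1).index := by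
      intro h
      apply hξp
      rw [hf, mul_assoc]
      exact Dvd.dvd.mul_right h _
    obtain ⟨PH, hPHdef⟩ : ∃ PH : Subgroup ↥H, PH = (P : Subgroup G).subgroupOf H := ⟨_, rfl⟩
    have hPHmem : ∀ x : ↥H, x ∈ PH ↔ (x : G) ∈ (P : Subgroup G) := by
      intro x; rw [hPHdef]; exact Subgroup.mem_subgroupOf
    haveI hPHn : PH.Normal := by
      refine ⟨fun x hx h => ?_⟩
      rw [hPHmem] at hx ⊢
      exact hHP h h.2 x hx
    have hPHp : IsPGroup p PH := by
      intro x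
      have hxP : ((x : ↥H) : G) ∈ (P : Subgroup G) := (hPHmem _).mp x.2
      obtain ⟨k, hk⟩ := P.isPGroup' ⟨((x : ↥H) : G), hxP⟩
      refine ⟨k, ?_⟩
      apply Subtype.ext; apply Subtype.ext
      have := congrArg Subtype.val hk
      simpa using this
    have hPHI := normal_pgroup_le_of_index p PH (Clifford.inertia N' β.1) hPHp hIidx
    have hβi : ∀ (s : ↥(P : Subgroup G)) (n : ↥N'), β.1 (s • n) = β.1 n := by
      intro s n
      have hs : (⟨(s : G), hPH s.2⟩ : ↥H) ∈ PH := (hPHmem _).mpr s.2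
      have h1 := (Clifford.mem_inertia_iff N').mp (hPHI hs) n
      rw [← h1]
      exact congrArg β.1 (Subtype.ext (Subtype.ext rfl))
    obtain ⟨θ, hθi, m, hm, hpm⟩ := R4 β hβi
    have hθ' : irrConj θ = θ := R3 (irrConj θ) θ
      (fun x k => by
        show conj (θ.1 (x • k)) = conj (θ.1 k)
        rw [hθi]) hθi β hβi m m (hconjθ θ β hβr m hm) hpm hm hpm
    have hθr : ∀ k, (θ.1 k).im = 0 := by
      intro k
      have := congrArg (fun ψ : IrrCharacter ↥K => ψ.1 k) hθ'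
      exact Complex.conj_eq_iff_im.mp this
    obtain ⟨χ, hχr, hχθ⟩ := exists_real_over K hodd θ hθr
    exact ⟨⟨χ, hχr⟩, θ, β, m, hθi, hβi, hχθ, hβ, hm, hpm⟩
  have hfun : ∀ χ ξ ξ', Rel χ ξ → Rel χ ξ' → ξ = ξ' := by
    rintro ⟨χ, hχ⟩ ⟨ξ, hξ, hξp⟩ ⟨ξ', hξ', hξp'⟩ ⟨θ, β, m, hθi, hβi, hχθ, hξβ, hm, hpm⟩
      ⟨θ', β', m', hθi', hβi', hχθ', hξβ', hm', hpm'⟩
    apply Subtype.ext
    show ξ = ξ'
    obtain ⟨g, hg⟩ := clifford_conj K χ.2 θ.2 θ'.2 hχθ hχθ'
    have hPI : (P : Subgroup G) ≤ Clifford.inertia K θ'.1 := by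
      intro s hs
      rw [Clifford.mem_inertia]
      funext k
      exact hθi' ⟨s, hs⟩ k
    have hgI : ∀ s ∈ (P : Subgroup G), g⁻¹ * s * g⁻¹⁻¹ ∈ Clifford.inertia K θ'.1 := by
      intro s hs
      rw [Clifford.mem_inertia, hg, conjChar_conjChar]
      funext k
      have h1 := hθi ⟨s, hs⟩ ⟨g * (k : G) * g⁻¹, hK.conj_mem _ k.2 g⟩
      rw [conjChar_apply, conjChar_apply, ← h1]
      refine congrArg θ.1 (Subtype.ext ?_)
      show g * (g⁻¹ * s * g⁻¹⁻¹) * (k : G) * (g * (g⁻¹ * s * g⁻¹⁻¹))⁻¹ =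
        s * (g * (k : G) * g⁻¹) * s⁻¹
      group
    obtain ⟨c, hc, hcg⟩ := exists_mul_mem_normalizer p P (Clifford.inertia K θ'.1) hPI g⁻¹ hgI
    rw [← hHdef] at hcg
    have hθeq : θ.1 = conjChar K θ'.1 (c * g⁻¹) := by
      rw [← conjChar_conjChar, (Clifford.mem_inertia K).mp hc, hg, conjChar_conjChar,
        mul_inv_cancel, conjChar_one]
    let β₁ : IrrCharacter ↥N' :=
      ⟨conjChar N' β'.1 ⟨c * g⁻¹, hcg⟩, isIrrCharacter_conjChar N' β'.2 _⟩
    have hβ₁i : ∀ (s : ↥(P : Subgroup G)) (n : ↥N'), β₁.1 (s • n) = β₁.1 n :=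
      hF1' β'.1 ⟨c * g⁻¹, hcg⟩ hβi'
    have hβ₁ : classInner (fun c : ↥N' => θ.1 (ι c)) β₁.1 = m' := by
      rw [← hm', ← hF2 θ'.1 β'.1 ⟨c * g⁻¹, hcg⟩, hθeq]
    obtain ⟨β₀, -, m₀, -, -, -, huniq⟩ := R1 θ hθi
    have hββ₁ : β₁ = β := (huniq β₁ hβ₁i m' hβ₁ hpm').trans (huniq β hβi m hm hpm).symm
    have hξ'β : classInner (fun n : ↥N' => ξ'.1 n) β.1 ≠ 0 := by
      rw [← hββ₁]
      show classInner (fun n : ↥N' => ξ'.1 n) (conjChar N' β'.1 ⟨c * g⁻¹, hcg⟩) ≠ 0
      rw [classInner_res_conjChar N' (irr_isClassFunction ξ')]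
      exact hξβ'
    exact eq_of_real_of_res_ne_zero N' hodd' β ξ ξ' hξ hξ' hξβ hξ'β
  have hinj : ∀ χ χ' ξ, Rel χ ξ → Rel χ' ξ → χ = χ' := by
    rintro ⟨χ, hχ⟩ ⟨χ', hχ'⟩ ⟨ξ, hξ, hξp⟩ ⟨θ, β, m, hθi, hβi, hχθ, hξβ, hm, hpm⟩
      ⟨θ', β', m', hθi', hβi', hχθ', hξβ', hm', hpm'⟩
    apply Subtype.ext
    show χ = χ'
    obtain ⟨h, hh⟩ := clifford_conj N' ξ.2 β.2 β'.2 hξβ hξβ'
    let θ₁ : IrrCharacter ↥K := ⟨conjChar K θ.1 (h : G), isIrrCharacter_conjChar K θ.2 _⟩
    have hθ₁i : ∀ (s : ↥(P : Subgroup G)) (k : ↥K), θ₁.1 (s • k) = θ₁.1 k :=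
      hF1 θ.1 (h : G) h.2 hθi
    have hθ₁β : classInner (fun c : ↥N' => θ₁.1 (ι c)) β'.1 = m := by
      rw [← hm, ← hF2 θ.1 β.1 h, hh]
    have hθ₁θ' : θ₁ = θ' := R3 θ₁ θ' hθ₁i hθi' β' hβi' m m' hθ₁β hpm hm' hpm'
    have hχθ'' : classInner (fun n : ↥K => χ.1 n) θ'.1 ≠ 0 := by
      rw [← hθ₁θ']
      show classInner (fun n : ↥K => χ.1 n) (conjChar K θ.1 (h : G)) ≠ 0
      rw [classInner_res_conjChar K (irr_isClassFunction χ)]
      exact hχθ
    exact eq_of_real_of_res_ne_zero K hodd θ' χ χ' hχ hχ' hχθ'' hχθ'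
  choose f hf using htot
  refine ⟨f, ⟨fun χ χ' h => hinj χ χ' (f χ) (hf χ) (h ▸ hf χ'), fun ξ => ?_⟩, fun χ => ?_⟩
  · obtain ⟨χ, hχ⟩ := hsurj ξ
    exact ⟨χ, hfun χ (f χ) ξ (hf χ) hχ⟩
  · obtain ⟨θ, β, m, hθi, hβi, hχθ, hξβ, hm, hpm⟩ := hf χ
    exact hdeg χ.1 (f χ).1 θ β m χ.2 (f χ).2.1 hθi hβi hχθ hξβ hm hpm

end Main

/-- **Isaacs–Navarro**: if the subgroup generated by the `p`-elements of `G` is solvable and all
real-valued irreducible characters of `G` have degree prime to `p`, there is a bijection from the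
real-valued irreducible characters of `G` onto the real-valued irreducible characters of degree
prime to `p` of the normalizer of a Sylow `p`-subgroup, preserving degrees modulo `p` up to
sign. -/
theorem real_mckay {G : Type u} [Group G] [Finite G] (p : ℕ) [Fact p.Prime]
    (hsolv : Group.IsSolvable ↥(Subgroup.closure {g : G | ∃ k : ℕ, orderOf g = p ^ k}))
    (hreal : ∀ χ : IrrCharacter G, (∀ g : G, (χ.1 g).im = 0) → ¬ p ∣ charDegree χ.1)
    (P : Sylow p G) :
    ∃ f : {χ : IrrCharacter G // ∀ g : G, (χ.1 g).im = 0} →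
        {ξ : IrrCharacter ↥(Subgroup.normalizer ((P : Subgroup G) : Set G)) //
          (∀ n, (ξ.1 n).im = 0) ∧ ¬ p ∣ charDegree ξ.1},
      Function.Bijective f ∧ ∀ χ,
        ((charDegree (f χ).1.1 : ZMod p) = (charDegree χ.1.1 : ZMod p) ∨
          (charDegree (f χ).1.1 : ZMod p) = -(charDegree χ.1.1 : ZMod p)) := by
  classical
  haveI : Fintype G := Fintype.ofFinite G
  haveI : (pGen 2 G).Normal := pGen_normal 2
  exact real_mckay_aux p (pGen 2 G) odd_index_pGen_two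
    (fun Q => normal_sylow_of_real_pprime p hsolv hreal Q) hreal P

end Cfsg.Agent.H83
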