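import Mathlib
import Cfsg.Agent.H83.RealOddA
import Cfsg.Agent.H83.RealOddB

/-!
# Real characters of odd degree in solvable groups: the count (helper83)

For a finite solvable group `G` with Sylow `2`-subgroup `P`, the groups `G` and `N_G(P)` have the
same number of real-valued irreducible characters of odd degree (`card_real_odd_eq_normalizer`).

The proof is an induction on `|G|` for the statement refined by the value at a central element
`z` with `z² = 1`: a nontrivial normal subgroup of odd order lies in the kernel of all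
characters concerned (on both sides), and otherwise one applies the Clifford correspondence over
the `P`-invariant real linear characters `ν` of `O_2(G)` and passes to the quotient of the
inertia group by the kernel of `ν`.
-/

set_option autoImplicit false
set_option linter.unusedSectionVars false
set_option linter.style.haveILetI false

namespace Cfsg.Agent.H83

open Cfsg Cfsg.Agent.H4 Cfsg.Agent.Clifford Cfsg.Agent.H82
open scoped ComplexConjugate

universe u

theorem card_eq_of_fibers {A B J : Type*} [Finite A] [Finite B] (a : A → J) (b : B → J)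
    (h : ∀ j, Nat.card {x // a x = j} = Nat.card {y // b y = j}) : Nat.card A = Nat.card B := by
  have e : ∀ j, Nonempty ({x // a x = j} ≃ {y // b y = j}) := fun j => Finite.card_eq.mp (h j)
  exact Nat.card_congr ((Equiv.sigmaFiberEquiv a).symm.trans
    ((Equiv.sigmaCongrRight fun j => Classical.choice (e j)).trans (Equiv.sigmaFiberEquiv b)))

section Orbit

variable {G : Type u} [Group G] [Fintype G] (W : Subgroup G) [hW : W.Normal] [Fintype W]

/-- Constituents on a normal `2`-subgroup of a real irreducible character of odd degree are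
linear with values `±1`. -/
theorem pm_one_of_real_odd_over (hW2 : IsPGroup 2 W) (χ : IrrCharacter G)
    (hχ : ∀ g, (χ.1 g).im = 0) (hodd : Odd (charDegree χ.1)) (θ : IrrCharacter W)
    (h : classInner (fun n : W => χ.1 n) θ.1 ≠ 0) :
    ∀ n, θ.1 n = 1 ∨ θ.1 n = -1 := by
  obtain ⟨hr, -, ho⟩ := real_of_real_odd_over W χ hχ hodd θ h
  haveI : Fact (Nat.Prime 2) := ⟨Nat.prime_two⟩
  obtain ⟨k, hk⟩ := IsPGroup.iff_card.mp hW2
  have hd : charDegree θ.1 ∣ 2 ^ k := by rw [← hk]; exact H81.irr_charDegree_dvd θ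
  obtain ⟨j, -, hj⟩ := (Nat.dvd_prime_pow Nat.prime_two).mp hd
  have hdeg : charDegree θ.1 = 1 := by
    rcases Nat.eq_zero_or_pos j with h0 | h0
    · rw [hj, h0, pow_zero]
    · exfalso
      rw [hj] at ho
      exact (Nat.not_even_iff_odd.mpr ho) (Nat.even_pow.mpr ⟨even_two, h0.ne'⟩)
  have h1 : θ.1 1 = 1 := by rw [irr_one_eq_charDegree, hdeg, Nat.cast_one]
  intro n
  have h2 : θ.1 n * θ.1 n⁻¹ = 1 := by rw [← irr_linear_mul θ h1, mul_inv_cancel, h1]
  have h3 : θ.1 n⁻¹ = θ.1 n := by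
    rw [H82.irr_inv θ n]
    exact Complex.conj_eq_iff_im.mpr (hr n)
  rw [h3] at h2
  have h4 : (θ.1 n - 1) * (θ.1 n + 1) = 0 := by linear_combination h2
  rcases mul_eq_zero.mp h4 with h5 | h5
  · left; linear_combination h5
  · right; linear_combination h5

/-- A character of odd degree has a `P`-invariant constituent on a normal subgroup. -/
theorem exists_pinv_constituent (P : Sylow 2 G) (χ : IrrCharacter G)
    (hodd : Odd (charDegree χ.1)) :
    ∃ ν : IrrCharacter W, (∀ s ∈ (P : Subgroup G), conjChar W ν.1 s = ν.1) ∧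
      classInner (fun n : W => χ.1 n) ν.1 ≠ 0 := by
  obtain ⟨θ₀, hθ₀⟩ := exists_constituent_res W χ
  have hI := (odd_of_odd_over W χ hodd θ₀ hθ₀).1
  have hI2 : ¬ 2 ∣ (Clifford.inertia W θ₀.1).index := fun h =>
    (Nat.not_even_iff_odd.mpr hI) (even_iff_two_dvd.mpr h)
  obtain ⟨g, hg⟩ := exists_conj_sylow_le 2 P (Clifford.inertia W θ₀.1) hI2
  refine ⟨⟨conjChar W θ₀.1 g⁻¹, isIrrCharacter_conjChar W θ₀.2 g⁻¹⟩, ?_, ?_⟩
  · intro s hs
    show conjChar W (conjChar W θ₀.1 g⁻¹) s = conjChar W θ₀.1 g⁻¹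
    rw [conjChar_conjChar, show g⁻¹ * s = (g⁻¹ * s * g) * g⁻¹ by group, ← conjChar_conjChar]
    congr 1
    exact hg s hs
  · show classInner (fun n : W => χ.1 n) (conjChar W θ₀.1 g⁻¹) ≠ 0
    rw [classInner_res_conjChar W (irr_isClassFunction χ)]
    exact hθ₀

/-- Two `P`-invariant constituents are conjugate under the normalizer of `P`. -/
theorem exists_normalizer_conj (P : Sylow 2 G) (χ : IrrCharacter G) (ν ν₁ : W → ℂ)
    (hν : IsIrrCharacter W ν) (hν₁ : IsIrrCharacter W ν₁)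
    (hi : ∀ s ∈ (P : Subgroup G), conjChar W ν s = ν)
    (hi₁ : ∀ s ∈ (P : Subgroup G), conjChar W ν₁ s = ν₁)
    (h : classInner (fun n : W => χ.1 n) ν ≠ 0) (h₁ : classInner (fun n : W => χ.1 n) ν₁ ≠ 0) :
    ∃ x ∈ Subgroup.normalizer ((P : Subgroup G) : Set G), ν₁ = conjChar W ν x := by
  obtain ⟨g, hg⟩ := clifford_conj W χ.2 hν hν₁ h h₁
  have hPI : (P : Subgroup G) ≤ Clifford.inertia W ν := fun s hs => hi s hs
  have hgI : ∀ s ∈ (P : Subgroup G), g * s * g⁻¹ ∈ Clifford.inertia W ν := by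
    intro s hs
    show conjChar W ν (g * s * g⁻¹) = ν
    rw [show g * s * g⁻¹ = g * (s * g⁻¹) by group, ← conjChar_conjChar, ← hg, ← conjChar_conjChar,
      hi₁ s hs, hg, conjChar_conjChar, mul_inv_cancel, conjChar_one]
  obtain ⟨c, hc, hcg⟩ := exists_mul_mem_normalizer 2 P (Clifford.inertia W ν) hPI g hgI
  refine ⟨c * g, hcg, ?_⟩
  rw [← conjChar_conjChar, show conjChar W ν c = ν from hc]
  exact hg

end Orbit

section ToSub

variable {G : Type u} [Group G]

/-- Transport of a function on `W` to the copy of `W` inside a subgroup `H`. -/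
def toSub (W H : Subgroup G) (ν : W → ℂ) : ↥(W.subgroupOf H) → ℂ :=
  fun x => ν ⟨((x : ↥H) : G), Subgroup.mem_subgroupOf.mp x.2⟩

theorem toSub_apply (W H : Subgroup G) (ν : W → ℂ) (x : ↥(W.subgroupOf H)) :
    toSub W H ν x = ν ⟨((x : ↥H) : G), Subgroup.mem_subgroupOf.mp x.2⟩ := rfl

theorem toSub_injective {W H : Subgroup G} (hWH : W ≤ H) {ν ν₁ : W → ℂ}
    (h : toSub W H ν = toSub W H ν₁) : ν = ν₁ := by
  funext w
  exact congrFun h ⟨⟨w, hWH w.2⟩, Subgroup.mem_subgroupOf.mpr w.2⟩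

theorem toSub_isIrr {W H : Subgroup G} (hWH : W ≤ H) {ν : W → ℂ} (hν : IsIrrCharacter W ν) :
    IsIrrCharacter ↥(W.subgroupOf H) (toSub W H ν) := by
  let j : ↥(W.subgroupOf H) →* ↥W :=
    { toFun := fun x => ⟨((x : ↥H) : G), Subgroup.mem_subgroupOf.mp x.2⟩
      map_one' := rfl
      map_mul' := fun _ _ => rfl }
  have hj : Function.Surjective j := fun w =>
    ⟨⟨⟨w, hWH w.2⟩, Subgroup.mem_subgroupOf.mpr w.2⟩, rfl⟩
  exact isIrrCharacter_comp_surjective j hj hν

theorem isIrr_of_toSub {W H : Subgroup G} (hWH : W ≤ H) {ν : W → ℂ}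
    (hν : IsIrrCharacter ↥(W.subgroupOf H) (toSub W H ν)) : IsIrrCharacter W ν := by
  let k : ↥W →* ↥(W.subgroupOf H) :=
    { toFun := fun w => ⟨⟨w, hWH w.2⟩, Subgroup.mem_subgroupOf.mpr w.2⟩
      map_one' := rfl
      map_mul' := fun _ _ => rfl }
  have hk : Function.Surjective k := fun x => ⟨⟨(x : ↥H), Subgroup.mem_subgroupOf.mp x.2⟩, rfl⟩
  exact isIrrCharacter_comp_surjective k hk hν

theorem exists_toSub {W H : Subgroup G} (hWH : W ≤ H) (θ : ↥(W.subgroupOf H) → ℂ) :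
    ∃ ν : W → ℂ, toSub W H ν = θ :=
  ⟨fun w => θ ⟨⟨w, hWH w.2⟩, Subgroup.mem_subgroupOf.mpr w.2⟩, rfl⟩

theorem conjChar_toSub (W H : Subgroup G) [hW : W.Normal] (ν : W → ℂ) (h : ↥H) :
    conjChar (W.subgroupOf H) (toSub W H ν) h = toSub W H (conjChar W ν (h : G)) := rfl

end ToSub

section OrbitH

variable {G : Type u} [Group G] [Fintype G] (W : Subgroup G) [hW : W.Normal] [Fintype W]

theorem exists_pinv_constituent_H (P : Sylow 2 G) (H : Subgroup G) [Fintype H]
    [Fintype ↥(W.subgroupOf H)] (hPH : (P : Subgroup G) ≤ H) (hWH : W ≤ H)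
    (ξ : IrrCharacter H) (hodd : Odd (charDegree ξ.1)) :
    ∃ ν : W → ℂ, IsIrrCharacter W ν ∧ (∀ s ∈ (P : Subgroup G), conjChar W ν s = ν) ∧
      classInner (fun n : ↥(W.subgroupOf H) => ξ.1 n) (toSub W H ν) ≠ 0 := by
  obtain ⟨ν', hinv, hc⟩ := exists_pinv_constituent (W.subgroupOf H) (P.subtype hPH) ξ hodd
  obtain ⟨ν, hνe⟩ := exists_toSub hWH ν'.1
  refine ⟨ν, isIrr_of_toSub hWH (by rw [hνe]; exact ν'.2), ?_, by rw [hνe]; exact hc⟩
  intro s hs
  apply toSub_injective hWH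
  rw [← conjChar_toSub W H ν ⟨s, hPH hs⟩, hνe]
  apply hinv
  rw [Sylow.coe_subtype]
  exact Subgroup.mem_subgroupOf.mpr hs

theorem exists_normalizer_conj_H (H : Subgroup G) [Fintype H]
    [Fintype ↥(W.subgroupOf H)] (hWH : W ≤ H) (ξ : IrrCharacter H) (ν ν₁ : W → ℂ)
    (hν : IsIrrCharacter W ν) (hν₁ : IsIrrCharacter W ν₁)
    (h : classInner (fun n : ↥(W.subgroupOf H) => ξ.1 n) (toSub W H ν) ≠ 0)
    (h₁ : classInner (fun n : ↥(W.subgroupOf H) => ξ.1 n) (toSub W H ν₁) ≠ 0) :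
    ∃ x ∈ H, ν₁ = conjChar W ν x := by
  obtain ⟨g, hg⟩ := clifford_conj (W.subgroupOf H) ξ.2 (toSub_isIrr hWH hν) (toSub_isIrr hWH hν₁)
    h h₁
  refine ⟨(g : G), g.2, ?_⟩
  apply toSub_injective hWH
  rw [hg, conjChar_toSub]

theorem constituent_conj_H (H : Subgroup G) [Fintype H]
    [Fintype ↥(W.subgroupOf H)] (ξ : IrrCharacter H) (ν : W → ℂ)
    (h : classInner (fun n : ↥(W.subgroupOf H) => ξ.1 n) (toSub W H ν) ≠ 0) (x : G) (hx : x ∈ H) :
    classInner (fun n : ↥(W.subgroupOf H) => ξ.1 n) (toSub W H (conjChar W ν x)) ≠ 0 := by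
  rw [← conjChar_toSub W H ν ⟨x, hx⟩, classInner_res_conjChar (W.subgroupOf H) (irr_isClassFunction ξ)]
  exact h

end OrbitH

/-- The statement proved by induction: the count of real characters of odd degree with
prescribed value ratio at a central element of order at most `2`. -/
def CountHyp (G' : Type u) [Group G'] : Prop :=
  ∀ (P' : Sylow 2 G') (H' : Subgroup G'),
    H' = Subgroup.normalizer ((P' : Subgroup G') : Set G') →
    ∀ z' : ↥H', (z' : G') ∈ Subgroup.center G' → (z' : G') * (z' : G') = 1 → ∀ c : ℂ,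
      Nat.card {χ : IrrCharacter G' // RO (z' : G') c χ.1} =
        Nat.card {ξ : IrrCharacter ↥H' // RO z' c ξ.1}

section StepTwo

variable {G : Type u} [Group G] [Fintype G] [Group.IsSolvable G]

theorem step_two (P : Sylow 2 G) (H : Subgroup G)
    (hH : H = Subgroup.normalizer ((P : Subgroup G) : Set G)) [Fintype H]
    (ih : ∀ (G' : Type u) [Group G'] [Finite G'] [Group.IsSolvable G'],
      Nat.card G' < Nat.card G → CountHyp G')
    (W : Subgroup G) [hW : W.Normal] [Fintype W] [Fintype ↥(W.subgroupOf H)]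
    (hWP : W ≤ (P : Subgroup G))
    (ν : ↥W → ℂ) (hν : IsIrrCharacter W ν) (hpm : ∀ w, ν w = 1 ∨ ν w = -1)
    (hinv : ∀ s ∈ (P : Subgroup G), conjChar W ν s = ν)
    (hk : ∃ w : W, w ≠ 1 ∧ ν w = 1) :
    Nat.card {χ : IrrCharacter G // (∀ g, (χ.1 g).im = 0) ∧ Odd (charDegree χ.1) ∧
        classInner (fun n : W => χ.1 n) ν ≠ 0} =
      Nat.card {ξ : IrrCharacter ↥H // (∀ g, (ξ.1 g).im = 0) ∧ Odd (charDegree ξ.1) ∧
        classInner (fun n : ↥(W.subgroupOf H) => ξ.1 n) (toSub W H ν) ≠ 0} := by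
  classical
  have hPH : (P : Subgroup G) ≤ H := by rw [hH]; exact Subgroup.le_normalizer
  have hWH : W ≤ H := hWP.trans hPH
  have hν1 : ν 1 = 1 := by
    rcases hpm 1 with h | h
    · exact h
    · exfalso
      have h1 := irr_one_eq_charDegree ⟨ν, hν⟩
      rw [show (⟨ν, hν⟩ : IrrCharacter W).1 1 = ν 1 from rfl, h] at h1
      have h2 := congrArg Complex.re h1
      simp at h2
      have h3 : (0 : ℝ) ≤ (charDegree ν : ℝ) := Nat.cast_nonneg _
      linarith
  have hmul : ∀ a b : W, ν (a * b) = ν a * ν b := irr_linear_mul ⟨ν, hν⟩ hν1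
  have hsq : ∀ a : W, ν a * ν a = 1 := by
    intro a
    rcases hpm a with h | h <;> rw [h] <;> norm_num
  have hνinv : ∀ a : W, ν a⁻¹ = ν a := by
    intro a
    have h := hmul a a⁻¹
    rw [mul_inv_cancel, hν1] at h
    have h2 := hsq a
    have h3 : ν a ≠ 0 := by
      intro h0; rw [h0, zero_mul] at h2; exact zero_ne_one h2
    exact mul_left_cancel₀ h3 (by rw [← h, h2])
  have hνreal : ∀ w : W, (ν w).im = 0 := by
    intro w
    rcases hpm w with h | h <;> rw [h] <;> simp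
  -- the inertia group
  obtain ⟨T, hTdef⟩ : ∃ T : Subgroup G, T = Clifford.inertia W ν := ⟨_, rfl⟩
  haveI : Fintype T := Fintype.ofFinite T
  have hWT : W ≤ T := by
    rw [hTdef]
    exact le_inertia W (isClassFunction_of_isCharacter (isCharacter_of_isIrrCharacter hν))
  have hPT : (P : Subgroup G) ≤ T := by rw [hTdef]; exact fun s hs => hinv s hs
  have hTmem : ∀ t : G, t ∈ T ↔
      ∀ n : W, ν ⟨t * n * t⁻¹, hW.conj_mem (n : G) n.2 t⟩ = ν n := by
    intro t; rw [hTdef]; exact Clifford.mem_inertia_iff W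
  have hPodd : Odd (P : Subgroup G).index := by
    have := P.not_dvd_index
    exact Nat.odd_iff.mpr (Nat.two_dvd_ne_zero.mp this)
  have hTodd : Odd T.index := Odd.of_dvd_nat hPodd (Subgroup.index_dvd_of_le hPT)
  -- the kernel of `ν`, inside `T`
  let K₀ : Subgroup ↥T :=
    { carrier := {t | ∃ h : (t : G) ∈ W, ν ⟨t, h⟩ = 1}
      one_mem' := ⟨W.one_mem, hν1⟩
      mul_mem' := by
        rintro a b ⟨ha, ha'⟩ ⟨hb, hb'⟩
        refine ⟨W.mul_mem ha hb, ?_⟩
        have := hmul ⟨a, ha⟩ ⟨b, hb⟩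
        rw [ha', hb', mul_one] at this
        exact this
      inv_mem' := by
        rintro a ⟨ha, ha'⟩
        refine ⟨W.inv_mem ha, ?_⟩
        have := hνinv ⟨a, ha⟩
        rw [ha'] at this
        exact this }
  haveI hK₀n : K₀.Normal := by
    refine ⟨?_⟩
    rintro a ⟨ha, ha'⟩ g
    refine ⟨hW.conj_mem a ha g, ?_⟩
    have := (hTmem g).mp g.2 ⟨a, ha⟩
    rw [ha'] at this
    exact this
  have hker : ∀ t : ↥T, (QuotientGroup.mk' K₀) t = 1 ↔ ∃ h : (t : G) ∈ W, ν ⟨t, h⟩ = 1 :=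
    fun t => QuotientGroup.eq_one_iff t
  obtain ⟨w₀, hw₀⟩ : ∃ w₀ : W, ∀ w : W, ν w = 1 ∨ (ν w = -1 ∧ ν w₀ = -1) := by
    by_cases hex : ∃ w : W, ν w = -1
    · obtain ⟨w₀, h0⟩ := hex
      exact ⟨w₀, fun w => (hpm w).imp id fun h => ⟨h, h0⟩⟩
    · push Not at hex
      exact ⟨1, fun w => Or.inl ((hpm w).resolve_right (hex w))⟩
  have hlt : Nat.card (↥T ⧸ K₀) < Nat.card G := by
    obtain ⟨w, hw1, hw2⟩ := hk
    have h1 : Nat.card ↥T = Nat.card (↥T ⧸ K₀) * Nat.card K₀ :=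
      Subgroup.card_eq_card_quotient_mul_card_subgroup K₀
    have h2 : 1 < Nat.card K₀ := by
      apply Finite.one_lt_card_iff_nontrivial.mpr
      refine ⟨⟨⟨⟨w, hWT w.2⟩, ⟨w.2, hw2⟩⟩, 1, ?_⟩⟩
      intro h
      apply hw1
      have := congrArg (fun k : K₀ => ((k : ↥T) : G)) h
      exact Subtype.ext this
    have h3 : Nat.card ↥T ≤ Nat.card G := Subgroup.card_le_card_group T
    have h4 : 0 < Nat.card (↥T ⧸ K₀) := Nat.card_pos
    nlinarith
  -- the Sylow subgroup of the quotient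
  let PT : Sylow 2 ↥T := P.subtype hPT
  have hPTc : (PT : Subgroup ↥T) = (P : Subgroup G).subgroupOf T := Sylow.coe_subtype P hPT
  let Pb : Sylow 2 (↥T ⧸ K₀) := PT.mapSurjective (QuotientGroup.mk'_surjective K₀)
  have hPbc : (Pb : Subgroup (↥T ⧸ K₀)) = (PT : Subgroup ↥T).map (QuotientGroup.mk' K₀) :=
    Sylow.coe_mapSurjective _ _
  obtain ⟨Hb, hHb⟩ : ∃ Hb : Subgroup (↥T ⧸ K₀),
      Hb = Subgroup.normalizer ((Pb : Subgroup (↥T ⧸ K₀)) : Set (↥T ⧸ K₀)) := ⟨_, rfl⟩
  have hzc : (QuotientGroup.mk' K₀ ⟨w₀, hWT w₀.2⟩) ∈ Subgroup.center (↥T ⧸ K₀) := by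
    rw [Subgroup.mem_center_iff]
    intro y
    obtain ⟨t, rfl⟩ := QuotientGroup.mk'_surjective K₀ y
    rw [← map_mul, ← map_mul]
    apply QuotientGroup.eq.mpr
    have hmemW : (t : G)⁻¹ * (w₀ : G) * (t : G)⁻¹⁻¹ ∈ W := hW.conj_mem _ w₀.2 _
    have h1 := (hTmem (t : G)⁻¹).mp (T.inv_mem t.2) w₀
    refine ⟨?_, ?_⟩
    · show ((t : G) * (w₀ : G))⁻¹ * ((w₀ : G) * (t : G)) ∈ W
      have e : ((t : G) * (w₀ : G))⁻¹ * ((w₀ : G) * (t : G)) =
          (w₀ : G)⁻¹ * ((t : G)⁻¹ * (w₀ : G) * (t : G)⁻¹⁻¹) := by group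
      rw [e]
      exact W.mul_mem (W.inv_mem w₀.2) hmemW
    · have e : (⟨((t * ⟨w₀, hWT w₀.2⟩)⁻¹ * (⟨w₀, hWT w₀.2⟩ * t : ↥T) : ↥T), by
            show ((t : G) * (w₀ : G))⁻¹ * ((w₀ : G) * (t : G)) ∈ W
            have e : ((t : G) * (w₀ : G))⁻¹ * ((w₀ : G) * (t : G)) =
                (w₀ : G)⁻¹ * ((t : G)⁻¹ * (w₀ : G) * (t : G)⁻¹⁻¹) := by group
            rw [e]
            exact W.mul_mem (W.inv_mem w₀.2) hmemW⟩ : W) =
          w₀⁻¹ * ⟨(t : G)⁻¹ * (w₀ : G) * (t : G)⁻¹⁻¹, hmemW⟩ := by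
        apply Subtype.ext
        show ((t : G) * (w₀ : G))⁻¹ * ((w₀ : G) * (t : G)) =
          (w₀ : G)⁻¹ * ((t : G)⁻¹ * (w₀ : G) * (t : G)⁻¹⁻¹)
        group
      rw [e, hmul, hνinv, h1, hsq]
  have hz2 : (QuotientGroup.mk' K₀ ⟨w₀, hWT w₀.2⟩) * (QuotientGroup.mk' K₀ ⟨w₀, hWT w₀.2⟩) = 1 := by
    rw [← map_mul]
    apply (hker _).mpr
    refine ⟨W.mul_mem w₀.2 w₀.2, ?_⟩
    have := hmul w₀ w₀
    rw [hsq] at this
    exact this
  have hzHb : (QuotientGroup.mk' K₀ ⟨w₀, hWT w₀.2⟩) ∈ Hb := by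
    rw [hHb, Subgroup.mem_normalizer_iff]
    intro h
    have e : (QuotientGroup.mk' K₀ ⟨w₀, hWT w₀.2⟩) * h * (QuotientGroup.mk' K₀ ⟨w₀, hWT w₀.2⟩)⁻¹
        = h := by
      rw [← Subgroup.mem_center_iff.mp hzc h]; group
    rw [e]
  have hih := ih (↥T ⧸ K₀) hlt Pb Hb hHb ⟨_, hzHb⟩ hzc hz2 (ν w₀)
  have hG1 := card_real_odd_over_eq_inertia W ⟨ν, hν⟩ hνreal T hTdef hWT hTodd
  have hG2 := card_real_odd_over_eq_quot W ν hν hpm T hWT (le_of_eq hTdef)
    (QuotientGroup.mk' K₀) (QuotientGroup.mk'_surjective K₀) hker w₀ hw₀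
  rw [hG1, hG2, hih]
  -- the side of the normalizer
  have hν' : IsIrrCharacter ↥(W.subgroupOf H) (toSub W H ν) := toSub_isIrr hWH hν
  have hν'real : ∀ w, (toSub W H ν w).im = 0 := fun w => hνreal _
  have hpm' : ∀ w, toSub W H ν w = 1 ∨ toSub W H ν w = -1 := fun w => hpm _
  obtain ⟨I', hI'def⟩ : ∃ I' : Subgroup ↥H,
      I' = Clifford.inertia (W.subgroupOf H) (toSub W H ν) := ⟨_, rfl⟩
  haveI : Fintype I' := Fintype.ofFinite I'
  have hW'I' : W.subgroupOf H ≤ I' := by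
    rw [hI'def]
    exact le_inertia _ (isClassFunction_of_isCharacter (isCharacter_of_isIrrCharacter hν'))
  have hI'mem : ∀ x : ↥H, x ∈ I' ↔ (x : G) ∈ T := by
    intro x
    rw [hI'def, hTdef, Clifford.mem_inertia, Clifford.mem_inertia, conjChar_toSub]
    constructor
    · intro h; exact toSub_injective hWH h
    · intro h; rw [h]
  have hI'odd : Odd I'.index := by
    have h1 : (P : Subgroup G).subgroupOf H ≤ I' := by
      intro x hx
      exact (hI'mem x).mpr (hPT (Subgroup.mem_subgroupOf.mp hx))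
    have h2 : I'.index ∣ ((P : Subgroup G).subgroupOf H).index := Subgroup.index_dvd_of_le h1
    have h3 : ((P : Subgroup G).subgroupOf H).index ∣ (P : Subgroup G).index :=
      Subgroup.relIndex_dvd_index_of_le hPH
    exact Odd.of_dvd_nat hPodd (h2.trans h3)
  have hH1 := card_real_odd_over_eq_inertia (W.subgroupOf H) ⟨toSub W H ν, hν'⟩ hν'real I'
    hI'def hW'I' hI'odd
  let j : ↥I' →* ↥T :=
    { toFun := fun x => ⟨(((x : ↥I') : ↥H) : G), (hI'mem _).mp x.2⟩
      map_one' := rfl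
      map_mul' := fun _ _ => rfl }
  have hjN : ∀ x : ↥I', ((QuotientGroup.mk' K₀).comp j) x ∈ Hb := by
    intro x
    rw [hHb, hPbc]
    apply map_mem_normalizer
    rw [hPTc, Subgroup.mem_normalizer_iff]
    intro s
    rw [Subgroup.mem_subgroupOf, Subgroup.mem_subgroupOf]
    have hxH : (((x : ↥I') : ↥H) : G) ∈ Subgroup.normalizer ((P : Subgroup G) : Set G) := by
      rw [← hH]; exact (x : ↥H).2
    exact Subgroup.mem_normalizer_iff.mp hxH (s : G)
  let ρ' : ↥I' →* ↥Hb := ((QuotientGroup.mk' K₀).comp j).codRestrict Hb hjN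
  have hρ' : Function.Surjective ρ' := by
    rintro ⟨y, hy⟩
    have hy' : y ∈ Subgroup.normalizer
        ((((PT : Subgroup ↥T).map (QuotientGroup.mk' K₀) : Subgroup (↥T ⧸ K₀))) :
          Set (↥T ⧸ K₀)) := by
      rw [← hPbc, ← hHb]; exact hy
    obtain ⟨t, ht, hty⟩ := exists_preimage_mem_normalizer (QuotientGroup.mk' K₀)
      (QuotientGroup.mk'_surjective K₀) PT y hy'
    rw [hPTc] at ht
    have htH : (t : G) ∈ H := by
      rw [hH, Subgroup.mem_normalizer_iff]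
      intro s
      constructor
      · intro hs
        have := (Subgroup.mem_normalizer_iff.mp ht ⟨s, hPT hs⟩).mp (Subgroup.mem_subgroupOf.mpr hs)
        exact Subgroup.mem_subgroupOf.mp this
      · intro hs
        have hsT : s ∈ T := by
          have h1 : (t : G)⁻¹ * ((t : G) * s * (t : G)⁻¹) * (t : G) ∈ T :=
            T.mul_mem (T.mul_mem (T.inv_mem t.2) (hPT hs)) t.2
          have h2 : (t : G)⁻¹ * ((t : G) * s * (t : G)⁻¹) * (t : G) = s := by group
          rwa [h2] at h1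
        have := (Subgroup.mem_normalizer_iff.mp ht ⟨s, hsT⟩).mpr (Subgroup.mem_subgroupOf.mpr hs)
        exact Subgroup.mem_subgroupOf.mp this
    refine ⟨⟨⟨(t : G), htH⟩, (hI'mem _).mpr t.2⟩, ?_⟩
    apply Subtype.ext
    show QuotientGroup.mk' K₀ (j _) = y
    rw [← hty]
    rfl
  have hker' : ∀ x : ↥I', ρ' x = 1 ↔
      ∃ h : (x : ↥H) ∈ W.subgroupOf H, toSub W H ν ⟨x, h⟩ = 1 := by
    intro x
    rw [Subtype.ext_iff]
    show QuotientGroup.mk' K₀ (j x) = 1 ↔ _
    rw [hker]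
    rfl
  have hH2 := card_real_odd_over_eq_quot (W.subgroupOf H) (toSub W H ν) hν' hpm' I' hW'I'
    (le_of_eq hI'def) ρ' hρ' hker' ⟨⟨w₀, hWH w₀.2⟩, Subgroup.mem_subgroupOf.mpr w₀.2⟩
    (fun w => hw₀ _)
  rw [hH1, hH2]
  rfl

end StepTwo

theorem one_of_pm {X : Type u} [Group X] {ν : X → ℂ} (hν : IsIrrCharacter X ν)
    (hpm : ∀ w, ν w = 1 ∨ ν w = -1) : ν 1 = 1 := by
  rcases hpm 1 with h | h
  · exact h
  · exfalso
    have h1 := irr_one_eq_charDegree ⟨ν, hν⟩
    rw [show (⟨ν, hν⟩ : IrrCharacter X).1 1 = ν 1 from rfl, h] at h1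
    have h2 := congrArg Complex.re h1
    simp at h2
    have h3 : (0 : ℝ) ≤ (charDegree ν : ℝ) := Nat.cast_nonneg _
    linarith

/-- **Main count**, inductive form. -/
theorem count_main (n : ℕ) : ∀ (G : Type u) [Group G] [Finite G] [Group.IsSolvable G],
    Nat.card G = n → CountHyp G := by
  induction n using Nat.strong_induction_on with
  | _ n ih =>
  intro G _ _ _ hn P H hH z hzc hz2 c
  classical
  haveI : Fintype G := Fintype.ofFinite G
  haveI : Fintype H := Fintype.ofFinite H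
  haveI := finite_irr G
  haveI := finite_irr ↥H
  have hPH : (P : Subgroup G) ≤ H := by rw [hH]; exact Subgroup.le_normalizer
  have ih' : ∀ (G' : Type u) [Group G'] [Finite G'] [Group.IsSolvable G'],
      Nat.card G' < Nat.card G → CountHyp G' := by
    intro G' _ _ _ hlt
    exact ih (Nat.card G') (by rw [← hn]; exact hlt) G' rfl
  by_cases hHtop : H = ⊤
  · have hsurj : Function.Surjective H.subtype := fun g => ⟨⟨g, by rw [hHtop]; trivial⟩, rfl⟩
    have h1 := card_irr_comp_surjective H.subtype hsurj (RO z c)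
    have h2 : Nat.card {ξ : IrrCharacter ↥H // RO z c ξ.1} =
        Nat.card {χ : IrrCharacter ↥H // (∀ a, H.subtype a = 1 → χ.1 a = χ.1 1) ∧
          RO z c χ.1} := by
      apply Nat.card_congr
      apply Equiv.subtypeEquivRight
      intro ξ
      constructor
      · intro h
        refine ⟨fun a ha => ?_, h⟩
        have : a = 1 := Subtype.ext ha
        rw [this]
      · exact fun h => h.2
    have h3 : Nat.card {χ' : IrrCharacter G // RO z c (fun a => χ'.1 (H.subtype a))} =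
        Nat.card {χ : IrrCharacter G // RO (z : G) c χ.1} := by
      apply Nat.card_congr
      apply Equiv.subtypeEquivRight
      intro χ'
      exact ro_comp_iff H.subtype hsurj z c χ'.1
    rw [h2, h1, h3]
  by_cases hodd : ∃ M : Subgroup G, M.Normal ∧ M ≠ ⊥ ∧ Odd (Nat.card M)
  · obtain ⟨M, hMn, hMne, hModd⟩ := hodd
    haveI := hMn
    have hlt : Nat.card (G ⧸ M) < Nat.card G := by
      have h1 := Subgroup.card_eq_card_quotient_mul_card_subgroup M
      have h2 : 1 < Nat.card M := by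
        have h3 : Nat.card M ≠ 1 := fun h => hMne (Subgroup.card_eq_one.mp h)
        have h4 : 0 < Nat.card M := Nat.card_pos
        omega
      have h4 : 0 < Nat.card (G ⧸ M) := Nat.card_pos
      nlinarith
    let Pb : Sylow 2 (G ⧸ M) := P.mapSurjective (QuotientGroup.mk'_surjective M)
    have hPbc : (Pb : Subgroup (G ⧸ M)) = (P : Subgroup G).map (QuotientGroup.mk' M) :=
      Sylow.coe_mapSurjective _ _
    obtain ⟨Hb, hHb⟩ : ∃ Hb : Subgroup (G ⧸ M),
        Hb = Subgroup.normalizer ((Pb : Subgroup (G ⧸ M)) : Set (G ⧸ M)) := ⟨_, rfl⟩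
    have hρN : ∀ x : ↥H, ((QuotientGroup.mk' M).comp H.subtype) x ∈ Hb := by
      intro x
      rw [hHb, hPbc]
      apply map_mem_normalizer
      rw [← hH]; exact x.2
    let ρ : ↥H →* ↥Hb := ((QuotientGroup.mk' M).comp H.subtype).codRestrict Hb hρN
    have hρ : Function.Surjective ρ := by
      rintro ⟨y, hy⟩
      have hy' : y ∈ Subgroup.normalizer
          ((((P : Subgroup G).map (QuotientGroup.mk' M) : Subgroup (G ⧸ M))) :
            Set (G ⧸ M)) := by
        rw [← hPbc, ← hHb]; exact hy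
      obtain ⟨h, hh, hhy⟩ := exists_preimage_mem_normalizer (QuotientGroup.mk' M)
        (QuotientGroup.mk'_surjective M) P y hy'
      refine ⟨⟨h, by rw [hH]; exact hh⟩, ?_⟩
      apply Subtype.ext
      exact hhy
    have hρker : Odd (Nat.card ρ.ker) := by
      let i : ρ.ker →* M :=
        { toFun := fun k => ⟨((k : ↥H) : G), (QuotientGroup.eq_one_iff _).mp
            (congrArg Subtype.val (MonoidHom.mem_ker.mp k.2))⟩
          map_one' := rfl
          map_mul' := fun _ _ => rfl }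
      have hi : Function.Injective i := by
        intro a b hab
        apply Subtype.ext; apply Subtype.ext
        exact congrArg (fun m : M => (m : G)) hab
      exact Odd.of_dvd_nat hModd (Subgroup.card_dvd_of_injective i hi)
    have h1 := card_ro_of_odd_ker (QuotientGroup.mk' M) (QuotientGroup.mk'_surjective M)
      (by rw [QuotientGroup.ker_mk']; exact hModd) (z : G) c
    have h2 := card_ro_of_odd_ker ρ hρ hρker z c
    have hzb : ((ρ z : ↥Hb) : G ⧸ M) ∈ Subgroup.center (G ⧸ M) := by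
      show QuotientGroup.mk' M (z : G) ∈ _
      rw [Subgroup.mem_center_iff]
      intro y
      obtain ⟨g, rfl⟩ := QuotientGroup.mk'_surjective M y
      rw [← map_mul, ← map_mul, Subgroup.mem_center_iff.mp hzc g]
    have hzb2 : ((ρ z : ↥Hb) : G ⧸ M) * ((ρ z : ↥Hb) : G ⧸ M) = 1 := by
      show QuotientGroup.mk' M (z : G) * QuotientGroup.mk' M (z : G) = 1
      rw [← map_mul, hz2, map_one]
    have h3 := ih' (G ⧸ M) hlt Pb Hb hHb (ρ z) hzb hzb2 c
    rw [h1, h2]
    exact h3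
  · push Not at hodd
    have hno : ∀ M : Subgroup G, M.Normal → Odd (Nat.card M) → M = ⊥ := by
      intro M hM ho
      by_contra hne
      exact hodd M hM hne ho
    obtain ⟨W, hWdef⟩ : ∃ W : Subgroup G, W = (P : Subgroup G).normalCore := ⟨_, rfl⟩
    haveI hWn : W.Normal := by rw [hWdef]; exact Subgroup.normalCore_normal _
    have hWP : W ≤ (P : Subgroup G) := by rw [hWdef]; exact Subgroup.normalCore_le _
    have hW2 : IsPGroup 2 W := P.isPGroup'.to_le hWP
    have hWH : W ≤ H := hWP.trans hPH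
    haveI : Fintype W := Fintype.ofFinite W
    haveI : Fintype ↥(W.subgroupOf H) := Fintype.ofFinite _
    have hW'2 : IsPGroup 2 ↥(W.subgroupOf H) := hW2.comap_subtype
    have hWnc : ¬ W ≤ Subgroup.center G := by
      intro hc
      rw [hWdef] at hc
      have hPtop := sylow_eq_top_of_core_central P hno hc
      apply hHtop
      rw [eq_top_iff, ← hPtop]; exact hPH
    have hzconj : ∀ g : G, g * (z : G) * g⁻¹ = z := by
      intro g
      rw [Subgroup.mem_center_iff.mp hzc g]; group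
    have hzW : (z : G) ∈ W := by
      have hZn : (Subgroup.zpowers (z : G)).Normal := by
        refine ⟨?_⟩
        rintro a ⟨k, rfl⟩ g
        have hzk : (z : G) ^ k ∈ Subgroup.center G := Subgroup.zpow_mem _ hzc k
        have : g * (z : G) ^ k * g⁻¹ = (z : G) ^ k := by
          rw [Subgroup.mem_center_iff.mp hzk g]; group
        rw [this]; exact ⟨k, rfl⟩
      have hZ2 : IsPGroup 2 (Subgroup.zpowers (z : G)) := by
        rintro ⟨a, k, rfl⟩
        refine ⟨1, ?_⟩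
        apply Subtype.ext
        show ((z : G) ^ k) ^ 2 ^ 1 = 1
        rw [pow_one, ← zpow_natCast, ← zpow_mul, mul_comm, zpow_mul, zpow_natCast, pow_two, hz2,
          one_zpow]
      have hZP : Subgroup.zpowers (z : G) ≤ (P : Subgroup G) :=
        normal_pgroup_le_sylow P (Subgroup.zpowers (z : G)) hZ2
      have hZW : Subgroup.zpowers (z : G) ≤ W := by
        rw [hWdef]; exact Subgroup.normal_le_normalCore.mpr hZP
      exact hZW (Subgroup.mem_zpowers _)
    let a₀ : IrrCharacter G → Set (↥W → ℂ) := fun χ =>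
      {ν | IsIrrCharacter W ν ∧ (∀ s ∈ (P : Subgroup G), conjChar W ν s = ν) ∧
        classInner (fun n : W => χ.1 n) ν ≠ 0}
    let b₀ : IrrCharacter ↥H → Set (↥W → ℂ) := fun ξ =>
      {ν | IsIrrCharacter W ν ∧ (∀ s ∈ (P : Subgroup G), conjChar W ν s = ν) ∧
        classInner (fun n : ↥(W.subgroupOf H) => ξ.1 n) (toSub W H ν) ≠ 0}
    let Orb : (↥W → ℂ) → Set (↥W → ℂ) := fun ν =>
      {ν₁ | IsIrrCharacter W ν₁ ∧ (∀ s ∈ (P : Subgroup G), conjChar W ν₁ s = ν₁) ∧
        ∃ x ∈ H, ν₁ = conjChar W ν x}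
    have hA : ∀ χ : IrrCharacter G, ∀ ν ∈ a₀ χ, a₀ χ = Orb ν := by
      intro χ ν hν
      ext ν₁
      constructor
      · intro h₁
        obtain ⟨x, hx, hxe⟩ := exists_normalizer_conj W P χ ν ν₁ hν.1 h₁.1 hν.2.1 h₁.2.1
          hν.2.2 h₁.2.2
        exact ⟨h₁.1, h₁.2.1, x, by rw [hH]; exact hx, hxe⟩
      · rintro ⟨h1, h2, x, hx, rfl⟩
        refine ⟨h1, h2, ?_⟩
        show classInner (fun n : W => χ.1 n) (conjChar W ν x) ≠ 0
        rw [classInner_res_conjChar W (irr_isClassFunction χ)]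
        exact hν.2.2
    have hB : ∀ ξ : IrrCharacter ↥H, ∀ ν ∈ b₀ ξ, b₀ ξ = Orb ν := by
      intro ξ ν hν
      ext ν₁
      constructor
      · intro h₁
        obtain ⟨x, hx, hxe⟩ := exists_normalizer_conj_H W H hWH ξ ν ν₁ hν.1 h₁.1 hν.2.2 h₁.2.2
        exact ⟨h₁.1, h₁.2.1, x, hx, hxe⟩
      · rintro ⟨h1, h2, x, hx, rfl⟩
        exact ⟨h1, h2, constituent_conj_H W H ξ ν hν.2.2 x hx⟩
    have hOrb : ∀ ν, IsIrrCharacter W ν → (∀ s ∈ (P : Subgroup G), conjChar W ν s = ν) →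
        ν ∈ Orb ν := fun ν h1 h2 => ⟨h1, h2, 1, H.one_mem, (conjChar_one W ν).symm⟩
    have hpropA : ∀ χ : IrrCharacter G, RO (z : G) c χ.1 → ∀ ν ∈ a₀ χ,
        (∀ w, ν w = 1 ∨ ν w = -1) ∧ ν ⟨z, hzW⟩ = c := by
      intro χ hχ ν hν
      have hpm := pm_one_of_real_odd_over W hW2 χ hχ.1 hχ.2.1 ⟨ν, hν.1⟩ hν.2.2
      refine ⟨hpm, ?_⟩
      have hν1 : ν 1 = 1 := one_of_pm hν.1 hpm
      have h1 := eq_mul_of_over_of_central W χ.2 hν.1 hν1 hν.2.2 ⟨z, hzW⟩ hzconj
      have h2 := hχ.2.2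
      rw [h1] at h2
      exact mul_right_cancel₀ (H82.irr_one_ne_zero χ) h2
    have hzconj' : ∀ g : ↥H, (g : G) * (z : G) * (g : G)⁻¹ = (z : G) := fun g => hzconj g
    have hpropB : ∀ ξ : IrrCharacter ↥H, RO z c ξ.1 → ∀ ν ∈ b₀ ξ,
        (∀ w, ν w = 1 ∨ ν w = -1) ∧ ν ⟨z, hzW⟩ = c := by
      intro ξ hξ ν hν
      have hpm' := pm_one_of_real_odd_over (W.subgroupOf H) hW'2 ξ hξ.1 hξ.2.1
        ⟨toSub W H ν, toSub_isIrr hWH hν.1⟩ hν.2.2
      have hpm : ∀ w, ν w = 1 ∨ ν w = -1 := fun w =>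
        hpm' ⟨⟨w, hWH w.2⟩, Subgroup.mem_subgroupOf.mpr w.2⟩
      refine ⟨hpm, ?_⟩
      have hν1 : ν 1 = 1 := one_of_pm hν.1 hpm
      have h1 := eq_mul_of_over_of_central (W.subgroupOf H) ξ.2 (toSub_isIrr hWH hν.1) hν1
        hν.2.2 ⟨z, Subgroup.mem_subgroupOf.mpr hzW⟩ (fun g => Subtype.ext (hzconj' g))
      have h2 := hξ.2.2
      have h1' : ξ.1 z = ν ⟨z, hzW⟩ * ξ.1 1 := h1
      rw [h1'] at h2
      exact mul_right_cancel₀ (H82.irr_one_ne_zero ξ) h2
    have hC7 : ∀ ν : ↥W → ℂ, IsIrrCharacter W ν →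
        (∀ s ∈ (P : Subgroup G), conjChar W ν s = ν) → (∀ w, ν w = 1 ∨ ν w = -1) →
        ν ⟨z, hzW⟩ = c →
        Nat.card {χ : {χ : IrrCharacter G // RO (z : G) c χ.1} // ν ∈ a₀ χ.1} =
          Nat.card {ξ : {ξ : IrrCharacter ↥H // RO z c ξ.1} // ν ∈ b₀ ξ.1} := by
      intro ν hν hinv hpm hνz
      have hν1 : ν 1 = 1 := one_of_pm hν hpm
      have hmul : ∀ a b : W, ν (a * b) = ν a * ν b := irr_linear_mul ⟨ν, hν⟩ hν1
      have hk : ∃ w : W, w ≠ 1 ∧ ν w = 1 := by
        by_contra hcon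
        push Not at hcon
        apply hWnc
        intro w hw
        rw [Subgroup.mem_center_iff]
        intro g
        by_cases hw1 : w = 1
        · rw [hw1]; simp
        · have h1 : ν ⟨w, hw⟩ = -1 :=
            (hpm _).resolve_left (hcon ⟨w, hw⟩ (fun h => hw1 (congrArg Subtype.val h)))
          have hgw : g * w * g⁻¹ ∈ W := hWn.conj_mem w hw g
          have h2 : ν ⟨g * w * g⁻¹, hgw⟩ = -1 := by
            refine (hpm _).resolve_left (hcon ⟨_, hgw⟩ (fun h => hw1 ?_))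
            have h3 : g * w * g⁻¹ = 1 := congrArg Subtype.val h
            exact conj_eq_one_iff.mp h3
          have h4 : ν (⟨w, hw⟩ : W)⁻¹ = -1 := by
            have := hmul ⟨w, hw⟩ (⟨w, hw⟩ : W)⁻¹
            rw [mul_inv_cancel, hν1, h1] at this
            linear_combination this
          have h3 : ν (⟨g * w * g⁻¹, hgw⟩ * (⟨w, hw⟩ : W)⁻¹) = 1 := by
            rw [hmul, h2, h4]; norm_num
          have h6 : (⟨g * w * g⁻¹, hgw⟩ * (⟨w, hw⟩ : W)⁻¹ : W) = 1 := by
            by_contra h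
            exact hcon _ h h3
          have h8 : g * w * g⁻¹ * w⁻¹ = 1 := congrArg Subtype.val h6
          calc g * w = (g * w * g⁻¹ * w⁻¹) * (w * g) := by group
            _ = w * g := by rw [h8, one_mul]
      have hst := step_two P H hH ih' W hWP ν hν hpm hinv hk
      have e1 : Nat.card {χ : {χ : IrrCharacter G // RO (z : G) c χ.1} // ν ∈ a₀ χ.1} =
          Nat.card {χ : IrrCharacter G // (∀ g, (χ.1 g).im = 0) ∧ Odd (charDegree χ.1) ∧
            classInner (fun n : W => χ.1 n) ν ≠ 0} := by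
        apply Nat.card_congr
        refine (Equiv.subtypeSubtypeEquivSubtypeInter
          (fun χ : IrrCharacter G => RO (z : G) c χ.1) (fun χ => ν ∈ a₀ χ)).trans
          (Equiv.subtypeEquivRight ?_)
        intro χ
        constructor
        · rintro ⟨h1, h2⟩; exact ⟨h1.1, h1.2.1, h2.2.2⟩
        · rintro ⟨h1, h2, h3⟩
          refine ⟨⟨h1, h2, ?_⟩, hν, hinv, h3⟩
          rw [eq_mul_of_over_of_central W χ.2 hν hν1 h3 ⟨z, hzW⟩ hzconj, hνz]
      have e2 : Nat.card {ξ : {ξ : IrrCharacter ↥H // RO z c ξ.1} // ν ∈ b₀ ξ.1} =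
          Nat.card {ξ : IrrCharacter ↥H // (∀ g, (ξ.1 g).im = 0) ∧ Odd (charDegree ξ.1) ∧
            classInner (fun n : ↥(W.subgroupOf H) => ξ.1 n) (toSub W H ν) ≠ 0} := by
        apply Nat.card_congr
        refine (Equiv.subtypeSubtypeEquivSubtypeInter
          (fun ξ : IrrCharacter ↥H => RO z c ξ.1) (fun ξ => ν ∈ b₀ ξ)).trans
          (Equiv.subtypeEquivRight ?_)
        intro ξ
        constructor
        · rintro ⟨h1, h2⟩; exact ⟨h1.1, h1.2.1, h2.2.2⟩
        · rintro ⟨h1, h2, h3⟩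
          refine ⟨⟨h1, h2, ?_⟩, hν, hinv, h3⟩
          have h4 := eq_mul_of_over_of_central (W.subgroupOf H) ξ.2 (toSub_isIrr hWH hν) hν1
            h3 ⟨z, Subgroup.mem_subgroupOf.mpr hzW⟩ (fun g => Subtype.ext (hzconj' g))
          have h4' : ξ.1 z = ν ⟨z, hzW⟩ * ξ.1 1 := h4
          rw [h4', hνz]
      rw [e1, e2]
      exact hst
    refine card_eq_of_fibers (fun χ : {χ : IrrCharacter G // RO (z : G) c χ.1} => a₀ χ.1)
      (fun ξ : {ξ : IrrCharacter ↥H // RO z c ξ.1} => b₀ ξ.1) ?_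
    intro S
    by_cases hS : (∃ χ : {χ : IrrCharacter G // RO (z : G) c χ.1}, a₀ χ.1 = S) ∨
        (∃ ξ : {ξ : IrrCharacter ↥H // RO z c ξ.1}, b₀ ξ.1 = S)
    · have hν : ∃ ν : ↥W → ℂ, IsIrrCharacter W ν ∧
          (∀ s ∈ (P : Subgroup G), conjChar W ν s = ν) ∧ (∀ w, ν w = 1 ∨ ν w = -1) ∧
          ν ⟨z, hzW⟩ = c ∧ S = Orb ν := by
        rcases hS with ⟨χ, rfl⟩ | ⟨ξ, rfl⟩
        · obtain ⟨ν, hinv, hc⟩ := exists_pinv_constituent W P χ.1 χ.2.2.1
          have hmem : ν.1 ∈ a₀ χ.1 := ⟨ν.2, hinv, hc⟩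
          obtain ⟨h1, h2⟩ := hpropA χ.1 χ.2 ν.1 hmem
          exact ⟨ν.1, ν.2, hinv, h1, h2, hA χ.1 ν.1 hmem⟩
        · obtain ⟨ν, hν, hinv, hc⟩ := exists_pinv_constituent_H W P H hPH hWH ξ.1 ξ.2.2.1
          have hmem : ν ∈ b₀ ξ.1 := ⟨hν, hinv, hc⟩
          obtain ⟨h1, h2⟩ := hpropB ξ.1 ξ.2 ν hmem
          exact ⟨ν, hν, hinv, h1, h2, hB ξ.1 ν hmem⟩
      obtain ⟨ν, hν, hinv, hpm, hνz, rfl⟩ := hν
      have e1 : Nat.card {χ : {χ : IrrCharacter G // RO (z : G) c χ.1} // a₀ χ.1 = Orb ν} =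
          Nat.card {χ : {χ : IrrCharacter G // RO (z : G) c χ.1} // ν ∈ a₀ χ.1} := by
        apply Nat.card_congr
        apply Equiv.subtypeEquivRight
        intro χ
        constructor
        · intro h; rw [h]; exact hOrb ν hν hinv
        · intro h; exact hA χ.1 ν h
      have e2 : Nat.card {ξ : {ξ : IrrCharacter ↥H // RO z c ξ.1} // b₀ ξ.1 = Orb ν} =
          Nat.card {ξ : {ξ : IrrCharacter ↥H // RO z c ξ.1} // ν ∈ b₀ ξ.1} := by
        apply Nat.card_congr
        apply Equiv.subtypeEquivRight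
        intro ξ
        constructor
        · intro h; rw [h]; exact hOrb ν hν hinv
        · intro h; exact hB ξ.1 ν h
      rw [e1, e2]
      exact hC7 ν hν hinv hpm hνz
    · push Not at hS
      haveI : IsEmpty {χ : {χ : IrrCharacter G // RO (z : G) c χ.1} // a₀ χ.1 = S} :=
        ⟨fun x => hS.1 x.1 x.2⟩
      haveI : IsEmpty {ξ : {ξ : IrrCharacter ↥H // RO z c ξ.1} // b₀ ξ.1 = S} :=
        ⟨fun x => hS.2 x.1 x.2⟩
      rw [Nat.card_of_isEmpty, Nat.card_of_isEmpty]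

/-- A finite solvable group and the normalizer of a Sylow `2`-subgroup have the same number of
real-valued irreducible characters of odd degree. -/
theorem card_real_odd_eq_normalizer {G : Type u} [Group G] [Finite G] [Group.IsSolvable G]
    (P : Sylow 2 G) :
    Nat.card {χ : IrrCharacter G // (∀ g : G, (χ.1 g).im = 0) ∧ Odd (charDegree χ.1)} =
      Nat.card {ψ : IrrCharacter ↥(Subgroup.normalizer ((P : Subgroup G) : Set G)) //
        (∀ g, (ψ.1 g).im = 0) ∧ Odd (charDegree ψ.1)} := by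
  have h := count_main (Nat.card G) G rfl P _ rfl 1 (by simp) (by simp) 1
  have e1 : Nat.card {χ : IrrCharacter G // (∀ g : G, (χ.1 g).im = 0) ∧ Odd (charDegree χ.1)} =
      Nat.card {χ : IrrCharacter G //
        RO ((1 : ↥(Subgroup.normalizer ((P : Subgroup G) : Set G))) : G) 1 χ.1} := by
    apply Nat.card_congr
    apply Equiv.subtypeEquivRight
    intro χ
    unfold RO
    constructor
    · rintro ⟨h1, h2⟩; exact ⟨h1, h2, by simp⟩
    · rintro ⟨h1, h2, -⟩; exact ⟨h1, h2⟩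
  have e2 : Nat.card {ψ : IrrCharacter ↥(Subgroup.normalizer ((P : Subgroup G) : Set G)) //
        (∀ g, (ψ.1 g).im = 0) ∧ Odd (charDegree ψ.1)} =
      Nat.card {ψ : IrrCharacter ↥(Subgroup.normalizer ((P : Subgroup G) : Set G)) //
        RO 1 1 ψ.1} := by
    apply Nat.card_congr
    apply Equiv.subtypeEquivRight
    intro χ
    unfold RO
    constructor
    · rintro ⟨h1, h2⟩; exact ⟨h1, h2, by simp⟩
    · rintro ⟨h1, h2, -⟩; exact ⟨h1, h2⟩
  rw [e1, e2]
  exact h

end Cfsg.Agent.H83
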