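import Mathlib
import Cfsg.Agent.H83.RealOddC
import Cfsg.Agent.H32.DegP
import Cfsg.Agent.H3.PGroup

/-!
# Real characters of odd degree in solvable groups: self-normalizing Sylow `2`-subgroups (helper83)

* `exists_irr_of_comp_constituent`, `constituent_comp_of_constituent`: constituents of
  compositions with homomorphisms;
* `exists_odd_constituent`: a character of odd degree has an irreducible constituent of odd
  degree;
* `odd_ker_of_self_normalizing`: if a Sylow `2`-subgroup is self-normalizing, normal subgroups of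
  odd order lie in the kernel of the irreducible characters of odd degree;
* `normalizer_le_of_odd_real`: in a finite solvable group whose irreducible characters of odd
  degree are all real, the Sylow `2`-subgroups are self-normalizing.
-/

set_option autoImplicit false
set_option linter.unusedSectionVars false
set_option linter.style.haveILetI false

namespace Cfsg.Agent.H83

open Cfsg Cfsg.Agent.H4 Cfsg.Agent.Clifford Cfsg.Agent.H82
open scoped ComplexConjugate

universe u

section General

/-- A constituent of `Φ ∘ f` lies under some irreducible constituent of `Φ`. -/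
theorem exists_irr_of_comp_constituent {A B : Type u} [Group A] [Group B] [Fintype A]
    [Fintype B] (f : A → B) {Φ : B → ℂ} (hΦ : IsClassFunction B Φ) (φ : A → ℂ)
    (h : classInner (fun a => Φ (f a)) φ ≠ 0) :
    ∃ δ : IrrCharacter B, classInner Φ δ.1 ≠ 0 ∧ classInner (fun a => δ.1 (f a)) φ ≠ 0 := by
  classical
  letI := fintypeIrr B
  rw [classInner_comp_expand hΦ f φ, finsum_irr_eq_sum] at h
  obtain ⟨δ, -, hδ⟩ := Finset.exists_ne_zero_of_sum_ne_zero h
  exact ⟨δ, left_ne_zero_of_mul hδ, right_ne_zero_of_mul hδ⟩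

/-- If `μ` is a constituent of `Φ` and `μ ∘ f` is irreducible, then `μ ∘ f` is a constituent of
`Φ ∘ f`. -/
theorem constituent_comp_of_constituent {A B : Type u} [Group A] [Group B] [Fintype A]
    [Fintype B] (f : A →* B) {Φ : B → ℂ} (hΦ : IsCharacter B Φ) (μ : IrrCharacter B)
    (hμf : IsIrrCharacter A (fun a => μ.1 (f a)))
    (h : classInner Φ μ.1 ≠ 0) : classInner (fun a => Φ (f a)) (fun a => μ.1 (f a)) ≠ 0 := by
  classical
  letI := fintypeIrr B
  obtain ⟨a, c, ha, hc, hac⟩ :=
    classInner_comp_expand_nat hΦ f (isCharacter_of_isIrrCharacter hμf)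
  rw [hac, finsum_irr_eq_sum]
  have ha0 : a μ ≠ 0 := by
    intro h0; apply h; rw [ha μ, h0]; simp
  have hc1 : c μ = 1 := by
    have := hc μ
    rw [classInner_irr_irr hμf hμf, if_pos rfl] at this
    exact_mod_cast this.symm
  have hpos : 0 < ∑ χ : IrrCharacter B, a χ * c χ := by
    apply Finset.sum_pos'
    · intro χ _; exact Nat.zero_le _
    · exact ⟨μ, Finset.mem_univ _, by rw [hc1, mul_one]; exact Nat.pos_of_ne_zero ha0⟩
  exact_mod_cast hpos.ne'

/-- Composition of a linear character with a homomorphism. -/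
theorem isIrr_comp_of_linear {A B : Type u} [Group A] [Group B] (f : A →* B) {μ : B → ℂ}
    (hμ : IsIrrCharacter B μ) (h1 : μ 1 = 1) : IsIrrCharacter A (fun a => μ (f a)) :=
  (linChar ((irrLinearHom ⟨μ, hμ⟩ h1).comp f)).2

/-- A character of odd degree has an irreducible constituent of odd degree. -/
theorem exists_odd_constituent {X : Type u} [Group X] [Fintype X] {Φ : X → ℂ}
    (hΦ : IsCharacter X Φ) (d : ℕ) (hd : Φ 1 = d) (hodd : Odd d) :
    ∃ χ : IrrCharacter X, classInner Φ χ.1 ≠ 0 ∧ Odd (charDegree χ.1) := by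
  classical
  letI := fintypeIrr X
  have hm : ∀ φ' : IrrCharacter X, ∃ m : ℕ, classInner Φ φ'.1 = m := fun φ' =>
    classInner_isCharacter_nat hΦ (isCharacter_of_isIrrCharacter φ'.2)
  choose m hm using hm
  have hexp := classFunction_eq_finsum (isClassFunction_of_isCharacter hΦ)
  rw [finsum_irr_eq_sum] at hexp
  have hval : Φ 1 = ∑ φ' : IrrCharacter X, (m φ' : ℂ) * φ'.1 1 := by
    have := congrFun hexp 1
    simp only [Finset.sum_apply, Pi.smul_apply, smul_eq_mul] at this
    rw [this]
    exact Finset.sum_congr rfl fun φ' _ => by rw [hm]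
  have hnat : d = ∑ φ' : IrrCharacter X, m φ' * charDegree φ'.1 := by
    have h2 : (d : ℂ) = ((∑ φ' : IrrCharacter X, m φ' * charDegree φ'.1 : ℕ) : ℂ) := by
      rw [← hd, hval]
      push_cast
      exact Finset.sum_congr rfl fun φ' _ => by rw [irr_one_eq_charDegree]
    exact_mod_cast h2
  by_contra hcon
  push Not at hcon
  have heven : Even d := by
    rw [hnat]
    apply Finset.even_sum
    intro φ' _
    by_cases h0 : m φ' = 0
    · rw [h0, zero_mul]; exact Even.zero
    · have h1 : classInner Φ φ'.1 ≠ 0 := by rw [hm]; exact_mod_cast h0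
      exact Even.mul_left (Nat.not_odd_iff_even.mp (hcon φ' h1)) _
  exact (Nat.not_even_iff_odd.mpr hodd) heven

end General

section SelfNormalizing

variable {G : Type u} [Group G] [Fintype G]

/-- If the Sylow `2`-subgroup `P` is self-normalizing, a normal subgroup of odd order lies in the
kernel of every irreducible character of odd degree. -/
theorem odd_ker_of_self_normalizing (P : Sylow 2 G)
    (hN : Subgroup.normalizer ((P : Subgroup G) : Set G) = (P : Subgroup G))
    (M : Subgroup G) [hM : M.Normal] [Fintype M] (hMo : Odd (Nat.card M))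
    (χ : IrrCharacter G) (hodd : Odd (charDegree χ.1)) : ∀ m : M, χ.1 m = χ.1 1 := by
  classical
  obtain ⟨θ, hinv, hc⟩ := exists_pinv_constituent M P χ hodd
  suffices hθ : θ = H78.trivIrr M by
    rw [hθ] at hc
    exact const_of_over_one M χ.2 hc
  have hPM : ∀ g : G, g ∈ (P : Subgroup G) → g ∈ M → g = 1 := by
    intro g hgP hgM
    have hdisj : Disjoint (P : Subgroup G) M := by
      apply Subgroup.disjoint_of_coprime_natCard
      obtain ⟨k, hk⟩ := IsPGroup.iff_card.mp P.isPGroup'
      rw [hk]
      exact Nat.Coprime.pow_left _ (Nat.coprime_two_left.mpr hMo)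
    exact Subgroup.disjoint_def.mp hdisj hgP hgM
  have hnorm : ∀ s ∈ (P : Subgroup G), ∀ g ∈ M, s * g * s⁻¹ ∈ M :=
    fun s _ g hg => hM.conj_mem g hg s
  letI := conjAct M (P : Subgroup G) hnorm
  let ι : PUnit.{u + 1} →* ↥M := 1
  have hι : Function.Injective ι := fun a b _ => Subsingleton.elim a b
  have hfix : ∀ k : ↥M, (∃ c, ι c = k) ↔ ∀ s : ↥(P : Subgroup G), s • k = k := by
    intro k
    constructor
    · rintro ⟨c, rfl⟩ s
      exact smul_one s
    · intro h
      have hcomm : ∀ s ∈ (P : Subgroup G), s * (k : G) = (k : G) * s := by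
        intro s hs
        have := congrArg Subtype.val (h ⟨s, hs⟩)
        have h2 : s * (k : G) * s⁻¹ = (k : G) := this
        calc s * (k : G) = s * (k : G) * s⁻¹ * s := by group
          _ = (k : G) * s := by rw [h2]
      have hkH : (k : G) ∈ Subgroup.normalizer ((P : Subgroup G) : Set G) := by
        rw [Subgroup.mem_normalizer_iff]
        intro x
        constructor
        · intro hx
          have : (k : G) * x * (k : G)⁻¹ = x := by rw [← hcomm x hx]; group
          rw [this]; exact hx
        · intro hx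
          have h3 := hcomm _ hx
          have h4 : (k : G) * x = (k : G) * ((k : G) * x * (k : G)⁻¹) := by
            rw [← h3]; group
          rw [mul_left_cancel h4]; exact hx
      rw [hN] at hkH
      have h1 := hPM _ hkH k.2
      exact ⟨PUnit.unit, Subtype.ext h1.symm⟩
  obtain ⟨-, -, G3, -⟩ := glauberman_pgroup Nat.prime_two P.isPGroup' ι hι hfix (Or.inl (by
    intro h2; exact (Nat.not_even_iff_odd.mpr hMo) (even_iff_two_dvd.mpr h2)))
  have hdegodd : ∀ θ' : IrrCharacter M, ¬ 2 ∣ charDegree θ'.1 := by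
    intro θ' h2
    have hd := H81.irr_charDegree_dvd θ'
    exact (Nat.not_even_iff_odd.mpr hMo) (even_iff_two_dvd.mpr (h2.trans hd))
  have hinner : ∀ θ' : IrrCharacter M,
      classInner (fun c : PUnit.{u + 1} => θ'.1 (ι c)) (H78.trivIrr PUnit.{u + 1}).1 =
        (charDegree θ'.1 : ℂ) := by
    intro θ'
    rw [← irr_one_eq_charDegree θ']
    unfold classInner
    simp [H78.trivIrr_apply, ι]
  exact G3 θ (H78.trivIrr M) (fun s g => congrFun (hinv s s.2) g) (fun _ _ => rfl)
    (H78.trivIrr PUnit.{u + 1}) _ _ (hinner θ) (hdegodd θ) (hinner _) (hdegodd _)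

end SelfNormalizing

/-- In a finite solvable group all of whose irreducible characters of odd degree are real, the
Sylow `2`-subgroups are self-normalizing. -/
theorem normalizer_le_of_odd_real (n : ℕ) :
    ∀ (G : Type u) [Group G] [Finite G] [Group.IsSolvable G], Nat.card G = n →
      ∀ P : Sylow 2 G,
        (∀ χ : IrrCharacter G, Odd (charDegree χ.1) → ∀ g : G, (χ.1 g).im = 0) →
        Subgroup.normalizer ((P : Subgroup G) : Set G) ≤ (P : Subgroup G) := by
  induction n using Nat.strong_induction_on with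
  | _ n ih =>
  intro G _ _ _ hn P hreal g hg
  classical
  haveI : Fintype G := Fintype.ofFinite G
  by_cases hnt : Nontrivial G
  swap
  · rw [not_nontrivial_iff_subsingleton] at hnt
    have : g = 1 := Subsingleton.elim _ _
    rw [this]; exact Subgroup.one_mem _
  obtain ⟨N, q, hNn, hNne, hq, -, hNexp⟩ := exists_normal_abelian_pgroup (G := G)
  haveI := hNn
  haveI : Fintype N := Fintype.ofFinite N
  have hlt : Nat.card (G ⧸ N) < Nat.card G := by
    have h1 := Subgroup.card_eq_card_quotient_mul_card_subgroup N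
    have h2 : 1 < Nat.card N := by
      have h3 : Nat.card N ≠ 1 := fun h => hNne (Subgroup.card_eq_one.mp h)
      have h4 : 0 < Nat.card N := Nat.card_pos
      omega
    have h4 : 0 < Nat.card (G ⧸ N) := Nat.card_pos
    nlinarith
  let Pb : Sylow 2 (G ⧸ N) := P.mapSurjective (QuotientGroup.mk'_surjective N)
  have hPbc : (Pb : Subgroup (G ⧸ N)) = (P : Subgroup G).map (QuotientGroup.mk' N) :=
    Sylow.coe_mapSurjective _ _
  have hrealb : ∀ χ : IrrCharacter (G ⧸ N), Odd (charDegree χ.1) → ∀ y, (χ.1 y).im = 0 := by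
    intro χ hχ y
    obtain ⟨g', rfl⟩ := QuotientGroup.mk_surjective y
    exact hreal (inflate N χ) (by rw [charDegree_inflate]; exact hχ) g'
  have hih := ih (Nat.card (G ⧸ N)) (by rw [← hn]; exact hlt) (G ⧸ N) rfl Pb hrealb
  have hgb : QuotientGroup.mk' N g ∈ (Pb : Subgroup (G ⧸ N)) := by
    apply hih
    rw [hPbc]
    exact map_mem_normalizer (QuotientGroup.mk' N) (P : Subgroup G) g hg
  rw [hPbc] at hgb
  obtain ⟨x, hx, hxg⟩ := hgb
  have hnN : x⁻¹ * g ∈ N := QuotientGroup.eq.mp hxg
  have hnH : x⁻¹ * g ∈ Subgroup.normalizer ((P : Subgroup G) : Set G) :=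
    Subgroup.mul_mem _ (Subgroup.inv_mem _ (Subgroup.le_normalizer hx)) hg
  suffices hnP : x⁻¹ * g ∈ (P : Subgroup G) by
    have := Subgroup.mul_mem _ hx hnP
    rwa [mul_inv_cancel_left] at this
  by_cases hq2 : q = 2
  · subst hq2
    have hN2 : IsPGroup 2 N := by
      rintro ⟨a, ha⟩
      refine ⟨1, ?_⟩
      apply Subtype.ext
      show a ^ 2 ^ 1 = 1
      rw [pow_one]; exact hNexp a ha
    haveI : Fact (Nat.Prime 2) := ⟨Nat.prime_two⟩
    exact normal_pgroup_le_sylow P N hN2 hnN
  · by_contra hnP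
    have hNodd : Odd (Nat.card N) := by
      have hNq : IsPGroup q N := by
        rintro ⟨a, ha⟩
        refine ⟨1, ?_⟩
        apply Subtype.ext
        show a ^ q ^ 1 = 1
        rw [pow_one]; exact hNexp a ha
      haveI : Fact q.Prime := ⟨hq⟩
      obtain ⟨k, hk⟩ := IsPGroup.iff_card.mp hNq
      rw [hk]
      exact Odd.pow (hq.odd_of_ne_two hq2)
    obtain ⟨H, hH⟩ : ∃ H : Subgroup G, H = Subgroup.normalizer ((P : Subgroup G) : Set G) :=
      ⟨_, rfl⟩
    haveI : Fintype H := Fintype.ofFinite H
    have hPH : (P : Subgroup G) ≤ H := by rw [hH]; exact Subgroup.le_normalizer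
    obtain ⟨PH, hPHdef⟩ : ∃ PH : Subgroup ↥H, PH = (P : Subgroup G).subgroupOf H := ⟨_, rfl⟩
    haveI hPHn : PH.Normal := by
      rw [hPHdef, hH]; exact Subgroup.normal_in_normalizer
    have hPodd : Odd (P : Subgroup G).index := by
      have := P.not_dvd_index
      exact Nat.odd_iff.mpr (Nat.two_dvd_ne_zero.mp this)
    have hPHodd : Odd PH.index := by
      have h3 : ((P : Subgroup G).subgroupOf H).index ∣ (P : Subgroup G).index :=
        Subgroup.relIndex_dvd_index_of_le hPH
      rw [hPHdef]
      exact Odd.of_dvd_nat hPodd h3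
    have hHodd : Odd H.index := Odd.of_dvd_nat hPodd (Subgroup.index_dvd_of_le hPH)
    have hnH' : x⁻¹ * g ∈ H := by rw [hH]; exact hnH
    have hne : (QuotientGroup.mk (⟨x⁻¹ * g, hnH'⟩ : ↥H) : ↥H ⧸ PH) ≠ 1 := by
      intro h
      have h1 := (QuotientGroup.eq_one_iff _).mp h
      rw [hPHdef, Subgroup.mem_subgroupOf] at h1
      exact hnP h1
    obtain ⟨ξb, hξb, -⟩ := H32.exists_irr_two_ne hne hne
    have hξbodd : Odd (charDegree ξb.1) := by
      have hd := H81.irr_charDegree_dvd ξb
      have hc : Nat.card (↥H ⧸ PH) = PH.index := rfl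
      rw [hc] at hd
      exact Odd.of_dvd_nat hPHodd hd
    obtain ⟨ξ, hξdef⟩ : ∃ ξ : IrrCharacter ↥H, ξ = inflate PH ξb := ⟨_, rfl⟩
    have hξodd : Odd (charDegree ξ.1) := by rw [hξdef, charDegree_inflate]; exact hξbodd
    have hΦ : IsCharacter G (indFun H ξ.1) :=
      isCharacter_indFun H ξ.1 (isCharacter_of_isIrrCharacter ξ.2)
    have hΦ1 : indFun H ξ.1 1 = ((H.index * charDegree ξ.1 : ℕ) : ℂ) := by
      rw [indFun_one_eq, irr_one_eq_charDegree]
      push_cast
      ring
    obtain ⟨χ, hχc, hχodd⟩ := exists_odd_constituent hΦ _ hΦ1 (Odd.mul hHodd hξodd)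
    have hχreal := hreal χ hχodd
    have hker := real_odd_ker N hNodd χ hχreal hχodd
    rw [frobenius_reciprocity H ξ.1 χ.1 (irr_isClassFunction χ)] at hχc
    have hχc' : classInner (fun h : ↥H => χ.1 h) ξ.1 ≠ 0 := by
      intro h0
      apply hχc
      rw [← classInner_conj_symm, h0, map_zero]
    have h5 := constituent_mem_ker H χ ξ hχc' ⟨x⁻¹ * g, hnH'⟩ (hker ⟨x⁻¹ * g, hnN⟩)
    apply hξb
    rw [hξdef] at h5
    have h6 : ξb.1 (QuotientGroup.mk (1 : ↥H)) = ξb.1 1 := rfl
    rw [← h6]
    exact h5

end Cfsg.Agent.H83
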