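import Mathlib
import Cfsg.Agent.H83.RealOddD

/-!
# Self-normalizing Sylow `2`-subgroups of solvable groups: uniqueness of linear constituents
(helper83)

Let `G` be a finite solvable group whose Sylow `2`-subgroup `P` is self-normalizing.  Then an
irreducible character `χ` of odd degree has exactly one linear constituent on `P`, and a linear
character of `P` lies under at most one irreducible character of odd degree (`uniq_main`).
-/

set_option autoImplicit false
set_option linter.unusedSectionVars false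
set_option linter.style.haveILetI false

namespace Cfsg.Agent.H83

open Cfsg Cfsg.Agent.H4 Cfsg.Agent.Clifford Cfsg.Agent.H82
open scoped ComplexConjugate

universe u

/-- The statement proved by induction. -/
def UniqHyp (G' : Type u) [Group G'] : Prop :=
  ∀ (P' : Sylow 2 G'),
    Subgroup.normalizer ((P' : Subgroup G') : Set G') = (P' : Subgroup G') →
    ∀ (Q : Type u) [Group Q] [Fintype Q] (ι : Q →* G'), ι.range = (P' : Subgroup G') →
    ∀ χ χ' : IrrCharacter G', Odd (charDegree χ.1) → Odd (charDegree χ'.1) →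
    ∀ lam lam' : Q → ℂ, IsIrrCharacter Q lam → IsIrrCharacter Q lam' → lam 1 = 1 →
      lam' 1 = 1 →
      classInner (fun q => χ.1 (ι q)) lam ≠ 0 → classInner (fun q => χ'.1 (ι q)) lam' ≠ 0 →
      (χ = χ' ↔ lam = lam')

section Step

variable {G : Type u} [Group G] [Fintype G]

theorem exists_lin_of_comp (P : Subgroup G) [Fintype P]
    {Q : Type u} [Group Q] [Fintype Q] (ιP : Q →* ↥P) (hιP : Function.Surjective ιP)
    (χ : IrrCharacter G) (lam : Q → ℂ) (hlam : IsIrrCharacter Q lam) (h1 : lam 1 = 1)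
    (hc : classInner (fun q => χ.1 (ιP q)) lam ≠ 0) :
    ∃ μ : IrrCharacter ↥P, μ.1 1 = 1 ∧ classInner (fun s : ↥P => χ.1 s) μ.1 ≠ 0 ∧
      lam = fun q => μ.1 (ιP q) := by
  classical
  have hΦ : IsClassFunction ↥P (fun s : ↥P => χ.1 s) :=
    isClassFunction_of_isCharacter (isCharacter_restrict P (isCharacter_of_isIrrCharacter χ.2))
  obtain ⟨μ, hμ1, hμ2⟩ := exists_irr_of_comp_constituent ιP hΦ lam hc
  have e := eq_of_classInner_ne_zero (isIrrCharacter_comp_surjective ιP hιP μ.2) hlam hμ2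
  refine ⟨μ, ?_, hμ1, e.symm⟩
  have := congrFun e 1
  simp only [map_one] at this
  rw [this, h1]

/-- The Clifford correspondent of `χ` over the restriction of `μ` to `W` still lies over the
linear character `μ ∘ ιP`. -/
theorem step_N (P : Subgroup G) [Fintype P] (W : Subgroup G)
    [hW : W.Normal] [Fintype W] (hWP : W ≤ P)
    (μ : IrrCharacter ↥P) (hμ1 : μ.1 1 = 1)
    (T : Subgroup G) [Fintype T]
    (hT : T = Clifford.inertia W (fun w : W => μ.1 ⟨w, hWP w.2⟩)) (hPT : P ≤ T) (hWT : W ≤ T)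
    {Q : Type u} [Group Q] [Fintype Q] (ιP : Q →* ↥P) (hιP : Function.Surjective ιP)
    (χ : IrrCharacter G)
    (hc : classInner (fun q => χ.1 (ιP q)) (fun q => μ.1 (ιP q)) ≠ 0) :
    ∃ ψ : IrrCharacter ↥T,
      classInner (fun n : W => ψ.1 ⟨n, hWT n.2⟩) (fun w : W => μ.1 ⟨w, hWP w.2⟩) ≠ 0 ∧
      indFun T ψ.1 = χ.1 ∧
      classInner (fun q => ψ.1 ⟨(ιP q : G), hPT (ιP q).2⟩) (fun q => μ.1 (ιP q)) ≠ 0 := by
  classical
  have hν : IsIrrCharacter W (fun w : W => μ.1 ⟨w, hWP w.2⟩) :=
    isIrr_comp_of_linear (Subgroup.inclusion hWP) μ.2 hμ1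
  have hΦT : IsClassFunction T (fun t : T => χ.1 t) :=
    isClassFunction_of_isCharacter (isCharacter_restrict T (isCharacter_of_isIrrCharacter χ.2))
  obtain ⟨δ, hδ1, hδ2⟩ := exists_irr_of_comp_constituent
    (fun q : Q => (⟨(ιP q : G), hPT (ιP q).2⟩ : ↥T)) hΦT (fun q => μ.1 (ιP q)) hc
  have hδP : IsCharacter ↥P (fun s : ↥P => δ.1 ⟨s, hPT s.2⟩) :=
    isCharacter_comp (Subgroup.inclusion hPT) (isCharacter_of_isIrrCharacter δ.2)
  obtain ⟨μ', hμ'1, hμ'2⟩ := exists_irr_of_comp_constituent ιP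
    (isClassFunction_of_isCharacter hδP) (fun q => μ.1 (ιP q)) hδ2
  have hμ' : μ' = μ := by
    have e := eq_of_classInner_ne_zero (isIrrCharacter_comp_surjective ιP hιP μ'.2)
      (isIrrCharacter_comp_surjective ιP hιP μ.2) hμ'2
    apply Subtype.ext
    funext s
    obtain ⟨q, rfl⟩ := hιP s
    exact congrFun e q
  rw [hμ'] at hμ'1
  have hδν : classInner (fun n : W => δ.1 ⟨n, hWT n.2⟩) (fun w : W => μ.1 ⟨w, hWP w.2⟩) ≠ 0 :=
    constituent_comp_of_constituent (Subgroup.inclusion hWP) hδP μ hν hμ'1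
  obtain ⟨hirr, -⟩ := clifford_corr_irr hν hWT hT δ.2 hδν
  have hfr : classInner (indFun T δ.1) χ.1 ≠ 0 := by
    rw [frobenius_reciprocity T δ.1 χ.1 (irr_isClassFunction χ)]
    intro h0
    apply hδ1
    rw [← classInner_conj_symm, h0, map_zero]
  exact ⟨δ, hδν, eq_of_classInner_ne_zero hirr χ.2 hfr, hδ2⟩

end Step

/-- **Uniqueness**, inductive form. -/
theorem uniq_main (n : ℕ) : ∀ (G : Type u) [Group G] [Finite G] [Group.IsSolvable G],
    Nat.card G = n → UniqHyp G := by
  induction n using Nat.strong_induction_on with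
  | _ n ih =>
  intro G _ _ _ hn P hN Q _ _ ι hι χ χ' hodd hodd' lam lam' hlam hlam' h1 h1' hc hc'
  classical
  haveI : Fintype G := Fintype.ofFinite G
  have ih' : ∀ (G' : Type u) [Group G'] [Finite G'] [Group.IsSolvable G'],
      Nat.card G' < Nat.card G → UniqHyp G' := by
    intro G' _ _ _ hlt
    exact ih (Nat.card G') (by rw [← hn]; exact hlt) G' rfl
  by_cases hPtop : (P : Subgroup G) = ⊤
  · have hsurj : Function.Surjective ι := by
      intro g
      have : g ∈ ι.range := by rw [hι, hPtop]; trivial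
      exact this
    have e := eq_of_classInner_ne_zero (isIrrCharacter_comp_surjective ι hsurj χ.2) hlam hc
    have e' := eq_of_classInner_ne_zero (isIrrCharacter_comp_surjective ι hsurj χ'.2) hlam' hc'
    constructor
    · intro h; rw [← e, ← e', h]
    · intro h
      apply Subtype.ext
      funext g
      obtain ⟨q, rfl⟩ := hsurj g
      exact congrFun (e.trans (h.trans e'.symm)) q
  by_cases hoddM : ∃ M : Subgroup G, M.Normal ∧ M ≠ ⊥ ∧ Odd (Nat.card M)
  · obtain ⟨M, hMn, hMne, hModd⟩ := hoddM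
    haveI := hMn
    haveI : Fintype M := Fintype.ofFinite M
    have hlt : Nat.card (G ⧸ M) < Nat.card G := by
      have h1 := Subgroup.card_eq_card_quotient_mul_card_subgroup M
      have h2 : 1 < Nat.card M := by
        have h3 : Nat.card M ≠ 1 := fun h => hMne (Subgroup.card_eq_one.mp h)
        have h4 : 0 < Nat.card M := Nat.card_pos
        omega
      have h4 : 0 < Nat.card (G ⧸ M) := Nat.card_pos
      nlinarith
    have hk := odd_ker_of_self_normalizing P hN M hModd χ hodd
    have hk' := odd_ker_of_self_normalizing P hN M hModd χ' hodd'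
    obtain ⟨χb, hχb⟩ := exists_deflate M χ (fun x hx => hk ⟨x, hx⟩)
    obtain ⟨χb', hχb'⟩ := exists_deflate M χ' (fun x hx => hk' ⟨x, hx⟩)
    let Pb : Sylow 2 (G ⧸ M) := P.mapSurjective (QuotientGroup.mk'_surjective M)
    have hPbc : (Pb : Subgroup (G ⧸ M)) = (P : Subgroup G).map (QuotientGroup.mk' M) :=
      Sylow.coe_mapSurjective _ _
    have hNb : Subgroup.normalizer ((Pb : Subgroup (G ⧸ M)) : Set (G ⧸ M)) =
        (Pb : Subgroup (G ⧸ M)) := by
      apply le_antisymm _ Subgroup.le_normalizer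
      intro y hy
      rw [hPbc] at hy ⊢
      obtain ⟨h, hh, rfl⟩ := exists_preimage_mem_normalizer (QuotientGroup.mk' M)
        (QuotientGroup.mk'_surjective M) P y hy
      rw [hN] at hh
      exact Subgroup.mem_map_of_mem _ hh
    have hιb : ((QuotientGroup.mk' M).comp ι).range = (Pb : Subgroup (G ⧸ M)) := by
      rw [hPbc, ← hι]
      ext y
      constructor
      · rintro ⟨q, rfl⟩
        exact ⟨ι q, ⟨q, rfl⟩, rfl⟩
      · rintro ⟨g, ⟨q, rfl⟩, rfl⟩
        exact ⟨q, rfl⟩
    have hob : Odd (charDegree χb.1) := by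
      rw [← charDegree_inflate M χb, hχb]; exact hodd
    have hob' : Odd (charDegree χb'.1) := by
      rw [← charDegree_inflate M χb', hχb']; exact hodd'
    have hcb : classInner (fun q => χb.1 ((QuotientGroup.mk' M).comp ι q)) lam ≠ 0 := by
      rw [← hχb] at hc; exact hc
    have hcb' : classInner (fun q => χb'.1 ((QuotientGroup.mk' M).comp ι q)) lam' ≠ 0 := by
      rw [← hχb'] at hc'; exact hc'
    have hih := ih' (G ⧸ M) hlt Pb hNb Q ((QuotientGroup.mk' M).comp ι) hιb χb χb' hob hob'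
      lam lam' hlam hlam' h1 h1' hcb hcb'
    rw [← hχb, ← hχb', (inflate_injective M).eq_iff]
    exact hih
  · push Not at hoddM
    have hno : ∀ M : Subgroup G, M.Normal → Odd (Nat.card M) → M = ⊥ := by
      intro M hM ho
      by_contra hne
      exact hoddM M hM hne ho
    obtain ⟨W, hWdef⟩ : ∃ W : Subgroup G, W = (P : Subgroup G).normalCore := ⟨_, rfl⟩
    haveI hWn : W.Normal := by rw [hWdef]; exact Subgroup.normalCore_normal _
    have hWP : W ≤ (P : Subgroup G) := by rw [hWdef]; exact Subgroup.normalCore_le _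
    haveI : Fintype W := Fintype.ofFinite W
    haveI : Fintype ↥(P : Subgroup G) := Fintype.ofFinite _
    have hWnc : ¬ W ≤ Subgroup.center G := by
      intro hc
      rw [hWdef] at hc
      exact hPtop (sylow_eq_top_of_core_central P hno hc)
    obtain ⟨ιP, hιPdef⟩ : ∃ ιP : Q →* ↥(P : Subgroup G),
        ∀ q, ((ιP q : ↥(P : Subgroup G)) : G) = ι q :=
      ⟨ι.codRestrict (P : Subgroup G) (fun q => by rw [← hι]; exact ⟨q, rfl⟩), fun q => rfl⟩
    have hιP : Function.Surjective ιP := by
      rintro ⟨s, hs⟩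
      rw [← hι] at hs
      obtain ⟨q, rfl⟩ := hs
      exact ⟨q, Subtype.ext (hιPdef q)⟩
    have hcP : classInner (fun q => χ.1 (ιP q)) lam ≠ 0 := by
      simpa only [hιPdef] using hc
    have hcP' : classInner (fun q => χ'.1 (ιP q)) lam' ≠ 0 := by
      simpa only [hιPdef] using hc'
    obtain ⟨μ, hμ1, hμc, hlamdef⟩ := exists_lin_of_comp (P : Subgroup G) ιP hιP χ lam hlam h1 hcP
    obtain ⟨μ', hμ'1, hμ'c, hlam'def⟩ :=
      exists_lin_of_comp (P : Subgroup G) ιP hιP χ' lam' hlam' h1' hcP'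
    have hχP : ∀ χ : IrrCharacter G, IsCharacter ↥(P : Subgroup G)
        (fun s : ↥(P : Subgroup G) => χ.1 s) := fun χ =>
      isCharacter_restrict (P : Subgroup G) (isCharacter_of_isIrrCharacter χ.2)
    have hνirr : ∀ μ : IrrCharacter ↥(P : Subgroup G), μ.1 1 = 1 →
        IsIrrCharacter W (fun w : W => μ.1 ⟨w, hWP w.2⟩) := fun μ hμ1 =>
      isIrr_comp_of_linear (Subgroup.inclusion hWP) μ.2 hμ1
    have hinvμ : ∀ (μ : IrrCharacter ↥(P : Subgroup G)), ∀ s ∈ (P : Subgroup G),
        conjChar W (fun w : W => μ.1 ⟨w, hWP w.2⟩) s = (fun w : W => μ.1 ⟨w, hWP w.2⟩) := by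
      intro μ s hs
      funext w
      rw [conjChar_apply]
      exact irr_isClassFunction μ ⟨w, hWP w.2⟩ ⟨s, hs⟩
    have hχν : classInner (fun n : W => χ.1 n) (fun w : W => μ.1 ⟨w, hWP w.2⟩) ≠ 0 :=
      constituent_comp_of_constituent (Subgroup.inclusion hWP) (hχP χ) μ (hνirr μ hμ1) hμc
    have hχν' : classInner (fun n : W => χ'.1 n) (fun w : W => μ'.1 ⟨w, hWP w.2⟩) ≠ 0 :=
      constituent_comp_of_constituent (Subgroup.inclusion hWP) (hχP χ') μ' (hνirr μ' hμ'1) hμ'c
    -- the core: both characters lie over the same `ν`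
    have hcore : (fun w : W => μ'.1 ⟨w, hWP w.2⟩) = (fun w : W => μ.1 ⟨w, hWP w.2⟩) →
        (χ = χ' ↔ lam = lam') := by
      intro hνeq
      obtain ⟨ν, hνdef⟩ : ∃ ν : W → ℂ, ν = fun w : W => μ.1 ⟨w, hWP w.2⟩ := ⟨_, rfl⟩
      have hν : IsIrrCharacter W ν := by rw [hνdef]; exact hνirr μ hμ1
      have hν1 : ν 1 = 1 := by rw [hνdef]; exact hμ1
      have hinv : ∀ s ∈ (P : Subgroup G), conjChar W ν s = ν := by
        rw [hνdef]; exact hinvμ μ
      have hmul : ∀ a b : W, ν (a * b) = ν a * ν b := irr_linear_mul ⟨ν, hν⟩ hν1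
      obtain ⟨T, hTdef⟩ : ∃ T : Subgroup G, T = Clifford.inertia W ν := ⟨_, rfl⟩
      haveI : Fintype T := Fintype.ofFinite T
      have hWT : W ≤ T := by
        rw [hTdef]
        exact le_inertia W (isClassFunction_of_isCharacter (isCharacter_of_isIrrCharacter hν))
      have hPT : (P : Subgroup G) ≤ T := by rw [hTdef]; exact fun s hs => hinv s hs
      have hTmem : ∀ t : G, t ∈ T ↔
          ∀ n : W, ν ⟨t * n * t⁻¹, hWn.conj_mem (n : G) n.2 t⟩ = ν n := by
        intro t; rw [hTdef]; exact Clifford.mem_inertia_iff W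
      have hT1 : T = Clifford.inertia W (fun w : W => μ.1 ⟨w, hWP w.2⟩) := by
        rw [hTdef, hνdef]
      have hT2 : T = Clifford.inertia W (fun w : W => μ'.1 ⟨w, hWP w.2⟩) := by
        rw [hνeq]; exact hT1
      obtain ⟨ψ, hψν, hψind, hψl⟩ := step_N (P : Subgroup G) W hWP μ hμ1 T hT1 hPT hWT ιP hιP χ
        (by rw [← hlamdef]; exact hcP)
      obtain ⟨ψ', hψ'ν, hψ'ind, hψ'l⟩ := step_N (P : Subgroup G) W hWP μ' hμ'1 T hT2 hPT hWT
        ιP hιP χ' (by rw [← hlam'def]; exact hcP')
      rw [hνeq] at hψ'ν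
      rw [← hνdef] at hψν hψ'ν
      rw [← hlamdef] at hψl
      rw [← hlam'def] at hψ'l
      -- the kernel of `ν`, inside `T`
      let K₀ : Subgroup ↥T :=
        { carrier := {t | ∃ h : (t : G) ∈ W, ν ⟨t, h⟩ = 1}
          one_mem' := ⟨W.one_mem, hν1⟩
          mul_mem' := by
            rintro a b ⟨ha, ha'⟩ ⟨hb, hb'⟩
            refine ⟨W.mul_mem ha hb, ?_⟩
            have := hmul ⟨a, ha⟩ ⟨b, hb⟩
            rw [ha', hb', mul_one] at this
            exact this
          inv_mem' := by
            rintro a ⟨ha, ha'⟩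
            refine ⟨W.inv_mem ha, ?_⟩
            have := hmul ⟨a, ha⟩ (⟨a, ha⟩ : W)⁻¹
            rw [mul_inv_cancel, hν1, ha', one_mul] at this
            exact this.symm }
      haveI hK₀n : K₀.Normal := by
        refine ⟨?_⟩
        rintro a ⟨ha, ha'⟩ g
        refine ⟨hWn.conj_mem a ha g, ?_⟩
        have := (hTmem g).mp g.2 ⟨a, ha⟩
        rw [ha'] at this
        exact this
      have hlt : Nat.card (↥T ⧸ K₀) < Nat.card G := by
        have h1 : Nat.card ↥T = Nat.card (↥T ⧸ K₀) * Nat.card K₀ :=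
          Subgroup.card_eq_card_quotient_mul_card_subgroup K₀
        have h3 : Nat.card ↥T ≤ Nat.card G := Subgroup.card_le_card_group T
        have h4 : 0 < Nat.card (↥T ⧸ K₀) := Nat.card_pos
        have h5 : 0 < Nat.card K₀ := Nat.card_pos
        by_cases hTtop : T = ⊤
        · have hk : ∃ w : W, w ≠ 1 ∧ ν w = 1 := by
            by_contra hcon
            push Not at hcon
            apply hWnc
            intro w hw
            rw [Subgroup.mem_center_iff]
            intro g
            have hgT : g ∈ T := by rw [hTtop]; trivial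
            have hgw : g * w * g⁻¹ ∈ W := hWn.conj_mem w hw g
            have h2 : ν ⟨g * w * g⁻¹, hgw⟩ = ν ⟨w, hw⟩ := (hTmem g).mp hgT ⟨w, hw⟩
            have h3 : ν (⟨g * w * g⁻¹, hgw⟩ * (⟨w, hw⟩ : W)⁻¹) = 1 := by
              rw [hmul, h2, ← hmul, mul_inv_cancel, hν1]
            have h6 : (⟨g * w * g⁻¹, hgw⟩ * (⟨w, hw⟩ : W)⁻¹ : W) = 1 := by
              by_contra h
              exact hcon _ h h3
            have h8 : g * w * g⁻¹ * w⁻¹ = 1 := congrArg Subtype.val h6
            calc g * w = (g * w * g⁻¹ * w⁻¹) * (w * g) := by group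
              _ = w * g := by rw [h8, one_mul]
          obtain ⟨w, hw1, hw2⟩ := hk
          have h2 : 1 < Nat.card K₀ := by
            apply Finite.one_lt_card_iff_nontrivial.mpr
            refine ⟨⟨⟨⟨w, hWT w.2⟩, ⟨w.2, hw2⟩⟩, 1, ?_⟩⟩
            intro h
            apply hw1
            have := congrArg (fun k : K₀ => ((k : ↥T) : G)) h
            exact Subtype.ext this
          nlinarith
        · have h7 : T.index ≠ 1 := fun h => hTtop (Subgroup.index_eq_one.mp h)
          have h8 := Subgroup.card_mul_index T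
          have h9 : T.index ≠ 0 := Subgroup.index_ne_zero_of_finite
          have h10 : 0 < Nat.card ↥T := Nat.card_pos
          have h11 : 2 ≤ T.index := by omega
          have h12 : Nat.card (↥T ⧸ K₀) ≤ Nat.card ↥T := by
            rw [h1]; exact Nat.le_mul_of_pos_right _ h5
          nlinarith
      -- the Sylow subgroup of the quotient
      let PT : Sylow 2 ↥T := P.subtype hPT
      have hPTc : (PT : Subgroup ↥T) = (P : Subgroup G).subgroupOf T := Sylow.coe_subtype P hPT
      let Pb : Sylow 2 (↥T ⧸ K₀) := PT.mapSurjective (QuotientGroup.mk'_surjective K₀)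
      have hPbc : (Pb : Subgroup (↥T ⧸ K₀)) = (PT : Subgroup ↥T).map (QuotientGroup.mk' K₀) :=
        Sylow.coe_mapSurjective _ _
      have hNb : Subgroup.normalizer ((Pb : Subgroup (↥T ⧸ K₀)) : Set (↥T ⧸ K₀)) =
          (Pb : Subgroup (↥T ⧸ K₀)) := by
        apply le_antisymm _ Subgroup.le_normalizer
        intro y hy
        rw [hPbc] at hy ⊢
        obtain ⟨t, ht, rfl⟩ := exists_preimage_mem_normalizer (QuotientGroup.mk' K₀)
          (QuotientGroup.mk'_surjective K₀) PT y hy
        rw [hPTc] at ht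
        have htH : (t : G) ∈ Subgroup.normalizer ((P : Subgroup G) : Set G) := by
          rw [Subgroup.mem_normalizer_iff]
          intro s
          constructor
          · intro hs
            have := (Subgroup.mem_normalizer_iff.mp ht ⟨s, hPT hs⟩).mp
              (Subgroup.mem_subgroupOf.mpr hs)
            exact Subgroup.mem_subgroupOf.mp this
          · intro hs
            have hsT : s ∈ T := by
              have h1 : (t : G)⁻¹ * ((t : G) * s * (t : G)⁻¹) * (t : G) ∈ T :=
                T.mul_mem (T.mul_mem (T.inv_mem t.2) (hPT hs)) t.2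
              have h2 : (t : G)⁻¹ * ((t : G) * s * (t : G)⁻¹) * (t : G) = s := by group
              rwa [h2] at h1
            have := (Subgroup.mem_normalizer_iff.mp ht ⟨s, hsT⟩).mpr
              (Subgroup.mem_subgroupOf.mpr hs)
            exact Subgroup.mem_subgroupOf.mp this
        rw [hN] at htH
        apply Subgroup.mem_map_of_mem
        rw [hPTc]; exact Subgroup.mem_subgroupOf.mpr htH
      let ιb : Q →* (↥T ⧸ K₀) := (QuotientGroup.mk' K₀).comp ((Subgroup.inclusion hPT).comp ιP)
      have hιb : ιb.range = (Pb : Subgroup (↥T ⧸ K₀)) := by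
        rw [hPbc, hPTc]
        ext y
        constructor
        · rintro ⟨q, rfl⟩
          exact ⟨Subgroup.inclusion hPT (ιP q), Subgroup.mem_subgroupOf.mpr (ιP q).2, rfl⟩
        · rintro ⟨t, ht, rfl⟩
          obtain ⟨q, hq⟩ := hιP ⟨(t : G), Subgroup.mem_subgroupOf.mp ht⟩
          refine ⟨q, ?_⟩
          show QuotientGroup.mk' K₀ (Subgroup.inclusion hPT (ιP q)) = QuotientGroup.mk' K₀ t
          rw [hq]
          rfl
      have hψker : ∀ (ψ : IrrCharacter ↥T),
          classInner (fun n : W => ψ.1 ⟨n, hWT n.2⟩) ν ≠ 0 → ∀ x ∈ K₀, ψ.1 x = ψ.1 1 := by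
        intro ψ hψν x hx
        obtain ⟨hxW, hx1⟩ := hx
        have hsm := res_eq_smul_of_le_inertia hν hWT hTdef.le ψ.2 hψν
        have e1 := congrFun hsm ⟨x, hxW⟩
        have e2 := congrFun hsm 1
        simp only [Pi.smul_apply, smul_eq_mul] at e1 e2
        rw [hx1] at e1
        rw [hν1] at e2
        have e3 : ψ.1 x = ψ.1 ⟨((⟨x, hxW⟩ : W) : G), hWT hxW⟩ := rfl
        have e4 : ψ.1 1 = ψ.1 ⟨((1 : W) : G), hWT (1 : W).2⟩ := rfl
        rw [e3, e4, e1, e2]
      obtain ⟨ψb, hψb⟩ := exists_deflate K₀ ψ (hψker ψ hψν)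
      obtain ⟨ψb', hψb'⟩ := exists_deflate K₀ ψ' (hψker ψ' hψ'ν)
      have hoddψ : Odd (charDegree ψb.1) := by
        have h1 := charDegree_indFun T ψ
        rw [hψind] at h1
        rw [h1] at hodd
        rw [← charDegree_inflate K₀ ψb, hψb]
        exact (Nat.odd_mul.mp hodd).2
      have hoddψ' : Odd (charDegree ψb'.1) := by
        have h1 := charDegree_indFun T ψ'
        rw [hψ'ind] at h1
        rw [h1] at hodd'
        rw [← charDegree_inflate K₀ ψb', hψb']
        exact (Nat.odd_mul.mp hodd').2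
      have hcb : classInner (fun q => ψb.1 (ιb q)) lam ≠ 0 := by
        rw [← hψb] at hψl; exact hψl
      have hcb' : classInner (fun q => ψb'.1 (ιb q)) lam' ≠ 0 := by
        rw [← hψb'] at hψ'l; exact hψ'l
      have hih := ih' (↥T ⧸ K₀) hlt Pb hNb Q ιb hιb ψb ψb' hoddψ hoddψ' lam lam' hlam hlam'
        h1 h1' hcb hcb'
      constructor
      · intro h
        apply hih.mp
        have hψeq : ψ = ψ' := by
          apply Subtype.ext
          exact clifford_corr_inj hν hWT hTdef ψ.2 ψ'.2 hψν hψ'ν (by rw [hψind, hψ'ind, h])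
        apply inflate_injective K₀
        rw [hψb, hψb', hψeq]
      · intro h
        have h2 := hih.mpr h
        apply Subtype.ext
        rw [← hψind, ← hψ'ind, ← hψb, ← hψb', h2]
    constructor
    · intro h
      refine (hcore ?_).mp h
      rw [← h] at hχν'
      obtain ⟨x, hx, hxe⟩ := exists_normalizer_conj W P χ (fun w : W => μ.1 ⟨w, hWP w.2⟩)
        (fun w : W => μ'.1 ⟨w, hWP w.2⟩) (hνirr μ hμ1) (hνirr μ' hμ'1) (hinvμ μ) (hinvμ μ')
        hχν hχν'
      rw [hN] at hx
      rw [hxe, hinvμ μ x hx]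
    · intro h
      refine (hcore ?_).mpr h
      have hμeq : μ' = μ := by
        apply Subtype.ext
        funext s
        obtain ⟨q, rfl⟩ := hιP s
        have e1 := congrFun hlamdef q
        have e2 := congrFun hlam'def q
        rw [← e1, ← e2, h]
      rw [hμeq]

end Cfsg.Agent.H83
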