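import Mathlib
import Cfsg.Agent.H83.RealOddE
import Cfsg.Agent.H83.Gagola2
import Cfsg.Agent.H83.OddIndex

/-!
# Real characters of odd degree in solvable groups: the characterization (helper83)

For a finite solvable group `G` with Sylow `2`-subgroup `P`: all irreducible characters of odd
degree of `G` are real-valued iff `P' = Φ(P)` and `N_G(P) = P` (`real_odd_iff`).
-/

set_option autoImplicit false
set_option linter.unusedSectionVars false
set_option linter.style.haveILetI false

namespace Cfsg.Agent.H83

open Cfsg Cfsg.Agent.H4 Cfsg.Agent.Clifford Cfsg.Agent.H82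
open scoped ComplexConjugate

universe u

theorem classInner_conj_right_of_real {X : Type u} [Group X] [Fintype X] (a b : X → ℂ)
    (ha : ∀ x, (a x).im = 0) :
    classInner a (fun x => conj (b x)) = conj (classInner a b) := by
  unfold classInner
  rw [map_mul, map_inv₀, Complex.conj_natCast, map_sum]
  congr 1
  refine Finset.sum_congr rfl fun x _ => ?_
  rw [map_mul, Complex.conj_eq_iff_im.mpr (ha x)]

section PartB

variable {G : Type u} [Group G] [Finite G] [Group.IsSolvable G]

/-- In a finite solvable group with Sylow `2`-subgroup `P`, all irreducible characters of odd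
degree are real-valued iff `P' = Φ(P)` and `P` is self-normalizing. -/
theorem real_odd_iff (P : Sylow 2 G) :
    (∀ χ : IrrCharacter G, Odd (charDegree χ.1) → ∀ g : G, (χ.1 g).im = 0) ↔
      (commutator ↥(P : Subgroup G) = frattini ↥(P : Subgroup G) ∧
        Subgroup.normalizer ((P : Subgroup G) : Set G) = (P : Subgroup G)) := by
  classical
  haveI : Fintype G := Fintype.ofFinite G
  haveI : Fintype ↥(P : Subgroup G) := Fintype.ofFinite _
  haveI : Fact (Nat.Prime 2) := ⟨Nat.prime_two⟩
  have hP2 : IsPGroup 2 ↥(P : Subgroup G) := P.isPGroup'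
  have hχP : ∀ χ : IrrCharacter G, IsCharacter ↥(P : Subgroup G)
      (fun s : ↥(P : Subgroup G) => χ.1 s) := fun χ =>
    isCharacter_restrict (P : Subgroup G) (isCharacter_of_isIrrCharacter χ.2)
  have hPodd : Odd (P : Subgroup G).index := by
    have := P.not_dvd_index
    exact Nat.odd_iff.mpr (Nat.two_dvd_ne_zero.mp this)
  have huniq := fun hN => uniq_main (Nat.card G) G rfl P hN ↥(P : Subgroup G)
    (P : Subgroup G).subtype (Subgroup.range_subtype _)
  constructor
  · intro hreal
    have hN : Subgroup.normalizer ((P : Subgroup G) : Set G) = (P : Subgroup G) :=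
      le_antisymm (normalizer_le_of_odd_real _ G rfl P hreal) Subgroup.le_normalizer
    refine ⟨?_, hN⟩
    -- all linear characters of `P` are real
    have hlin : ∀ μ : IrrCharacter ↥(P : Subgroup G), μ.1 1 = 1 →
        ∀ s, conj (μ.1 s) = μ.1 s := by
      intro μ hμ1
      have hΦ : IsCharacter G (indFun (P : Subgroup G) μ.1) :=
        isCharacter_indFun (P : Subgroup G) μ.1 (isCharacter_of_isIrrCharacter μ.2)
      have hΦ1 : indFun (P : Subgroup G) μ.1 1 = (((P : Subgroup G).index : ℕ) : ℂ) := by
        rw [indFun_one_eq, hμ1, mul_one]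
      obtain ⟨χ, hχc, hχodd⟩ := exists_odd_constituent hΦ _ hΦ1 hPodd
      rw [frobenius_reciprocity (P : Subgroup G) μ.1 χ.1 (irr_isClassFunction χ)] at hχc
      have hχc' : classInner (fun s : ↥(P : Subgroup G) => χ.1 s) μ.1 ≠ 0 := by
        intro h0
        apply hχc
        rw [← classInner_conj_symm, h0, map_zero]
      have hχreal := hreal χ hχodd
      have hχc'' : classInner (fun s : ↥(P : Subgroup G) => χ.1 s)
          (fun s => conj (μ.1 s)) ≠ 0 := by
        rw [classInner_conj_right_of_real (fun s : ↥(P : Subgroup G) => χ.1 s) μ.1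
          (fun s => hχreal s)]
        intro h0
        apply hχc'
        have := congrArg conj h0
        simpa using this
      have h := (huniq hN χ χ hχodd hχodd μ.1 (fun s => conj (μ.1 s)) μ.2
        (isIrrCharacter_conj μ.2) hμ1 (by rw [hμ1, map_one]) hχc' hχc'').mp rfl
      intro s
      exact (congrFun h s).symm
    apply le_antisymm (H3.commutator_le_frattini hP2)
    intro x hx
    by_contra hxc
    have hne : (QuotientGroup.mk x : ↥(P : Subgroup G) ⧸ commutator ↥(P : Subgroup G)) ≠ 1 := by
      intro h; exact hxc ((QuotientGroup.eq_one_iff _).mp h)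
    obtain ⟨ξ, hξ, -⟩ := H32.exists_irr_two_ne hne hne
    have hcomm : ∀ a b : Abelianization ↥(P : Subgroup G), a * b = b * a := mul_comm
    obtain ⟨hξ1, -⟩ := IsIrrCharacter.linear_of_comm
      (A := ↥(P : Subgroup G) ⧸ commutator ↥(P : Subgroup G)) hcomm ξ.2
    obtain ⟨μ, hμdef⟩ : ∃ μ : IrrCharacter ↥(P : Subgroup G),
        μ = inflate (commutator ↥(P : Subgroup G)) ξ := ⟨_, rfl⟩
    have hμ1 : μ.1 1 = 1 := by rw [hμdef]; exact hξ1
    have hμx : μ.1 x ≠ 1 := by
      rw [hμdef]; intro h; apply hξ; rw [hξ1]; exact h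
    have hμreal := hlin μ hμ1
    have hmul : ∀ a b, μ.1 (a * b) = μ.1 a * μ.1 b := irr_linear_mul μ hμ1
    have hpm : ∀ s, μ.1 s = 1 ∨ μ.1 s = -1 := by
      intro s
      have h2 : μ.1 s * μ.1 s⁻¹ = 1 := by rw [← hmul, mul_inv_cancel, hμ1]
      have h3 : μ.1 s⁻¹ = μ.1 s := by
        rw [H82.irr_inv μ s]; exact hμreal s
      rw [h3] at h2
      have h4 : (μ.1 s - 1) * (μ.1 s + 1) = 0 := by linear_combination h2
      rcases mul_eq_zero.mp h4 with h5 | h5
      · left; linear_combination h5
      · right; linear_combination h5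
    let K : Subgroup ↥(P : Subgroup G) :=
      { carrier := {s | μ.1 s = 1}
        one_mem' := hμ1
        mul_mem' := by
          intro a b ha hb
          show μ.1 (a * b) = 1
          rw [hmul, show μ.1 a = 1 from ha, show μ.1 b = 1 from hb, mul_one]
        inv_mem' := by
          intro a ha
          show μ.1 a⁻¹ = 1
          have := hmul a a⁻¹
          rw [mul_inv_cancel, hμ1, show μ.1 a = 1 from ha, one_mul] at this
          exact this.symm }
    have hKco : IsCoatom K := by
      refine ⟨?_, ?_⟩
      · intro htop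
        apply hμx
        have : x ∈ K := by rw [htop]; trivial
        exact this
      · intro H hlt
        obtain ⟨h, hhH, hhK⟩ := SetLike.exists_of_lt hlt
        have hh : μ.1 h = -1 := (hpm h).resolve_left hhK
        rw [eq_top_iff]
        intro s _
        rcases hpm s with hs | hs
        · exact hlt.le hs
        · have h1 : s * h⁻¹ ∈ K := by
            show μ.1 (s * h⁻¹) = 1
            have h3 : μ.1 h⁻¹ = -1 := by
              have := hmul h h⁻¹
              rw [mul_inv_cancel, hμ1, hh] at this
              linear_combination this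
            rw [hmul, hs, h3]; norm_num
          have h2 := H.mul_mem (hlt.le h1) hhH
          rwa [inv_mul_cancel_right] at h2
    exact hμx (frattini_le_coatom hKco hx)
  · rintro ⟨hcomm, hN⟩ χ hodd
    obtain ⟨μ, hμc, hμodd⟩ := exists_odd_constituent (hχP χ) (charDegree χ.1)
      (irr_one_eq_charDegree χ) hodd
    have hμ1 : μ.1 1 = 1 := by
      obtain ⟨k, hk⟩ := IsPGroup.iff_card.mp hP2
      have hd : charDegree μ.1 ∣ 2 ^ k := by rw [← hk]; exact H81.irr_charDegree_dvd μ
      obtain ⟨j, -, hj⟩ := (Nat.dvd_prime_pow Nat.prime_two).mp hd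
      have hdeg : charDegree μ.1 = 1 := by
        rcases Nat.eq_zero_or_pos j with h0 | h0
        · rw [hj, h0, pow_zero]
        · exfalso
          rw [hj] at hμodd
          exact (Nat.not_even_iff_odd.mpr hμodd) (Nat.even_pow.mpr ⟨even_two, h0.ne'⟩)
      rw [irr_one_eq_charDegree, hdeg, Nat.cast_one]
    have hmul : ∀ a b, μ.1 (a * b) = μ.1 a * μ.1 b := irr_linear_mul μ hμ1
    have hker : ∀ s ∈ commutator ↥(P : Subgroup G), μ.1 s = 1 := by
      intro s hs
      have h1 := Abelianization.commutator_subset_ker (irrLinearHom μ hμ1) hs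
      rw [MonoidHom.mem_ker] at h1
      have h2 := congrArg (fun u : ℂˣ => (u : ℂ)) h1
      exact h2
    have hμreal : ∀ s, (μ.1 s).im = 0 := by
      intro s
      have h1 : s ^ 2 ∈ commutator ↥(P : Subgroup G) := by
        rw [hcomm]; exact H3.pow_mem_frattini hP2 s
      have h2 := hker _ h1
      rw [pow_two, hmul] at h2
      have h4 : (μ.1 s - 1) * (μ.1 s + 1) = 0 := by linear_combination h2
      rcases mul_eq_zero.mp h4 with h5 | h5
      · have : μ.1 s = 1 := by linear_combination h5
        rw [this]; simp
      · have : μ.1 s = -1 := by linear_combination h5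
        rw [this]; simp
    have hc2 : classInner (fun s : ↥(P : Subgroup G) => (irrConj χ).1 s) μ.1 ≠ 0 := by
      have h3 := classInner_conj_left (fun s : ↥(P : Subgroup G) => χ.1 s) μ.1 hμreal
      show classInner (fun s : ↥(P : Subgroup G) => conj (χ.1 s)) μ.1 ≠ 0
      rw [h3]
      intro h0
      apply hμc
      have := congrArg conj h0
      simpa using this
    have hoddc : Odd (charDegree (irrConj χ).1) := by
      have : charDegree (irrConj χ).1 = charDegree χ.1 := by
        unfold charDegree
        show ⌊(conj (χ.1 1)).re⌋₊ = ⌊(χ.1 1).re⌋₊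
        rw [Complex.conj_re]
      rw [this]; exact hodd
    have h := (huniq hN χ (irrConj χ) hodd hoddc μ.1 μ.1 μ.2 μ.2 hμ1 hμ1 hμc hc2).mpr rfl
    exact (irrConj_eq_self_iff χ).mp h.symm

end PartB

end Cfsg.Agent.H83
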