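import Mathlib
import Cfsg.Prelude.Def_Characters
import Cfsg.Prelude.Def_Blocks
import Cfsg.Prelude.Def_Transfer
import Cfsg.Agent.H4.Irr
import Cfsg.Agent.H4.Chars
import Cfsg.Agent.H4.Induction
import Cfsg.Agent.H4.RealClasses
import Cfsg.Agent.H78.FrobSchur3
import Cfsg.Agent.H82.Irr
import Cfsg.Agent.Lib.Clifford
import Cfsg.Agent.Lib.CliffordCorr
import Cfsg.Agent.H83.Basic
import Cfsg.Agent.H83.Gagola2
import Cfsg.Agent.H83.MinNormal
import Cfsg.Agent.H83.IndIndicator

/-!
# Strongly real characters of `N ⋊ P` (helper83, S4871)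

* `card_real_linear_le_of` : general fibre count for `l ↦ l χ₀` on strongly real linear characters;
* `sum_extendByZero_sq_coset'`, `indicator_indFun_of_extension` : the Frobenius–Schur indicator of
  `ψ^G` for `ψ` extending `φ ∈ Irr(N)` is supported on `{g | φ^g = conj φ}`;
* `exists_central_involution_inverting`, `exists_retraction`, `exists_extension_of_retraction`;
* `four_mul_card_le` : S4871.
-/

set_option autoImplicit false
set_option linter.style.haveILetI false
set_option linter.unusedSectionVars false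

namespace Cfsg.Agent.H83

open Cfsg Cfsg.Agent.H4 Cfsg.Agent.Clifford
open scoped ComplexConjugate

universe u

section FibreCount

variable {G : Type u} [Group G]

/-- If `χ₀` is strongly real of degree `d` with `[χ₀|N, χ₀|N] = t` and all linear characters are
trivial on `N`, then there are at most `t` times as many strongly real linear characters as
strongly real characters of degree `d`. -/
theorem card_real_linear_le_of [Fintype G] (N : Subgroup G) [Fintype N] (χ₀ : IrrCharacter G)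
    (t d : ℕ) (hν₀ : H78.indicator χ₀.1 = 1) (hdeg : χ₀.1 1 = (d : ℂ))
    (hnorm : classInner (fun n : N => χ₀.1 n) (fun n : N => χ₀.1 n) = (t : ℂ))
    (hNlin : ∀ l : IrrCharacter G, l.1 1 = 1 → ∀ n : N, l.1 n = 1) :
    Nat.card {χ : IrrCharacter G // charDegree χ.1 = 1 ∧ H78.indicator χ.1 = 1} ≤
      t * Nat.card {χ : IrrCharacter G // charDegree χ.1 = d ∧ H78.indicator χ.1 = 1} := by
  classical
  let _ := fintypeIrr G
  have hone : ∀ l : IrrCharacter G, charDegree l.1 = 1 → l.1 1 = 1 := by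
    intro l hl
    rw [H82.irr_one_eq_charDegree l, hl]
    simp
  have hlreal : ∀ l : IrrCharacter G, H78.indicator l.1 = 1 → ∀ g, (l.1 g).im = 0 := by
    intro l hl g
    by_contra hg
    have h0 := H78.irr_indicator_eq_zero_of_not_real l g hg
    rw [hl] at h0
    exact one_ne_zero h0
  have hνmul : ∀ l : IrrCharacter G, l.1 1 = 1 → H78.indicator l.1 = 1 →
      H78.indicator (fun g => l.1 g * χ₀.1 g) = 1 := by
    intro l h1 hl
    rw [← hν₀]
    unfold H78.indicator
    congr 1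
    refine Finset.sum_congr rfl fun g _ => ?_
    show l.1 (g * g) * χ₀.1 (g * g) = χ₀.1 (g * g)
    rw [linear_sq_eq_one_of_real l h1 (hlreal l hl) g, one_mul]
  let Φ : {χ : IrrCharacter G // charDegree χ.1 = 1 ∧ H78.indicator χ.1 = 1} →
      {χ : IrrCharacter G // charDegree χ.1 = d ∧ H78.indicator χ.1 = 1} :=
    fun l => ⟨⟨fun g => l.1.1 g * χ₀.1 g, isIrrCharacter_linear_mul l.1 χ₀ (hone l.1 l.2.1)⟩, by
      refine ⟨?_, ?_⟩
      · have h := H82.irr_one_eq_charDegree (⟨fun g => l.1.1 g * χ₀.1 g,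
          isIrrCharacter_linear_mul l.1 χ₀ (hone l.1 l.2.1)⟩ : IrrCharacter G)
        have h' : (charDegree (fun g => l.1.1 g * χ₀.1 g) : ℂ) = (d : ℂ) := by
          rw [← h]
          show l.1.1 1 * χ₀.1 1 = _
          rw [hone l.1 l.2.1, one_mul, hdeg]
        exact_mod_cast h'
      · exact hνmul l.1 (hone l.1 l.2.1) l.2.2⟩
  refine le_trans (le_of_eq (Nat.card_eq_fintype_card.trans Finset.card_univ.symm)) ?_
  refine le_trans (Finset.card_le_mul_card_image (f := Φ) Finset.univ t ?_)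
    (Nat.mul_le_mul_left _ ((Finset.card_le_univ _).trans
      (le_of_eq Nat.card_eq_fintype_card.symm)))
  intro b hb
  obtain ⟨l₀, -, rfl⟩ := Finset.mem_image.mp hb
  have h2 := card_le_of_mul_eq N χ₀ l₀.1 t hnorm (hone l₀.1 l₀.2.1) hNlin
    ((Finset.univ.filter (fun x => Φ x = Φ l₀)).map ⟨Subtype.val, Subtype.val_injective⟩) (by
      intro l hl
      obtain ⟨l', hl', rfl⟩ := Finset.mem_map.mp hl
      have hl'' : Φ l' = Φ l₀ := (Finset.mem_filter.mp hl').2
      exact ⟨hone l'.1 l'.2.1, congrArg (fun z => z.1.1) hl''⟩)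
  rwa [Finset.card_map] at h2

end FibreCount

section Indicator

variable {G : Type u} [Group G] [Fintype G] (N : Subgroup G) [hN : N.Normal] [Fintype N]

/-- For `g` with `φ^(g⁻¹) ≠ conj φ`, `∑_{n ∈ N} ψ°((g n)²) = 0`. -/
theorem sum_extendByZero_sq_coset' (φ : IrrCharacter N) (I : Subgroup G) [Fintype I]
    (hNI : N ≤ I) (ψ : IrrCharacter I) (hext : ∀ n : N, ψ.1 ⟨n, hNI n.2⟩ = φ.1 n) (g : G)
    (hg : conjChar N φ.1 g⁻¹ ≠ fun n => conj (φ.1 n)) :
    ∑ n : N, extendByZero I ψ.1 ((g * n) * (g * n)) = 0 := by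
  classical
  have hconjmem : ∀ n : N, g⁻¹ * (n : G) * g ∈ N := fun n => by
    simpa using hN.conj_mem n n.2 g⁻¹
  by_cases hgg : g * g ∈ I
  · obtain ⟨d, ρ, hirr, hρ⟩ := ψ.2
    let ρ₂ : Representation ℂ N (Fin d → ℂ) := ρ.comp (Subgroup.inclusion hNI)
    let ρ₁ : Representation ℂ N (Fin d → ℂ) :=
      ρ₂.comp (MulAut.conjNormal g⁻¹ : MulAut N).toMonoidHom
    have hc₂ : ∀ n : N, ρ₂.character n = φ.1 n := by
      intro n
      show ρ.character (Subgroup.inclusion hNI n) = _
      rw [hρ]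
      exact hext n
    have hc₁ : ∀ n : N, ρ₁.character n = conjChar N φ.1 g⁻¹ n := by
      intro n
      show ρ₂.character ((MulAut.conjNormal g⁻¹ : MulAut N) n) = _
      rw [hc₂]
      rfl
    have hsum : ∑ n : N, ρ₁.character n * ρ₂.character n = 0 := by
      have h1 : classInner (conjChar N φ.1 g⁻¹) (fun n => conj (φ.1 n)) = 0 := by
        rw [classInner_irr_irr (isIrrCharacter_conjChar N φ.2 g⁻¹) (isIrrCharacter_conj φ.2),
          if_neg hg]
      unfold classInner at h1
      have hN0 : (Nat.card N : ℂ)⁻¹ ≠ 0 := inv_ne_zero (by exact_mod_cast Nat.card_pos.ne')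
      have h2 := (mul_eq_zero.mp h1).resolve_left hN0
      rw [← h2]
      refine Finset.sum_congr rfl fun n _ => ?_
      rw [hc₁, hc₂, Complex.conj_conj]
    have hT : ∑ n : N, ρ₁ n * ρ₂ n = 0 := sum_comp_eq_zero_of_sum_char_mul ρ₁ ρ₂ hsum
    have hterm : ∀ n : N, extendByZero I ψ.1 ((g * n) * (g * n)) =
        LinearMap.trace ℂ _ (ρ ⟨g * g, hgg⟩ * (ρ₁ n * ρ₂ n)) := by
      intro n
      have hmem : (g * n) * (g * n) ∈ I := by
        have e : (g * n) * (g * n) = (g * g) * (g⁻¹ * n * g) * n := by group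
        rw [e]
        exact I.mul_mem (I.mul_mem hgg (hNI (hconjmem n))) (hNI n.2)
      rw [extendByZero_of_mem I ψ.1 hmem, ← hρ]
      show LinearMap.trace ℂ _ (ρ ⟨(g * n) * (g * n), hmem⟩) = _
      congr 1
      have e : (⟨(g * n) * (g * n), hmem⟩ : I) = ⟨g * g, hgg⟩ *
          (Subgroup.inclusion hNI ((MulAut.conjNormal g⁻¹ : MulAut N) n)) *
          (Subgroup.inclusion hNI n) := by
        apply Subtype.ext
        simp only [Subgroup.coe_mul, Subgroup.coe_inclusion, MulAut.conjNormal_apply, inv_inv]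
        group
      rw [e, map_mul, map_mul]
      rfl
    simp only [hterm]
    rw [← map_sum, ← Finset.mul_sum, hT, mul_zero, map_zero]
  · apply Finset.sum_eq_zero
    intro n _
    apply extendByZero_of_not_mem
    intro hmem
    apply hgg
    have e : g * g = (g * n) * (g * n) * (n : G)⁻¹ * (g⁻¹ * n * g)⁻¹ := by group
    rw [e]
    exact I.mul_mem (I.mul_mem hmem (I.inv_mem (hNI n.2))) (I.inv_mem (hNI (hconjmem n)))

open Classical in
/-- The Frobenius–Schur indicator of `ψ^G`, `ψ` an extension of `φ ∈ Irr(N)` to `I ≥ N`, only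
involves the `g` with `φ^(g⁻¹) = conj φ`. -/
theorem indicator_indFun_of_extension (φ : IrrCharacter N) (I : Subgroup G) [Fintype I]
    (hNI : N ≤ I) (ψ : IrrCharacter I) (hext : ∀ n : N, ψ.1 ⟨n, hNI n.2⟩ = φ.1 n) :
    H78.indicator (indFun I ψ.1) = (Nat.card I : ℂ)⁻¹ *
      ∑ g : G, (if conjChar N φ.1 g⁻¹ = (fun n => conj (φ.1 n))
        then extendByZero I ψ.1 (g * g) else 0) := by
  classical
  rw [indicator_indFun]
  congr 1
  set F : G → ℂ := fun g => if conjChar N φ.1 g⁻¹ = (fun n => conj (φ.1 n))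
    then 0 else extendByZero I ψ.1 (g * g) with hF
  have hPn : ∀ (g : G) (n : N), conjChar N φ.1 (g * n)⁻¹ = conjChar N φ.1 g⁻¹ := by
    intro g n
    rw [mul_inv_rev, ← conjChar_conjChar]
    have h1 : ((n : G))⁻¹ ∈ inertia N φ.1 :=
      le_inertia N (irr_isClassFunction φ) (N.inv_mem n.2)
    rw [(mem_inertia N).mp h1]
  have h1 : ∀ n : N, ∑ g : G, F (g * n) = ∑ g : G, F g := fun n =>
    Equiv.sum_comp (Equiv.mulRight (n : G)) F
  have h2 : ∑ n : N, ∑ g : G, F (g * n) = (Fintype.card N : ℂ) * ∑ g : G, F g := by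
    simp only [h1, Finset.sum_const, Finset.card_univ, nsmul_eq_mul]
  have h3 : ∑ n : N, ∑ g : G, F (g * n) = 0 := by
    rw [Finset.sum_comm]
    apply Finset.sum_eq_zero
    intro g _
    by_cases hg : conjChar N φ.1 g⁻¹ = (fun n => conj (φ.1 n))
    · apply Finset.sum_eq_zero
      intro n _
      simp only [hF, hPn, hg, if_true]
    · simp only [hF, hPn, hg, if_false]
      exact sum_extendByZero_sq_coset' N φ I hNI ψ hext g hg
  rw [h3] at h2
  have hc : (Fintype.card N : ℂ) ≠ 0 := by exact_mod_cast Fintype.card_ne_zero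
  have h0 : ∑ g : G, F g = 0 := (mul_eq_zero.mp h2.symm).resolve_left hc
  have h4 : ∑ g : G, extendByZero I ψ.1 (g * g) =
      ∑ g : G, (if conjChar N φ.1 g⁻¹ = (fun n => conj (φ.1 n))
        then extendByZero I ψ.1 (g * g) else 0) + ∑ g : G, F g := by
    rw [← Finset.sum_add_distrib]
    refine Finset.sum_congr rfl fun g _ => ?_
    simp only [hF]
    split_ifs <;> simp
  rw [h4, h0, add_zero]

end Indicator

section Structure

variable {G : Type u} [Group G]

/-- Every element of `G = N P` (with `N` normal) is a product `n * x`. -/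
theorem exists_mul_of_sup_eq_top (N P : Subgroup G) [hN : N.Normal] (hprod : N ⊔ P = ⊤) (g : G) :
    ∃ n ∈ N, ∃ x ∈ P, g = n * x := by
  have hg : g ∈ (↑(N ⊔ P) : Set G) := by
    rw [hprod]
    exact Subgroup.mem_top g
  rw [Subgroup.normal_mul] at hg
  obtain ⟨n, hn, x, hx, rfl⟩ := Set.mem_mul.mp hg
  exact ⟨n, hn, x, hx, rfl⟩

/-- In `G = N ⋊ P` with `N` abelian the unique minimal normal subgroup and `P` a nontrivial
`2`-group, a central involution of `P` inverts `N`. -/
theorem exists_central_involution_inverting [Finite G] (N P : Subgroup G) [hN : N.Normal]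
    (hcomm : ∀ a b : N, a * b = b * a) (hP : IsPGroup 2 P) (hP1 : P ≠ ⊥) (hdisj : N ⊓ P = ⊥)
    (hprod : N ⊔ P = ⊤) (hmin : N ≠ ⊥ ∧ ∀ M : Subgroup G, M.Normal → M ≠ ⊥ → N ≤ M) :
    ∃ z : G, z ∈ P ∧ z ≠ 1 ∧ z * z = 1 ∧ (∀ x ∈ P, z * x = x * z) ∧
      ∀ n ∈ N, z * n * z⁻¹ = n⁻¹ := by
  classical
  haveI : Fact (Nat.Prime 2) := ⟨Nat.prime_two⟩
  haveI : Nontrivial P := (Subgroup.nontrivial_iff_ne_bot P).mpr hP1
  haveI hcen : Nontrivial (Subgroup.center P) := hP.center_nontrivial
  have hdvd : 2 ∣ Nat.card (Subgroup.center P) := by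
    rcases (hP.to_subgroup (Subgroup.center P)).card_eq_or_dvd with h | h
    · exact absurd h (Finite.one_lt_card.ne')
    · exact h
  obtain ⟨c, hc⟩ := exists_prime_orderOf_dvd_card' 2 hdvd
  have hc1 : c ≠ 1 := by
    intro h
    rw [h, orderOf_one] at hc
    omega
  have hc2 : c * c = 1 := by
    rw [← pow_two, ← hc]
    exact pow_orderOf_eq_one c
  set z : G := ((c : P) : G) with hz
  have hzP : z ∈ P := (c : P).2
  have hz1 : z ≠ 1 := by
    intro h
    apply hc1
    apply Subtype.ext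
    apply Subtype.ext
    exact h
  have hzz : z * z = 1 := by
    have := congrArg (fun w : Subgroup.center P => ((w : P) : G)) hc2
    simpa using this
  have hzinv : z⁻¹ = z := inv_eq_of_mul_eq_one_right hzz
  have hzcomm : ∀ x ∈ P, z * x = x * z := by
    intro x hx
    have h1 := (Subgroup.mem_center_iff.mp c.2) ⟨x, hx⟩
    have h2 := congrArg (fun w : P => (w : G)) h1
    simpa using h2.symm
  have hNcomm : ∀ a ∈ N, ∀ b ∈ N, a * b = b * a := by
    intro a ha b hb
    have := congrArg Subtype.val (hcomm ⟨a, ha⟩ ⟨b, hb⟩)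
    simpa using this
  -- the fixed points of `z` on `N` form a normal subgroup
  let M : Subgroup G := N ⊓ Subgroup.centralizer {z}
  have hMmem : ∀ m : G, m ∈ M ↔ m ∈ N ∧ m * z = z * m := by
    intro m
    constructor
    · rintro ⟨h1, h2⟩
      exact ⟨h1, (Subgroup.mem_centralizer_iff.mp h2 z rfl).symm⟩
    · rintro ⟨h1, h2⟩
      refine ⟨h1, Subgroup.mem_centralizer_iff.mpr ?_⟩
      intro w hw
      rw [Set.mem_singleton_iff.mp hw]
      exact h2.symm
  have hMnormal : M.Normal := by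
    refine ⟨fun m hm g => ?_⟩
    obtain ⟨hmN, hmz⟩ := (hMmem m).mp hm
    obtain ⟨n, hn, x, hx, rfl⟩ := exists_mul_of_sup_eq_top N P hprod g
    have hxm : x * m * x⁻¹ ∈ N := hN.conj_mem m hmN x
    have e1 : n * x * m * (n * x)⁻¹ = x * m * x⁻¹ := by
      have h1 : n * x * m * (n * x)⁻¹ = n * (x * m * x⁻¹) * n⁻¹ := by group
      rw [h1, hNcomm n hn _ hxm]
      group
    rw [e1, hMmem]
    refine ⟨hxm, ?_⟩
    have hzx := hzcomm x hx
    have hzx' : z * x⁻¹ = x⁻¹ * z := by
      have := congrArg (fun w => x⁻¹ * w * x⁻¹) hzx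
      simpa [mul_assoc] using this.symm
    calc x * m * x⁻¹ * z = x * m * (x⁻¹ * z) := by group
      _ = x * m * (z * x⁻¹) := by rw [hzx']
      _ = x * (m * z) * x⁻¹ := by group
      _ = x * (z * m) * x⁻¹ := by rw [hmz]
      _ = (x * z) * m * x⁻¹ := by group
      _ = (z * x) * m * x⁻¹ := by rw [hzx]
      _ = z * (x * m * x⁻¹) := by group
  have hMbot : M = ⊥ := by
    by_contra hM
    have hNM : N ≤ M := hmin.2 M hMnormal hM
    -- then `z` is central in `G`
    have hzcen : ∀ g : G, z * g = g * z := by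
      intro g
      obtain ⟨n, hn, x, hx, rfl⟩ := exists_mul_of_sup_eq_top N P hprod g
      have h1 : n * z = z * n := ((hMmem n).mp (hNM hn)).2
      calc z * (n * x) = (z * n) * x := by group
        _ = (n * z) * x := by rw [h1]
        _ = n * (z * x) := by group
        _ = n * (x * z) := by rw [hzcomm x hx]
        _ = n * x * z := by group
    have hZnormal : (Subgroup.zpowers z).Normal := by
      refine ⟨fun w hw g => ?_⟩
      obtain ⟨k, rfl⟩ := Subgroup.mem_zpowers_iff.mp hw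
      have : g * z ^ k * g⁻¹ = z ^ k := by
        have hc : Commute z g := hzcen g
        have := (hc.zpow_left k).eq
        rw [mul_inv_eq_iff_eq_mul]
        exact this.symm
      rw [this]
      exact Subgroup.zpow_mem_zpowers z k
    have hZne : Subgroup.zpowers z ≠ ⊥ := by
      intro h
      apply hz1
      have : z ∈ (⊥ : Subgroup G) := h ▸ Subgroup.mem_zpowers z
      exact Subgroup.mem_bot.mp this
    have hNZ : N ≤ Subgroup.zpowers z := hmin.2 _ hZnormal hZne
    have hZP : Subgroup.zpowers z ≤ P := (Subgroup.zpowers_le).mpr hzP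
    apply hmin.1
    rw [eq_bot_iff, ← hdisj]
    exact le_inf le_rfl (hNZ.trans hZP)
  refine ⟨z, hzP, hz1, hzz, hzcomm, ?_⟩
  intro n hn
  have hzn : z * n * z⁻¹ ∈ N := hN.conj_mem n hn z
  have hy : n * (z * n * z⁻¹) ∈ M := by
    rw [hMmem]
    refine ⟨N.mul_mem hn hzn, ?_⟩
    rw [hzinv]
    have h3 : (z * n * z) * n = n * (z * n * z) :=
      hNcomm (z * n * z) (by rw [hzinv] at hzn; exact hzn) n hn
    calc n * (z * n * z) * z = ((z * n * z) * n) * z := by rw [h3]
      _ = z * (n * (z * n * z)) := by group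
  rw [hMbot] at hy
  have hy1 : n * (z * n * z⁻¹) = 1 := Subgroup.mem_bot.mp hy
  exact eq_inv_of_mul_eq_one_right hy1

/-- The retraction `G → P` of a semidirect product `G = N ⋊ P`. -/
theorem exists_retraction (N P : Subgroup G) [hN : N.Normal] (hdisj : N ⊓ P = ⊥)
    (hprod : N ⊔ P = ⊤) :
    ∃ r : G →* P, (∀ x : P, r x = x) ∧ ∀ g : G, g * ((r g : P) : G)⁻¹ ∈ N := by
  have hcompl : Subgroup.IsComplement' P N := by
    apply Subgroup.isComplement'_of_disjoint_and_mul_eq_univ
    · rw [disjoint_iff, inf_comm]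
      exact hdisj
    · rw [← Subgroup.mul_normal, sup_comm, hprod]
      rfl
  let e : G ⧸ N ≃* P := hcompl.QuotientMulEquiv
  have hmk : ∀ q : G ⧸ N, (QuotientGroup.mk ((e q : P) : G) : G ⧸ N) = q := fun q => by
    rw [Subgroup.IsComplement'.QuotientMulEquiv_apply]
    exact Subgroup.IsComplement.quotientGroupMk_leftQuotientEquiv hcompl q
  let r : G →* P := e.toMonoidHom.comp (QuotientGroup.mk' N)
  have hr : ∀ g : G, (QuotientGroup.mk ((r g : P) : G) : G ⧸ N) = QuotientGroup.mk g :=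
    fun g => hmk _
  have hr2 : ∀ g : G, g * ((r g : P) : G)⁻¹ ∈ N := by
    intro g
    have h1 : ((r g : P) : G)⁻¹ * g ∈ N := QuotientGroup.eq.mp (hr g)
    have h2 := hN.conj_mem _ h1 (r g : G)
    simpa [mul_assoc] using h2
  refine ⟨r, ?_, hr2⟩
  intro x
  have h1 := hr2 (x : G)
  have h2 : (x : G) * ((r x : P) : G)⁻¹ ∈ P := P.mul_mem x.2 (P.inv_mem (r x).2)
  have h3 : (x : G) * ((r x : P) : G)⁻¹ ∈ N ⊓ P := ⟨h1, h2⟩
  rw [hdisj] at h3
  have h4 := Subgroup.mem_bot.mp h3
  apply Subtype.ext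
  exact (mul_inv_eq_one.mp h4).symm

/-- A linear character `lam` of `N` extends to its inertia group in `G = N ⋊ P`, by
`t ↦ lam (t * (r t)⁻¹)`. -/
theorem exists_extension_of_retraction (N : Subgroup G) [hN : N.Normal] (P : Subgroup G)
    (r : G →* P) (hr2 : ∀ g : G, g * ((r g : P) : G)⁻¹ ∈ N) (lam : IrrCharacter N)
    (h1 : lam.1 1 = 1) (T : Subgroup G) (hT : T = inertia N lam.1) (hNT : N ≤ T) :
    ∃ ψ : IrrCharacter T, ∀ t : T, ψ.1 t = lam.1 ⟨(t : G) * ((r t : P) : G)⁻¹, hr2 t⟩ := by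
  let π : G → N := fun g => ⟨g * ((r g : P) : G)⁻¹, hr2 g⟩
  have hrT : ∀ t : T, ((r (t : G) : P) : G) ∈ T := by
    intro t
    have e : ((r (t : G) : P) : G) = ((π t : N) : G)⁻¹ * t := by simp [π]
    rw [e]
    exact T.mul_mem (T.inv_mem (hNT (π t).2)) t.2
  have hπmul : ∀ s t : G, π (s * t) =
      π s * (MulAut.conjNormal ((r s : P) : G) : MulAut N) (π t) := by
    intro s t
    apply Subtype.ext
    simp only [π, map_mul, Subgroup.coe_mul, MulAut.conjNormal_apply, mul_inv_rev]
    group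
  let f : T →* ℂˣ :=
    { toFun := fun t => H82.irrLinearHom lam h1 (π t)
      map_one' := by
        have e : π ((1 : T) : G) = 1 := Subtype.ext (by simp [π])
        rw [e, map_one]
      map_mul' := by
        intro s t
        show H82.irrLinearHom lam h1 (π ((s : G) * (t : G))) = _
        rw [hπmul, map_mul]
        congr 1
        apply Units.ext
        rw [H82.irrLinearHom_apply, H82.irrLinearHom_apply]
        have hmem : ((r (s : G) : P) : G) ∈ inertia N lam.1 := hT ▸ hrT s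
        have h2 := (mem_inertia_iff N).mp hmem (π t)
        rw [← h2]
        congr 1 }
  exact ⟨H82.linChar f, fun t => rfl⟩

end Structure

section Main

variable {G : Type u} [Group G]

/-- In `G = N ⋊ P` (`N` abelian of odd order, the unique minimal normal subgroup; `P` a nontrivial
`2`-group) there is a strongly real irreducible character of even degree `t` with
`[χ₁|N, χ₁|N] = t`; moreover all linear characters are trivial on `N`. -/
theorem exists_real_irr_even_degree [Fintype G] (N P : Subgroup G) [hN : N.Normal] [Fintype N]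
    (hcomm : ∀ a b : N, a * b = b * a) (hsq : ∀ n : N, ∃ m : N, m * m = n)
    (hP : IsPGroup 2 P) (hP1 : P ≠ ⊥) (hdisj : N ⊓ P = ⊥) (hprod : N ⊔ P = ⊤)
    (hmin : N ≠ ⊥ ∧ ∀ M : Subgroup G, M.Normal → M ≠ ⊥ → N ≤ M) :
    ∃ (χ₁ : IrrCharacter G) (t : ℕ), 2 ∣ t ∧ χ₁.1 1 = (t : ℂ) ∧ H78.indicator χ₁.1 = 1 ∧
      classInner (fun n : N => χ₁.1 n) (fun n : N => χ₁.1 n) = (t : ℂ) ∧
      (∀ l : IrrCharacter G, l.1 1 = 1 → ∀ n : N, l.1 n = 1) := by
  classical
  obtain ⟨z, hzP, hz1, hzz, hzcomm, hzinvN⟩ :=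
    exists_central_involution_inverting N P hcomm hP hP1 hdisj hprod hmin
  have hzinv : z⁻¹ = z := inv_eq_of_mul_eq_one_right hzz
  -- a nontrivial (linear) character of `N`
  haveI : Nontrivial N := (Subgroup.nontrivial_iff_ne_bot N).mpr hmin.1
  have hcard : Nat.card (IrrCharacter N) = Nat.card N := card_irr_of_comm hcomm
  haveI : Finite (IrrCharacter N) := finite_irr N
  haveI : Nontrivial (IrrCharacter N) := by
    rw [← Finite.one_lt_card_iff_nontrivial, hcard]
    exact Finite.one_lt_card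
  obtain ⟨lam, hlam⟩ := exists_ne (trivChar N)
  obtain ⟨h1, hmul⟩ := IsIrrCharacter.linear_of_comm hcomm lam.2
  have hzconj : conjChar N lam.1 z = fun n => conj (lam.1 n) := by
    funext n
    have e : (⟨z * n * z⁻¹, hN.conj_mem (n : G) n.2 z⟩ : N) = n⁻¹ :=
      Subtype.ext (by simpa using hzinvN n n.2)
    show lam.1 ⟨z * n * z⁻¹, _⟩ = _
    rw [e, H4.irr_inv]
  have hne : (fun n => conj (lam.1 n)) ≠ lam.1 := by
    intro h
    apply hlam
    apply Subtype.ext
    funext n
    obtain ⟨m, rfl⟩ := hsq n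
    rw [hmul]
    have h2 := irr_linear_mul_conj lam h1 m
    rw [congrFun h m] at h2
    rw [h2]
    rfl
  set T := inertia N lam.1 with hT
  have hNT : N ≤ T := le_inertia N (irr_isClassFunction lam)
  have hzT : z ∉ T := by
    intro h
    have h2 := (mem_inertia N).mp h
    rw [hzconj] at h2
    exact hne h2
  obtain ⟨r, hr1, hr2⟩ := exists_retraction N P hdisj hprod
  obtain ⟨ψ, hψ⟩ := exists_extension_of_retraction N P r hr2 lam h1 T hT hNT
  have hrN : ∀ n : N, r (n : G) = 1 := by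
    intro n
    have h2 : ((r (n : G) : P) : G) ∈ N := by
      have h3 := hr2 (n : G)
      have h4 := N.mul_mem (N.inv_mem h3) n.2
      simpa using h4
    have h5 : ((r (n : G) : P) : G) ∈ N ⊓ P := ⟨h2, (r (n : G)).2⟩
    rw [hdisj] at h5
    exact Subtype.ext (Subgroup.mem_bot.mp h5)
  let π : G → N := fun g => ⟨g * ((r g : P) : G)⁻¹, hr2 g⟩
  have hψ' : ∀ t : T, ψ.1 t = lam.1 (π t) := hψ
  have hext : ∀ n : N, ψ.1 ⟨n, hNT n.2⟩ = lam.1 n := by
    intro n
    have e : π (n : G) = n := by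
      apply Subtype.ext
      show (n : G) * ((r (n : G) : P) : G)⁻¹ = n
      rw [hrN n]
      simp
    rw [hψ']
    show lam.1 (π (n : G)) = lam.1 n
    rw [e]
  letI : Fintype T := Fintype.ofFinite T
  obtain ⟨hirr, hdeg, hnorm⟩ := irr_indFun_of_extendible N lam T hT hNT ψ hext
  rw [h1, mul_one] at hdeg
  have hψ1 : ψ.1 1 = 1 := by
    have := hext 1
    rw [h1] at this
    exact this
  -- `z` normalizes `T`, and conjugation by `z` conjugates `ψ`
  have hconj_conj : ∀ g : G, conjChar N (fun n => conj (lam.1 n)) g =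
      fun n => conj (conjChar N lam.1 g n) := fun g => rfl
  have hzT' : ∀ t : T, z * (t : G) * z⁻¹ ∈ T := by
    intro t
    show z * (t : G) * z⁻¹ ∈ inertia N lam.1
    have ht : conjChar N lam.1 (t : G) = lam.1 := (mem_inertia N).mp t.2
    rw [mem_inertia, ← conjChar_conjChar, ← conjChar_conjChar, hzconj, hconj_conj,
      ht, hzinv, hconj_conj, hzconj]
    funext n
    simp
  have hψz : ∀ t : T, ψ.1 ⟨z * t * z⁻¹, hzT' t⟩ = conj (ψ.1 t) := by
    intro t
    have e : π (z * (t : G) * z⁻¹) = (π (t : G))⁻¹ := by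
      apply Subtype.ext
      have hrz : r z = ⟨z, hzP⟩ := hr1 ⟨z, hzP⟩
      have h3 := hzcomm _ (r (t : G)).2
      have e1 : ((r (z * (t : G) * z⁻¹) : P) : G) = ((r (t : G) : P) : G) := by
        rw [map_mul, map_mul, map_inv, hrz]
        show z * ((r (t : G) : P) : G) * z⁻¹ = _
        rw [h3]
        group
      have e2 := hzinvN _ (hr2 (t : G))
      show z * (t : G) * z⁻¹ * ((r (z * (t : G) * z⁻¹) : P) : G)⁻¹ =
        ((t : G) * ((r (t : G) : P) : G)⁻¹)⁻¹
      rw [e1, ← e2]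
      have h4 : z⁻¹ * ((r (t : G) : P) : G)⁻¹ = ((r (t : G) : P) : G)⁻¹ * z⁻¹ := by
        rw [← mul_inv_rev, ← mul_inv_rev, h3]
      calc z * (t : G) * z⁻¹ * ((r (t : G) : P) : G)⁻¹
          = z * (t : G) * (z⁻¹ * ((r (t : G) : P) : G)⁻¹) := by group
        _ = z * (t : G) * (((r (t : G) : P) : G)⁻¹ * z⁻¹) := by rw [h4]
        _ = z * ((t : G) * ((r (t : G) : P) : G)⁻¹) * z⁻¹ := by group
    rw [hψ', hψ']
    show lam.1 (π (z * (t : G) * z⁻¹)) = conj (lam.1 (π (t : G)))
    rw [e, H4.irr_inv]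
  -- the indicator
  have hPiff : ∀ g : G, conjChar N lam.1 g⁻¹ = (fun n => conj (lam.1 n)) ↔ z * g ∈ T := by
    intro g
    constructor
    · intro h
      have h2 : g⁻¹ * z ∈ T := by
        rw [hT, mem_inertia, ← conjChar_conjChar, h, hconj_conj, hzconj]
        funext n
        simp
      have h3 := T.inv_mem h2
      rw [mul_inv_rev, inv_inv, hzinv] at h3
      exact h3
    · intro h
      have h2 : g⁻¹ * z ∈ T := by
        have h3 := T.inv_mem h
        rw [mul_inv_rev, hzinv] at h3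
        exact h3
      have h4 := (mem_inertia N).mp h2
      rw [← conjChar_conjChar] at h4
      have h5 := congrArg (fun θ => conjChar N θ z) h4
      simp only [conjChar_conjChar] at h5
      rw [mul_assoc, hzz, mul_one] at h5
      rw [h5, hzconj]
  have hν : H78.indicator (indFun T ψ.1) = 1 := by
    rw [indicator_indFun_of_extension N lam T hNT ψ hext]
    simp only [hPiff]
    rw [← Equiv.sum_comp (Equiv.mulLeft z)]
    have hterm : ∀ g : G, (if z * (Equiv.mulLeft z g) ∈ T then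
        extendByZero T ψ.1 ((Equiv.mulLeft z g) * (Equiv.mulLeft z g)) else 0) =
        if g ∈ T then (1 : ℂ) else 0 := by
      intro g
      have e1 : z * (Equiv.mulLeft z g) = g := by
        show z * (z * g) = g
        rw [← mul_assoc, hzz, one_mul]
      rw [e1]
      split_ifs with hg
      · show extendByZero T ψ.1 ((z * g) * (z * g)) = 1
        have e2 : (z * g) * (z * g) = ((⟨z * g * z⁻¹, hzT' ⟨g, hg⟩⟩ * ⟨g, hg⟩ : T) : G) := by
          show (z * g) * (z * g) = z * g * z⁻¹ * g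
          rw [hzinv]
          group
        rw [e2, extendByZero_coe, H82.irr_linear_mul ψ hψ1, hψz ⟨g, hg⟩, mul_comm]
        exact irr_linear_mul_conj ψ hψ1 ⟨g, hg⟩
      · rfl
    simp only [hterm]
    rw [Finset.sum_boole, Nat.card_eq_fintype_card, Fintype.card_subtype]
    have hT0 : ((Finset.univ.filter (fun g : G => g ∈ T)).card : ℂ) ≠ 0 := by
      have : 0 < (Finset.univ.filter (fun g : G => g ∈ T)).card :=
        Finset.card_pos.mpr ⟨1, by simp [T.one_mem]⟩
      exact_mod_cast this.ne'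
    exact inv_mul_cancel₀ hT0
  -- the index of `T` is even
  have heven : 2 ∣ T.index := by
    have hcompl : Subgroup.IsComplement' P N := by
      apply Subgroup.isComplement'_of_disjoint_and_mul_eq_univ
      · rw [disjoint_iff, inf_comm]
        exact hdisj
      · rw [← Subgroup.mul_normal, sup_comm, hprod]
        rfl
    have h2 : N.index = Nat.card P := hcompl.index_eq_card
    obtain ⟨k, hk⟩ := hP.exists_card_eq
    have h3 : T.index ∣ 2 ^ k := by
      rw [← hk, ← h2]
      exact Subgroup.index_dvd_of_le hNT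
    obtain ⟨j, -, hj⟩ := (Nat.dvd_prime_pow Nat.prime_two).mp h3
    rcases Nat.eq_zero_or_pos j with h0 | h0
    · exfalso
      rw [h0, pow_zero] at hj
      have h4 : T = ⊤ := Subgroup.index_eq_one.mp hj
      exact hzT (h4 ▸ Subgroup.mem_top z)
    · rw [hj]
      exact dvd_pow_self 2 h0.ne'
  -- linear characters are trivial on `N`
  have hNlin : ∀ l : IrrCharacter G, l.1 1 = 1 → ∀ n : N, l.1 n = 1 := by
    intro l hl n
    obtain ⟨m, rfl⟩ := hsq n
    apply linear_eq_one_of_mem_commutator l hl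
    have h2 : ((m * m : N) : G) = z * ((m : G))⁻¹ * z⁻¹ * (((m : G))⁻¹)⁻¹ := by
      rw [hzinvN _ (N.inv_mem m.2)]
      simp
    rw [h2, commutator_def]
    exact Subgroup.commutator_mem_commutator (g₁ := z) (g₂ := ((m : G))⁻¹)
      (Subgroup.mem_top _) (Subgroup.mem_top _)
  exact ⟨⟨indFun T ψ.1, hirr⟩, T.index, heven, hdeg, hν, hnorm, hNlin⟩

/-- **S4871**. -/
theorem four_mul_card_le [Finite G] (N P : Subgroup G) (hN : N.Normal) (q : ℕ) [Fact q.Prime]
    (hq : q ≠ 2) (hNel : IsElementaryAbelian q N) (hP : IsPGroup 2 ↥P) (hP1 : P ≠ ⊥)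
    (hdisj : N ⊓ P = ⊥) (hprod : N ⊔ P = ⊤)
    (hmin : N ≠ ⊥ ∧ ∀ M : Subgroup G, M.Normal → M ≠ ⊥ → N ≤ M) :
    4 * Nat.card {χ : IrrCharacter G // (charDegree (χ : G → ℂ) = 1 ∨
        2 ∣ charDegree (χ : G → ℂ)) ∧ (Nat.card G : ℂ)⁻¹ * ∑ᶠ g : G, (χ : G → ℂ) (g * g) = 1} ≤
      3 * (∑ᶠ χ : {χ : IrrCharacter G // (charDegree (χ : G → ℂ) = 1 ∨
        2 ∣ charDegree (χ : G → ℂ)) ∧ (Nat.card G : ℂ)⁻¹ * ∑ᶠ g : G, (χ : G → ℂ) (g * g) = 1},
          charDegree (χ.1 : G → ℂ)) := by
  classical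
  haveI := hN
  have : Fintype G := Fintype.ofFinite G
  have : Fintype N := Fintype.ofFinite N
  let _ := fintypeIrr G
  have hcomm : ∀ a b : N, a * b = b * a := fun a b => hNel.1.is_comm.comm a b
  have hsq : ∀ n : N, ∃ m : N, m * m = n := by
    intro n
    have hqodd : Odd q := (Fact.out : q.Prime).odd_of_ne_two hq
    obtain ⟨k, hk⟩ := hqodd
    refine ⟨n ^ (k + 1), ?_⟩
    have hnq : n ^ q = 1 := Subtype.ext (by simpa using hNel.2 n n.2)
    rw [← pow_add]
    have e : k + 1 + (k + 1) = q + 1 := by omega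
    rw [e, pow_succ, hnq, one_mul]
  obtain ⟨χ₁, t, ht2, hdeg, hν, hnorm, hNlin⟩ :=
    exists_real_irr_even_degree N P hcomm hsq hP hP1 hdisj hprod hmin
  have hcount := card_real_linear_le_of N χ₁ t t hν hdeg hnorm hNlin
  have hind : ∀ χ : IrrCharacter G,
      ((Nat.card G : ℂ)⁻¹ * ∑ᶠ g : G, (χ : G → ℂ) (g * g) = 1) ↔ H78.indicator χ.1 = 1 := by
    intro χ
    unfold H78.indicator
    rw [finsum_eq_sum_of_fintype]
  -- everything as finsets of irreducible characters
  set A : Finset (IrrCharacter G) := Finset.univ.filter (fun χ =>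
    (charDegree (χ : G → ℂ) = 1 ∨ 2 ∣ charDegree (χ : G → ℂ)) ∧
      (Nat.card G : ℂ)⁻¹ * ∑ᶠ g : G, (χ : G → ℂ) (g * g) = 1) with hA
  have hcardA : Nat.card {χ : IrrCharacter G // (charDegree (χ : G → ℂ) = 1 ∨
      2 ∣ charDegree (χ : G → ℂ)) ∧ (Nat.card G : ℂ)⁻¹ * ∑ᶠ g : G, (χ : G → ℂ) (g * g) = 1} =
      A.card := Nat.card_eq_fintype_card.trans (Fintype.card_subtype _)
  have hsumA : (∑ᶠ χ : {χ : IrrCharacter G // (charDegree (χ : G → ℂ) = 1 ∨
      2 ∣ charDegree (χ : G → ℂ)) ∧ (Nat.card G : ℂ)⁻¹ * ∑ᶠ g : G, (χ : G → ℂ) (g * g) = 1},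
        charDegree (χ.1 : G → ℂ)) = ∑ χ ∈ A, charDegree (χ : G → ℂ) := by
    rw [finsum_eq_sum_of_fintype]
    exact (Finset.sum_subtype A (by simp [hA]) (fun χ : IrrCharacter G => charDegree χ.1)).symm
  rw [hcardA, hsumA]
  have hL : Nat.card {χ : IrrCharacter G // charDegree χ.1 = 1 ∧ H78.indicator χ.1 = 1} =
      (A.filter (fun χ : IrrCharacter G => charDegree χ.1 = 1)).card := by
    rw [Nat.card_eq_fintype_card, Fintype.card_subtype]
    apply congrArg Finset.card
    ext χ
    simp only [hA, Finset.mem_filter, Finset.mem_univ, true_and, hind]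
    constructor
    · rintro ⟨h1, h2⟩
      exact ⟨⟨Or.inl h1, h2⟩, h1⟩
    · rintro ⟨⟨-, h2⟩, h1⟩
      exact ⟨h1, h2⟩
  have hE : Nat.card {χ : IrrCharacter G // charDegree χ.1 = t ∧ H78.indicator χ.1 = 1} =
      (A.filter (fun χ : IrrCharacter G => charDegree χ.1 = t)).card := by
    rw [Nat.card_eq_fintype_card, Fintype.card_subtype]
    apply congrArg Finset.card
    ext χ
    simp only [hA, Finset.mem_filter, Finset.mem_univ, true_and, hind]
    constructor
    · rintro ⟨h1, h2⟩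
      exact ⟨⟨Or.inr (h1 ▸ ht2), h2⟩, h1⟩
    · rintro ⟨⟨-, h2⟩, h1⟩
      exact ⟨h1, h2⟩
  rw [hL, hE] at hcount
  have hpt : ∀ χ ∈ A, 4 + t * (if charDegree (χ : G → ℂ) = t then 1 else 0) ≤
      3 * charDegree (χ : G → ℂ) + (if charDegree (χ : G → ℂ) = 1 then 1 else 0) := by
    intro χ hχ
    have hd : charDegree (χ : G → ℂ) = 1 ∨ 2 ∣ charDegree (χ : G → ℂ) :=
      (Finset.mem_filter.mp hχ).2.1
    have hpos : 0 < charDegree (χ : G → ℂ) := H82.charDegree_pos χ
    split_ifs with h1 h2 h2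
    · omega
    · omega
    · omega
    · omega
  have hsum := Finset.sum_le_sum hpt
  rw [Finset.sum_add_distrib, Finset.sum_add_distrib, Finset.sum_const, smul_eq_mul,
    ← Finset.mul_sum, ← Finset.mul_sum, Finset.sum_boole, Finset.sum_boole] at hsum
  simp only [Nat.cast_id] at hsum
  nlinarith [hsum, hcount]

end Main

end Cfsg.Agent.H83
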